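/-
Rank three actions of the linear groups: definitions and basic facts.
-/
import Mathlib

set_option autoImplicit false

namespace CL.PL

open Module Submodule
open scoped Pointwise

variable {F : Type*} [Field F] {V : Type*} [AddCommGroup V] [Module F V]

variable (F V) in
/-- The product of the special linear group and the scalars. -/
def G0 : Subgroup (V ≃ₗ[F] V) where
  carrier := {g | ∃ c : Fˣ, LinearEquiv.det g = c ^ finrank F V}
  one_mem' := ⟨1, by simp⟩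
  mul_mem' := by
    rintro a b ⟨c, hc⟩ ⟨d, hd⟩
    exact ⟨c * d, by rw [map_mul, hc, hd, mul_pow]⟩
  inv_mem' := by
    rintro a ⟨c, hc⟩
    exact ⟨c⁻¹, by rw [map_inv, hc, inv_pow]⟩

/-- `h` lies in the double coset `K g K`. -/
def DC (K : Subgroup (V ≃ₗ[F] V)) (g h : V ≃ₗ[F] V) : Prop := ∃ k ∈ K, ∃ k' ∈ K, h = k * g * k'

/-- `K` is a maximal subgroup of `G0`, contains the scalars, has exactly three double cosets. -/
structure R3 (K : Subgroup (V ≃ₗ[F] V)) : Prop where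
  dim : 5 ≤ finrank F V
  le : K ≤ G0 F V
  sc : ∀ c : F, c ≠ 0 → ∃ k ∈ K, ∀ x, k x = c • x
  ne : ¬ G0 F V ≤ K
  max : ∀ H, K ≤ H → H ≤ G0 F V → H ≤ K ∨ G0 F V ≤ H
  four : ∀ a ∈ G0 F V, ∀ b ∈ G0 F V, ∀ c ∈ G0 F V, a ∉ K → b ∉ K → c ∉ K →
    DC K a b ∨ DC K a c ∨ DC K b c
  three : ∃ a ∈ G0 F V, ∃ b ∈ G0 F V, a ∉ K ∧ b ∉ K ∧ ¬ DC K a b

/-- The map `x ↦ x + f x • v` (with `f v = 0`) lies in `K`. -/
def TV (K : Subgroup (V ≃ₗ[F] V)) (f : Dual F V) (v : V) : Prop :=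
  f v = 0 ∧ ∃ k ∈ K, ∀ x, k x = x + f x • v

/-- `K` contains no transvection. -/
def TF (K : Subgroup (V ≃ₗ[F] V)) : Prop := ∀ f v, TV K f v → f = 0 ∨ v = 0

/-- `K` is irreducible. -/
def Irr (K : Subgroup (V ≃ₗ[F] V)) : Prop :=
  ∀ W : Submodule F V, (∀ k ∈ K, ∀ v ∈ W, k v ∈ W) → W = ⊥ ∨ W = ⊤

/-- The subspaces `A`, `B` are in the same `K`-orbit. -/
def Eqv (K : Subgroup (V ≃ₗ[F] V)) (A B : Submodule F V) : Prop := ∃ k ∈ K, k • A = B

/-- `K` has at most two orbits on the two-dimensional subspaces. -/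
def Two (K : Subgroup (V ≃ₗ[F] V)) : Prop :=
  ∀ A B C : Submodule F V, finrank F A = 2 → finrank F B = 2 → finrank F C = 2 →
    Eqv K A B ∨ Eqv K A C ∨ Eqv K B C

/-- Some element of `K` agrees with `g` on `S`. -/
def Ag (K : Subgroup (V ≃ₗ[F] V)) (S : Submodule F V) (g : V ≃ₗ[F] V) : Prop :=
  ∃ k ∈ K, ∀ s ∈ S, k s = g s

/-- `K` is transitive on the independent `j`-tuples of vectors. -/
def Tr (K : Subgroup (V ≃ₗ[F] V)) (j : ℕ) : Prop :=
  ∀ S : Submodule F V, finrank F S = j → ∀ g, Ag K S g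

/-- `K` is transitive on the `j`-dimensional subspaces. -/
def SubTr (K : Subgroup (V ≃ₗ[F] V)) (j : ℕ) : Prop :=
  ∀ A B : Submodule F V, finrank F A = j → finrank F B = j → Eqv K A B

/-- `K` is transitive on the flags of type `(j - 1, j)`. -/
def FlagTr (K : Subgroup (V ≃ₗ[F] V)) (j : ℕ) : Prop :=
  ∀ W A W' A' : Submodule F V, W ≤ A → W' ≤ A' → finrank F W + 1 = j → finrank F A = j →
    finrank F W' + 1 = j → finrank F A' = j → ∃ k ∈ K, k • W = W' ∧ k • A = A'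

/-- `K` induces the full linear group on `W`. -/
def Full (K : Subgroup (V ≃ₗ[F] V)) (W : Submodule F V) : Prop :=
  ∀ g : V ≃ₗ[F] V, g • W = W → Ag K W g

/-- The elements of `K` fixing every vector of `W`. -/
def fixS (K : Subgroup (V ≃ₗ[F] V)) (W : Submodule F V) : Subgroup (V ≃ₗ[F] V) where
  carrier := {k | k ∈ K ∧ ∀ w ∈ W, k w = w}
  one_mem' := ⟨K.one_mem, fun _ _ => rfl⟩
  mul_mem' := fun {a b} ha hb => ⟨K.mul_mem ha.1 hb.1, fun w hw => by
    rw [LinearEquiv.mul_apply, hb.2 w hw, ha.2 w hw]⟩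
  inv_mem' := fun {a} ha => ⟨K.inv_mem ha.1, fun w hw => by
    rw [LinearEquiv.coe_inv, LinearEquiv.symm_apply_eq, ha.2 w hw]⟩

/-- `g` acts on `W` as a non-trivial transvection of `W`. -/
def TvOn (W : Submodule F V) (g : V ≃ₗ[F] V) : Prop :=
  ∃ (f : Dual F V) (w : V), w ∈ W ∧ w ≠ 0 ∧ f w = 0 ∧ (∃ x ∈ W, f x ≠ 0) ∧
    ∀ x ∈ W, g x = x + f x • w

/-- `A` is a hyperplane of `S`. -/
def Hyp (S A : Submodule F V) : Prop := A ≤ S ∧ finrank F A + 1 = finrank F S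

/-- `A ≤ B` is a flag of type `(i, j)`. -/
def Fl (i j : ℕ) (A B : Submodule F V) : Prop := A ≤ B ∧ finrank F A = i ∧ finrank F B = j

/-- The intersection of the axes of the transvections in `K` with centre `v`. -/
def Rd (K : Subgroup (V ≃ₗ[F] V)) (v : V) : Submodule F V where
  carrier := {x | ∀ f, TV K f v → f x = 0}
  zero_mem' := fun f _ => f.map_zero
  add_mem' := fun ha hb f hf => by rw [map_add, ha f hf, hb f hf, add_zero]
  smul_mem' := fun c x ha f hf => by rw [map_smul, ha f hf, smul_zero]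

/-- Indicator. -/
noncomputable def ind (P : Prop) : ℝ := by classical exact if P then 1 else 0

/-- Two colours on the `j`-subspaces which determine the orbits on `j`- and `(j+1)`-tuples. -/
structure TC (K : Subgroup (V ≃ₗ[F] V)) (j : ℕ) (red : Submodule F V → Prop) : Prop where
  tr : Tr K (j - 1)
  inv : ∀ k ∈ K, ∀ A, red (k • A) ↔ red A
  exR : ∃ A : Submodule F V, finrank F A = j ∧ red A
  exB : ∃ A : Submodule F V, finrank F A = j ∧ ¬ red A
  ag0 : ∀ A : Submodule F V, finrank F A = j → ∀ g : V ≃ₗ[F] V, (red (g • A) ↔ red A) → Ag K A g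
  ag1 : ∀ S : Submodule F V, finrank F S = j + 1 → ∀ g : V ≃ₗ[F] V,
    (∀ A, Hyp S A → (red (g • A) ↔ red A)) → Ag K S g

/-- A `(j+1)`-space has all, none or exactly one of its hyperplanes red; not both of the first
two cases occur. -/
def ST (j : ℕ) (red : Submodule F V → Prop) : Prop :=
  (∀ S : Submodule F V, finrank F S = j + 1 → (∀ A, Hyp S A → red A) ∨ (∀ A, Hyp S A → ¬ red A) ∨
    ∃ A₀, Hyp S A₀ ∧ ∀ A, Hyp S A → (red A ↔ A = A₀)) ∧
  ¬ ((∃ S : Submodule F V, finrank F S = j + 1 ∧ ∀ A, Hyp S A → red A) ∧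
    ∃ S : Submodule F V, finrank F S = j + 1 ∧ ∀ A, Hyp S A → ¬ red A)

/-- In a `(j+1)`-space the red hyperplanes are all, none, or those through a point. -/
def PT (j : ℕ) (red : Submodule F V → Prop) : Prop :=
  ∀ S : Submodule F V, finrank F S = j + 1 → (∀ A, Hyp S A → red A) ∨ (∀ A, Hyp S A → ¬ red A) ∨
    ∃ z ∈ S, z ≠ 0 ∧ ∀ A, Hyp S A → (red A ↔ z ∈ A)

/-- One orbit of `j`-spaces, each with a distinguished `i`-subspace determining the orbits on the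
`j`-tuples. -/
structure OC (K : Subgroup (V ≃ₗ[F] V)) (j i : ℕ) (z : Submodule F V → Submodule F V) : Prop where
  tr : Tr K (j - 1)
  sub : SubTr K j
  le : ∀ A : Submodule F V, finrank F A = j → z A ≤ A
  dim : ∀ A : Submodule F V, finrank F A = j → finrank F (z A) = i
  eqv : ∀ k ∈ K, ∀ A : Submodule F V, finrank F A = j → z (k • A) = k • z A
  ag : ∀ A : Submodule F V, finrank F A = j → ∀ g : V ≃ₗ[F] V, z (g • A) = g • z A → Ag K A g

section Basic
variable {K : Subgroup (V ≃ₗ[F] V)} {g : V ≃ₗ[F] V} {A B S W : Submodule F V} {x : V}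

theorem ind_true {P : Prop} (h : P) : ind P = 1 := by simp [ind, h]

theorem ind_false {P : Prop} (h : ¬ P) : ind P = 0 := by simp [ind, h]

theorem ind_congr {P Q : Prop} (h : P ↔ Q) : ind P = ind Q := by rw [propext h]

theorem smul_eq_map : g • A = A.map (g : V →ₗ[F] V) := rfl

theorem mem_smul : x ∈ g • A ↔ ∃ a ∈ A, g a = x := Iff.rfl

theorem apply_mem_smul : g x ∈ g • A ↔ x ∈ A :=
  ⟨fun ⟨_, ha, h⟩ => g.injective h ▸ ha, fun h => ⟨x, h, rfl⟩⟩

theorem mem_smul' : x ∈ g • A ↔ g⁻¹ x ∈ A := by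
  rw [← apply_mem_smul (g := g) (x := g⁻¹ x)]
  simp

theorem finrank_smul : finrank F (g • A : Submodule F V) = finrank F A :=
  LinearEquiv.finrank_map_eq g A

theorem smul_le_smul : g • A ≤ g • B ↔ A ≤ B :=
  ⟨fun h _ hx => apply_mem_smul.1 (h (apply_mem_smul.2 hx)), fun h => Submodule.map_mono h⟩

theorem smul_sup : g • (A ⊔ B) = g • A ⊔ g • B := Submodule.map_sup _ _ _

theorem smul_inf : g • (A ⊓ B) = g • A ⊓ g • B := by
  ext x
  simp [mem_smul']

theorem smul_line : g • (F ∙ x) = F ∙ g x := by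
  rw [smul_eq_map, Submodule.map_span, Set.image_singleton]
  rfl

theorem smul_congr {g' : V ≃ₗ[F] V} (h : ∀ s ∈ S, g s = g' s) (hA : A ≤ S) : g • A = g' • A := by
  ext x
  simp only [mem_smul]
  exact ⟨fun ⟨a, ha, e⟩ => ⟨a, ha, h a (hA ha) ▸ e⟩, fun ⟨a, ha, e⟩ => ⟨a, ha, (h a (hA ha)).trans e⟩⟩

theorem Hyp.smul (h : Hyp S A) (g : V ≃ₗ[F] V) : Hyp (g • S) (g • A) :=
  ⟨smul_le_smul.2 h.1, by rw [finrank_smul, finrank_smul, h.2]⟩

theorem mem_fixS : g ∈ fixS K W ↔ g ∈ K ∧ ∀ w ∈ W, g w = w := Iff.rfl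

theorem Ag.mono (h : Ag K S g) (hA : A ≤ S) : Ag K A g :=
  let ⟨k, hk, e⟩ := h
  ⟨k, hk, fun s hs => e s (hA hs)⟩

theorem Ag.smul_eq (h : Ag K S g) : ∃ k ∈ K, (∀ s ∈ S, k s = g s) ∧ ∀ A ≤ S, k • A = g • A :=
  let ⟨k, hk, e⟩ := h
  ⟨k, hk, e, fun _ hA => smul_congr e hA⟩

theorem Eqv.refl (A : Submodule F V) : Eqv K A A := ⟨1, K.one_mem, one_smul _ _⟩

theorem Eqv.symm (h : Eqv K A B) : Eqv K B A :=
  let ⟨k, hk, e⟩ := h
  ⟨k⁻¹, K.inv_mem hk, by rw [← e, inv_smul_smul]⟩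

theorem Eqv.trans (h : Eqv K A B) (h' : Eqv K B S) : Eqv K A S :=
  let ⟨k, hk, e⟩ := h
  let ⟨k', hk', e'⟩ := h'
  ⟨k' * k, K.mul_mem hk' hk, by rw [mul_smul, e, e']⟩

theorem TV.zero_left (v : V) : TV K 0 v := ⟨rfl, 1, K.one_mem, by simp⟩

theorem TV.add_left {f f' : Dual F V} {v : V} (h : TV K f v) (h' : TV K f' v) :
    TV K (f + f') v := by
  obtain ⟨h0, k, hk, e⟩ := h
  obtain ⟨h0', k', hk', e'⟩ := h'
  refine ⟨by simp [h0, h0'], k * k', K.mul_mem hk hk', fun x => ?_⟩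
  rw [LinearEquiv.mul_apply, e, e', map_add, map_smul, h0]
  simp only [LinearMap.add_apply, smul_zero, add_zero]
  module

theorem TV.add_right {f : Dual F V} {v v' : V} (h : TV K f v) (h' : TV K f v') :
    TV K f (v + v') := by
  obtain ⟨h0, k, hk, e⟩ := h
  obtain ⟨h0', k', hk', e'⟩ := h'
  refine ⟨by simp [h0, h0'], k * k', K.mul_mem hk hk', fun x => ?_⟩
  rw [LinearEquiv.mul_apply, e, e', map_add, map_smul, h0']
  simp only [smul_zero, add_zero]
  module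

theorem TV.neg_left {f : Dual F V} {v : V} (h : TV K f v) : TV K (-f) v := by
  obtain ⟨h0, k, hk, e⟩ := h
  refine ⟨by simp [h0], k⁻¹, K.inv_mem hk, fun x => ?_⟩
  rw [LinearEquiv.coe_inv, LinearEquiv.symm_apply_eq, e]
  simp [h0]

theorem TV.smul_iff {f : Dual F V} {v : V} {c : F} (hc : c ≠ 0) :
    TV K (c • f) v ↔ TV K f (c • v) := by
  simp [TV, hc, smul_smul, mul_comm]

theorem TV.conj {f : Dual F V} {v : V} (h : TV K f v) {k : V ≃ₗ[F] V} (hk : k ∈ K) :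
    TV K (f ∘ₗ (k⁻¹ : V ≃ₗ[F] V).toLinearMap) (k v) := by
  obtain ⟨h0, t, ht, e⟩ := h
  refine ⟨by simpa using h0, k * t * k⁻¹, K.mul_mem (K.mul_mem hk ht) (K.inv_mem hk), fun x => ?_⟩
  simp [e]

/-- The commutator of two transvections. -/
theorem TV.com {f g : Dual F V} {v w : V} (hv : TV K f v) (hw : TV K g w) (h : f w = 0) :
    TV K (g v • f) w := by
  obtain ⟨-, k', hk', e'⟩ := hv.neg_left
  obtain ⟨-, l', hl', d'⟩ := hw.neg_left
  obtain ⟨h0, k, hk, e⟩ := hv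
  obtain ⟨h0', l, hl, d⟩ := hw
  refine ⟨by simp [h], l * k * l' * k', K.mul_mem (K.mul_mem (K.mul_mem hl hk) hl') hk',
    fun x => ?_⟩
  simp only [LinearEquiv.mul_apply, e, e', d, d', LinearMap.neg_apply, map_add, map_smul, h0, h0',
    h, smul_eq_mul, LinearMap.smul_apply]
  module

theorem mem_Rd {v : V} : x ∈ Rd K v ↔ ∀ f, TV K f v → f x = 0 := Iff.rfl

theorem self_mem_Rd (v : V) : v ∈ Rd K v := fun _ hf => hf.1

theorem Rd_apply {k : V ≃ₗ[F] V} (hk : k ∈ K) (v : V) : Rd K (k v) = k • Rd K v := by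
  ext x
  rw [mem_smul', mem_Rd, mem_Rd]
  refine ⟨fun h f hf => h _ (hf.conj hk), fun h f hf => ?_⟩
  have := h _ (by simpa using hf.conj (K.inv_mem hk))
  simpa using this

theorem Rd_smul {c : F} (hc : c ≠ 0) (v : V) : Rd K (c • v) = Rd K v := by
  ext x
  rw [mem_Rd, mem_Rd]
  refine ⟨fun h f hf => ?_, fun h f hf => ?_⟩
  · have := h (c⁻¹ • f) ((TV.smul_iff (inv_ne_zero hc)).2 (by rwa [smul_smul, inv_mul_cancel₀ hc,
      one_smul]))
    simpa [hc] using this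
  · simpa [hc] using h _ ((TV.smul_iff hc).2 hf)

/-- Four double cosets from an invariant. -/
theorem R3.false_of_inv (h : R3 K) {α : Type*} (I : (V ≃ₗ[F] V) → α)
    (hI : ∀ g, ∀ k ∈ K, ∀ k' ∈ K, I (k * g * k') = I g) {a b c : V ≃ₗ[F] V}
    (ha : a ∈ G0 F V) (hb : b ∈ G0 F V) (hc : c ∈ G0 F V) (h1 : I a ≠ I 1) (h2 : I b ≠ I 1)
    (h3 : I c ≠ I 1) (hab : I a ≠ I b) (hac : I a ≠ I c) (hbc : I b ≠ I c) : False := by
  have hK : ∀ g, I g ≠ I 1 → g ∉ K := fun g hg hgK => hg (by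
    simpa using hI 1 g hgK 1 K.one_mem)
  rcases h.four a ha b hb c hc (hK a h1) (hK b h2) (hK c h3) with
    ⟨k, hk, k', hk', rfl⟩ | ⟨k, hk, k', hk', rfl⟩ | ⟨k, hk, k', hk', rfl⟩
  · exact hab (hI a k hk k' hk').symm
  · exact hac (hI a k hk k' hk').symm
  · exact hbc (hI b k hk k' hk').symm

theorem transvection_mem_G0 [FiniteDimensional F V] {f : Dual F V} {v : V} (h : f v = 0) :
    LinearEquiv.transvection h ∈ G0 F V := ⟨1, by simp⟩

variable [FiniteDimensional F V]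

/-- An injective map on a subspace extends to an automorphism. -/
theorem exists_ext (φ : S →ₗ[F] V) (hφ : Function.Injective φ) :
    ∃ g : V ≃ₗ[F] V, ∀ s : S, g s = φ s := by
  obtain ⟨S', hS⟩ := S.exists_isCompl
  obtain ⟨T', hT⟩ := (LinearMap.range φ).exists_isCompl
  have e1 := LinearEquiv.ofInjective φ hφ
  have h1 := Submodule.finrank_add_eq_of_isCompl hS
  have h2 := Submodule.finrank_add_eq_of_isCompl hT
  have h3 := LinearMap.finrank_range_of_inj hφ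
  let e2 : S' ≃ₗ[F] T' := LinearEquiv.ofFinrankEq _ _ (by omega)
  refine ⟨(Submodule.prodEquivOfIsCompl _ _ hS).symm ≪≫ₗ
    ((LinearEquiv.ofInjective φ hφ).prodCongr e2) ≪≫ₗ Submodule.prodEquivOfIsCompl _ _ hT,
    fun s => ?_⟩
  simp

/-- The linear group is transitive on the pairs `W ≤ A` of given dimensions. -/
theorem exists_smul_pair {W' A' : Submodule F V} (h : W ≤ A) (h' : W' ≤ A')
    (hW : finrank F W = finrank F W') (hA : finrank F A = finrank F A') :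
    ∃ g : V ≃ₗ[F] V, g • W = W' ∧ g • A = A' := by
  obtain ⟨C, hC⟩ := (W.comap A.subtype).exists_isCompl
  obtain ⟨C', hC'⟩ := (W'.comap A'.subtype).exists_isCompl
  have h1 := Submodule.finrank_add_eq_of_isCompl hC
  have h2 := Submodule.finrank_add_eq_of_isCompl hC'
  have h3 := (Submodule.comapSubtypeEquivOfLe h).finrank_eq
  have h4 := (Submodule.comapSubtypeEquivOfLe h').finrank_eq
  let e1 : W.comap A.subtype ≃ₗ[F] W'.comap A'.subtype := LinearEquiv.ofFinrankEq _ _ (by omega)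
  let e2 : C ≃ₗ[F] C' := LinearEquiv.ofFinrankEq _ _ (by omega)
  let e : A ≃ₗ[F] A' := (Submodule.prodEquivOfIsCompl _ _ hC).symm ≪≫ₗ (e1.prodCongr e2) ≪≫ₗ
    Submodule.prodEquivOfIsCompl _ _ hC'
  obtain ⟨g, hg⟩ := exists_ext (A'.subtype ∘ₗ e.toLinearMap)
    (A'.injective_subtype.comp e.injective)
  refine ⟨g, Submodule.eq_of_le_of_finrank_eq ?_ (by rw [finrank_smul, hW]),
    Submodule.eq_of_le_of_finrank_eq ?_ (by rw [finrank_smul, hA])⟩
  · rintro _ ⟨w, hw, rfl⟩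
    have := hg ⟨w, h hw⟩
    simp only [LinearMap.comp_apply, LinearEquiv.coe_coe, Submodule.subtype_apply] at this
    change g w ∈ W'
    rw [this]
    have h5 : e ⟨w, h hw⟩ = (e1 ⟨⟨w, h hw⟩, hw⟩ : A') := by
      simp only [e, LinearEquiv.trans_apply]
      rw [Submodule.prodEquivOfIsCompl_symm_apply_left _ _ hC ⟨⟨w, h hw⟩, hw⟩]
      simp
    rw [h5]
    exact (e1 ⟨⟨w, h hw⟩, hw⟩).2
  · rintro _ ⟨a, ha, rfl⟩
    have := hg ⟨a, ha⟩
    simp only [LinearMap.comp_apply, LinearEquiv.coe_coe, Submodule.subtype_apply] at this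
    change g a ∈ A'
    rw [this]
    exact (e ⟨a, ha⟩).2

theorem exists_smul_eq (h : finrank F A = finrank F B) : ∃ g : V ≃ₗ[F] V, g • A = B :=
  let ⟨g, _, hg⟩ := exists_smul_pair (W := ⊥) (W' := ⊥) bot_le bot_le rfl h
  ⟨g, hg⟩

theorem exists_le_finrank (A : Submodule F V) {j : ℕ} (h1 : finrank F A ≤ j)
    (h2 : j ≤ finrank F V) : ∃ S : Submodule F V, A ≤ S ∧ finrank F S = j := by
  induction j, h1 using Nat.le_induction with
  | base => exact ⟨A, le_rfl, rfl⟩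
  | succ j _ ih =>
    obtain ⟨S, hS, rfl⟩ := ih (by omega)
    obtain ⟨v, hv⟩ : ∃ v, v ∉ S := by
      by_contra hn
      push Not at hn
      rw [Submodule.eq_top_iff'.2 hn, finrank_top] at h2
      omega
    exact ⟨S ⊔ F ∙ v, le_sup_of_le_left hS, Submodule.finrank_sup_span_singleton hv⟩

theorem Tr.mono {i j : ℕ} (h : Tr K j) (hij : i ≤ j) (hj : j ≤ finrank F V) : Tr K i := by
  rintro A rfl g
  obtain ⟨S, hS, hd⟩ := exists_le_finrank A hij hj
  exact (h S hd g).mono hS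

omit [FiniteDimensional F V] in
theorem Tr.full {j : ℕ} (h : Tr K j) (hW : finrank F W = j) : Full K W := fun g _ => h W hW g

theorem tr_zero : Tr K 0 := fun S hS g => ⟨1, K.one_mem, fun s hs => by
  rw [Submodule.finrank_eq_zero.1 hS, Submodule.mem_bot] at hs
  simp [hs]⟩

theorem Tr.flagTr {j : ℕ} (h : Tr K j) : FlagTr K j := by
  intro W A W' A' h1 h2 h3 h4 h5 h6
  obtain ⟨g, rfl, rfl⟩ := exists_smul_pair h1 h2 (by omega) (h4.trans h6.symm)
  obtain ⟨k, hk, -, e⟩ := (h A h4 g).smul_eq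
  exact ⟨k, hk, e W h1, e A le_rfl⟩

theorem Tr.subTr {j : ℕ} (h : Tr K j) : SubTr K j := by
  intro A B h1 h2
  obtain ⟨g, rfl⟩ := exists_smul_eq (h1.trans h2.symm)
  obtain ⟨k, hk, -, e⟩ := (h A h1 g).smul_eq
  exact ⟨k, hk, e A le_rfl⟩

end Basic

end CL.PL
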