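/-
Rank three actions of the linear groups: generation by transvections.
-/
import Cfsg.Agent.CLAS.PL.Def
import Cfsg.Agent.CLAS.SLBasic

set_option autoImplicit false
set_option linter.unusedSectionVars false

namespace CL.PL

open Module Submodule
open scoped Pointwise

variable {F : Type*} [Field F] [Finite F] {V : Type*} [AddCommGroup V] [Module F V]
  [FiniteDimensional F V] {K : Subgroup (V ≃ₗ[F] V)}

omit [Finite F] in
theorem exists_glue {A C : Submodule F V} (h : Disjoint A C) (g g' : V ≃ₗ[F] V)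
    (h' : Disjoint (g • A) (g' • C)) :
    ∃ y : V ≃ₗ[F] V, (∀ a ∈ A, y a = g a) ∧ ∀ c ∈ C, y c = g' c := by
  let f : V →ₗ.[F] V := ⟨A, g.toLinearMap.domRestrict A⟩
  let f' : V →ₗ.[F] V := ⟨C, g'.toLinearMap.domRestrict C⟩
  have hf := LinearPMap.sup_h_of_disjoint f f' h
  have k := fun (a : A) (c : C) (z : (A ⊔ C : Submodule F V)) => LinearPMap.sup_apply hf a c z
  obtain ⟨y, hy⟩ := exists_ext (S := A ⊔ C) (f.sup f' hf).toFun ((injective_iff_map_eq_zero _).2 <| by
    rintro ⟨z, hz⟩ h0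
    obtain ⟨a, ha, c, hc, rfl⟩ := mem_sup.1 hz
    have h1 : g a + g' c = 0 := (k ⟨a, ha⟩ ⟨c, hc⟩ _ rfl).symm.trans h0
    have h2 : g a = 0 := disjoint_def.1 h' _ (apply_mem_smul.2 ha) (by
      rw [eq_neg_of_add_eq_zero_left h1]; exact neg_mem (apply_mem_smul.2 hc))
    rw [h2, zero_add] at h1
    simp [g.map_eq_zero_iff.1 h2, g'.map_eq_zero_iff.1 h1])
  refine ⟨y, fun a ha => (hy ⟨a, mem_sup_left ha⟩).trans ?_,
    fun c hc => (hy ⟨c, mem_sup_right hc⟩).trans ?_⟩
  · exact (k ⟨a, ha⟩ 0 ⟨a, mem_sup_left ha⟩ (by simp)).trans (by simp [f])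
  · exact (k 0 ⟨c, hc⟩ ⟨c, mem_sup_right hc⟩ (by simp)).trans (by simp [f'])

omit [Finite F] in
theorem exists_smul_two {A B A' B' : Submodule F V} (hA : finrank F A = finrank F A')
    (hB : finrank F B = finrank F B')
    (h : finrank F (A ⊓ B : Submodule F V) = finrank F (A' ⊓ B' : Submodule F V)) :
    ∃ g : V ≃ₗ[F] V, g • A = A' ∧ g • B = B' := by
  obtain ⟨g, h1, rfl⟩ := exists_smul_pair (inf_le_left : A ⊓ B ≤ A) (inf_le_left : A' ⊓ B' ≤ A') h hA
  obtain ⟨C, hC, e⟩ := IsModularLattice.exists_disjoint_and_sup_eq (inf_le_right : A ⊓ B ≤ B)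
  obtain ⟨C', hC', e'⟩ := IsModularLattice.exists_disjoint_and_sup_eq (inf_le_right : g • A ⊓ B' ≤ B')
  have h3 := finrank_sup_add_finrank_inf_eq (A ⊓ B) C
  have h4 := finrank_sup_add_finrank_inf_eq (g • A ⊓ B') C'
  rw [e, hC.eq_bot] at h3
  rw [e', hC'.eq_bot] at h4
  obtain ⟨g', rfl⟩ := exists_smul_eq (A := C) (B := C') (by omega)
  have k : ∀ {A B C : Submodule F V}, Disjoint (A ⊓ B) C → A ⊓ B ⊔ C = B → Disjoint A C :=
    fun h e => disjoint_def.2 fun x hx hc => disjoint_def.1 h x ⟨hx, e.le (mem_sup_right hc)⟩ hc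
  obtain ⟨y, hy, hy'⟩ := exists_glue (k hC e) g g' (k hC' e')
  exact ⟨y, smul_congr hy le_rfl, by
    rw [← e, smul_sup, smul_congr hy inf_le_left, smul_congr hy' le_rfl, h1, e']⟩

theorem mem_of_tv (h : ∀ f v, f v = 0 → TV K f v) {g : V ≃ₗ[F] V} (hg : LinearEquiv.det g = 1) :
    g ∈ K := by
  let b := Module.finBasis F V
  let e := Matrix.SpecialLinearGroup.toLin_equiv b
  have := SL.eq_top_of_transvection_mem
    (K.comap (SpecialLinearGroup.toLinearEquiv.comp e.toMonoidHom)) fun i j hij c => by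
      obtain ⟨-, k, hk, hk'⟩ := h (c • b.coord j) (b i) (by simp [hij])
      suffices (e (Matrix.SpecialLinearGroup.transvection hij c)).1 = k by
        rw [← this] at hk
        exact hk
      refine LinearEquiv.toLinearMap_injective (b.ext fun l => ?_)
      refine (LinearMap.congr_fun (Matrix.SpecialLinearGroup.toLin_equiv.toLinearMap_eq b _) _).trans ?_
      simp only [Matrix.SpecialLinearGroup.transvection_coe, map_add, Matrix.toLin_one,
        LinearMap.add_apply, LinearMap.id_apply, LinearEquiv.coe_coe, hk', Matrix.toLin_self]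
      simp [Matrix.single_apply, Finsupp.single_apply, ite_and, eq_comm]
  have h1 := this.ge (Subgroup.mem_top (e.symm ⟨g, hg⟩))
  rwa [Subgroup.mem_comap, MonoidHom.comp_apply, MulEquiv.coe_toMonoidHom, e.apply_symm_apply] at h1

theorem G0_le (hsc : ∀ c : F, c ≠ 0 → ∃ k ∈ K, ∀ x, k x = c • x)
    (h : ∀ f v, f v = 0 → TV K f v) : G0 F V ≤ K := by
  rintro g ⟨c, hc⟩
  obtain ⟨k, hk, e⟩ := hsc c c.ne_zero
  refine (K.mul_mem_cancel_left (K.inv_mem hk)).1 (mem_of_tv h ?_)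
  rw [map_mul, map_inv, hc, inv_mul_eq_one]
  ext
  rw [LinearEquiv.coe_det, show k.toLinearMap = (c : F) • LinearMap.id from LinearMap.ext e]
  simp

omit [Finite F] in
theorem Gen.dil {f : Dual F V} {v : V} (h : f v = 1) (g : V ≃ₗ[F] V) :
    ∃ (y : V ≃ₗ[F] V) (c : F), LinearEquiv.det y = 1 ∧ ∀ x, y x = g (x + f x • c • v) := by
  set c : F := ((LinearEquiv.det g)⁻¹ : Fˣ) - 1
  have h1 : 1 + f (c • v) = ((LinearEquiv.det g)⁻¹ : Fˣ) := by simp [h, c]
  refine ⟨g * LinearEquiv.dilatransvection (h1 ▸ Units.isUnit _), c, ?_, fun x => by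
    rw [LinearEquiv.mul_apply, LinearEquiv.dilatransvection.apply]⟩
  rw [map_mul, mul_eq_one_iff_eq_inv']
  ext
  rw [LinearEquiv.coe_det, LinearEquiv.dilatransvection.coe_toLinearMap, LinearMap.transvection.det, h1]

/-- Some element of `G0` (even of determinant one) agrees with `g` on a proper subspace. -/
theorem ag_G0 {S : Submodule F V} (hS : finrank F S < finrank F V) (g : V ≃ₗ[F] V) :
    ∃ y : V ≃ₗ[F] V, LinearEquiv.det y = 1 ∧ ∀ s ∈ S, y s = g s := by
  obtain ⟨v, -, hv⟩ := SetLike.exists_of_lt (lt_top_of_finrank_lt_finrank hS)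
  obtain ⟨f, h1, h0⟩ := LinearMap.exists_extend_of_notMem (0 : S →ₗ[F] F) hv 1
  obtain ⟨y, c, hy, e⟩ := Gen.dil h0 g
  exact ⟨y, hy, fun s hs => by rw [e, show f s = 0 from LinearMap.congr_fun h1 ⟨s, hs⟩]; simp⟩

omit [Finite F] in
theorem exists_det_one {v : V} (hv : v ≠ 0) (g : V ≃ₗ[F] V) :
    ∃ y : V ≃ₗ[F] V, LinearEquiv.det y = 1 ∧ ∀ A : Submodule F V, v ∈ A → y • A = g • A := by
  obtain ⟨f, hf⟩ := Module.Projective.exists_dual_eq_one F hv
  obtain ⟨y, c, hy, e⟩ := Gen.dil hf g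
  refine ⟨y, hy, fun A hA => eq_of_le_of_finrank_eq ?_ (finrank_smul.trans finrank_smul.symm)⟩
  rintro _ ⟨a, ha, rfl⟩
  exact ⟨_, A.add_mem ha (A.smul_mem _ (A.smul_mem _ hA)), (e a).symm⟩

theorem tv_all (hI : Irr K) {f : Dual F V} (hf : f ≠ 0) (h : ∀ v, f v = 0 → TV K f v) :
    ∀ g v, g v = 0 → TV K g v := by
  have hc : ∀ (f : Dual F V), (∀ v, f v = 0 → TV K f v) → ∀ k ∈ K, ∀ v,
      (f ∘ₗ (k⁻¹ : V ≃ₗ[F] V).toLinearMap) v = 0 → TV K (f ∘ₗ (k⁻¹ : V ≃ₗ[F] V).toLinearMap) v :=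
    fun f h k hk v hv => by simpa using (h _ hv).conj hk
  have hs : ∀ (c : F) (f : Dual F V), (∀ v, f v = 0 → TV K f v) → ∀ v, (c • f) v = 0 →
      TV K (c • f) v := fun c f h v hv => by
    by_cases h0 : c = 0
    · simpa [h0] using TV.zero_left v
    · exact (TV.smul_iff h0).2 (h _ (by simpa using hv))
  let Φ : Submodule F (Dual F V) := {
    carrier := {f | ∀ v, f v = 0 → TV K f v}
    zero_mem' := fun v _ => TV.zero_left v
    smul_mem' := hs
    add_mem' := fun {a b} ha hb => by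
      by_cases hk : LinearMap.ker b ≤ LinearMap.ker a
      · obtain ⟨c, rfl⟩ := mem_span_singleton.1 (mem_span_of_iInf_ker_le_ker (L := fun _ : Unit => b)
          (K := a) (by simpa using hk) |> (by simp : _ ↔ a ∈ F ∙ b).1)
        simpa [add_smul] using hs (c + 1) b hb
      obtain ⟨v, h1, h2⟩ := SetLike.not_le_iff_exists.1 hk
      obtain ⟨h0, k, hk, e⟩ := (hb ((a v)⁻¹ • v) (by simpa using Or.inr h1))
      have := hc a ha k⁻¹ (K.inv_mem hk)
      rwa [show a ∘ₗ (k⁻¹⁻¹ : V ≃ₗ[F] V).toLinearMap = a + b from LinearMap.ext fun x => by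
        simp [e, inv_mul_cancel₀ (show a v ≠ 0 from h2)]] at this }
  have h1 : Φ.dualCoannihilator = ⊥ := (hI _ fun k hk v hv => (mem_dualCoannihilator _).2
    fun g hg => by simpa using (mem_dualCoannihilator _).1 hv _ (hc g hg _ (K.inv_mem hk))).resolve_right
    fun e => hf (LinearMap.ext fun x => (mem_dualCoannihilator _).1 (e.ge mem_top) f h)
  intro g
  have : g ∈ Φ := by
    rw [← Subspace.dualCoannihilator_dualAnnihilator_eq (W := Φ), h1, dualAnnihilator_bot]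
    trivial
  exact this

omit [Finite F] in
theorem Gen.sub (W : Submodule F V) {j : ℕ} (h : j ≤ finrank F W) :
    ∃ A ≤ W, finrank F A = j :=
  let ⟨S, _, hS⟩ := exists_le_finrank (⊥ : Submodule F W) (j := j) (by simp) h
  ⟨S.map W.subtype, map_subtype_le _ _, (finrank_map_subtype_eq _ _).trans hS⟩

theorem R3.irr (h : R3 K) (h2 : Two K) : Irr K := by
  intro W hW
  by_contra hc
  rw [not_or] at hc
  have hn := h.dim
  have hk : ∀ k ∈ K, k • W = W := fun k hk =>
    eq_of_le_of_finrank_eq (by rintro _ ⟨v, hv, rfl⟩; exact hW k hk v hv) finrank_smul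
  have h0 : 0 < finrank F W := Nat.pos_of_ne_zero fun e => hc.1 (Submodule.finrank_eq_zero.1 e)
  have h1 := finrank_lt hc.2
  obtain ⟨C, hC⟩ := W.exists_isCompl
  have h3 := finrank_add_eq_of_isCompl hC
  by_cases hd : 2 ≤ finrank F W ∧ 2 ≤ finrank F C
  · obtain ⟨A, hA, hA'⟩ := Gen.sub W hd.1
    obtain ⟨B, hB, hB'⟩ := Gen.sub C hd.2
    obtain ⟨P, hP, hP'⟩ := Gen.sub W h0
    obtain ⟨Q, hQ, hQ'⟩ := Gen.sub C (j := 1) (by omega)
    have h4 := finrank_sup_add_finrank_inf_eq P Q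
    rw [(hC.disjoint.mono hP hQ).eq_bot, finrank_bot] at h4
    have k : ∀ {A B : Submodule F V}, Eqv K A B →
        finrank F (A ⊓ W : Submodule F V) = finrank F (B ⊓ W : Submodule F V) := by
      rintro A _ ⟨k, hk', rfl⟩
      rw [← finrank_smul (g := k), smul_inf, hk k hk']
    have e1 : A ⊓ W = A := inf_eq_left.2 hA
    have e2 : B ⊓ W = ⊥ := (hC.symm.disjoint.mono_left hB).eq_bot
    have e3 : (P ⊔ Q) ⊓ W = P := by
      rw [sup_inf_assoc_of_le _ hP, (hC.symm.disjoint.mono_left hQ).eq_bot, sup_bot_eq]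
    rcases h2 A B (P ⊔ Q) hA' hB' (by omega) with e | e | e <;> have := k e
    · rw [e1, e2, finrank_bot] at this; omega
    · rw [e1, e3] at this; omega
    · rw [e2, e3, finrank_bot] at this; omega
  have hK : ∀ g ∈ G0 F V, g • W = W → g ∈ K := by
    rcases h.max (G0 F V ⊓ MulAction.stabilizer _ W) (fun k h' => ⟨h.le h', hk k h'⟩) inf_le_left
      with e | e
    · exact fun g h1 h2 => e ⟨h1, h2⟩
    obtain ⟨v, -, hv⟩ := SetLike.exists_of_lt (lt_top_iff_ne_top.2 hc.2)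
    obtain ⟨S, hS, hS'⟩ := exists_le_finrank (F ∙ v) (j := finrank F W)
      (by rw [finrank_span_singleton fun e : v = 0 => hv (e ▸ W.zero_mem)]; omega) h1.le
    obtain ⟨g, rfl⟩ := exists_smul_eq hS'.symm
    obtain ⟨y, hy, e'⟩ := ag_G0 h1 g
    have h5 : y • W = W := (e ⟨1, by simpa using hy⟩).2
    rw [← smul_congr e' le_rfl, h5] at hS
    exact absurd (hS (mem_span_singleton_self v)) hv
  obtain ⟨a, ha, b, hb, ha', hb', hab⟩ := h.three
  have k : ∀ a ∈ G0 F V, a ∉ K → finrank F (W ⊓ a • W : Submodule F V) + 1 = finrank F W ∧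
      finrank F (W ⊔ a • W : Submodule F V) = finrank F W + 1 := fun a ha ha' => by
    have h4 := finrank_sup_add_finrank_inf_eq W (a • W)
    have h5 := finrank_lt_finrank_of_lt (lt_of_le_of_ne (inf_le_right : W ⊓ a • W ≤ _) fun e =>
      ha' (hK a ha (eq_of_le_of_finrank_eq (inf_eq_right.1 e) finrank_smul)))
    have h6 := finrank_le (W ⊔ a • W)
    rw [finrank_smul] at h4 h5
    omega
  obtain ⟨g, e1, e2⟩ := exists_smul_two (A := W) (B := a • W) (A' := W) (B' := b • W) rfl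
    (finrank_smul.trans finrank_smul.symm) (by have := k a ha ha'; have := k b hb hb'; omega)
  obtain ⟨y, hy, e3, e4⟩ : ∃ y : V ≃ₗ[F] V, LinearEquiv.det y = 1 ∧ y • W = g • W ∧
      y • a • W = g • a • W := by
    have := k a ha ha'
    by_cases h4 : finrank F W = 1
    · obtain ⟨y, hy, e⟩ := ag_G0 (S := W ⊔ a • W) (by omega) g
      exact ⟨y, hy, smul_congr e le_sup_left, smul_congr e le_sup_right⟩
    · obtain ⟨v, hv, h5⟩ := exists_mem_ne_zero_of_ne_bot (p := W ⊓ a • W) fun e => by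
        rw [e, finrank_bot] at this
        omega
      obtain ⟨y, hy, e⟩ := exists_det_one h5 g
      exact ⟨y, hy, e _ hv.1, e _ hv.2⟩
  have hy' : y ∈ G0 F V := ⟨1, by simpa using hy⟩
  exact hab ⟨y, hK y hy' (e3.trans e1), (y * a)⁻¹ * b, hK _ ((G0 F V).mul_mem ((G0 F V).inv_mem
    ((G0 F V).mul_mem hy' ha)) hb) (by rw [mul_smul, ← e2, ← e4, ← mul_smul y, inv_smul_smul]),
    by group⟩

end CL.PL
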