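/-
Rank three actions of the linear groups: hyperplanes, extension of maps, counting.
-/
import Cfsg.Agent.CLAS.PL.Def

set_option autoImplicit false
set_option maxHeartbeats 200000

namespace CL.PL.Hy

open Module Submodule
open scoped Pointwise

variable {F : Type*} [Field F] {V : Type*} [AddCommGroup V] [Module F V]
  [FiniteDimensional F V] {K : Subgroup (V ≃ₗ[F] V)} {A B S W : Submodule F V} {x y : V}

theorem ex_notin (h : finrank F A < finrank F B) : ∃ x ∈ B, x ∉ A := by
  by_contra hn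
  push Not at hn
  exact absurd (Submodule.finrank_mono (show B ≤ A from hn)) (by omega)

theorem hyp_sup (hy : y ∉ W) : Hyp (W ⊔ F ∙ y) W :=
  ⟨le_sup_left, (Submodule.finrank_sup_span_singleton hy).symm⟩

omit [FiniteDimensional F V] in
theorem mem_sup_line (W : Submodule F V) (y : V) : y ∈ W ⊔ F ∙ y :=
  Submodule.mem_sup_right (mem_span_singleton_self y)

omit [FiniteDimensional F V] in
theorem sup_line_le (h : W ≤ A) (hy : y ∈ A) : W ⊔ F ∙ y ≤ A :=
  sup_le h ((span_singleton_le_iff_mem _ _).2 hy)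

omit [FiniteDimensional F V] in
theorem mem_sup_line_iff : x ∈ W ⊔ F ∙ y ↔ ∃ w ∈ W, ∃ c : F, w + c • y = x := by
  simp only [mem_sup, mem_span_singleton]
  exact ⟨fun ⟨w, hw, _, ⟨c, rfl⟩, e⟩ => ⟨w, hw, c, e⟩, fun ⟨w, hw, c, e⟩ => ⟨w, hw, _, ⟨c, rfl⟩, e⟩⟩

theorem eq_sup (h : Hyp A W) (hy : y ∈ A) (hy' : y ∉ W) : A = W ⊔ F ∙ y :=
  (eq_of_le_of_finrank_eq (sup_line_le h.1 hy) (by rw [← (hyp_sup hy').2, h.2])).symm

theorem ex_hyp (h : Hyp A W) : ∃ y ∈ A, y ∉ W := ex_notin (by have := h.2; omega)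

theorem between {j : ℕ} (h : W ≤ A) (h1 : finrank F W ≤ j) (h2 : j ≤ finrank F A) :
    ∃ S : Submodule F V, W ≤ S ∧ S ≤ A ∧ finrank F S = j := by
  induction j, h1 using Nat.le_induction with
  | base => exact ⟨W, le_rfl, h, rfl⟩
  | succ j _ ih =>
    obtain ⟨S, hS, hS', rfl⟩ := ih (by omega)
    obtain ⟨v, hv, hv'⟩ := ex_notin (A := S) (B := A) (by omega)
    exact ⟨S ⊔ F ∙ v, le_sup_of_le_left hS, sup_line_le hS' hv,
      Submodule.finrank_sup_span_singleton hv'⟩

theorem finrank_inf_ge (A B : Submodule F V) :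
    finrank F A + finrank F B ≤ finrank F (A ⊓ B : Submodule F V) + finrank F V := by
  have h1 := Submodule.finrank_sup_add_finrank_inf_eq A B
  have h2 := Submodule.finrank_le (A ⊔ B)
  omega

omit [FiniteDimensional F V] in
theorem ex_dual (hy : y ∉ W) : ∃ f : Dual F V, f y = 1 ∧ ∀ x ∈ W, f x = 0 := by
  obtain ⟨f, hf, hf'⟩ := W.exists_dual_map_eq_bot_of_notMem hy inferInstance
  refine ⟨(f y)⁻¹ • f, by simp [hf], fun x hx => ?_⟩
  have : f x ∈ W.map f := mem_map_of_mem hx
  rw [hf', mem_bot] at this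
  simp [this]

/-- Extension of a map by one more vector. -/
theorem ext_one (g₁ : V ≃ₗ[F] V) {y' : V} (hy : y ∉ B) (hy' : y' ∉ g₁ • B) :
    ∃ g : V ≃ₗ[F] V, (∀ b ∈ B, g b = g₁ b) ∧ g y = y' := by
  obtain ⟨f, hf, hf0⟩ := ex_dual hy
  let φ : V →ₗ[F] V := g₁.toLinearMap + f.smulRight (y' - g₁ y)
  obtain ⟨g, hg⟩ := exists_ext (S := B ⊔ F ∙ y) (φ ∘ₗ (B ⊔ F ∙ y).subtype) (by
    rw [injective_iff_map_eq_zero]
    rintro ⟨x, hx⟩ h
    obtain ⟨b, hb, c, rfl⟩ := mem_sup_line_iff.1 hx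
    have h1 : g₁ b + c • y' = 0 := by
      rw [← h]
      simp only [φ, LinearMap.comp_apply, subtype_apply, LinearMap.add_apply, LinearEquiv.coe_coe,
        LinearMap.smulRight_apply, map_add, map_smul, hf, hf0 b hb, smul_eq_mul]
      module
    have hc : c = 0 := by
      by_contra hc
      refine hy' ((smul_mem_iff _ hc).1 ?_)
      rw [eq_neg_of_add_eq_zero_right h1]
      exact neg_mem (apply_mem_smul.2 hb)
    subst hc
    have hb0 : b = 0 := by simpa using h1
    simp [hb0])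
  refine ⟨g, fun b hb => ?_, ?_⟩
  · simpa [φ, hf0 b hb] using hg ⟨b, mem_sup_left hb⟩
  · simpa [φ, hf] using hg ⟨y, mem_sup_line B y⟩

/-- A map between two hyperplanes of `S` extends to `S`. -/
theorem ext_hyp (g₁ : V ≃ₗ[F] V) (hA : Hyp S A) (hA' : Hyp S (g₁ • A)) :
    ∃ g : V ≃ₗ[F] V, (∀ a ∈ A, g a = g₁ a) ∧ g • S = S := by
  obtain ⟨y, hy, hy0⟩ := ex_hyp hA
  obtain ⟨y', hy', hy0'⟩ := ex_hyp hA'
  obtain ⟨g, hg, hgy⟩ := ext_one g₁ hy0 hy0'
  refine ⟨g, hg, ?_⟩
  conv_lhs => rw [eq_sup hA hy hy0]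
  rw [smul_sup, smul_line, hgy, smul_congr hg le_rfl, ← eq_sup hA' hy' hy0']

/-- Transitivity on the flags `W ≤ A` with `A` a hyperplane of `S`. -/
theorem ex_triple {W' A' : Submodule F V} (h : W ≤ A) (h' : W' ≤ A')
    (hW : finrank F W = finrank F W') (hA : Hyp S A) (hA' : Hyp S A') :
    ∃ g : V ≃ₗ[F] V, g • W = W' ∧ g • A = A' ∧ g • S = S := by
  obtain ⟨g₁, rfl, rfl⟩ := exists_smul_pair h h' hW (by have := hA.2; have := hA'.2; omega)
  obtain ⟨g, hg, hS⟩ := ext_hyp g₁ hA hA'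
  exact ⟨g, smul_congr hg h, smul_congr hg le_rfl, hS⟩

/-- Averaging over a subgroup. -/
theorem avg {G X : Type*} [Group G] (Γ : Subgroup G) [Fintype Γ] (M : Finset X) (c : X → G → ℝ)
    (c₀ : G → ℝ) (h : ∀ x ∈ M, ∃ δ ∈ Γ, ∀ g, c₀ (g * δ) = c x g) (g : G) :
    M.card * ∑ γ : Γ, c₀ (g * γ) = ∑ γ : Γ, ∑ x ∈ M, c x (g * γ) := by
  rw [Finset.sum_comm, ← nsmul_eq_mul, ← Finset.sum_const]
  refine Finset.sum_congr rfl fun x hx => ?_
  obtain ⟨δ, hδ, e⟩ := h x hx
  rw [← Equiv.sum_comp (Equiv.mulRight (⟨δ, hδ⟩ : Γ))]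
  simp only [Equiv.coe_mulRight, Subgroup.coe_mul, ← mul_assoc, e]

section Count
variable [Fintype (Submodule F V)]

open Classical in
/-- The finite set of subspaces with a property. -/
noncomputable def fs (P : Submodule F V → Prop) : Finset (Submodule F V) := Finset.univ.filter P

omit [FiniteDimensional F V] in
@[simp] theorem mem_fs {P : Submodule F V → Prop} : A ∈ fs P ↔ P A := by simp [fs]

omit [FiniteDimensional F V] in
theorem fs_congr {P Q : Submodule F V → Prop} (h : ∀ A, P A ↔ Q A) : fs P = fs Q := by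
  ext A
  simp [h]

omit [FiniteDimensional F V] in
theorem card_fs_smul (P : Submodule F V → Prop) (g : V ≃ₗ[F] V) :
    (fs fun A => P (g • A)).card = (fs P).card :=
  Finset.card_bijective (g • ·) (MulAction.bijective g) (by simp)

omit [FiniteDimensional F V] in
theorem sum_ind (P Q : Submodule F V → Prop) :
    ∑ A ∈ fs P, ind (Q A) = (fs fun A => P A ∧ Q A).card := by
  classical
  have : (fs fun A => P A ∧ Q A) = (fs P).filter Q := by
    ext A
    simp
  rw [this, Finset.natCast_card_filter]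
  refine Finset.sum_congr rfl fun A _ => ?_
  split_ifs with h
  exacts [ind_true h, ind_false h]

theorem sum_one {j i : ℕ} {z : Submodule F V → Submodule F V} (h : OC K j i z)
    (hA : finrank F A = j) (g : V ≃ₗ[F] V) :
    ∑ a ∈ fs (fun a => a ≤ A ∧ finrank F a = i), ind (z (g • A) = g • a) = 1 := by
  have hg : finrank F (g • A : Submodule F V) = j := finrank_smul.trans hA
  rw [Finset.sum_eq_single (g⁻¹ • z (g • A)), ind_true (smul_inv_smul _ _).symm]
  · intro a _ ha
    exact ind_false fun e => ha (by rw [e, inv_smul_smul])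
  · intro hn
    refine (hn (mem_fs.2 ⟨?_, finrank_smul.trans (h.dim _ hg)⟩)).elim
    rw [← smul_le_smul (g := g), smul_inv_smul]
    exact h.le _ hg

variable [Finite F]

omit [Fintype (Submodule F V)] in
theorem card_sub (A : Submodule F V) : Nat.card A = Nat.card F ^ finrank F A :=
  Module.natCard_eq_pow_finrank

/-- The number of subspaces one dimension above `W` inside `S`. -/
theorem card_over {d : ℕ} (h : W ≤ S) (hd : finrank F S = finrank F W + d) :
    (fs fun A => Hyp A W ∧ A ≤ S).card * (Nat.card F - 1) + 1 = Nat.card F ^ d := by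
  classical
  have : Finite V := Module.finite_of_finite F
  have := Fintype.ofFinite V
  have key : ∀ A : Submodule F V, W ≤ A →
      (Finset.univ.filter fun y => y ∈ A ∧ y ∉ W).card + Nat.card F ^ finrank F W =
        Nat.card F ^ finrank F A := by
    intro A hA
    have e : ∀ A : Submodule F V, Nat.card F ^ finrank F A =
        (Finset.univ.filter (· ∈ A)).card := fun A => by
      rw [← card_sub, Nat.card_eq_fintype_card, Fintype.card_subtype]
    rw [e, e, ← Finset.card_union_of_disjoint]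
    · congr 1
      ext y
      simp only [Finset.mem_union, Finset.mem_filter, Finset.mem_univ, true_and]
      exact ⟨fun h => h.elim And.left fun h => hA h, fun h => by tauto⟩
    · rw [Finset.disjoint_filter]
      tauto
  have h1 := Finset.card_eq_sum_card_fiberwise (f := fun y : V => W ⊔ F ∙ y)
    (s := Finset.univ.filter fun y => y ∈ S ∧ y ∉ W) (t := fs fun A => Hyp A W ∧ A ≤ S) (by
      intro y hy
      simp only [Finset.coe_filter, Finset.mem_univ, true_and, Set.mem_ofPred_eq] at hy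
      exact mem_fs.2 ⟨hyp_sup hy.2, sup_line_le h hy.1⟩)
  have hq : 1 ≤ Nat.card F := Nat.card_pos
  rw [Finset.sum_congr rfl (g := fun _ => (Nat.card F - 1) * Nat.card F ^ finrank F W),
    Finset.sum_const, smul_eq_mul] at h1
  · have h2 := key S h
    rw [h1, hd, pow_add, ← mul_assoc, mul_comm (_ ^ _)] at h2
    refine Nat.eq_of_mul_eq_mul_right (pow_pos hq (finrank F W)) ?_
    rw [← h2, add_mul, one_mul]
  · intro A hA
    obtain ⟨hA, hAS⟩ := mem_fs.1 hA
    have h2 := key A hA.1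
    rw [← hA.2, pow_succ] at h2
    have h3 : ((Finset.univ.filter fun y => y ∈ S ∧ y ∉ W).filter fun y => W ⊔ F ∙ y = A) =
        Finset.univ.filter fun y => y ∈ A ∧ y ∉ W := by
      ext y
      simp only [Finset.mem_filter, Finset.mem_univ, true_and]
      exact ⟨fun ⟨h1, h2⟩ => ⟨h2 ▸ mem_sup_line W y, h1.2⟩,
        fun ⟨h1, h2⟩ => ⟨⟨hAS h1, h2⟩, (eq_sup hA h1 h2).symm⟩⟩
    rw [h3, Nat.sub_mul, one_mul, mul_comm, ← h2, Nat.add_sub_cancel]

theorem card_over_two (h : W ≤ S) (hd : finrank F S = finrank F W + 2) :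
    (fs fun A => Hyp A W ∧ A ≤ S).card = Nat.card F + 1 := by
  have h1 := card_over h hd
  obtain ⟨r, hr⟩ : ∃ r, Nat.card F = r + 2 := ⟨Nat.card F - 2, by
    have := Finite.one_lt_card (α := F)
    omega⟩
  rw [hr] at h1 ⊢
  refine Nat.eq_of_mul_eq_mul_right (m := r + 1) (by omega) ?_
  have : r + 2 - 1 = r + 1 := rfl
  rw [this] at h1
  nlinarith

theorem card_over_three (h : W ≤ S) (hd : finrank F S = finrank F W + 3) :
    (fs fun A => Hyp A W ∧ A ≤ S).card = Nat.card F ^ 2 + Nat.card F + 1 := by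
  have h1 := card_over h hd
  obtain ⟨r, hr⟩ : ∃ r, Nat.card F = r + 2 := ⟨Nat.card F - 2, by
    have := Finite.one_lt_card (α := F)
    omega⟩
  rw [hr] at h1 ⊢
  refine Nat.eq_of_mul_eq_mul_right (m := r + 1) (by omega) ?_
  have : r + 2 - 1 = r + 1 := rfl
  rw [this] at h1
  nlinarith

end Count

end CL.PL.Hy
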