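/-
Rank three actions of the linear groups: stars of points.
-/
import Cfsg.Agent.CLAS.PL.Hy
import Cfsg.Agent.CLAS.PL.Gen

set_option autoImplicit false
set_option maxHeartbeats 200000

namespace CL.PL

open Module Submodule
open scoped Pointwise

variable {F : Type*} [Field F] [Finite F] {V : Type*} [AddCommGroup V] [Module F V]
  [FiniteDimensional F V] {K : Subgroup (V ≃ₗ[F] V)}

variable {j : ℕ} {red : Submodule F V → Prop}

namespace APx

open Hy

omit [Finite F] in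
theorem sup_eq {W : Submodule F V} {y y' : V} (hy : y ∉ W) (hy' : y' ∉ W) (h : y' ∈ W ⊔ F ∙ y) :
    W ⊔ F ∙ y' = W ⊔ F ∙ y := (eq_sup (hyp_sup hy) h hy').symm

omit [Finite F] in
/-- The union of the red spaces over `W` is a subspace. -/
theorem ex_R (hp : PT j red) {W : Submodule F V} (hW : finrank F W + 1 = j) :
    ∃ R : Submodule F V, W ≤ R ∧ ∀ A, Hyp A W → (red A ↔ A ≤ R) := by
  classical
  let R : Submodule F V :=
    { carrier := {y | y ∉ W → red (W ⊔ F ∙ y)}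
      zero_mem' := fun h => (h W.zero_mem).elim
      smul_mem' := fun c y hy hc => by
        have hy0 : y ∉ W := fun h => hc (W.smul_mem c h)
        rw [sup_eq hy0 hc (smul_mem _ c (mem_sup_line W y))]
        exact hy hy0
      add_mem' := fun {y y'} hy hy' hs => by
        by_cases h1 : y ∈ W
        · have h2 : y' ∉ W := fun h => hs (W.add_mem h1 h)
          rw [sup_eq h2 hs (add_mem (mem_sup_left h1) (mem_sup_line W y'))]
          exact hy' h2
        by_cases h3 : y' ∈ W ⊔ F ∙ y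
        · rw [sup_eq h1 hs (add_mem (mem_sup_line W y) h3)]
          exact hy h1
        have h2 : y' ∉ W := fun h => h3 (mem_sup_left h)
        have hA := hyp_sup h3
        have hd := (hyp_sup h1).2
        have hWS : W ≤ (W ⊔ F ∙ y) ⊔ F ∙ y' := le_sup_of_le_left le_sup_left
        have hyS : y ∈ (W ⊔ F ∙ y) ⊔ F ∙ y' := mem_sup_left (mem_sup_line W y)
        have hH : ∀ x ∈ (W ⊔ F ∙ y) ⊔ F ∙ y', x ∉ W → Hyp ((W ⊔ F ∙ y) ⊔ F ∙ y') (W ⊔ F ∙ x) :=
          fun x hx hx' => ⟨sup_line_le hWS hx, by rw [← (hyp_sup hx').2, hd, hA.2]⟩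
        have hH' := hH _ (add_mem hyS (mem_sup_line _ y')) hs
        rcases hp _ (hA.2.symm.trans (by omega)) with h | h | ⟨z, -, -, h⟩
        · exact h _ hH'
        · exact (h _ hA (hy h1)).elim
        · have z1 := (h _ hA).1 (hy h1)
          obtain ⟨w, hw, c, rfl⟩ :=
            mem_sup_line_iff.1 ((h _ (hH _ (mem_sup_line _ y') h2)).1 (hy' h2))
          have hc : c = 0 := by
            by_contra hc
            exact h3 ((smul_mem_iff _ hc).1
              ((Submodule.add_mem_iff_right _ (mem_sup_left hw)).1 z1))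
          subst hc
          exact (h _ hH').2 (mem_sup_left (by simpa using hw)) }
  refine ⟨R, fun y hy h => (h hy).elim, fun A hA => ⟨fun hr y hy hy' => ?_, fun h => ?_⟩⟩
  · rwa [← eq_sup hA hy hy']
  · obtain ⟨y, hy, hy'⟩ := ex_hyp hA
    rw [eq_sup hA hy hy']
    exact h hy hy'

omit [Finite F] in
theorem ex_under {A : Submodule F V} (h : 0 < finrank F A) : ∃ W, Hyp A W := by
  obtain ⟨W, -, h1, h2⟩ := between (W := ⊥) (A := A) (j := finrank F A - 1) bot_le (by simp)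
    (by omega)
  exact ⟨W, h1, by omega⟩

omit [Finite F] in
theorem transport (h : TC K j red) {W W' R : Submodule F V} (hW : finrank F W + 1 = j)
    (hW' : finrank F W' + 1 = j) (hR : ∀ A, Hyp A W → (red A ↔ A ≤ R)) :
    ∃ R' : Submodule F V, finrank F R' = finrank F R ∧ ∀ A, Hyp A W' → (red A ↔ A ≤ R') := by
  obtain ⟨k, hk, rfl⟩ := h.tr.subTr W' W (by omega) (by omega)
  refine ⟨k⁻¹ • R, finrank_smul, fun A hA => ?_⟩
  rw [← h.inv k hk, hR _ (hA.smul k), ← smul_le_smul (g := k) (A := A), smul_inv_smul]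

end APx

open APx Hy

theorem TC.exists_hyp (h : TC K j red) (hp : PT j red) (hj : 2 ≤ j) (hn : j + 1 ≤ finrank F V)
    {W : Submodule F V} (hW : finrank F W + 1 = j) :
    ∃ R : Submodule F V, W ≤ R ∧ finrank F R + 1 = finrank F V ∧
      ∀ A, Hyp A W → (red A ↔ A ≤ R) := by
  classical
  obtain ⟨R, hWR, hR⟩ := ex_R hp hW
  refine ⟨R, hWR, ?_, hR⟩
  have hlt : finrank F R < finrank F V := by
    obtain ⟨B, hB, hb⟩ := h.exB
    obtain ⟨W', hW'⟩ := ex_under (A := B) (by omega)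
    obtain ⟨R', hd, hR'⟩ := transport h hW (hW'.2.trans hB) hR
    rw [← hd]
    exact Submodule.finrank_lt fun e => hb ((hR' B hW').2 (e ▸ le_top))
  by_contra hne
  obtain ⟨A, hA, ha⟩ := h.exR
  obtain ⟨W₀, -, hW₀, hd₀⟩ := between (W := ⊥) (A := A) (j := j - 2) bot_le (by simp) (by omega)
  have : Finite V := Module.finite_of_finite F
  have := Fintype.ofFinite V
  have := Fintype.ofFinite (Submodule F V)
  have hex : ∀ W' : Submodule F V, ∃ R' : Submodule F V, finrank F W' + 1 = j →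
      finrank F R' = finrank F R ∧ ∀ A, Hyp A W' → (red A ↔ A ≤ R') := fun W' => by
    by_cases hW' : finrank F W' + 1 = j
    · obtain ⟨R', h'⟩ := transport h hW hW' hR
      exact ⟨R', fun _ => h'⟩
    · exact ⟨⊥, fun h => (hW' h).elim⟩
  choose ρ hρ using hex
  have hcov : ∀ y : V, ∃ W' ∈ fs fun W' => Hyp W' W₀ ∧ W' ≤ A, y ∈ ρ W' := by
    intro y
    have key : ∀ z ∈ A, ∃ W', W₀ ≤ W' ∧ z ∈ W' ∧ W' ≤ A ∧ finrank F W' + 1 = j := by
      intro z hz
      have h1 : finrank F (W₀ ⊔ F ∙ z : Submodule F V) ≤ j - 1 := by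
        by_cases hz' : z ∈ W₀
        · rw [sup_eq_left.2 ((span_singleton_le_iff_mem _ _).2 hz')]
          omega
        · have := (hyp_sup hz').2
          omega
      obtain ⟨W', h2, h3, h4⟩ := between (sup_line_le hW₀ hz) h1 (by omega)
      exact ⟨W', le_sup_left.trans h2, h2 (mem_sup_line _ _), h3, by omega⟩
    have fin : ∀ W', W₀ ≤ W' → W' ≤ A → finrank F W' + 1 = j → ∀ A', Hyp A' W' → red A' → y ∈ A' →
        ∃ W' ∈ fs fun W' => Hyp W' W₀ ∧ W' ≤ A, y ∈ ρ W' := fun W' h1 h2 h3 A' h4 h5 h6 =>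
      ⟨W', mem_fs.2 ⟨⟨h1, by omega⟩, h2⟩, ((hρ W' h3).2 A' h4).1 h5 h6⟩
    by_cases hy : y ∈ A
    · obtain ⟨W', h1, -, h2, h3⟩ := key 0 A.zero_mem
      exact fin W' h1 h2 h3 A ⟨h2, h3.trans hA.symm⟩ ha hy
    have hS := hyp_sup hy
    have hH : ∀ W', W' ≤ A → finrank F W' + 1 = j → Hyp (A ⊔ F ∙ y) (W' ⊔ F ∙ y) :=
      fun W' h2 h3 => ⟨sup_le_sup_right h2 _, by
        rw [← (hyp_sup fun h => hy (h2 h)).2, ← hS.2, h3, hA]⟩
    rcases hp _ (hS.2.symm.trans (by rw [hA])) with h' | h' | ⟨z, -, -, h'⟩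
    · obtain ⟨W', h1, -, h2, h3⟩ := key 0 A.zero_mem
      exact fin W' h1 h2 h3 _ (hyp_sup fun h => hy (h2 h)) (h' _ (hH W' h2 h3)) (mem_sup_line _ _)
    · exact (h' A hS ha).elim
    · obtain ⟨W', h1, hz, h2, h3⟩ := key z ((h' A hS).1 ha)
      exact fin W' h1 h2 h3 _ (hyp_sup fun h => hy (h2 h))
        ((h' _ (hH W' h2 h3)).2 (mem_sup_left hz)) (mem_sup_line _ _)
  have h1 : (Finset.univ : Finset V) ⊆ (fs fun W' => Hyp W' W₀ ∧ W' ≤ A).biUnion
      fun W' => Finset.univ.filter (· ∈ ρ W') := fun y _ => by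
    simpa only [Finset.mem_biUnion, Finset.mem_filter, Finset.mem_univ, true_and] using hcov y
  have h2 := (Finset.card_le_card h1).trans (Finset.card_biUnion_le_card_mul _ _
    (Nat.card F ^ finrank F R) fun W' hW' => by
      have := (mem_fs.1 hW').1.2
      rw [← (hρ W' (by omega)).1, ← card_sub, Nat.card_eq_fintype_card, Fintype.card_subtype])
  rw [card_over_two hW₀ (by omega), Finset.card_univ, ← Nat.card_eq_fintype_card,
    Module.natCard_eq_pow_finrank (K := F)] at h2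
  have hq := Finite.one_lt_card (α := F)
  have h3 : Nat.card F ^ (finrank F R + 2) ≤ Nat.card F ^ finrank F V :=
    Nat.pow_le_pow_right (by omega) (by omega)
  have h4 := h3.trans h2
  rw [pow_add, mul_comm] at h4
  have h5 := Nat.le_of_mul_le_mul_right h4 (by positivity)
  nlinarith

theorem TC.of_PT (h : TC K j red) (hp : PT j red) (hj : 2 ≤ j) (hn : j + 1 ≤ finrank F V) :
    ∃ B : Submodule F V, finrank F B = j ∧ Full K B ∧
      ∀ y ∉ B, ∀ y' ∉ B, ∃ k ∈ fixS K B, k y - y' ∈ B := by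
  obtain ⟨B, hB, hb⟩ := h.exB
  refine ⟨B, hB, fun g hg => h.ag0 B hB g (by rw [hg]), ?_⟩
  obtain ⟨W, hW⟩ := ex_under (A := B) (by omega)
  obtain ⟨R, hWR, hd, hR⟩ := h.exists_hyp hp hj hn (hW.2.trans hB)
  have key : ∀ y ∉ B, ∃ z, z - y ∈ B ∧ ∀ A, Hyp (B ⊔ F ∙ y) A → (red A ↔ z ∈ A) := by
    intro y hy
    have hS := hyp_sup hy
    have h1 := finrank_inf_ge (B ⊔ F ∙ y) R
    obtain ⟨x, hx, hx'⟩ := ex_notin (A := W) (B := (B ⊔ F ∙ y) ⊓ R) (by
      have := hS.2
      have := hW.2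
      omega)
    have hA : Hyp (B ⊔ F ∙ y) (W ⊔ F ∙ x) := ⟨sup_line_le (hW.1.trans le_sup_left) hx.1, by
      rw [← (hyp_sup hx').2, hW.2, hS.2]⟩
    rcases hp _ (hS.2.symm.trans (by rw [hB])) with h' | h' | ⟨z, hz, -, h'⟩
    · exact (hb (h' B hS)).elim
    · exact (h' _ hA ((hR _ (hyp_sup hx')).2 (sup_line_le hWR hx.2))).elim
    · obtain ⟨b, hbB, c, rfl⟩ := mem_sup_line_iff.1 hz
      have hc : c ≠ 0 := by
        rintro rfl
        exact hb ((h' B hS).2 (by simpa using hbB))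
      refine ⟨c⁻¹ • (b + c • y), ?_, fun A hA => ?_⟩
      · rw [smul_add, smul_smul, inv_mul_cancel₀ hc, one_smul, add_sub_cancel_right]
        exact B.smul_mem _ hbB
      · rw [h' A hA, smul_mem_iff _ (inv_ne_zero hc)]
  intro y hy y' hy'
  obtain ⟨z, hz, hzA⟩ := key y hy
  obtain ⟨z', hz', hzA'⟩ := key y' hy'
  have nz : ∀ {y z : V}, y ∉ B → z - y ∈ B → z ∉ B ∧ B ⊔ F ∙ z = B ⊔ F ∙ y := by
    intro y z hy hz
    have h1 : z ∉ B := fun h => hy (by simpa using B.sub_mem h hz)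
    exact ⟨h1, sup_eq hy h1 (by
      simpa using add_mem (mem_sup_left hz : z - y ∈ B ⊔ F ∙ y) (mem_sup_line B y))⟩
  obtain ⟨g, hg, hgz⟩ := ext_one (B := B) 1 (nz hy hz).1 (by rw [one_smul]; exact (nz hy' hz').1)
  have hgS : g • (B ⊔ F ∙ y) = B ⊔ F ∙ y' := by
    rw [← (nz hy hz).2, smul_sup, smul_line, hgz, smul_congr hg le_rfl, one_smul, (nz hy' hz').2]
  obtain ⟨k, hk, e⟩ := h.ag1 _ ((hyp_sup hy).2.symm.trans (by rw [hB])) g fun A hA => by
    rw [hzA A hA, hzA' _ (hgS ▸ hA.smul g), ← hgz, apply_mem_smul]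
  refine ⟨k, ⟨hk, fun b hb => (e b (mem_sup_left hb)).trans (hg b hb)⟩, ?_⟩
  have h1 : g (z - y) = z - y := hg _ hz
  rw [map_sub, hgz] at h1
  have h2 : k y - y' = (z' - y') - (z - y) := by
    rw [e y (mem_sup_line B y), ← h1]
    abel
  rw [h2]
  exact B.sub_mem hz' hz

theorem TC.not_tf (h3 : R3 K) (h : TC K 2 red) (hp : PT 2 red) : ¬ TF K := by
  intro hT
  have hn := h3.dim
  let H : Subgroup (V ≃ₗ[F] V) :=
    { carrier := {g | g ∈ G0 F V ∧ ∀ A : Submodule F V, finrank F A = 2 → (red (g • A) ↔ red A)}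
      one_mem' := ⟨one_mem _, fun A _ => by rw [one_smul]⟩
      mul_mem' := fun {a b} ha hb => ⟨mul_mem ha.1 hb.1, fun A hA => by
        rw [mul_smul, ha.2 _ (finrank_smul.trans hA), hb.2 A hA]⟩
      inv_mem' := fun {a} ha => ⟨inv_mem ha.1, fun A hA => by
        rw [← ha.2 _ (finrank_smul.trans hA), smul_inv_smul]⟩ }
  have hH : H ≤ K := by
    refine (h3.max H (fun k hk => ⟨h3.le hk, fun A _ => h.inv k hk A⟩) fun _ hg => hg.1).resolve_right
      fun hG => ?_
    obtain ⟨A, hA, ha⟩ := h.exR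
    obtain ⟨B, hB, hb⟩ := h.exB
    obtain ⟨g, rfl⟩ := exists_smul_eq (hA.trans hB.symm)
    obtain ⟨y, hy, e⟩ := ag_G0 (S := A) (by omega) g
    have := (hG (show y ∈ G0 F V from ⟨1, by simp [hy]⟩)).2 A hA
    rw [smul_congr e le_rfl] at this
    exact hb (this.2 ha)
  have one : ∀ {v : V}, v ≠ 0 → finrank F (F ∙ v) + 1 = 2 := fun hv => by
    rw [finrank_span_singleton hv]
  obtain ⟨v, -, hv⟩ := ex_notin (A := ⊥) (B := (⊤ : Submodule F V)) (by simp; omega)
  rw [mem_bot] at hv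
  obtain ⟨R, hvR, hd, hR⟩ := h.exists_hyp hp le_rfl (by omega) (one hv)
  have hvR' : v ∈ R := hvR (mem_span_singleton_self v)
  obtain ⟨u, -, hu⟩ := ex_notin (A := R) (B := ⊤) (by rw [finrank_top]; omega)
  obtain ⟨f, hfu, hf⟩ := ex_dual hu
  have key : ∀ g : V ≃ₗ[F] V, (∀ x, ∃ c : F, g x = x + c • v) → (∀ y ∈ R, g y = y) →
      ∀ A : Submodule F V, finrank F A = 2 → red A → red (g • A) := by
    intro g hg hgR A hA ha
    have h1 := finrank_inf_ge A R
    obtain ⟨y, hy, hy0⟩ := ex_notin (A := ⊥) (B := A ⊓ R) (by rw [finrank_bot]; omega)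
    rw [mem_bot] at hy0
    obtain ⟨R', hyR', -, hR'⟩ := h.exists_hyp hp le_rfl (by omega) (one hy0)
    have hA' : Hyp A (F ∙ y) := ⟨(span_singleton_le_iff_mem _ _).2 hy.1, (one hy0).trans hA.symm⟩
    have hv' : v ∈ R' := by
      by_cases hvy : v ∈ F ∙ y
      · exact hyR' hvy
      have hL := hyp_sup hvy
      refine (hR' _ hL).1 ((hR _ ⟨(span_singleton_le_iff_mem _ _).2 (mem_sup_line _ _), ?_⟩).2
        (sup_line_le ((span_singleton_le_iff_mem _ _).2 hy.2) hvR')) (mem_sup_line _ _)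
      rw [← hL.2, one hv, one hy0]
    have h2 := hA'.smul g
    rw [smul_line, hgR y hy.2] at h2
    refine (hR' _ h2).2 ?_
    rintro _ ⟨x, hx, rfl⟩
    obtain ⟨c, hc⟩ := hg x
    change g x ∈ R'
    rw [hc]
    exact add_mem ((hR' A hA').1 ha hx) (smul_mem _ c hv')
  have hfv := hf v hvR'
  let t := LinearEquiv.transvection hfv
  have ht : ∀ x, t x = x + f x • v := fun x => LinearEquiv.transvection.apply hfv x
  have htR : ∀ y ∈ R, t y = y := fun y hy => by rw [ht, hf y hy, zero_smul, add_zero]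
  have htH : t ∈ H := ⟨transvection_mem_G0 hfv, fun A hA => ⟨fun hr => by
    have := key t⁻¹ (fun x => ⟨-f (t⁻¹ x), by
      have := ht (t⁻¹ x)
      rw [LinearEquiv.coe_inv, LinearEquiv.apply_symm_apply] at this
      rw [neg_smul, ← sub_eq_add_neg, eq_sub_iff_add_eq]
      exact this.symm⟩) (fun y hy => by
        rw [LinearEquiv.coe_inv, LinearEquiv.symm_apply_eq, htR y hy]) _ (finrank_smul.trans hA) hr
    rwa [inv_smul_smul] at this, key t (fun x => ⟨f x, ht x⟩) htR A hA⟩⟩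
  rcases hT f v ⟨hfv, t, hH htH, ht⟩ with h0 | h0
  · simp [h0] at hfu
  · exact hv h0

end CL.PL
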