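/-
Rank three actions of the linear groups: counting vectors in the subspaces over a given one.
-/
import Cfsg.Agent.CLAS.PL.Def

set_option autoImplicit false
set_option linter.unusedSectionVars false

namespace CL.PL.Cnt

open Module Submodule
open scoped Pointwise

variable {F : Type*} [Field F] [Finite F] {V : Type*} [AddCommGroup V] [Module F V]
  [FiniteDimensional F V] {W U A : Submodule F V}

theorem finV (F : Type*) [Field F] [Finite F] (V : Type*) [AddCommGroup V] [Module F V]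
    [FiniteDimensional F V] : Finite V := Module.finite_of_finite F

theorem finS : Finite (Submodule F V) :=
  have := finV F V
  Finite.of_injective _ SetLike.coe_injective

theorem one_lt : 1 < Nat.card F := Finite.one_lt_card

theorem ex_notin {A B : Submodule F V} (h : finrank F A < finrank F B) : ∃ x ∈ B, x ∉ A := by
  by_contra! a
  exact absurd (Submodule.finrank_mono a) (by omega)

theorem hyp_sup {x : V} (hx : x ∉ W) : Hyp (W ⊔ F ∙ x) W :=
  ⟨le_sup_left, (Submodule.finrank_sup_span_singleton hx).symm⟩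

theorem mem_sup_self (W : Submodule F V) (x : V) : x ∈ W ⊔ F ∙ x :=
  mem_sup_right (mem_span_singleton_self x)

theorem sup_le' {x : V} (h : W ≤ U) (hx : x ∈ U) : W ⊔ F ∙ x ≤ U :=
  sup_le h ((span_singleton_le_iff_mem _ _).2 hx)

theorem hyp_eq (h : Hyp A W) {x : V} (hx : x ∈ A) (hx' : x ∉ W) : W ⊔ F ∙ x = A :=
  Submodule.eq_of_le_of_finrank_eq (sup_le' h.1 hx) ((hyp_sup hx').2.symm.trans h.2)

theorem line {z h : V} (hz : z ≠ 0) (hh : h ∉ F ∙ z) :
    finrank F ((F ∙ z) ⊔ (F ∙ h) : Submodule F V) = 2 := by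
  rw [Submodule.finrank_sup_span_singleton hh, finrank_span_singleton hz]

/-- the subspaces of `U` having `W` as a hyperplane -/
noncomputable def ov (W U : Submodule F V) : Finset (Submodule F V) :=
  have := finS (F := F) (V := V)
  (Set.toFinite {A | Hyp A W ∧ A ≤ U}).toFinset

theorem mem_ov : A ∈ ov W U ↔ Hyp A W ∧ A ≤ U := Set.Finite.mem_toFinset _

theorem sum_ov (h : W ≤ U) (X : V → Prop) :
    {x | x ∈ U ∧ x ∉ W ∧ X x}.ncard = ∑ A ∈ ov W U, {x | x ∈ A ∧ x ∉ W ∧ X x}.ncard := by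
  classical
  have := finV F V
  rw [Set.ncard_eq_toFinset_card _ (Set.toFinite _),
    Finset.card_eq_sum_card_fiberwise (f := fun x => W ⊔ F ∙ x) (t := ov W U) fun x hx => by
      have hx' := (Set.Finite.mem_toFinset _).1 hx
      exact mem_ov.2 ⟨hyp_sup hx'.2.1, sup_le' h hx'.1⟩]
  refine Finset.sum_congr rfl fun A hA => ?_
  rw [Set.ncard_eq_toFinset_card _ (Set.toFinite _)]
  congr 1
  ext x
  simp only [Finset.mem_filter, Set.Finite.mem_toFinset, Set.mem_ofPred_eq]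
  obtain ⟨h1, h2⟩ := mem_ov.1 hA
  exact ⟨fun ⟨a, e⟩ => ⟨e ▸ mem_sup_self W x, a.2⟩, fun a => ⟨⟨h2 a.1, a.2⟩, hyp_eq h1 a.1 a.2.1⟩⟩

theorem ncard_sub (A : Submodule F V) : (A : Set V).ncard = Nat.card F ^ finrank F A :=
  Module.natCard_eq_pow_finrank (K := F) (V := A)

theorem ncard_split (h : W ≤ U) (X : V → Prop) : {x | x ∈ U ∧ X x}.ncard =
    {x | x ∈ W ∧ X x}.ncard + {x | x ∈ U ∧ x ∉ W ∧ X x}.ncard := by
  have := finV F V
  rw [← Set.ncard_union_eq (Set.disjoint_left.2 fun x a b => b.2.1 a.1)]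
  congr 1
  ext x
  exact ⟨fun a => (em (x ∈ W)).imp (fun b => ⟨b, a.2⟩) fun b => ⟨a.1, b, a.2⟩,
    fun a => a.elim (fun b => ⟨h b.1, b.2⟩) fun b => ⟨b.1, b.2.2⟩⟩

theorem ncard_diff (h : W ≤ U) : Nat.card F ^ finrank F W + {x | x ∈ U ∧ x ∉ W ∧ True}.ncard =
    Nat.card F ^ finrank F U := by
  have := ncard_split h fun _ => True
  simp only [and_true] at this ⊢
  rw [← ncard_sub, ← ncard_sub]
  exact this.symm

theorem card_ov (h : W ≤ U) : Nat.card F ^ finrank F W + (ov W U).card *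
    (Nat.card F ^ finrank F W * (Nat.card F - 1)) = Nat.card F ^ finrank F U := by
  rw [← ncard_diff h, sum_ov h, Finset.sum_congr rfl (g := fun _ => Nat.card F ^ finrank F W *
    (Nat.card F - 1)) fun A hA => ?_, Finset.sum_const, smul_eq_mul]
  have h1 := ncard_diff (mem_ov.1 hA).1.1
  rw [← (mem_ov.1 hA).1.2, pow_succ] at h1
  rw [Nat.mul_sub, mul_one]
  omega

theorem card_ov_two (h : W ≤ U) (hd : finrank F W + 2 = finrank F U) :
    (ov W U).card = Nat.card F + 1 := by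
  have h1 := card_ov h
  have h2 := one_lt (F := F)
  rw [← hd] at h1
  obtain ⟨t, ht⟩ : ∃ t, Nat.card F = t + 1 := ⟨Nat.card F - 1, by omega⟩
  rw [ht] at h1 ⊢
  have h3 : 0 < (t + 1) ^ finrank F W * t := Nat.mul_pos (Nat.pow_pos (by omega)) (by omega)
  refine Nat.eq_of_mul_eq_mul_right h3 ?_
  rw [Nat.add_sub_cancel] at h1
  have : (t + 1) ^ (finrank F W + 2) = (t + 1) ^ finrank F W + (t + 1 + 1) * ((t + 1) ^ finrank F W * t) := by
    ring
  omega

theorem card_ov_three (h : W ≤ U) (hd : finrank F W + 3 = finrank F U) :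
    (ov W U).card = Nat.card F ^ 2 + Nat.card F + 1 := by
  have h1 := card_ov h
  have h2 := one_lt (F := F)
  rw [← hd] at h1
  obtain ⟨t, ht⟩ : ∃ t, Nat.card F = t + 1 := ⟨Nat.card F - 1, by omega⟩
  rw [ht] at h1 ⊢
  have h3 : 0 < (t + 1) ^ finrank F W * t := Nat.mul_pos (Nat.pow_pos (by omega)) (by omega)
  refine Nat.eq_of_mul_eq_mul_right h3 ?_
  rw [Nat.add_sub_cancel] at h1
  have : (t + 1) ^ (finrank F W + 3) = (t + 1) ^ finrank F W +
      ((t + 1) ^ 2 + (t + 1) + 1) * ((t + 1) ^ finrank F W * t) := by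
    ring
  omega

section S

variable {S : V → Prop} (h0 : ¬ S 0) (hs : ∀ (c : F) v, c ≠ 0 → (S (c • v) ↔ S v))
include h0 hs

theorem pt_of {p : V} (hp : S p) : {x | x ∈ (F ∙ p) ∧ S x}.ncard = Nat.card F - 1 := by
  have := finV F V
  have p0 : p ≠ 0 := fun e => h0 (e ▸ hp)
  have e : {x | x ∈ (F ∙ p) ∧ S x} = ((F ∙ p : Submodule F V) : Set V) \ {0} := by
    ext x
    refine ⟨fun a => ⟨a.1, fun e => h0 (e ▸ a.2)⟩, fun a => ⟨a.1, ?_⟩⟩
    obtain ⟨c, rfl⟩ := mem_span_singleton.1 a.1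
    exact (hs c p fun e => a.2 (by simp [e])).2 hp
  rw [e, Set.ncard_sdiff_singleton_of_mem (zero_mem _), ncard_sub, finrank_span_singleton p0, pow_one]

theorem pt_not {p : V} (hp : ¬ S p) {x : V} (hx : x ∈ F ∙ p) : ¬ S x := by
  obtain ⟨c, rfl⟩ := mem_span_singleton.1 hx
  by_cases c0 : c = 0
  · rwa [c0, zero_smul]
  · rwa [hs c p c0]

theorem dvd_ncard (U : Submodule F V) : Nat.card F - 1 ∣ {x | x ∈ U ∧ S x}.ncard := by
  rw [ncard_split (W := ⊥) bot_le, sum_ov bot_le]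
  refine dvd_add ?_ (Finset.dvd_sum fun A hA => ?_)
  · rw [show {x | x ∈ (⊥ : Submodule F V) ∧ S x} = ∅ from
      Set.eq_empty_of_forall_notMem fun x a => h0 (((mem_bot F).1 a.1) ▸ a.2), Set.ncard_empty]
    exact dvd_zero _
  · by_cases h : ∃ p ∈ A, S p
    · obtain ⟨p, hp, hp'⟩ := h
      have e := hyp_eq (mem_ov.1 hA).1 hp fun a => h0 (((mem_bot F).1 a) ▸ hp')
      rw [bot_sup_eq] at e
      rw [← pt_of h0 hs hp', e]
      refine dvd_of_eq (congrArg _ ?_)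
      ext x
      exact ⟨fun a => ⟨a.1, fun b => h0 (((mem_bot F).1 b) ▸ a.2), a.2⟩, fun a => ⟨a.1, a.2.2⟩⟩
    · rw [show {x | x ∈ A ∧ x ∉ (⊥ : Submodule F V) ∧ S x} = ∅ from
        Set.eq_empty_of_forall_notMem fun x a => h ⟨x, a.1, a.2.2⟩, Set.ncard_empty]
      exact dvd_zero _

omit h0 hs in
/-- counting over a subspace missing `S` -/
theorem sum_miss (h : W ≤ U) (hW : ∀ x ∈ W, ¬ S x) :
    {x | x ∈ U ∧ S x}.ncard = ∑ A ∈ ov W U, {x | x ∈ A ∧ S x}.ncard := by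
  have key : ∀ A : Submodule F V, {x | x ∈ A ∧ x ∉ W ∧ S x} = {x | x ∈ A ∧ S x} := fun A =>
    Set.ext fun x => ⟨fun a => ⟨a.1, a.2.2⟩, fun a => ⟨a.1, fun b => hW x b a.2, a.2⟩⟩
  rw [← key, sum_ov h]
  exact Finset.sum_congr rfl fun A _ => by rw [key]

/-- counting over a point of `S` -/
theorem sum_pt {p : V} (hp : S p) (h : p ∈ U) :
    {x | x ∈ U ∧ S x}.ncard + (ov (F ∙ p) U).card * (Nat.card F - 1) =
      (Nat.card F - 1) + ∑ A ∈ ov (F ∙ p) U, {x | x ∈ A ∧ S x}.ncard := by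
  have h' := (span_singleton_le_iff_mem _ _).2 h
  rw [ncard_split h', pt_of h0 hs hp, sum_ov h', add_assoc, ← smul_eq_mul, ← Finset.sum_const,
    ← Finset.sum_add_distrib]
  congr 1
  exact Finset.sum_congr rfl fun A hA => by
    rw [ncard_split (mem_ov.1 hA).1.1 S, pt_of h0 hs hp, add_comm]

/-- two different points -/
theorem two_le {p p' : V} (hp : S p) (hp' : S p') (hne : p' ∉ F ∙ p) (h : p ∈ U) (h' : p' ∈ U) :
    2 * (Nat.card F - 1) ≤ {x | x ∈ U ∧ S x}.ncard := by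
  have := finV F V
  rw [ncard_split ((span_singleton_le_iff_mem _ _).2 h), pt_of h0 hs hp, two_mul, add_le_add_iff_left,
    ← pt_of h0 hs hp']
  refine Set.ncard_le_ncard fun x hx => ⟨(span_singleton_le_iff_mem _ _).2 h' hx.1, fun a => ?_, hx.2⟩
  obtain ⟨c, rfl⟩ := mem_span_singleton.1 hx.1
  exact hne ((Submodule.smul_mem_iff _ fun e => h0 (by simpa [e] using hx.2)).1 a)

omit h0 hs in
theorem compl (U : Submodule F V) (h0 : ¬ S 0) : {x | x ∈ U ∧ S x}.ncard +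
    {x | x ∈ U ∧ (x ≠ 0 ∧ ¬ S x)}.ncard + 1 = Nat.card F ^ finrank F U := by
  have := finV F V
  rw [← ncard_sub, ← Set.ncard_union_eq (Set.disjoint_left.2 fun x a b => b.2.2 a.2),
    ← Set.ncard_insert_of_notMem (a := 0) fun a => a.elim (fun b => h0 b.2) fun b => b.2.1 rfl]
  congr 1
  ext x
  refine ⟨?_, fun a => ?_⟩
  · rintro (rfl | a | a)
    exacts [zero_mem _, a.1, a.1]
  · by_cases x0 : x = 0
    · exact Or.inl x0
    · exact Or.inr ((em (S x)).imp (fun b => ⟨a, b⟩) fun b => ⟨a, x0, b⟩)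

end S

theorem ncard_smul {X : V → Prop} {k : V ≃ₗ[F] V} (hX : ∀ v, X (k v) ↔ X v) (A : Submodule F V) :
    {x | x ∈ k • A ∧ X x}.ncard = {x | x ∈ A ∧ X x}.ncard := by
  rw [← Set.ncard_image_of_injective {x | x ∈ A ∧ X x} k.injective]
  congr 1
  ext x
  refine ⟨fun ⟨⟨a, ha, e⟩, b⟩ => ⟨a, ⟨ha, (hX a).1 (by exact e ▸ b)⟩, e⟩, ?_⟩
  rintro ⟨a, ha, rfl⟩
  exact ⟨apply_mem_smul.2 ha.1, (hX a).2 ha.2⟩

end CL.PL.Cnt
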