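/-
Rank three actions of the linear groups: sets with two intersection numbers.
-/
import Cfsg.Agent.CLAS.PL.Def
import Cfsg.Agent.CLAS.PL.Cnt

set_option autoImplicit false

namespace CL.PL

open Module Submodule
open scoped Pointwise

variable {F : Type*} [Field F] [Finite F] {V : Type*} [AddCommGroup V] [Module F V]
  [FiniteDimensional F V] {K : Subgroup (V ≃ₗ[F] V)}

theorem Arc.arith {q a u w : ℕ} {r n : ℕ} (hr : r.Prime) (hq : q = r ^ n) (ha : a ≠ 0)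
    (h1 : u + (q + 1) = 1 + (q + 1) * a) (h2 : w + (q ^ 2 + q + 1) = 1 + (q ^ 2 + q + 1) * a)
    (h3 : a ∣ u) (h4 : u ∣ w) : a = 1 ∨ a = q := by
  obtain ⟨a, rfl⟩ := Nat.exists_eq_succ_of_ne_zero ha
  simp only [Nat.succ_eq_add_one] at *
  have hu : u = 1 + (q + 1) * a := by nlinarith
  have hw : w = u + q ^ 2 * a := by nlinarith
  have h5 : a + 1 ∣ q := (Nat.dvd_add_right h3).1 ⟨q + 1, by nlinarith⟩
  obtain ⟨b, hb⟩ := h5
  have h6 : u ∣ q ^ 2 := by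
    rw [hw, Nat.dvd_add_self_left] at h4
    exact Nat.Coprime.dvd_of_dvd_mul_right (by rw [hu]; simp) h4
  have h7 : 1 + b * a ∣ q ^ 2 := (Dvd.intro_left (a + 1) (by rw [hu, hb]; ring)).trans h6
  by_cases hb1 : b = 1
  · right
    rw [hb, hb1, mul_one]
  · left
    obtain ⟨i, -, hi⟩ := (Nat.dvd_prime_pow hr).1 (hq ▸ Dvd.intro_left _ hb.symm : b ∣ r ^ n)
    have hi0 : i ≠ 0 := fun e => hb1 (by rw [hi, e, pow_zero])
    have h8 : (1 + b * a).Coprime r :=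
      Nat.Coprime.coprime_dvd_right (hi ▸ dvd_pow_self r hi0 : r ∣ b) (by simp)
    have h9 : 1 + b * a = 1 := Nat.Coprime.eq_one_of_dvd
      (by rw [hq, ← pow_mul]; exact h8.pow_right _) h7
    have b0 : b ≠ 0 := hi ▸ pow_ne_zero _ hr.ne_zero
    rw [(Nat.mul_eq_zero.1 (show b * a = 0 by omega)).resolve_left b0]

/-- PROOF. `m = a (q - 1)`, `a ≥ 1` points. `a = 1`: `S` is one point. `a = q + 1`: `S ∪ 0` is a
proper subspace. Otherwise: a subspace `U` of dimension `s` meeting `S` contains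
`1 + [s-1](a-1)` points of `S` (lines through one of them). Plane through a point outside `S`:
`a ∣ u := 1 + (q+1)(a-1)`, so `a ∣ q`. Solid through a line missing `S` and a point of `S`:
`u ∣ u + q²(a-1)`, `gcd(u, a-1) = 1`, so `u ∣ q²` is a power of `p`; `u = a (q + 1 - q/a)` forces
`a = q`. Then every line has `1` or `q + 1` points outside `S`: the complement is a subspace. -/
theorem arc (hn : 4 ≤ finrank F V) {S : Set V} (h0 : 0 ∉ S)
    (hs : ∀ (c : F) v, c ≠ 0 → (c • v ∈ S ↔ v ∈ S)) (hne : S.Nonempty) {m : ℕ}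
    (hl : ∀ L : Submodule F V, finrank F L = 2 →
      (∀ v ∈ L, v ∉ S) ∨ Nat.card {v // v ∈ L ∧ v ∈ S} = m)
    (hm : ∃ L : Submodule F V, finrank F L = 2 ∧ ∀ v ∈ L, v ∉ S) :
    span F S ≠ ⊤ ∨ ∃ W : Submodule F V, ∀ v, v ∈ W ↔ v ∉ S := by
  classical
  have := Cnt.finV F V
  obtain ⟨p, hp⟩ := hne
  obtain ⟨L₀, hL₀, hL₀'⟩ := hm
  have q1 := Cnt.one_lt (F := F)
  obtain ⟨t, ht⟩ : ∃ t, Nat.card F - 1 = t := ⟨_, rfl⟩
  have t0 : 0 < t := by omega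
  have ne0 : ∀ x ∈ S, x ≠ 0 := fun x hx e => h0 (e ▸ hx)
  have hN : ∀ L : Submodule F V, finrank F L = 2 → ∀ x ∈ L, x ∈ S →
      {v | v ∈ L ∧ v ∈ S}.ncard = m := fun L hL x hx hx' =>
    ((hl L hL).resolve_left fun a => a x hx hx' :)
  have hE : ∀ (U : Submodule F V) (n : ℕ), (∀ x ∈ U, x ∈ S → n ∣ {v | v ∈ U ∧ v ∈ S}.ncard) →
      n ∣ {v | v ∈ U ∧ v ∈ S}.ncard := fun U n h => by
    by_cases a : ∃ x ∈ U, x ∈ S
    · obtain ⟨x, a, b⟩ := a
      exact h x a b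
    · rw [Set.eq_empty_of_forall_notMem (s := {v | v ∈ U ∧ v ∈ S}) fun x b => a ⟨x, b⟩,
        Set.ncard_empty]
      exact dvd_zero _
  obtain ⟨a, ha, a0⟩ : ∃ a, m = t * a ∧ a ≠ 0 := by
    obtain ⟨L, h1, h2⟩ := exists_le_finrank (F ∙ p) (j := 2)
      (by rw [finrank_span_singleton (ne0 p hp)]; omega) (by omega)
    have h3 := (span_singleton_le_iff_mem _ _).1 h1
    obtain ⟨a, ha⟩ := Cnt.dvd_ncard (S := (· ∈ S)) h0 hs L
    rw [hN L h2 p h3 hp, ht] at ha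
    refine ⟨a, ha, fun e => ?_⟩
    have := Set.ncard_pos (s := {v | v ∈ L ∧ v ∈ S}) |>.2 ⟨p, h3, hp⟩
    rw [hN L h2 p h3 hp, ha, e] at this
    omega
  have cnt : ∀ (U : Submodule F V), ∀ x ∈ U, x ∈ S → ∃ u, {v | v ∈ U ∧ v ∈ S}.ncard = t * u ∧
      u + (Cnt.ov (F ∙ x) U).card = 1 + (Cnt.ov (F ∙ x) U).card * a := fun U x hx hx' => by
    obtain ⟨u, hu⟩ := Cnt.dvd_ncard (S := (· ∈ S)) h0 hs U
    have := Cnt.sum_pt (S := (· ∈ S)) h0 hs hx' hx
    rw [Finset.sum_congr rfl (g := fun _ => m) fun A hA => hN A (by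
      rw [← (Cnt.mem_ov.1 hA).1.2, finrank_span_singleton (ne0 x hx')]) x
      ((Cnt.mem_ov.1 hA).1.1 (mem_span_singleton_self x)) hx', Finset.sum_const, smul_eq_mul, hu,
      ht, ha] at this
    exact ⟨u, ht ▸ hu, Nat.eq_of_mul_eq_mul_left t0 (by linarith)⟩
  have hpL : p ∉ L₀ := fun e => hL₀' p e hp
  have dπ : finrank F (L₀ ⊔ F ∙ p : Submodule F V) = 3 := by rw [← (Cnt.hyp_sup hpL).2, hL₀]
  obtain ⟨u, hu, hu'⟩ := cnt _ p (Cnt.mem_sup_self L₀ p) hp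
  rw [Cnt.card_ov_two le_sup_right (by rw [dπ, finrank_span_singleton (ne0 p hp)])] at hu'
  obtain ⟨T, hT, dT⟩ := exists_le_finrank (L₀ ⊔ F ∙ p) (j := 4) (by omega) hn
  obtain ⟨w, hw, hw'⟩ := cnt T p (hT (Cnt.mem_sup_self L₀ p)) hp
  rw [Cnt.card_ov_three (le_sup_right.trans hT)
    (by rw [dT, finrank_span_singleton (ne0 p hp)])] at hw'
  have h3 : a ∣ u := by
    obtain ⟨y, hy, y0⟩ := Cnt.ex_notin (A := ⊥) (B := L₀) (by rw [finrank_bot]; omega)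
    have hy' := (span_singleton_le_iff_mem _ _).2 hy
    refine Nat.dvd_of_mul_dvd_mul_left t0 ?_
    rw [← hu, ← ha, Cnt.sum_miss (S := (· ∈ S)) (hy'.trans le_sup_left) fun x hx => hL₀' x (hy' hx)]
    exact Finset.dvd_sum fun A hA => hE A m fun x h1 h2 => (hN A (by
      rw [← (Cnt.mem_ov.1 hA).1.2, finrank_span_singleton (by simpa using y0)]) x h1 h2).symm.dvd
  have h4 : u ∣ w := by
    refine Nat.dvd_of_mul_dvd_mul_left t0 ?_
    rw [← hw, Cnt.sum_miss (S := (· ∈ S)) (le_sup_left.trans hT) hL₀']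
    refine Finset.dvd_sum fun A hA => hE A _ fun x h1 h2 => ?_
    obtain ⟨u', e, e'⟩ := cnt A x h1 h2
    rw [Cnt.card_ov_two ((span_singleton_le_iff_mem _ _).2 h1) (by
      rw [← (Cnt.mem_ov.1 hA).1.2, finrank_span_singleton (ne0 x h2), hL₀])] at e'
    rw [e, show u' = u by omega]
  obtain ⟨r, hr⟩ := CharP.exists F
  have := Fintype.ofFinite F
  obtain ⟨n, rp, hq⟩ := FiniteField.card F r
  rw [← Nat.card_eq_fintype_card] at hq
  rcases Arc.arith rp hq a0 hu' hw' h3 h4 with rfl | rfl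
  · left
    have h5 : span F S ≤ F ∙ p := span_le.2 fun x hx => by_contra fun h => by
      have := Cnt.two_le (S := (· ∈ S)) h0 hs hp hx h (mem_sup_left (mem_span_singleton_self p))
        (Cnt.mem_sup_self (F ∙ p) x)
      rw [hN _ (Cnt.line (ne0 p hp) h) x (Cnt.mem_sup_self _ x) hx] at this
      omega
    intro e
    have := Submodule.finrank_mono h5
    rw [e, finrank_top, finrank_span_singleton (ne0 p hp)] at this
    omega
  · right
    refine ⟨⟨⟨⟨{v | v ∉ S}, fun {x y} hx hy hxy => ?_⟩, h0⟩, fun c x hx =>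
      Cnt.pt_not (S := (· ∈ S)) h0 hs hx (smul_mem _ c (mem_span_singleton_self x))⟩,
      fun _ => Iff.rfl⟩
    have x0 : x ≠ 0 := fun e => hy (by simpa [e] using hxy)
    have y0 : y ≠ 0 := fun e => hx (by simpa [e] using hxy)
    have hyx : y ∉ F ∙ x := fun e =>
      Cnt.pt_not (S := (· ∈ S)) h0 hs hx (add_mem (mem_span_singleton_self x) e) hxy
    have hxL : x ∈ (F ∙ x) ⊔ F ∙ y := mem_sup_left (mem_span_singleton_self x)
    have h5 := Cnt.two_le (F := F) (S := fun v => v ≠ 0 ∧ v ∉ S) (fun a => a.1 rfl)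
      (fun c v hc => by rw [hs c v hc, smul_ne_zero_iff, and_iff_right hc]) ⟨x0, hx⟩ ⟨y0, hy⟩ hyx
      hxL (Cnt.mem_sup_self _ y)
    have h6 := Cnt.compl (S := (· ∈ S)) ((F ∙ x) ⊔ F ∙ y) h0
    rw [hN _ (Cnt.line x0 hyx) _ (add_mem hxL (Cnt.mem_sup_self _ y)) hxy, Cnt.line x0 hyx, ha]
      at h6
    rw [ht] at h5
    have h7 : Nat.card F = t + 1 := by omega
    rw [h7] at h6
    nlinarith

theorem Arc.meet1 (hn : 4 ≤ finrank F V) (hI : Irr K) (h2 : Two K) {S : Set V} (h0 : 0 ∉ S)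
    (hs : ∀ (c : F) v, c ≠ 0 → (c • v ∈ S ↔ v ∈ S)) (hK : ∀ k ∈ K, ∀ v, k v ∈ S ↔ v ∈ S)
    (hne : S.Nonempty) (hne' : ∃ v, v ≠ 0 ∧ v ∉ S) {L : Submodule F V} (hL : finrank F L = 2) :
    ∃ v ∈ L, v ∈ S := by
  by_contra! hm
  obtain ⟨p, hp⟩ := id hne
  have p0 : p ≠ 0 := fun e => h0 (e ▸ hp)
  obtain ⟨M, h1, hM⟩ := exists_le_finrank (F ∙ p) (j := 2)
    (by rw [finrank_span_singleton p0]; omega) (by omega)
  have miss : ∀ A, Eqv K L A → ∀ v ∈ A, v ∉ S := by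
    rintro _ ⟨k, hk, rfl⟩ _ ⟨v, hv, rfl⟩ h
    exact hm v hv ((hK k hk v).1 h)
  rcases arc hn h0 hs hne (m := {v | v ∈ M ∧ v ∈ S}.ncard) (fun A hA => by
    rcases h2 L M A hL hM hA with h | h | ⟨k, hk, rfl⟩
    · exact absurd hp (miss M h p (h1 (mem_span_singleton_self p)))
    · exact Or.inl (miss A h)
    · exact Or.inr (Cnt.ncard_smul (X := (· ∈ S)) (hK k hk) M)) ⟨L, hL, hm⟩ with h | ⟨W, hW⟩
  · rcases hI (span F S) (fun k hk v hv => (span_le (p := (span F S).comap (k : V →ₗ[F] V))).2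
      (fun x hx => subset_span ((hK k hk x).2 hx)) hv) with e | e
    · exact p0 ((mem_bot F).1 (e ▸ subset_span hp))
    · exact h e
  · obtain ⟨v, v0, hv⟩ := hne'
    rcases hI W (fun k hk x hx => (hW _).2 fun a => (hW x).1 hx ((hK k hk x).1 a)) with e | e
    · exact v0 ((mem_bot F).1 (e ▸ (hW v).2 hv))
    · exact (hW p).1 (e ▸ mem_top) hp

/-- PROOF. `arc` for `S` and for the set of non-zero vectors outside `S`. -/
theorem meet (hn : 4 ≤ finrank F V) (hI : Irr K) (h2 : Two K) {S : Set V} (h0 : 0 ∉ S)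
    (hs : ∀ (c : F) v, c ≠ 0 → (c • v ∈ S ↔ v ∈ S)) (hK : ∀ k ∈ K, ∀ v, k v ∈ S ↔ v ∈ S)
    (hne : S.Nonempty) (hne' : ∃ v, v ≠ 0 ∧ v ∉ S) {L : Submodule F V} (hL : finrank F L = 2) :
    (∃ v ∈ L, v ∈ S) ∧ ∃ v ∈ L, v ≠ 0 ∧ v ∉ S := by
  refine ⟨Arc.meet1 hn hI h2 h0 hs hK hne hne' hL,
    Arc.meet1 hn hI h2 (S := {v | v ≠ 0 ∧ v ∉ S}) (fun a => a.1 rfl) (fun c v hc => ?_)
      (fun k hk v => ?_) hne' ?_ hL⟩
  · simp only [Set.mem_ofPred_eq]
    rw [hs c v hc, smul_ne_zero_iff, and_iff_right hc]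
  · simp only [Set.mem_ofPred_eq]
    rw [hK k hk, k.map_ne_zero_iff]
  · obtain ⟨p, hp⟩ := hne
    exact ⟨p, fun e => h0 (e ▸ hp), fun a => a.2 hp⟩

end CL.PL
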