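/-
Rank three actions of the linear groups: elations of a plane.
-/
import Cfsg.Agent.CLAS.PL.Gen
import Cfsg.Agent.CLAS.PL.Arc
import Cfsg.Agent.CLAS.PL.Hy

set_option autoImplicit false
set_option linter.unusedSectionVars false

namespace CL.PL

open Module Submodule
open scoped Pointwise

variable {F : Type*} [Field F] [Finite F] {V : Type*} [AddCommGroup V] [Module F V]
  [FiniteDimensional F V] {K : Subgroup (V ≃ₗ[F] V)}

namespace C0

omit [Finite F] [FiniteDimensional F V] in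
theorem prop {f g : Dual F V} (hf : f ≠ 0) (h : ∀ x, f x = 0 → g x = 0) : ∃ c : F, g = c • f := by
  obtain ⟨y, hy⟩ : ∃ y, f y ≠ 0 := by
    by_contra! a
    exact hf (LinearMap.ext a)
  refine ⟨g y / f y, LinearMap.ext fun x => ?_⟩
  have := h (x - (f x / f y) • y) (by simp [hy])
  simp only [map_sub, map_smul, smul_eq_mul, LinearMap.smul_apply] at this ⊢
  field_simp at this ⊢
  linear_combination this

omit [Finite F] [FiniteDimensional F V] in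
theorem tv_smul {f : Dual F V} {v : V} {c : F} (h : TV K (c • f) v) : TV K f (c • v) := by
  by_cases hc : c = 0
  · exact ⟨by simp [hc], 1, K.one_mem, by simp [hc]⟩
  · exact (TV.smul_iff hc).1 h

theorem core (hn : finrank F V = 3) (ht : SubTr K 2) (he : ¬ TF K) (f : Dual F V) :
    ∀ v, f v = 0 → TV K f v := by
  classical
  have := Cnt.finV F V
  by_cases f0 : f = 0
  · exact fun v _ => f0 ▸ TV.zero_left v
  obtain ⟨f₀, v₀, h₀, f₀0, v₀0⟩ : ∃ f w, TV K f w ∧ f ≠ 0 ∧ w ≠ 0 := by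
    by_contra! a
    exact he fun f v h => or_iff_not_imp_left.2 (a f v h)
  have q1 := Cnt.one_lt (F := F)
  have dk : ∀ g : Dual F V, g ≠ 0 → finrank F (LinearMap.ker g) = 2 := fun g hg => by
    have := Module.Dual.finrank_ker_add_one_of_ne_zero hg
    omega
  have cj : ∀ k : V ≃ₗ[F] V, ∀ g : Dual F V, g ≠ 0 → g ∘ₗ (k⁻¹ : V ≃ₗ[F] V).toLinearMap ≠ 0 :=
    fun k g hg e => hg (LinearMap.ext fun x => by simpa using LinearMap.congr_fun e (k x))
  -- every line is an axis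
  have ax : ∀ g : Dual F V, g ≠ 0 → ∃ v, v ≠ 0 ∧ TV K g v := fun g hg => by
    obtain ⟨k, hk, e⟩ := ht _ _ (dk f₀ f₀0) (dk g hg)
    obtain ⟨c, hc⟩ := prop (g := f₀ ∘ₗ (k⁻¹ : V ≃ₗ[F] V).toLinearMap) hg fun x hx =>
      (mem_smul' (g := k) (A := LinearMap.ker f₀)).1 (e ▸ hx)
    refine ⟨c • k v₀, smul_ne_zero (fun e => cj k f₀ f₀0 (by rw [hc, e, zero_smul])) (by simpa),
      tv_smul (hc ▸ h₀.conj hk)⟩
  -- every point is a centre
  have ce : ∀ w : V, w ≠ 0 → ∃ g, g ≠ 0 ∧ TV K g w := fun w hw => by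
    by_contra hw'
    let S : V → Prop := fun v => v ≠ 0 ∧ ∃ g, g ≠ 0 ∧ TV K g v
    have h0 : ¬ S 0 := fun a => a.1 rfl
    have hs1 : ∀ (c : F) v, c ≠ 0 → S (c • v) → S v := fun c v hc ⟨a, g, b, d⟩ =>
      ⟨right_ne_zero_of_smul a, c • g, smul_ne_zero hc b, (TV.smul_iff hc).2 d⟩
    have hs : ∀ (c : F) v, c ≠ 0 → (S (c • v) ↔ S v) := fun c v hc =>
      ⟨hs1 c v hc, fun a => hs1 c⁻¹ _ (inv_ne_zero hc) (by rwa [inv_smul_smul₀ hc])⟩
    have hK1 : ∀ k ∈ K, ∀ v, S v → S (k v) := fun k hk v ⟨a, g, b, d⟩ =>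
      ⟨by simpa, _, cj k g b, d.conj hk⟩
    have hN : ∀ x, x ≠ 0 → ∑ A ∈ Cnt.ov (F ∙ x) ⊤, {y | y ∈ A ∧ S y}.ncard =
        (Nat.card F + 1) * {y | y ∈ LinearMap.ker f ∧ S y}.ncard := fun x hx => by
      rw [← Cnt.card_ov_two (W := F ∙ x) le_top (by rw [finrank_span_singleton hx, finrank_top, hn]),
        ← smul_eq_mul, ← Finset.sum_const]
      refine Finset.sum_congr rfl fun A hA => ?_
      obtain ⟨k, hk, rfl⟩ := ht _ A (dk f f0)
        (by rw [← (Cnt.mem_ov.1 hA).1.2, finrank_span_singleton hx])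
      exact Cnt.ncard_smul (fun v => ⟨fun a => by simpa using hK1 _ (K.inv_mem hk) _ a,
        hK1 k hk v⟩) _
    have h1 := Cnt.sum_pt h0 hs (U := ⊤) (p := v₀) ⟨v₀0, f₀, f₀0, h₀⟩ mem_top
    rw [hN _ v₀0, Cnt.card_ov_two le_top (by rw [finrank_span_singleton v₀0, finrank_top, hn]),
      Cnt.sum_miss (W := F ∙ w) le_top (fun x hx => Cnt.pt_not h0 hs (fun a => hw' a.2) hx),
      hN _ hw] at h1
    obtain ⟨t, e⟩ : ∃ t, Nat.card F = t + 2 := ⟨Nat.card F - 2, by omega⟩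
    rw [e, show t + 2 - 1 = t + 1 from rfl] at h1
    nlinarith
  -- every flag occurs
  have fl : ∀ (g : Dual F V) w, g ≠ 0 → w ≠ 0 → g w = 0 → ∃ c : F, c ≠ 0 ∧ TV K (c • g) w := by
    intro g w hg hw h
    obtain ⟨v, v0, hv⟩ := ax g hg
    obtain ⟨g', g0, hg'⟩ := ce w hw
    by_cases h1 : g' v = 0
    swap
    · exact ⟨_, h1, hv.com hg' h⟩
    by_cases h2 : v ∈ F ∙ w
    · obtain ⟨c, rfl⟩ := mem_span_singleton.1 h2
      exact ⟨c, left_ne_zero_of_smul v0, (TV.smul_iff (left_ne_zero_of_smul v0)).2 hv⟩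
    have e : (F ∙ w) ⊔ (F ∙ v) = LinearMap.ker g := Submodule.eq_of_le_of_finrank_eq
      (Cnt.sup_le' ((span_singleton_le_iff_mem _ _).2 h) hv.1) (by rw [Cnt.line hw h2, dk g hg])
    obtain ⟨c, rfl⟩ := prop (g := g') hg fun x hx => Cnt.sup_le' (U := LinearMap.ker g')
      ((span_singleton_le_iff_mem _ _).2 hg'.1) h1 (e.ge hx)
    exact ⟨c, left_ne_zero_of_smul g0, hg'⟩
  let T : AddSubgroup V :=
    { carrier := {v | TV K f v}
      zero_mem' := zero_smul F (0 : V) ▸ tv_smul (by rw [zero_smul]; exact TV.zero_left 0)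
      add_mem' := TV.add_right
      neg_mem' := fun {x} hx => neg_one_smul F x ▸ tv_smul (c := -1)
        ((neg_one_smul F f).symm ▸ TV.neg_left hx) }
  have le : ∀ v w, f v = 0 → f w = 0 → v ≠ 0 → w ≠ 0 →
      {x | x ∈ (F ∙ v) ∧ x ∈ T}.ncard ≤ {x | x ∈ (F ∙ w) ∧ x ∈ T}.ncard := fun v w hv hw v0 w0 => by
    by_cases h : v ∈ F ∙ w
    · exact Set.ncard_le_ncard fun x hx => ⟨(span_singleton_le_iff_mem _ _).2 h hx.1, hx.2⟩
    obtain ⟨g, g1, g2⟩ := Hy.ex_dual h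
    obtain ⟨c, c0, hc⟩ := fl g w (fun e => by simp [e] at g1) w0 (g2 w (mem_span_singleton_self w))
    refine Set.ncard_le_ncard_of_injOn (fun x => (c • g) x • w) (fun x hx =>
      ⟨smul_mem _ _ (mem_span_singleton_self w), tv_smul (TV.com hx.2 hc hw)⟩) ?_
    rintro _ ⟨hx, -⟩ _ ⟨hy, -⟩ e
    obtain ⟨a, rfl⟩ := mem_span_singleton.1 hx
    obtain ⟨b, rfl⟩ := mem_span_singleton.1 hy
    have := smul_left_injective F w0 e
    simp only [LinearMap.smul_apply, map_smul, g1, smul_eq_mul, mul_one] at this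
    rw [mul_right_cancel₀ c0 this]
  intro v hv
  by_cases v0 : v = 0
  · exact v0 ▸ T.zero_mem
  obtain ⟨a, ha⟩ : ∃ a, {x | x ∈ (F ∙ v) ∧ x ∈ T}.ncard = a := ⟨_, rfl⟩
  have z : ∀ A : Submodule F V, {x | x ∈ A ∧ x ∈ T}.ncard =
      1 + {x | x ∈ A ∧ x ∉ (⊥ : Submodule F V) ∧ x ∈ T}.ncard := fun A => by
    rw [Cnt.ncard_split (W := ⊥) bot_le, ← Set.ncard_singleton (0 : V)]
    congr 2
    ext x
    exact ⟨fun h => (mem_bot F).1 h.1, fun h => h ▸ ⟨zero_mem _, T.zero_mem⟩⟩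
  have hu : {x | x ∈ LinearMap.ker f ∧ x ∈ T}.ncard + (Nat.card F + 1) =
      1 + (Nat.card F + 1) * a := by
    rw [z, Cnt.sum_ov bot_le, ← Cnt.card_ov_two (W := ⊥) (U := LinearMap.ker f) bot_le
      (by rw [finrank_bot, dk f f0]), add_assoc, Finset.card_eq_sum_ones, ← Finset.sum_add_distrib,
      Finset.sum_mul]
    refine congrArg _ (Finset.sum_congr rfl fun A hA => ?_)
    obtain ⟨w, hw, w0⟩ := Hy.ex_hyp (Cnt.mem_ov.1 hA).1
    have e := Cnt.hyp_eq (Cnt.mem_ov.1 hA).1 hw w0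
    have fw : f w = 0 := (Cnt.mem_ov.1 hA).2 hw
    rw [bot_sup_eq] at e
    rw [add_comm, ← z, one_mul, ← ha, ← e]
    exact le_antisymm (le w v fw hv (by simpa using w0) v0) (le v w hv fw v0 (by simpa using w0))
  have cd : ∀ A : Submodule F V, {x | x ∈ A ∧ x ∈ T}.ncard = Nat.card (A.toAddSubgroup ⊓ T :) :=
    fun A => (Nat.card_coe_set_eq _).symm
  obtain ⟨r, hr⟩ := CharP.exists F
  have := Fintype.ofFinite F
  obtain ⟨n, rp, hq⟩ := FiniteField.card F r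
  rw [← Nat.card_eq_fintype_card] at hq
  have a1 : 1 ≤ a := by rw [← ha, z]; omega
  obtain ⟨b, rfl⟩ := Nat.exists_eq_add_of_le a1
  rcases Arc.arith (w := {x | x ∈ LinearMap.ker f ∧ x ∈ T}.ncard + Nat.card F ^ 2 * b) rp hq
    (by omega) hu (by nlinarith) (by
      rw [← ha, cd, cd]
      exact AddSubgroup.card_dvd_of_le (inf_le_inf_right _ ((span_singleton_le_iff_mem _ _).2 hv)))
    (dvd_add dvd_rfl (Dvd.dvd.mul_right (by
      rw [cd, ← dk f f0, ← Hy.card_sub]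
      exact AddSubgroup.card_dvd_of_le inf_le_left) _)) with h | h
  · obtain ⟨c, c0, hc⟩ := fl f v f0 v0 hv
    have := (Set.ncard_pos (s := {x | x ∈ (F ∙ v) ∧ x ∉ (⊥ : Submodule F V) ∧ x ∈ T})).2
      ⟨c • v, smul_mem _ _ (mem_span_singleton_self v), by simp [c0, v0], tv_smul hc⟩
    rw [z] at ha
    omega
  · have := Set.eq_of_subset_of_ncard_le (s := {x | x ∈ (F ∙ v) ∧ x ∈ T}) (t := (F ∙ v :))
      (fun x hx => hx.1) (by rw [Cnt.ncard_sub, finrank_span_singleton v0, pow_one, ha, h])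
    exact (this.ge (mem_span_singleton_self v)).2

/-- the group induced on `π` -/
def ind (K : Subgroup (V ≃ₗ[F] V)) (π : Submodule F V) : Subgroup (π ≃ₗ[F] π) where
  carrier := {j | ∃ k ∈ K, ∀ x : π, k x = j x}
  one_mem' := ⟨1, K.one_mem, fun _ => rfl⟩
  mul_mem' := fun ⟨k, hk, e⟩ ⟨l, hl, d⟩ => ⟨k * l, K.mul_mem hk hl, fun x => by
    rw [LinearEquiv.mul_apply, d, e, LinearEquiv.mul_apply]⟩
  inv_mem' := fun {j} ⟨k, hk, e⟩ => ⟨k⁻¹, K.inv_mem hk, fun x => by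
    rw [LinearEquiv.coe_inv, LinearEquiv.symm_apply_eq, e]
    simp⟩

theorem all {π : Submodule F V} (hπ : finrank F π = 3)
    (ht : ∀ L L', Hyp π L → Hyp π L' → ∃ k ∈ K, k • π = π ∧ k • L = L')
    (he : ∃ k ∈ K, TvOn π k) : ∀ f v, f v = 0 → TV (ind K π) f v := by
  refine core hπ (fun A B hA hB => ?_) fun h => ?_
  · have hy : ∀ A : Submodule F π, finrank F A = 2 → Hyp π (A.map π.subtype) := fun A hA =>
      ⟨map_subtype_le _ _, by rw [finrank_map_subtype_eq, hA, hπ]⟩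
    obtain ⟨k, hk, e, e'⟩ := ht _ _ (hy A hA) (hy B hB)
    refine ⟨k.ofSubmodules π π e, ⟨k, hk, fun _ => rfl⟩,
      Submodule.eq_of_le_of_finrank_eq ?_ (by rw [finrank_smul, hA, hB])⟩
    rintro _ ⟨x, hx, rfl⟩
    obtain ⟨y, hy, e''⟩ := e'.le (apply_mem_smul.2 ⟨x, hx, rfl⟩)
    exact (Subtype.ext e'' : y = k.ofSubmodules π π e x) ▸ hy
  · obtain ⟨k, hk, f, w, hw, w0, fw, ⟨x, hx, fx⟩, e⟩ := he
    have h1 : (f ∘ₗ π.subtype) ⟨w, hw⟩ = 0 := fw
    rcases h _ _ ⟨h1, LinearEquiv.transvection h1, ⟨k, hk, fun x => by simp [e x x.2,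
      LinearMap.transvection.apply]⟩, fun x => by simp [LinearMap.transvection.apply]⟩ with h | h
    · exact fx (LinearMap.congr_fun h ⟨x, hx⟩)
    · exact w0 (congrArg Subtype.val h)

end C0

/-- PROOF. Let `J ≤ GL(π)` be the group induced by the stabiliser of `π` and use `TV J`, `TV.com`,
`TV.conj`. Every line is an axis. Every axis has two different centres: otherwise `ℓ ↦ c(ℓ)`, and
`c(ℓ) ≤ ℓ'` forces `c(ℓ') ≤ ℓ` (`TV.com`), so all lines through `c(ℓ)` have this centre; two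
different centres are joined by a line. So for every centre `z` and line `ℓ > z`, `(z, ℓ)` occurs
(`TV.com`). All lines contain the same number `a ≥ 2` of centres: `1 + (q+1)(a-1)` in total, and
`(q+1) a` if some point is not a centre; so all points are centres. Basis `eᵢ`, dual `fᵢ`,
`A_ij = {c | TV J (c fⱼ) eᵢ} ≠ 0` additive, `A_ij A_jk ⊆ A_ik`, so all have the same size and
`γ A_ij = A_ik` for `0 ≠ γ ∈ A_jk`, `γ A_jk = A_ik` for `0 ≠ γ ∈ A_ij`. For `λ ≠ 0` pick `c ≠ 0` with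
`TV J (c f₃) (e₁ + λ e₂)`: `TV.com` gives `c A₂₁ = A₂₃`, `c λ A₁₂ = A₁₃`. With `0 ≠ a ∈ A₁₂`,
`0 ≠ b ∈ A₂₁`: `A₁₃ = a A₂₃`, and `F₀ = {x | x A₂₃ ⊆ A₂₃}` is a subfield with `A_ij = γ F₀` for every
`0 ≠ γ ∈ A_ij`, `a b ∈ F₀`; so `A₂₃ = c b F₀`, `A₁₃ = c a b F₀ = c F₀ = c λ a F₀`, `λ a ∈ F₀` for all `λ`,
`F₀ = F`. The basis is arbitrary. -/
theorem plane_tv {π : Submodule F V} (hπ : finrank F π = 3)
    (ht : ∀ L L', Hyp π L → Hyp π L' → ∃ k ∈ K, k • π = π ∧ k • L = L')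
    (he : ∃ k ∈ K, TvOn π k) {f : Dual F V} {w : V} (hw : w ∈ π) (hf : f w = 0) :
    ∃ k ∈ K, ∀ x ∈ π, k x = x + f x • w := by
  obtain ⟨-, j, ⟨k, hk, e⟩, d⟩ := C0.all hπ ht he (f ∘ₗ π.subtype) ⟨w, hw⟩ hf
  exact ⟨k, hk, fun x hx => (e ⟨x, hx⟩).trans (congrArg Subtype.val (d ⟨x, hx⟩))⟩

/-- PROOF. `mem_of_tv` for the induced group `J ≤ GL(π)`: it contains all maps of determinant one;
a map of `L` extends to one of determinant one on `π`. -/
theorem plane_full_line {π L : Submodule F V} (hπ : finrank F π = 3) (hL : Hyp π L)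
    (ht : ∀ L L', Hyp π L → Hyp π L' → ∃ k ∈ K, k • π = π ∧ k • L = L')
    (he : ∃ k ∈ K, TvOn π k) : Full K L := by
  intro g hg
  obtain ⟨g', h1, h2⟩ := Hy.ext_hyp g hL (hg.symm ▸ hL)
  obtain ⟨y, hy, e⟩ := ag_G0 (S := L.comap π.subtype) (by
    rw [(Submodule.comapSubtypeEquivOfLe hL.1).finrank_eq, ← hL.2]; omega) (g'.ofSubmodules π π h2)
  obtain ⟨k, hk, d⟩ := mem_of_tv (C0.all hπ ht he) hy
  exact ⟨k, hk, fun s hs => (d ⟨s, hL.1 hs⟩).trans
    ((congrArg Subtype.val (e ⟨s, hL.1 hs⟩ hs)).trans (h1 s hs))⟩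

theorem plane_full_two (hq : Nat.card F = 2) {π : Submodule F V} (hπ : finrank F π = 3)
    (ht : ∀ L L', Hyp π L → Hyp π L' → ∃ k ∈ K, k • π = π ∧ k • L = L')
    (he : ∃ k ∈ K, TvOn π k) : Full K π := by
  intro g hg
  have : Subsingleton Fˣ := (Nat.card_eq_one_iff_unique.1 (by rw [Nat.card_units, hq])).1
  obtain ⟨k, hk, d⟩ := mem_of_tv (C0.all hπ ht he) (g := g.ofSubmodules π π hg)
    (Subsingleton.elim _ _)
  exact ⟨k, hk, fun s hs => d ⟨s, hs⟩⟩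

/-- PROOF. `g • S = k • S`, and `k⁻¹ g` stabilises `S`. -/
theorem tr_of_full {j : ℕ} (hs : SubTr K j) {S : Submodule F V} (hS : finrank F S = j)
    (hF : Full K S) : Tr K j := by
  intro A hA g
  obtain ⟨k, hk, rfl⟩ := hs S A hS hA
  obtain ⟨l, hl, e⟩ := hs S (g • k • S) hS (by rw [finrank_smul, hA])
  obtain ⟨m, hm, d⟩ := hF (l⁻¹ * g * k) (by rw [mul_smul, mul_smul, ← e, inv_smul_smul])
  refine ⟨l * m * k⁻¹, K.mul_mem (K.mul_mem hl hm) (K.inv_mem hk), ?_⟩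
  rintro _ ⟨s, hs, rfl⟩
  simp [d s hs]

end CL.PL
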