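/-
Rank three actions of the linear groups: the abstract span lemma.
-/
import Mathlib

set_option autoImplicit false
set_option maxHeartbeats 200000

namespace CL.PL

namespace AbsAux

open Matrix

variable {G Ω : Type*} [Group G] [Fintype Ω] [MulAction G Ω]

variable (G Ω) in
/-- The invariant kernels. -/
def invK : Submodule ℝ (Matrix Ω Ω ℝ) where
  carrier := {X | ∀ (g : G) a b, X (g • a) (g • b) = X a b}
  zero_mem' := fun _ _ _ => rfl
  add_mem' := fun hX hY g a b => by rw [Matrix.add_apply, Matrix.add_apply, hX, hY]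
  smul_mem' := fun c X hX g a b => by rw [Matrix.smul_apply, Matrix.smul_apply, hX]

theorem finrank_invK :
    Module.finrank ℝ (invK G Ω) ≤ Nat.card (MulAction.orbitRel.Quotient G (Ω × Ω)) := by
  classical
  let Q := MulAction.orbitRel.Quotient G (Ω × Ω)
  have : Fintype Q := Fintype.ofFinite Q
  let φ : invK G Ω →ₗ[ℝ] (Q → ℝ) :=
    { toFun := fun X q => X.1 q.out.1 q.out.2
      map_add' := fun _ _ => rfl
      map_smul' := fun _ _ => rfl }
  have hφ : Function.Injective φ := by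
    rw [injective_iff_map_eq_zero]
    intro X hX
    ext a b
    let q : Q := Quotient.mk'' (a, b)
    have h1 : (MulAction.orbitRel G (Ω × Ω)) q.out (a, b) := Quotient.mk_out' (a, b)
    obtain ⟨g, hg⟩ := MulAction.orbitRel_apply.1 h1
    have h2 : X.1 q.out.1 q.out.2 = 0 := congrFun hX q
    rw [← hg] at h2
    exact (X.2 g a b).symm.trans h2
  have := LinearMap.finrank_le_finrank_of_injective hφ
  rwa [Module.finrank_fintype_fun_eq_card, ← Nat.card_eq_fintype_card] at this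

theorem span_three {E : Type*} [AddCommGroup E] [Module ℝ E] [FiniteDimensional ℝ E]
    {M : Submodule ℝ E} (hM : Module.finrank ℝ M ≤ 3) {x y z : E} (hx : x ∈ M) (hy : y ∈ M)
    (hz : z ∈ M) (hi : ∀ a b c : ℝ, a • x + b • y + c • z = 0 → a = 0 ∧ b = 0 ∧ c = 0)
    {w : E} (hw : w ∈ M) : ∃ a b c : ℝ, w = a • x + b • y + c • z := by
  have hl : LinearIndependent ℝ ![x, y, z] := by
    rw [Fintype.linearIndependent_iff]
    intro g hg
    rw [Fin.sum_univ_three] at hg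
    obtain ⟨h0, h1, h2⟩ := hi _ _ _ hg
    intro i
    fin_cases i
    exacts [h0, h1, h2]
  have hle : Submodule.span ℝ (Set.range ![x, y, z]) ≤ M := by
    rw [Submodule.span_le]
    rintro _ ⟨i, rfl⟩
    fin_cases i
    exacts [hx, hy, hz]
  have he := Submodule.eq_of_le_of_finrank_le hle (by
    rw [finrank_span_eq_card hl]
    simpa using hM)
  rw [← he, Submodule.mem_span_range_iff_exists_fun] at hw
  obtain ⟨g, hg⟩ := hw
  rw [Fin.sum_univ_three] at hg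
  exact ⟨_, _, _, hg.symm⟩

theorem dot_nonneg (m : Ω → ℝ) : 0 ≤ m ⬝ᵥ m :=
  Finset.sum_nonneg fun _ _ => mul_self_nonneg _

theorem dot_pos {m : Ω → ℝ} (h : m ≠ 0) : 0 < m ⬝ᵥ m :=
  (dot_nonneg m).lt_of_ne fun e => h (dotProduct_self_eq_zero.1 e.symm)

theorem dot_symm {A : Matrix Ω Ω ℝ} (hs : ∀ a b, A a b = A b a) (x y : Ω → ℝ) :
    x ⬝ᵥ A *ᵥ y = A *ᵥ x ⬝ᵥ y := by
  simp only [dotProduct, mulVec, Finset.mul_sum, Finset.sum_mul]
  rw [Finset.sum_comm]
  refine Finset.sum_congr rfl fun a _ => Finset.sum_congr rfl fun b _ => ?_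
  rw [hs a b]
  ring

theorem mulVec_fix {A : Matrix Ω Ω ℝ} {h : G} (hi : ∀ a b, A (h • a) (h • b) = A a b)
    {m : Ω → ℝ} (hm : ∀ a, m (h • a) = m a) (a : Ω) : (A *ᵥ m) (h • a) = (A *ᵥ m) a := by
  simp only [mulVec, dotProduct]
  rw [← Equiv.sum_comp (MulAction.toPerm h)]
  simp only [MulAction.toPerm_apply, hi, hm]

theorem mul_inv_mem {A B : Matrix Ω Ω ℝ} (hA : A ∈ invK G Ω) (hB : B ∈ invK G Ω) :
    A * B ∈ invK G Ω := by
  intro g a b
  simp only [mul_apply]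
  rw [← Equiv.sum_comp (MulAction.toPerm g)]
  simp only [MulAction.toPerm_apply, hA g, hB g]

theorem sum_mulVec {A : Matrix Ω Ω ℝ} (hs : ∀ a b, A a b = A b a) {S : ℝ}
    (hrow : ∀ a, ∑ b, A a b = S) {m : Ω → ℝ} (hm : ∑ a, m a = 0) : ∑ a, (A *ᵥ m) a = 0 := by
  simp only [mulVec, dotProduct]
  rw [Finset.sum_comm]
  have : ∀ b, ∑ a, A a b * m b = S * m b := fun b => by
    rw [← Finset.sum_mul, ← hrow b]
    simp only [hs _ b]
  simp only [this, ← Finset.mul_sum, hm, mul_zero]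

theorem comb_mulVec [DecidableEq Ω] (A : Matrix Ω Ω ℝ) (x y z : ℝ) {m : Ω → ℝ}
    (hm : ∑ a, m a = 0) :
    (x • (1 : Matrix Ω Ω ℝ) + y • (Matrix.of fun _ _ => (1 : ℝ)) + z • A) *ᵥ m =
      x • m + z • A *ᵥ m := by
  have : (Matrix.of fun (_ : Ω) (_ : Ω) => (1 : ℝ)) *ᵥ m = 0 := by
    ext a
    simp [mulVec, dotProduct, hm]
  rw [add_mulVec, add_mulVec, smul_mulVec, smul_mulVec, smul_mulVec, one_mulVec, this, smul_zero,
    add_zero]

/-- The smaller eigenvalue on zero-sum vectors bounds the quadratic form. -/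
theorem low {A : Matrix Ω Ω ℝ} (hs : ∀ a b, A a b = A b a) {p n : ℝ} (hpn : n ≤ p) {m : Ω → ℝ}
    (h : A *ᵥ (A *ᵥ m) = (p + n) • A *ᵥ m - (p * n) • m) : n * (m ⬝ᵥ m) ≤ m ⬝ᵥ A *ᵥ m := by
  set y := A *ᵥ m - n • m with hy
  have h1 : A *ᵥ y = p • y := by
    rw [hy, mulVec_sub, mulVec_smul, h]
    module
  have h2 : y ⬝ᵥ y = (p - n) * (m ⬝ᵥ y) := by
    conv_lhs => rw [hy, sub_dotProduct, ← hy, ← dot_symm hs, h1]
    simp only [dotProduct_smul, smul_dotProduct, smul_eq_mul]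
    ring
  have h3 : m ⬝ᵥ y = m ⬝ᵥ A *ᵥ m - n * (m ⬝ᵥ m) := by
    rw [hy, dotProduct_sub, dotProduct_smul, smul_eq_mul]
  rcases hpn.eq_or_lt with rfl | hlt
  · have : y = 0 := dotProduct_self_eq_zero.1 (by rw [h2]; ring)
    rw [this, dotProduct_zero] at h3
    linarith
  · have h4 := dot_nonneg y
    rw [h2] at h4
    have := nonneg_of_mul_nonneg_right h4 (sub_pos.2 hlt)
    linarith

end AbsAux

open Matrix AbsAux in
theorem abs_span {G Ω I : Type*} [Group G] [Fintype Ω] [Fintype I] [MulAction G Ω]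
    (horb : Nat.card (MulAction.orbitRel.Quotient G (Ω × Ω)) ≤ 3)
    (T : Ω → Ω → ℝ) (hs : ∀ a b, T a b = T b a) (hi : ∀ (g : G) a b, T (g • a) (g • b) = T a b)
    (h0 : ∀ a, T a a = 0) {S : ℝ} (hS : 0 < S) (hrow : ∀ a, ∑ b, T a b = S)
    (𝓗 : Set (Set G))
    (hpos : ∀ H ∈ 𝓗, ∀ m : Ω → ℝ, (∀ h ∈ H, ∀ a, m (h • a) = m a) → m ≠ 0 →
      0 < ∑ a, ∑ b, m a * T a b * m b)
    (c : I → Ω → ℝ)
    (hcB : ∀ (g : G) a b, ∑ i, c i (g • a) * c i (g • b) = ∑ i, c i a * c i b)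
    (hc0 : ∀ i, ∑ a, c i a = 0) (hcH : ∀ i, ∃ H ∈ 𝓗, ∀ h ∈ H, ∀ a, c i (h • a) = c i a)
    (hne : ∃ i, c i ≠ 0) :
    ∃ γ : ℝ, γ ≠ 0 ∧ ∀ m : Ω → ℝ, ∑ a, m a = 0 → (∃ H ∈ 𝓗, ∀ h ∈ H, ∀ a, m (h • a) = m a) →
      ∀ a, γ * m a = ∑ i, c i a * ∑ b, c i b * m b := by
  classical
  obtain ⟨i₀, hi₀⟩ := hne
  obtain ⟨a₀, -⟩ := Function.ne_iff.1 hi₀
  let A : Matrix Ω Ω ℝ := Matrix.of T
  let J : Matrix Ω Ω ℝ := Matrix.of fun _ _ => (1 : ℝ)
  have hAs : ∀ a b, A a b = A b a := hs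
  have hAm : A ∈ invK G Ω := hi
  have hpos' : ∀ m : Ω → ℝ, (∃ H ∈ 𝓗, ∀ h ∈ H, ∀ a, m (h • a) = m a) → m ≠ 0 →
      0 < m ⬝ᵥ A *ᵥ m := by
    rintro m ⟨H, hH, hm⟩ hm0
    convert hpos H hH m hm hm0 using 1
    simp only [dotProduct, mulVec, Finset.mul_sum, mul_assoc]
    rfl
  have hN : (1 : ℝ) ≤ Fintype.card Ω := by
    exact_mod_cast Fintype.card_pos_iff.2 ⟨a₀⟩
  have hc₀ := dot_pos hi₀
  have hbasis : ∀ X ∈ invK G Ω, ∃ x y z : ℝ, X = x • (1 : Matrix Ω Ω ℝ) + y • J + z • A := by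
    intro X hX
    refine span_three (finrank_invK.trans horb) (fun g a b => ?_) (fun _ _ _ => rfl) hAm ?_ hX
    · simp [one_apply]
    intro x y z h
    have h1 : x + y = 0 := by
      have := congrFun (congrFun h a₀) a₀
      simpa [A, J, h0] using this
    have h2 : x + y * Fintype.card Ω + z * S = 0 := by
      have := congrArg (fun X : Matrix Ω Ω ℝ => ∑ b, X a₀ b) h
      simp only [Matrix.add_apply, Matrix.smul_apply, smul_eq_mul, Finset.sum_add_distrib,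
        ← Finset.mul_sum,
        Matrix.zero_apply, Finset.sum_const_zero] at this
      simpa [A, J, hrow, one_apply] using this
    have h3 := comb_mulVec A x y z (hc0 i₀)
    rw [h, zero_mulVec] at h3
    have h4 := congrArg (fun v => c i₀ ⬝ᵥ v) h3
    simp only [dotProduct_zero, dotProduct_add, dotProduct_smul, smul_eq_mul] at h4
    have h5 := hpos' _ (hcH i₀) hi₀
    have hy : y = -x := by linarith
    subst hy
    have hz : z = 0 := by
      by_contra hz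
      have h6 : x * z < 0 := by
        have : x * z * (c i₀ ⬝ᵥ c i₀) < 0 := by
          have := mul_pos (mul_self_pos.2 hz) h5
          have e : x * z * (c i₀ ⬝ᵥ c i₀) = -(z * z * (c i₀ ⬝ᵥ A *ᵥ c i₀)) := by
            linear_combination (-z) * h4
          linarith
        by_contra hh
        exact absurd this (not_lt.2 (mul_nonneg (not_lt.1 hh) hc₀.le))
      have h7 := mul_pos (mul_self_pos.2 hz) hS
      have h8 : z * z * S = x * z * (Fintype.card Ω - 1) := by linear_combination z * h2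
      nlinarith
    subst hz
    have hx : x = 0 := by
      have : x * (c i₀ ⬝ᵥ c i₀) = 0 := by linarith
      exact (mul_eq_zero.1 this).resolve_right hc₀.ne'
    simp [hx]
  obtain ⟨w, v, u, hAA⟩ := hbasis _ (mul_inv_mem hAm hAm)
  have hsq : ∀ m : Ω → ℝ, ∑ a, m a = 0 → A *ᵥ (A *ᵥ m) = w • m + u • A *ᵥ m := fun m hm => by
    rw [mulVec_mulVec, hAA, comb_mulVec A w v u hm]
  have hD : 0 ≤ w + u ^ 2 / 4 := by
    have h1 := dot_nonneg (A *ᵥ c i₀ - (u / 2) • c i₀)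
    have h2 := dot_symm hAs (c i₀) (A *ᵥ c i₀)
    have h3 := dotProduct_comm (c i₀) (A *ᵥ c i₀)
    rw [hsq _ (hc0 i₀)] at h2
    simp only [sub_dotProduct, dotProduct_sub, dotProduct_add, dotProduct_smul, smul_dotProduct,
      smul_eq_mul] at h1 h2
    have h4 : 0 ≤ (w + u ^ 2 / 4) * (c i₀ ⬝ᵥ c i₀) := by
      rw [← h2, ← h3] at h1
      linarith
    exact nonneg_of_mul_nonneg_left h4 hc₀
  obtain ⟨p, n, hpn, hu, hw⟩ : ∃ p n : ℝ, n ≤ p ∧ u = p + n ∧ w = -(p * n) := by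
    have h1 := Real.sqrt_nonneg (w + u ^ 2 / 4)
    have h2 := Real.mul_self_sqrt hD
    exact ⟨u / 2 + √(w + u ^ 2 / 4), u / 2 - √(w + u ^ 2 / 4), by linarith, by ring,
      by linear_combination -h2⟩
  have hsq' : ∀ m : Ω → ℝ, ∑ a, m a = 0 →
      A *ᵥ (A *ᵥ m) = (p + n) • A *ᵥ m - (p * n) • m := fun m hm => by
    rw [hsq m hm, hu, hw]
    module
  have hn : n < 0 := by
    let m : Ω → ℝ := (Fintype.card Ω : ℝ) • Pi.single a₀ 1 - 1
    have hm : ∑ a, m a = 0 := by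
      simp [m, Finset.sum_sub_distrib, ← Finset.mul_sum]
    have h1 := low hAs hpn (hsq' m hm)
    have hA1 : A *ᵥ 1 = S • (1 : Ω → ℝ) := by
      ext a
      simp [mulVec, dotProduct, A, hrow]
    have h2 : m ⬝ᵥ A *ᵥ m = -(Fintype.card Ω * S) := by
      have e1 : (1 : Ω → ℝ) ⬝ᵥ A *ᵥ (Pi.single a₀ 1) = S := by
        rw [dot_symm hAs, hA1]
        simp
      have e2 : (Pi.single a₀ 1 : Ω → ℝ) ⬝ᵥ A *ᵥ (Pi.single a₀ 1) = 0 := by
        simp [A, h0]
      simp only [m, mulVec_sub, mulVec_smul, hA1, sub_dotProduct, dotProduct_sub, smul_dotProduct,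
        dotProduct_smul, e1, e2, smul_eq_mul]
      simp
    by_contra hh
    have h3 := mul_nonneg (not_lt.1 hh) (dot_nonneg m)
    have h4 := mul_pos (lt_of_lt_of_le one_pos hN) hS
    linarith
  have heig : ∀ m : Ω → ℝ, ∑ a, m a = 0 → (∃ H ∈ 𝓗, ∀ h ∈ H, ∀ a, m (h • a) = m a) →
      A *ᵥ m = p • m := by
    rintro m hm ⟨H, hH, hf⟩
    by_contra hne
    have h1 : A *ᵥ (A *ᵥ m - p • m) = n • (A *ᵥ m - p • m) := by
      rw [mulVec_sub, mulVec_smul, hsq' m hm]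
      module
    have h2 := hpos' (A *ᵥ m - p • m) ⟨H, hH, fun h hh a => by
      simp only [Pi.sub_apply, Pi.smul_apply, mulVec_fix (hAm h) (hf h hh), hf h hh]⟩
      (sub_ne_zero.2 hne)
    rw [h1, dotProduct_smul, smul_eq_mul] at h2
    have := mul_nonpos_of_nonpos_of_nonneg hn.le (dot_nonneg (A *ᵥ m - p • m))
    linarith
  let B : Matrix Ω Ω ℝ := Matrix.of fun a b => ∑ i, c i a * c i b
  obtain ⟨x, y, z, hB⟩ := hbasis B hcB
  have hBm : ∀ (m : Ω → ℝ) a, (B *ᵥ m) a = ∑ i, c i a * ∑ b, c i b * m b := fun m a => by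
    simp only [mulVec, dotProduct, B, of_apply, Finset.sum_mul, Finset.mul_sum, mul_assoc]
    exact Finset.sum_comm
  have key : ∀ m : Ω → ℝ, ∑ a, m a = 0 → (∃ H ∈ 𝓗, ∀ h ∈ H, ∀ a, m (h • a) = m a) →
      ∀ a, (x + z * p) * m a = ∑ i, c i a * ∑ b, c i b * m b := fun m hm hH a => by
    rw [← hBm, hB, comb_mulVec A x y z hm, heig m hm hH]
    simp only [Pi.add_apply, Pi.smul_apply, smul_eq_mul]
    ring
  refine ⟨x + z * p, fun hγ => ?_, key⟩
  have h1 : ∑ i, (c i ⬝ᵥ c i₀) * (c i ⬝ᵥ c i₀) = 0 := by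
    have h2 : ∀ a, ∑ i, c i a * ∑ b, c i b * c i₀ b = 0 := fun a => by
      rw [← key _ (hc0 i₀) (hcH i₀) a, hγ, zero_mul]
    calc ∑ i, (c i ⬝ᵥ c i₀) * (c i ⬝ᵥ c i₀)
        = ∑ a, c i₀ a * ∑ i, c i a * ∑ b, c i b * c i₀ b := by
          simp only [dotProduct, Finset.sum_mul]
          rw [Finset.sum_comm]
          refine Finset.sum_congr rfl fun a _ => ?_
          rw [Finset.mul_sum]
          refine Finset.sum_congr rfl fun i _ => ?_
          ring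
      _ = 0 := by simp [h2]
  have h3 := (Finset.sum_eq_zero_iff_of_nonneg fun i _ => mul_self_nonneg (c i ⬝ᵥ c i₀)).1 h1 i₀
    (Finset.mem_univ _)
  exact (mul_pos hc₀ hc₀).ne' h3

end CL.PL
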