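/-
Rank three actions of the linear groups: the kernel formula.
-/
import Cfsg.Agent.CLAS.PL.Gen
import Cfsg.Agent.CLAS.PL.Hy
import Cfsg.Agent.CLAS.PL.Abs

set_option autoImplicit false

namespace CL.PL

open Module Submodule
open scoped Pointwise

variable {F : Type*} [Field F] [Finite F] {V : Type*} [AddCommGroup V] [Module F V]
  [FiniteDimensional F V] {K : Subgroup (V ≃ₗ[F] V)}

namespace Kr

section
omit [Finite F]

open scoped Classical in
/-- transvections as elements of `G0` -/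
noncomputable def τ (f : Dual F V) (v : V) : G0 F V :=
  if h : f v = 0 then ⟨LinearEquiv.transvection h, transvection_mem_G0 h⟩ else 1

theorem τ_apply {f : Dual F V} {v : V} (h : f v = 0) (x : V) : (τ f v).1 x = x + f x • v := by
  rw [τ, dif_pos h]; rfl

theorem τ_add {f : Dual F V} {v w : V} (h : f v = 0) (h' : f w = 0) : τ f (v + w) = τ f v * τ f w :=
  Subtype.ext (LinearEquiv.ext fun x => by
    rw [Subgroup.coe_mul, LinearEquiv.mul_apply, τ_apply h, τ_apply h', τ_apply (by simp [h, h'])]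
    simp only [map_add, map_smul, h', smul_zero, add_zero]
    module)

theorem τ_zero (f : Dual F V) : τ f 0 = 1 :=
  Subtype.ext (LinearEquiv.ext fun x => by rw [τ_apply f.map_zero, smul_zero, add_zero]; rfl)

theorem τ_neg {f : Dual F V} {v : V} (h : f v = 0) : τ f (-v) = (τ f v)⁻¹ :=
  eq_inv_of_mul_eq_one_left (by rw [← τ_add (by simp [h]) h, neg_add_cancel, τ_zero])

theorem τ_conj (g : G0 F V) {f : Dual F V} {v : V} (h : f v = 0) :
    τ (g.1.symm.dualMap f) (g.1 v) * g = g * τ f v :=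
  Subtype.ext (LinearEquiv.ext fun x => by
    simp only [Subgroup.coe_mul, LinearEquiv.mul_apply]
    rw [τ_apply h, τ_apply (by simpa using h)]
    simp)

variable (K) in
/-- the coset space -/
abbrev Om := G0 F V ⧸ K.subgroupOf (G0 F V)

omit [FiniteDimensional F V]

/-- functions on the coset space -/
noncomputable def lf (φ : (V ≃ₗ[F] V) → ℝ) (g : V ≃ₗ[F] V) (ω : Om K) : ℝ := φ (ω.out.1⁻¹ * g)

variable {φ : (V ≃ₗ[F] V) → ℝ} (hφ : ∀ k ∈ K, ∀ g, φ (k * g) = φ g)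
include hφ

theorem lf_mk (g : V ≃ₗ[F] V) (x : G0 F V) : lf φ g (x : Om K) = φ (x.1⁻¹ * g) := by
  obtain ⟨k, e⟩ := QuotientGroup.mk_out_eq_mul (K.subgroupOf (G0 F V)) x
  rw [lf, e, Subgroup.coe_mul, mul_inv_rev, mul_assoc]
  exact hφ _ (K.inv_mem k.2) _

theorem lf_smul (g : V ≃ₗ[F] V) (y : G0 F V) (ω : Om K) : lf φ (y * g) (y • ω) = lf φ g ω := by
  induction ω using QuotientGroup.induction_on with
  | H x => rw [MulAction.Quotient.smul_coe, lf_mk hφ, lf_mk hφ]; simp [mul_assoc]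

omit hφ in
theorem orb [Finite (V ≃ₗ[F] V)] (h : R3 K) :
    Nat.card (MulAction.orbitRel.Quotient (G0 F V) (Om K × Om K)) ≤ 3 := by
  classical
  have := Fintype.ofFinite (MulAction.orbitRel.Quotient (G0 F V) (Om K × Om K))
  let o : G0 F V → MulAction.orbitRel.Quotient (G0 F V) (Om K × Om K) := fun a => Quotient.mk'' ((1 : G0 F V), a)
  have dc : ∀ a b : G0 F V, DC K a b → o a = o b := by
    rintro a b ⟨k, hk, k', hk', e⟩
    refine Eq.symm (Quotient.sound' ⟨⟨k, h.le hk⟩, Prod.ext (QuotientGroup.eq.2 ?_) (QuotientGroup.eq.2 ?_)⟩)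
    · simpa [Subgroup.mem_subgroupOf] using hk
    · simpa [Subgroup.mem_subgroupOf, e, mul_assoc] using hk'
  have ex : ∀ q, q ≠ o 1 → ∃ a : G0 F V, a.1 ∉ K ∧ o a = q := fun q n => by
    obtain ⟨⟨x, y⟩, rfl⟩ := Quotient.exists_rep q
    obtain ⟨x, rfl⟩ := QuotientGroup.mk_surjective x
    obtain ⟨y, rfl⟩ := QuotientGroup.mk_surjective y
    have e : o (x⁻¹ * y) = ⟦((x : Om K), (y : Om K))⟧ := Quotient.sound' ⟨x⁻¹, Prod.ext (by simp) (by simp)⟩
    exact ⟨_, fun m => n (e.symm.trans (dc 1 _ ⟨_, m, 1, K.one_mem, by simp⟩).symm), e⟩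
  by_contra! hn
  obtain ⟨a, ha, b, hb, c, hc, n1, n2, n3⟩ := Finset.two_lt_card.1 (show 2 < (Finset.univ.erase (o 1)).card by
    rw [Finset.card_erase_of_mem (Finset.mem_univ _), Finset.card_univ, ← Nat.card_eq_fintype_card]; omega)
  obtain ⟨a, a1, rfl⟩ := ex a (Finset.ne_of_mem_erase ha)
  obtain ⟨b, b1, rfl⟩ := ex b (Finset.ne_of_mem_erase hb)
  obtain ⟨c, c1, rfl⟩ := ex c (Finset.ne_of_mem_erase hc)
  rcases h.four a a.2 b b.2 c c.2 a1 b1 c1 with e | e | e
  exacts [n1 (dc _ _ e), n2 (dc _ _ e), n3 (dc _ _ e)]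

end

variable [Fintype (Om K)]

theorem sum_lf [Fintype (V ≃ₗ[F] V)] {φ : (V ≃ₗ[F] V) → ℝ} (hφ : ∀ k ∈ K, ∀ g, φ (k * g) = φ g) {S : Submodule F V}
    (hS : finrank F S < finrank F V) (h : ∀ g g' : V ≃ₗ[F] V, (∀ s ∈ S, g s = g' s) → φ g = φ g')
    (h0 : ∑ g, φ g = 0) (g : V ≃ₗ[F] V) : ∑ ω : Om K, lf φ g ω = 0 := by
  have k : ∀ g, ∑ ω : Om K, lf φ g ω = ∑ ω : Om K, lf φ 1 ω := fun g => by
    obtain ⟨y, y1, y2⟩ := ag_G0 hS g
    refine (Fintype.sum_equiv (MulAction.toPerm (⟨y, 1, by rw [y1, one_pow]⟩ : G0 F V)) _ _ fun ω => ?_).symm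
    rw [← lf_smul hφ 1 ⟨y, 1, by rw [y1, one_pow]⟩]
    exact h _ _ fun s hs => by simp [y2 s hs]
  have : ∑ g, ∑ ω : Om K, lf φ g ω = 0 := by
    rw [Finset.sum_comm]
    exact Finset.sum_eq_zero fun ω _ => (Equiv.sum_comp (Equiv.mulLeft _) φ).trans h0
  rw [Finset.sum_congr rfl fun g _ => k g, Finset.sum_const, Finset.card_univ, nsmul_eq_mul] at this
  rw [k, (mul_eq_zero.1 this).resolve_left (Nat.cast_ne_zero.2 Fintype.card_ne_zero)]

variable [Fintype V] [Fintype (Dual F V)] [DecidableEq V] [DecidableEq (Dual F V)] [DecidableEq F]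

/-- the class sum of the transvections -/
noncomputable def TT (a b : Om K) : ℝ :=
  ∑ f ∈ Finset.univ.erase (0 : Dual F V), ∑ v ∈ (Finset.univ.filter fun v => f v = 0).erase 0, ind (τ f v • b = a)

section
omit [Finite F]

omit [FiniteDimensional F V] [Fintype V] [Fintype (Dual F V)] [DecidableEq V] [DecidableEq (Dual F V)]
  [DecidableEq F] in
theorem sum_ind (t : G0 F V) (m m' : Om K → ℝ) :
    ∑ a, ∑ b, m a * ind (t • b = a) * m' b = ∑ b, m (t • b) * m' b := by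
  rw [Finset.sum_comm]
  refine Finset.sum_congr rfl fun b _ => ?_
  rw [Finset.sum_eq_single (t • b) (fun a _ n => by rw [ind_false n.symm]; ring) (by simp), ind_true rfl, mul_one]

omit [Fintype (Om K)] in
theorem TT_symm (a b : Om K) : TT a b = TT b a :=
  Finset.sum_congr rfl fun f _ => Finset.sum_equiv (Equiv.neg V) (by simp) fun v hv => by
    rw [Equiv.neg_apply, τ_neg (Finset.mem_filter.1 (Finset.mem_of_mem_erase hv)).2, inv_smul_eq_iff, eq_comm (a := a)]

omit [Fintype (Om K)] in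
theorem TT_smul (g : G0 F V) (a b : Om K) : TT (g • a) (g • b) = TT a b :=
  (Finset.sum_equiv g.1.symm.dualMap.toEquiv (by simp) fun f _ => Finset.sum_equiv g.1.toEquiv (fun v => by
    simp only [Finset.mem_erase, Finset.mem_filter]; simp) fun v hv => by
    have := τ_conj g (Finset.mem_filter.1 (Finset.mem_of_mem_erase hv)).2
    refine ind_congr ((smul_left_cancel_iff g).symm.trans ?_)
    rw [← mul_smul, ← this, mul_smul]
    rfl).symm

omit [Fintype (Om K)] in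
theorem TT_self (hT : TF K) (a : Om K) : TT a a = 0 := by
  obtain ⟨x, rfl⟩ := QuotientGroup.mk_surjective a
  rw [← mul_one x, ← smul_eq_mul, ← MulAction.Quotient.smul_coe, TT_smul]
  refine Finset.sum_eq_zero fun f hf => Finset.sum_eq_zero fun v hv => ind_false fun e => ?_
  have h := (Finset.mem_filter.1 (Finset.mem_of_mem_erase hv)).2
  have m : (τ f v).1 ∈ K := by simpa [Subgroup.mem_subgroupOf] using QuotientGroup.eq.1 e
  exact (hT f v ⟨h, _, m, τ_apply h⟩).elim (Finset.ne_of_mem_erase hf) (Finset.ne_of_mem_erase hv)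

theorem TT_row (a : Om K) : ∑ b, TT a b =
    ∑ f ∈ Finset.univ.erase (0 : Dual F V), ∑ _v ∈ (Finset.univ.filter fun v => f v = 0).erase 0, (1 : ℝ) := by
  unfold TT
  rw [Finset.sum_comm]
  refine Finset.sum_congr rfl fun f _ => ?_
  rw [Finset.sum_comm]
  refine Finset.sum_congr rfl fun v _ => ?_
  rw [Finset.sum_eq_single ((τ f v)⁻¹ • a) (fun b _ n => ind_false fun e => n (eq_inv_smul_iff.2 e)) (by simp),
    ind_true (smul_inv_smul _ _)]

omit [Fintype (Dual F V)] [DecidableEq (Dual F V)] [DecidableEq V] in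
theorem P_nonneg (f : Dual F V) (m : Om K → ℝ) :
    0 ≤ ∑ v ∈ Finset.univ.filter fun v => f v = 0, ∑ b, m (τ f v • b) * m b := by
  have k : ∑ b, (∑ v ∈ Finset.univ.filter fun v => f v = 0, m (τ f v • b)) ^ 2 =
      ∑ _w ∈ Finset.univ.filter fun v => f v = 0,
        ∑ v ∈ Finset.univ.filter fun v => f v = 0, ∑ b, m (τ f v • b) * m b := by
    simp only [pow_two, Finset.sum_mul_sum]
    rw [Finset.sum_comm]
    refine Finset.sum_congr rfl fun w hw => ?_
    have h := (Finset.mem_filter.1 hw).2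
    rw [Finset.sum_comm]
    refine (Finset.sum_equiv (Equiv.addRight w) (by simp [h]) fun v hv => ?_).symm
    refine (Fintype.sum_equiv (MulAction.toPerm (τ f w)) _ _ fun b => ?_).symm
    rw [Equiv.coe_addRight, τ_add (Finset.mem_filter.1 hv).2 h, mul_smul, mul_comm]
    rfl
  rw [Finset.sum_const, nsmul_eq_mul] at k
  exact nonneg_of_mul_nonneg_right (k ▸ Finset.sum_nonneg fun _ _ => sq_nonneg _)
    (Nat.cast_pos.2 (Finset.card_pos.2 ⟨0, by simp⟩))

end

theorem TT_pos {W : Submodule F V} (hW : finrank F W + 2 ≤ finrank F V) {m : Om K → ℝ}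
    (h : ∀ (f : Dual F V) v, f v = 0 → (∀ w ∈ W, f w = 0) → ∀ a, m (τ f v • a) = m a) (m0 : m ≠ 0) :
    0 < ∑ a, ∑ b, m a * TT a b * m b := by
  classical
  have M : 0 < ∑ b, m b * m b := by
    obtain ⟨b, hb⟩ := Function.ne_iff.1 m0
    exact Finset.sum_pos' (fun _ _ => mul_self_nonneg _) ⟨b, Finset.mem_univ _, mul_self_pos.2 hb⟩
  have e : ∑ a, ∑ b, m a * TT a b * m b = ∑ f ∈ Finset.univ.erase (0 : Dual F V),
      ((∑ v ∈ Finset.univ.filter fun v => f v = 0, ∑ b, m (τ f v • b) * m b) - ∑ b, m b * m b) := by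
    simp only [TT, Finset.mul_sum, Finset.sum_mul]
    rw [Finset.sum_comm_cycle]
    refine Finset.sum_congr rfl fun f _ => ?_
    rw [Finset.sum_comm_cycle, Finset.sum_congr rfl fun v _ => sum_ind _ m m,
      Finset.sum_erase_eq_sub (by simp), τ_zero]
    simp only [one_smul]
  obtain ⟨n, hn⟩ : ∃ n, finrank F V = n + 1 := ⟨finrank F V - 1, by omega⟩
  have q2 : 2 ≤ Nat.card F := Finite.one_lt_card
  have c1 : ((Finset.univ.erase (0 : Dual F V)).card : ℝ) < Nat.card F * Nat.card F ^ n := by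
    rw [← pow_succ', ← hn, ← Subspace.dual_finrank_eq (K := F) (V := V), ← Nat.cast_pow, ← Module.natCard_eq_pow_finrank (K := F),
      Nat.card_eq_fintype_card, Nat.cast_lt]
    exact Finset.card_erase_lt_of_mem (Finset.mem_univ _)
  have c2 : (Nat.card F : ℝ) ≤ ((Finset.univ.filter (· ∈ W.dualAnnihilator)).erase 0).card := by
    have h1 := Subspace.finrank_add_finrank_dualAnnihilator_eq W
    have h2 := Nat.pow_le_pow_right (n := Nat.card F) (by omega) (show 2 ≤ finrank F W.dualAnnihilator by omega)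
    rw [← Module.natCard_eq_pow_finrank (K := F) (V := W.dualAnnihilator), Nat.card_eq_fintype_card (α := W.dualAnnihilator), Fintype.card_subtype] at h2
    rw [Finset.card_erase_of_mem (by simp), Nat.cast_le]
    exact Nat.le_sub_one_of_lt (lt_of_lt_of_le (by nlinarith) h2)
  have c3 : ∀ f ∈ (Finset.univ.filter (· ∈ W.dualAnnihilator)).erase 0, Nat.card F ^ n * ∑ b, m b * m b ≤
      ∑ v ∈ Finset.univ.filter fun v => f v = 0, ∑ b, m (τ f v • b) * m b := fun f hf => by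
    have hf' := (mem_dualAnnihilator f).1 (Finset.mem_filter.1 (Finset.mem_of_mem_erase hf)).2
    rw [Finset.sum_congr (s₁ := Finset.univ.filter fun v => f v = 0) (g := fun _ => ∑ b, m b * m b) rfl fun v hv => by
      simp only [h f v (Finset.mem_filter.1 hv).2 hf'], Finset.sum_const, nsmul_eq_mul]
    refine mul_le_mul_of_nonneg_right ?_ M.le
    have h1 := f.finrank_range_add_finrank_ker
    have h2 := (Submodule.finrank_le (LinearMap.range f)).trans (finrank_self F).le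
    have h3 := Nat.pow_le_pow_right (n := Nat.card F) (by omega) (show n ≤ finrank F (LinearMap.ker f) by omega)
    rw [← Module.natCard_eq_pow_finrank (K := F) (V := LinearMap.ker f), Nat.card_eq_fintype_card (α := LinearMap.ker f), Fintype.card_subtype] at h3
    simp only [LinearMap.mem_ker] at h3
    exact_mod_cast h3
  have c4 := (Finset.card_nsmul_le_sum _ _ _ c3).trans (Finset.sum_le_sum_of_subset_of_nonneg
    (Finset.erase_subset_erase 0 (Finset.subset_univ _)) fun f _ _ => P_nonneg f m)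
  rw [e, Finset.sum_sub_distrib, Finset.sum_const, nsmul_eq_mul, sub_pos]
  refine lt_of_lt_of_le (mul_lt_mul_of_pos_right c1 M) (le_trans ?_ c4)
  rw [nsmul_eq_mul, mul_assoc]
  exact mul_le_mul_of_nonneg_right c2 (by positivity)

end Kr

open Kr in
/-- PROOF. Apply `abs_span` to `G = G0 F V`, `Ω = G ⧸ K.subgroupOf G` (at most 3 orbits on `Ω × Ω` by
`h.four`), `T a b = #{(f,v) | f ≠ 0, v ≠ 0, f v = 0, t_{f,v} • b = a}` (`t_{f,v}` the transvection;
symmetric by `v ↦ -v`, invariant by conjugation, zero diagonal by `TF`, row sums the number of pairs,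
which is positive), `𝓗` = the sets `{t_{f,v} | f v = 0, f vanishes on W}` with `finrank W + 2 ≤ n`.
Positivity: for `f ≠ 0` the `t_{f,v}`, `v ∈ ker f`, form a group of order `q^(n-1)`, so
`P_f = ∑_{v ∈ ker f} ⟨t_{f,v} m, m⟩ = q^(1-n) ‖∑_v t_{f,v} m‖² ≥ 0`, and `P_f = q^(n-1)‖m‖²` for the
`≥ q² - 1` non-zero `f` vanishing on `W`; `⟨Tm,m⟩ = ∑_{f ≠ 0} (P_f - ‖m‖²)
≥ ((q²-1) q^(n-1) - (q^n - 1))‖m‖² > 0`.
`I = V ≃ₗ V`, `c_{g'}(xK) = c (x⁻¹ g')`, `m_g(xK) = Fn (x⁻¹ g)`; `m_g` is fixed by the set for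
`W = g • S`, `c_{g'}` by the set for `g' • D`. Zero sums: `∑_{x ∈ G0} Fn (x g)` does not depend on `g`
(there is `y ∈ G0` agreeing with `g` on `S`: correct `g` by a map fixing `S` pointwise with the
right determinant, `finrank S < n`), so summing over all `g` it is `0`.
Put `e g g' = γ⁻¹ ∑_ω c_{g'}(ω) m_g(ω)` and evaluate at `ω = K`. -/
theorem ker_formula (h : R3 K) (hT : TF K) [Fintype (V ≃ₗ[F] V)] {D S : Submodule F V}
    (hD : finrank F D + 2 ≤ finrank F V) (hS : finrank F S + 2 ≤ finrank F V)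
    (c Fn : (V ≃ₗ[F] V) → ℝ) (hcK : ∀ k ∈ K, ∀ g, c (k * g) = c g)
    (hcD : ∀ g g' : V ≃ₗ[F] V, (∀ d ∈ D, g d = g' d) → c g = c g') (hc0 : ∑ g, c g = 0)
    (hc : ∃ g, c g ≠ 0) (hFK : ∀ k ∈ K, ∀ g, Fn (k * g) = Fn g)
    (hFS : ∀ g g' : V ≃ₗ[F] V, (∀ s ∈ S, g s = g' s) → Fn g = Fn g') (hF0 : ∑ g, Fn g = 0) :
    ∃ e : (V ≃ₗ[F] V) → (V ≃ₗ[F] V) → ℝ,
      (∀ y ∈ G0 F V, ∀ g g', e (y * g) (y * g') = e g g') ∧
      (∀ g₁ g₂ g₁' g₂', (∀ y, Fn (y * g₁) = Fn (y * g₂)) → (∀ y, c (y * g₁') = c (y * g₂')) →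
        e g₁ g₁' = e g₂ g₂') ∧
      ∀ g, Fn g = ∑ g', e g g' * c g' := by
  classical
  have : Finite V := Module.finite_of_finite F
  have : Finite (Dual F V) := Module.finite_of_finite F
  have := Fintype.ofFinite V
  have := Fintype.ofFinite (Dual F V)
  have := Fintype.ofFinite (Om K)
  have fx : ∀ {φ : (V ≃ₗ[F] V) → ℝ} {S : Submodule F V}, (∀ k ∈ K, ∀ g, φ (k * g) = φ g) →
      finrank F S + 2 ≤ finrank F V → (∀ g g' : V ≃ₗ[F] V, (∀ s ∈ S, g s = g' s) → φ g = φ g') → ∀ g,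
      ∃ H ∈ {H : Set (G0 F V) | ∃ W : Submodule F V, finrank F W + 2 ≤ finrank F V ∧
        H = {t | ∃ (f : Dual F V) (v : V), f v = 0 ∧ (∀ w ∈ W, f w = 0) ∧ t = τ f v}}, ∀ t ∈ H, ∀ a : Om K, lf φ g (t • a) = lf φ g a :=
    fun {φ S} h1 h2 h3 g => ⟨_, ⟨g • S, by rwa [finrank_smul], rfl⟩, by
      rintro _ ⟨f, v, e1, e2, rfl⟩ a
      rw [← lf_smul h1 g (τ f v) a]
      exact h3 _ _ fun s hs => by simp [τ_apply e1, e2 _ (apply_mem_smul.2 hs)]⟩
  have pos : 0 < ∑ f ∈ Finset.univ.erase (0 : Dual F V),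
      ∑ _v ∈ (Finset.univ.filter fun v => f v = 0).erase 0, (1 : ℝ) := by
    obtain ⟨v, -, hv⟩ := Hy.ex_notin (A := (⊥ : Submodule F V)) (B := ⊤) (by rw [finrank_bot, finrank_top]; omega)
    obtain ⟨y, -, hy⟩ := Hy.ex_notin (A := F ∙ v) (B := ⊤) (by rw [finrank_span_singleton hv, finrank_top]; omega)
    obtain ⟨f, f1, f2⟩ := Hy.ex_dual hy
    refine Finset.sum_pos' (fun _ _ => Finset.sum_nonneg fun _ _ => zero_le_one) ⟨f, by
      simpa using fun e => by simp [e] at f1, Finset.sum_pos (fun _ _ => one_pos) ⟨v, ?_⟩⟩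
    simpa using ⟨hv, f2 v (mem_span_singleton_self v)⟩
  obtain ⟨γ, γ0, hγ⟩ := abs_span (orb h) TT TT_symm TT_smul (TT_self hT) pos TT_row _ (by
      rintro _ ⟨W, hW, rfl⟩ m hm
      exact TT_pos hW fun f v a b => hm _ ⟨f, v, a, b, rfl⟩) (lf c)
    (fun g a b => (Fintype.sum_equiv (Equiv.mulLeft g.1) _ _ fun i => by
      rw [Equiv.coe_mulLeft, lf_smul hcK, lf_smul hcK]).symm) (sum_lf hcK (by omega) hcD hc0) (fx hcK hD hcD)
    (hc.imp fun g e n => e (by simpa [lf_mk hcK] using congrFun n (1 : G0 F V)))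
  refine ⟨fun g g' => γ⁻¹ * ∑ b : Om K, lf c g' b * lf Fn g b, fun y hy g g' => congrArg _ ?_,
    fun g₁ g₂ g₁' g₂' a b => by simp only [lf, a, b], fun g => ?_⟩
  · exact (Fintype.sum_equiv (MulAction.toPerm (⟨y, hy⟩ : G0 F V)) _ _ fun i => by
      rw [← lf_smul hcK g' ⟨y, hy⟩, ← lf_smul hFK g ⟨y, hy⟩]; rfl).symm
  · have := hγ _ (sum_lf hFK (by omega) hFS hF0 g) (fx hFK hS hFS g) (1 : G0 F V)
    simp only [lf_mk hFK, lf_mk hcK, OneMemClass.coe_one, inv_one, one_mul] at this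
    rw [(eq_inv_mul_iff_mul_eq₀ γ0).2 this, Finset.mul_sum]
    exact Finset.sum_congr rfl fun _ _ => by ring

end CL.PL
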