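/-
Rank three actions of the linear groups: hyperplanes of a subspace.
-/
import Cfsg.Agent.CLAS.PL.Def

set_option autoImplicit false

namespace CL.PL.Pt

open Module Submodule
open scoped Pointwise

variable {F : Type*} [Field F] {V : Type*} [AddCommGroup V] [Module F V] [FiniteDimensional F V]
  {S A B C Z T : Submodule F V} {f : Dual F V}

theorem hyp_ker {s : V} (hs : s ∈ S) (h : f s ≠ 0) : Hyp S (S ⊓ LinearMap.ker f) := by
  refine ⟨inf_le_left, ?_⟩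
  have h1 := Submodule.finrank_sup_span_singleton (p := S ⊓ LinearMap.ker f) (v := s) fun e => h e.2
  suffices e : S ⊓ LinearMap.ker f ⊔ F ∙ s = S by rwa [e, eq_comm] at h1
  refine le_antisymm (sup_le inf_le_left ((span_singleton_le_iff_mem _ _).2 hs)) fun x hx => ?_
  rw [← sub_add_cancel x ((f x / f s) • s)]
  exact add_mem_sup ⟨S.sub_mem hx (S.smul_mem _ hs), by simp [h]⟩ (smul_mem _ _ (mem_span_singleton_self s))

theorem eq_of_le (hA : Hyp S A) (hB : Hyp S B) (h : A ≤ B) : A = B :=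
  Submodule.eq_of_le_of_finrank_eq h (by have := hA.2; have := hB.2; omega)

theorem exists_notMem (hA : Hyp S A) : ∃ s ∈ S, s ∉ A := SetLike.not_le_iff_exists.1 fun h => by
  have := Submodule.finrank_mono h; have := hA.2; omega

theorem sep {y : V} (hZ : Z ≤ S) (h : y ∉ Z) :
    ∃ f : Dual F V, f y ≠ 0 ∧ Z ≤ S ⊓ LinearMap.ker f := by
  obtain ⟨f, h1, h2⟩ := Z.exists_dual_map_eq_bot_of_notMem h inferInstance
  exact ⟨f, h1, le_inf hZ (LinearMap.le_ker_iff_map.2 h2)⟩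

theorem sep' {y : V} (hy : y ∈ S) (hZ : Z ≤ S) (h : y ∉ Z) : ∃ A, Hyp S A ∧ Z ≤ A ∧ y ∉ A :=
  let ⟨_, h1, h2⟩ := sep hZ h
  ⟨_, hyp_ker hy h1, h2, fun e => h1 e.2⟩

theorem exists_ker (hA : Hyp S A) : ∃ f : Dual F V, (∃ s ∈ S, f s ≠ 0) ∧ A = S ⊓ LinearMap.ker f := by
  obtain ⟨s, hs, h⟩ := exists_notMem hA
  obtain ⟨f, h1, h2⟩ := sep hA.1 h
  exact ⟨f, ⟨s, hs, h1⟩, eq_of_le hA (hyp_ker hs h1) h2⟩

theorem finrank_inf (hA : Hyp S A) (hB : Hyp S B) (h : A ≠ B) :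
    finrank F (A ⊓ B : Submodule F V) + 2 = finrank F S := by
  have h1 := Submodule.finrank_sup_add_finrank_inf_eq A B
  have h2 := Submodule.finrank_mono (sup_le hA.1 hB.1)
  have h3 := Submodule.finrank_lt_finrank_of_lt (right_lt_sup.2 fun e => h (eq_of_le hA hB e))
  have := hA.2; have := hB.2; omega

theorem inf_eq (hA : Hyp S A) (hB : Hyp S B) (hC : Hyp S C) (h : A ≠ B) (h' : A ≠ C) (le : A ⊓ B ≤ C) :
    A ⊓ B = A ⊓ C :=
  Submodule.eq_of_le_of_finrank_eq (le_inf inf_le_left le) (by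
    have := finrank_inf hA hB h; have := finrank_inf hA hC h'; omega)

theorem exists_diff (hA : Hyp S A) (hB : Hyp S B) (h : A ≠ B) : ∃ a ∈ A, a ∉ B :=
  SetLike.not_le_iff_exists.1 fun e => h (eq_of_le hA hB e)

theorem third (hA : Hyp S A) (hB : Hyp S B) (h : A ≠ B) : ∃ C, Hyp S C ∧ A ⊓ B ≤ C ∧ A ≠ C ∧ B ≠ C := by
  obtain ⟨a, a1, a2⟩ := exists_diff hA hB h
  obtain ⟨b, b1, b2⟩ := exists_diff hB hA h.symm
  obtain ⟨f, -, rfl⟩ := exists_ker hA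
  obtain ⟨g, -, rfl⟩ := exists_ker hB
  have e1 : (f + g) a ≠ 0 := fun e => a2 ⟨a1.1, by simpa [show f a = 0 from a1.2] using e⟩
  have e2 : (f + g) b ≠ 0 := fun e => b2 ⟨b1.1, by simpa [show g b = 0 from b1.2] using e⟩
  refine ⟨_, hyp_ker a1.1 e1, fun x hx => ⟨hx.1.1, ?_⟩, fun e => e1 (e.le a1).2, fun e => e2 (e.le b1).2⟩
  simp [show f x = 0 from hx.1.2, show g x = 0 from hx.2.2]

theorem two_over (hZ : Z ≤ S) (h : finrank F Z + 2 ≤ finrank F S) :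
    ∃ A B, Hyp S A ∧ Hyp S B ∧ A ≠ B ∧ Z ≤ A ∧ Z ≤ B := by
  obtain ⟨y, y1, y2⟩ := SetLike.not_le_iff_exists.1 fun e : S ≤ Z => by
    have := Submodule.finrank_mono e; omega
  obtain ⟨A, hA, le, -⟩ := sep' y1 hZ y2
  obtain ⟨z, z1, z2⟩ := SetLike.not_le_iff_exists.1 fun e : A ≤ Z => by
    have := Submodule.finrank_mono e; have := hA.2; omega
  obtain ⟨B, hB, le', n⟩ := sep' (hA.1 z1) hZ z2
  exact ⟨A, B, hA, hB, fun e => n (e ▸ z1), le, le'⟩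

theorem none_over (hZ : Z ≤ S) (h : 2 ≤ finrank F Z) :
    ∃ A B, Hyp S A ∧ Hyp S B ∧ A ≠ B ∧ ∀ C, Hyp S C → A ⊓ B ≤ C → ¬ Z ≤ C := by
  obtain ⟨y, y1, y2⟩ := SetLike.not_le_iff_exists.1 fun e : Z ≤ ⊥ => by
    have := Submodule.finrank_mono e; rw [finrank_bot] at this; omega
  obtain ⟨z, z1, z2⟩ := SetLike.not_le_iff_exists.1 fun e : Z ≤ F ∙ y => by
    have := Submodule.finrank_mono e; rw [finrank_span_singleton (by simpa using y2)] at this; omega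
  obtain ⟨A, hA, le, n⟩ := sep' (hZ z1) ((span_singleton_le_iff_mem _ _).2 (hZ y1)) z2
  obtain ⟨B, hB, -, n'⟩ := sep' (hZ y1) bot_le y2
  have m := le (mem_span_singleton_self y)
  have ne : A ≠ B := fun e => n' (e ▸ m)
  exact ⟨A, B, hA, hB, ne, fun C hC l l' =>
    n' ((inf_eq hA hB hC ne (fun e => n (e ▸ l' z1)) l).ge ⟨m, l' y1⟩).2⟩

theorem mv0 {φ φ' : Dual F V} {v : V} (h : φ v ≠ 0) (h' : φ' v ≠ 0) (hv : v ∈ S) : ∃ g : V ≃ₗ[F] V,
    g • (S ⊓ LinearMap.ker φ) = S ⊓ LinearMap.ker φ' ∧ (∀ U : Submodule F V, v ∈ U → g • U = U) ∧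
      ∀ U : Submodule F V, (∀ x ∈ U, φ x = φ' x) → g • U = U := by
  let t : V →ₗ[F] V := LinearMap.id + ((φ' v)⁻¹ • (φ - φ')).smulRight v
  have ht : ∀ x, t x = x + ((φ' v)⁻¹ * (φ x - φ' x)) • v := fun x => by simp [t, mul_sub]
  have h1 : ∀ x, φ' (t x) = φ x := fun x => by rw [ht, map_add, map_smul, smul_eq_mul]; field_simp; ring
  have inj : Function.Injective t := (injective_iff_map_eq_zero t).2 fun x e => by
    have h2 := h1 x
    rw [e, map_zero] at h2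
    rw [ht, add_eq_zero_iff_eq_neg] at e
    generalize (φ' v)⁻¹ * (φ x - φ' x) = c at e
    rw [e] at h2 ⊢
    simp only [map_neg, map_smul, smul_eq_mul, zero_eq_neg, mul_eq_zero, h, or_false] at h2
    simp [h2]
  have k : ∀ U : Submodule F V, (∀ x ∈ U, t x ∈ U) → LinearEquiv.ofInjectiveEndo t inj • U = U := fun U hU =>
    Submodule.eq_of_le_of_finrank_eq (by rintro _ ⟨x, hx, rfl⟩; exact hU x hx) finrank_smul
  have k1 : ∀ U : Submodule F V, v ∈ U → LinearEquiv.ofInjectiveEndo t inj • U = U := fun U hU =>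
    k U fun x hx => ht x ▸ U.add_mem hx (U.smul_mem _ hU)
  refine ⟨LinearEquiv.ofInjectiveEndo t inj, ?_, k1, fun U hU => k U fun x hx => by simpa [ht, hU x hx] using hx⟩
  rw [smul_inf, k1 S hv]
  congr 1
  ext y
  obtain ⟨x, rfl⟩ := (LinearEquiv.ofInjectiveEndo t inj).surjective y
  rw [apply_mem_smul, LinearMap.mem_ker, LinearMap.mem_ker, ← h1]
  rfl

theorem mv {C' : Submodule F V} (hC : Hyp S C) (hC' : Hyp S C') (hT : T ≤ S) (h : ¬ T ≤ C) (h' : ¬ T ≤ C') :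
    ∃ g : V ≃ₗ[F] V, g • C = C' ∧ ∀ U, T ≤ U → g • U = U := by
  obtain ⟨v, v1, v2, v3⟩ : ∃ v ∈ T, v ∉ C ∧ v ∉ C' := by
    obtain ⟨a, a1, a2⟩ := SetLike.not_le_iff_exists.1 h
    obtain ⟨b, b1, b2⟩ := SetLike.not_le_iff_exists.1 h'
    by_cases a3 : a ∈ C'
    · by_cases b3 : b ∈ C
      · exact ⟨a + b, T.add_mem a1 b1, fun e => a2 ((C.add_mem_iff_left b3).1 e),
          fun e => b2 ((C'.add_mem_iff_right a3).1 e)⟩
      · exact ⟨b, b1, b3, b2⟩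
    · exact ⟨a, a1, a2, a3⟩
  obtain ⟨φ, -, rfl⟩ := exists_ker hC
  obtain ⟨φ', -, rfl⟩ := exists_ker hC'
  obtain ⟨g, g1, g2, -⟩ := mv0 (fun e => v2 ⟨hT v1, e⟩) (fun e => v3 ⟨hT v1, e⟩) (hT v1)
  exact ⟨g, g1, fun U hU => g2 U (hU v1)⟩

theorem mv2 {C' : Submodule F V} (hA : Hyp S A) (hB : Hyp S B) (hC : Hyp S C) (hC' : Hyp S C') (n : A ≠ B)
    (l : A ⊓ B ≤ C) (l' : A ⊓ B ≤ C') (a1 : A ≠ C) (a2 : A ≠ C') (b1 : B ≠ C) (b2 : B ≠ C') :
    ∃ g : V ≃ₗ[F] V, g • C = C' ∧ g • S = S ∧ g • A = A ∧ g • B = B := by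
  obtain ⟨a, ha, ha'⟩ := exists_diff hA hB n
  obtain ⟨b, hb, hb'⟩ := exists_diff hB hA n.symm
  have e1 := inf_eq hA hB hC n a1 l
  have e2 := inf_eq hA hB hC' n a2 l'
  have e3 := inf_eq hB hA hC n.symm b1 (inf_comm A B ▸ l)
  have e4 := inf_eq hB hA hC' n.symm b2 (inf_comm A B ▸ l')
  obtain ⟨φ, -, rfl⟩ := exists_ker hC
  obtain ⟨φ', -, rfl⟩ := exists_ker hC'
  have p1 : φ a ≠ 0 := fun e => ha' (e1.ge ⟨ha, hA.1 ha, e⟩).2
  have p2 : φ' a ≠ 0 := fun e => ha' (e2.ge ⟨ha, hA.1 ha, e⟩).2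
  have p3 : φ b ≠ 0 := fun e => hb' (e3.ge ⟨hb, hB.1 hb, e⟩).2
  have p4 : φ' b ≠ 0 := fun e => hb' (e4.ge ⟨hb, hB.1 hb, e⟩).2
  obtain ⟨g, g1, g2, g3⟩ := mv0 (φ := (φ' a / φ a) • φ) (by simp [p1, p2, p3]) p4 (hB.1 hb)
  refine ⟨g, by rwa [LinearMap.ker_smul _ _ (div_ne_zero p2 p1)] at g1, g2 S (hB.1 hb), g3 A fun x hx => ?_, g2 B hb⟩
  have m := A.sub_mem hx (A.smul_mem (φ x / φ a) ha)
  have := (l' (e1.ge ⟨m, hA.1 m, by simp [p1]⟩)).2
  rw [SetLike.mem_coe, LinearMap.mem_ker, map_sub, map_smul, sub_eq_zero] at this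
  rw [this, LinearMap.smul_apply, smul_eq_mul, smul_eq_mul]; ring

theorem mv_pair {A' B' : Submodule F V} (hA : Hyp S A) (hB : Hyp S B) (hA' : Hyp S A') (hB' : Hyp S B')
    (n : A ≠ B) (n' : A' ≠ B') : ∃ g : V ≃ₗ[F] V, g • S = S ∧ g • A = A' ∧ g • B = B' := by
  obtain ⟨g, rfl, g2⟩ := exists_smul_pair hA.1 hA'.1 (by have := hA.2; have := hA'.2; omega) rfl
  have h1 : Hyp S (g • B) := g2 ▸ hB.smul g
  obtain ⟨k, k1, k2⟩ := mv h1 hB' hA'.1 (fun e => n (eq_of_le hA hB (smul_le_smul.1 e)))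
    fun e => n' (eq_of_le hA' hB' e)
  exact ⟨k * g, by rw [mul_smul, g2, k2 S hA'.1], by rw [mul_smul, k2 _ le_rfl], by rw [mul_smul, k1]⟩

/-- a closed set of hyperplanes is the set of all hyperplanes through a subspace -/
theorem exists_star {P : Submodule F V → Prop}
    (cl : ∀ A B C, Hyp S A → Hyp S B → Hyp S C → A ≠ B → A ⊓ B ≤ C → P A → P B → P C) :
    ∃ Z ≤ S, ∀ A, Hyp S A → (P A ↔ Z ≤ A) := by
  let D : Submodule F (Dual F V) :=
    { carrier := {f | ∀ s ∈ S, f s ≠ 0 → P (S ⊓ LinearMap.ker f)}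
      zero_mem' := fun _ _ h => (h rfl).elim
      smul_mem' := fun c f hf s hs h => by
        rw [LinearMap.smul_apply, smul_ne_zero_iff] at h
        rw [LinearMap.ker_smul _ _ h.1]; exact hf s hs h.2
      add_mem' := fun {f g} hf hg s hs h => by
        have le : (S ⊓ LinearMap.ker f) ⊓ (S ⊓ LinearMap.ker g) ≤ S ⊓ LinearMap.ker (f + g) := fun x hx =>
          ⟨hx.1.1, by simp [show f x = 0 from hx.1.2, show g x = 0 from hx.2.2]⟩
        by_cases h1 : ∃ s ∈ S, f s ≠ 0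
        · obtain ⟨a, a1, a2⟩ := h1
          by_cases h2 : ∃ s ∈ S, g s ≠ 0
          · obtain ⟨b, b1, b2⟩ := h2
            by_cases e : S ⊓ LinearMap.ker f = S ⊓ LinearMap.ker g
            · rw [← e, inf_idem] at le
              exact eq_of_le (hyp_ker a1 a2) (hyp_ker hs h) le ▸ hf a a1 a2
            · exact cl _ _ _ (hyp_ker a1 a2) (hyp_ker b1 b2) (hyp_ker hs h) e le (hf a a1 a2) (hg b b1 b2)
          · push Not at h2
            exact eq_of_le (hyp_ker a1 a2) (hyp_ker hs h) (fun x hx => le ⟨hx, hx.1, h2 x hx.1⟩) ▸ hf a a1 a2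
        · push Not at h1
          have b2 : g s ≠ 0 := by simpa [h1 s hs] using h
          exact eq_of_le (hyp_ker hs b2) (hyp_ker hs h) (fun x hx => le ⟨⟨hx.1, h1 x hx.1⟩, hx⟩) ▸ hg s hs b2 }
  have le : D.dualCoannihilator ≤ S := by
    rw [← Subspace.dualAnnihilator_dualCoannihilator_eq (W := S)]
    exact dualCoannihilator_anti fun f hf s hs h => (h ((mem_dualAnnihilator f).1 hf s hs)).elim
  refine ⟨D.dualCoannihilator, le, fun A hA => ?_⟩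
  obtain ⟨f, ⟨s, hs, h⟩, rfl⟩ := exists_ker hA
  refine ⟨fun p => le_inf le fun x hx => (mem_dualCoannihilator x).1 hx f fun _ _ _ => p, fun l => ?_⟩
  have : f ∈ D := by
    rw [← Subspace.dualCoannihilator_dualAnnihilator_eq (W := D)]
    exact (mem_dualAnnihilator f).2 fun x hx => (l hx).2
  exact this s hs h

end CL.PL.Pt
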