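/-
Rank three actions of the linear groups: the span lemma.
-/
import Cfsg.Agent.CLAS.PL.Ker
import Cfsg.Agent.CLAS.PL.Pat1

set_option autoImplicit false

namespace CL.PL

open Module Submodule
open scoped Pointwise

variable {F : Type*} [Field F] [Finite F] {V : Type*} [AddCommGroup V] [Module F V]
  [FiniteDimensional F V] {K : Subgroup (V ≃ₗ[F] V)}

namespace Sp

section
omit [Finite F]

theorem ext_of_ker {W : Type*} [AddCommGroup W] [Module F W] (i i' : W →ₗ[F] V)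
    (h : LinearMap.ker i = LinearMap.ker i') : ∃ u : V ≃ₗ[F] V, ∀ w, u (i w) = i' w := by
  obtain ⟨u, hu⟩ := exists_ext (((LinearMap.ker i).liftQ i' h.le) ∘ₗ i.quotKerEquivRange.symm.toLinearMap)
    ((LinearMap.ker_eq_bot.1 (ker_liftQ_eq_bot' _ _ h)).comp i.quotKerEquivRange.symm.injective)
  refine ⟨u, fun w => (hu ⟨i w, LinearMap.mem_range_self i w⟩).trans ?_⟩
  rw [LinearMap.comp_apply, LinearEquiv.coe_coe, LinearMap.quotKerEquivRange_symm_apply_image]
  rfl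

theorem dil {S : Submodule F V} {y : V} (hy : y ∉ S) (a : Fˣ) : ∃ x : V ≃ₗ[F] V, LinearEquiv.det x = a ∧
    (∀ s ∈ S, x s = s) ∧ ∀ U : Submodule F V, y ∈ U ∨ U ≤ S → x • U = U := by
  obtain ⟨φ, h1, h2⟩ := Pt.sep le_top hy
  have e : 1 + (((a - 1) / φ y) • φ) y = a := by simp [h1]
  have k : ∀ s ∈ S, LinearEquiv.dilatransvection (e ▸ a.isUnit) s = s := fun s hs => by
    simp [LinearEquiv.dilatransvection.apply, show φ s = 0 from (h2 hs).2]
  refine ⟨_, Units.ext ?_, k, fun U hU => Submodule.eq_of_le_of_finrank_eq ?_ finrank_smul⟩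
  · rw [LinearEquiv.coe_det, LinearEquiv.dilatransvection.coe_toLinearMap, LinearMap.transvection.det, e]
  · rintro _ ⟨s, hs, rfl⟩
    rcases hU with hU | hU
    · exact U.add_mem hs (U.smul_mem _ hU)
    · exact (k s (hU hs)).symm ▸ hs

omit [FiniteDimensional F V] in
theorem exists_notMem {S : Submodule F V} (h : finrank F S < finrank F V) : ∃ y, y ∉ S := by
  by_contra! hn
  rw [Submodule.eq_top_iff'.2 hn, finrank_top] at h
  omega

variable [Fintype (V ≃ₗ[F] V)] (D S : Submodule F V) (c : (V ≃ₗ[F] V) → ℝ)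

/-- the span of the constants and the translates of `c` -/
def sp : Submodule ℝ ((V ≃ₗ[F] V) → ℝ) where
  carrier := {f | ∃ (α : ℝ) (β : (V ≃ₗ[F] V) → ℝ), (∀ s, β s ≠ 0 → s • D ≤ S) ∧ ∀ g, f g = α + ∑ s, β s * c (g * s)}
  zero_mem' := ⟨0, 0, fun _ h => (h rfl).elim, by simp⟩
  add_mem' := by
    rintro f f' ⟨α, β, h, e⟩ ⟨α', β', h', e'⟩
    refine ⟨α + α', β + β', fun s n => ?_, fun g => ?_⟩
    · by_cases k : β s = 0
      exacts [h' s (by simpa [k] using n), h s k]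
    · simp only [Pi.add_apply, e, e', add_mul, Finset.sum_add_distrib]; ring
  smul_mem' := by
    rintro r f ⟨α, β, h, e⟩
    exact ⟨r * α, r • β, fun s n => h s (right_ne_zero_of_mul n), fun g => by
      simp only [Pi.smul_apply, e, smul_eq_mul, mul_add, Finset.mul_sum, mul_assoc]⟩

/-- the graph of `s` over `S` -/
def gr (s : V ≃ₗ[F] V) : Set (V × V) := {p | p.1 ∈ D ∧ p.2 ∈ S ∧ s p.1 = p.2}

variable {D S c}

omit [FiniteDimensional F V] in
theorem cls {ε : (V ≃ₗ[F] V) → ℝ} (h : ∀ s s', gr D S s = gr D S s' → ε s = ε s')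
    (k : ∀ s₀, ε s₀ ≠ 0 → (fun g => ∑ s, ind (gr D S s = gr D S s₀) * c (g * s)) ∈ sp D S c) :
    (fun g => ∑ s, ε s * c (g * s)) ∈ sp D S c := by
  classical
  have : (fun g => ∑ s, ε s * c (g * s)) = ∑ q ∈ Finset.univ.image (gr D S),
      Function.extend (gr D S) ε 0 q • fun g => ∑ s, ind (gr D S s = q) * c (g * s) := by
    ext g
    simp only [Finset.sum_apply, Pi.smul_apply, smul_eq_mul, Finset.mul_sum]
    rw [Finset.sum_comm]
    refine Finset.sum_congr rfl fun s _ => ?_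
    rw [Finset.sum_eq_single (gr D S s) (fun q _ n => by rw [ind_false n.symm]; ring) (by simp), ind_true rfl,
      one_mul, Function.FactorsThrough.extend_apply h]
  rw [this]
  refine Submodule.sum_mem _ fun q hq => ?_
  obtain ⟨s, -, rfl⟩ := Finset.mem_image.1 hq
  rw [Function.FactorsThrough.extend_apply h]
  by_cases e : ε s = 0
  · rw [e, zero_smul]; exact zero_mem _
  · exact smul_mem _ _ (k s e)

theorem fib [Finite F] (hD : finrank F D ≤ finrank F V) (hTr : Tr K (finrank F D - 1))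
    (hcK : ∀ k ∈ K, ∀ g, c (k * g) = c g) (s₀ : V ≃ₗ[F] V) :
    (fun g => ∑ s, ind (gr D S s = gr D S s₀) * c (g * s)) ∈ sp D S c := by
  have : Finite V := Module.finite_of_finite F
  induction s₀ using (InvImage.wf (gr D S) (wellFounded_gt (α := Set (V × V)))).induction with
  | _ s₀ ih =>
  by_cases e : s₀ • D ≤ S
  · refine ⟨0, fun s => ind (gr D S s = gr D S s₀), fun s n => ?_, fun g => (zero_add _).symm⟩
    rintro _ ⟨d, hd, rfl⟩
    have k : (d, s₀ d) ∈ gr D S s := (by_contra fun k => n (ind_false k) : gr D S s = gr D S s₀).ge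
      ⟨hd, e ⟨d, hd, rfl⟩, rfl⟩
    exact k.2.2.symm ▸ k.2.1
  have h1 := cls (c := c) (ε := fun s => ind (gr D S s₀ < gr D S s)) (fun s s' e => by rw [e])
    fun s n => ih s (by_contra fun k => n (ind_false k))
  have lt : finrank F (D ⊓ s₀⁻¹ • S : Submodule F V) < finrank F D := Submodule.finrank_lt_finrank_of_lt
    (inf_lt_left.2 fun l => e (by simpa using (smul_le_smul (g := s₀)).2 l))
  have h2 : (fun g => ∑ s, ind (gr D S s₀ ≤ gr D S s) * c (g * s)) ∈ sp D S c := by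
    refine ⟨∑ t : V ≃ₗ[F] V, ind (∀ b ∈ D ⊓ s₀⁻¹ • S, t b = b) * c t, 0, fun _ h => (h rfl).elim, fun g => ?_⟩
    obtain ⟨k, hk, ek⟩ := hTr.mono (Nat.le_sub_one_of_lt lt) (by omega) _ rfl (g * s₀)
    simp only [Pi.zero_apply, zero_mul, Finset.sum_const_zero, add_zero]
    refine Fintype.sum_equiv (Equiv.mulLeft (k⁻¹ * g)) _ _ fun s => ?_
    simp only [Equiv.coe_mulLeft]
    rw [mul_assoc, hcK _ (K.inv_mem hk)]
    refine congrArg (· * _) (ind_congr ⟨fun l b hb => ?_, fun l p hp => ?_⟩)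
    · have := (l (show (b, s₀ b) ∈ gr D S s₀ from ⟨hb.1, by simpa using mem_smul'.1 hb.2, rfl⟩)).2.2
      rw [LinearEquiv.mul_apply, LinearEquiv.coe_inv, LinearEquiv.symm_apply_eq, ek b hb, LinearEquiv.mul_apply,
        LinearEquiv.mul_apply, this]
    · have hb : p.1 ∈ D ⊓ s₀⁻¹ • S := ⟨hp.1, mem_smul'.2 (by rw [inv_inv, hp.2.2]; exact hp.2.1)⟩
      have := l _ hb
      rw [LinearEquiv.mul_apply, LinearEquiv.coe_inv, LinearEquiv.symm_apply_eq, ek _ hb, LinearEquiv.mul_apply,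
        LinearEquiv.mul_apply, g.injective.eq_iff] at this
      exact ⟨hp.1, hp.2.1, this.trans hp.2.2⟩
  convert sub_mem h2 h1 using 1
  ext g
  simp only [Pi.sub_apply, ← Finset.sum_sub_distrib, ← sub_mul]
  refine Finset.sum_congr rfl fun s _ => congrArg (· * _) ?_
  by_cases a : gr D S s = gr D S s₀
  · rw [ind_true a, ind_true a.ge, ind_false fun l => l.ne' a, sub_zero]
  · rw [ind_false a, ind_congr (lt_iff_le_and_ne.trans (and_iff_left (Ne.symm a))), sub_self]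

omit [Fintype (V ≃ₗ[F] V)] in
theorem exists_u {s s' : V ≃ₗ[F] V} (h : gr D S s = gr D S s') :
    ∃ u : V ≃ₗ[F] V, (∀ x ∈ S, u x = x) ∧ ∀ d ∈ D, u (s d) = s' d := by
  have k : ∀ {s s' : V ≃ₗ[F] V}, gr D S s = gr D S s' → LinearMap.ker (S.subtype.coprod (s.toLinearMap ∘ₗ D.subtype)) ≤
      LinearMap.ker (S.subtype.coprod (s'.toLinearMap ∘ₗ D.subtype)) := fun {s s'} h p hp => by
    have e : s p.2 = -p.1 := eq_neg_of_add_eq_zero_right hp
    exact add_eq_zero_iff_neg_eq.2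
      (h.le (show (p.2.1, -p.1.1) ∈ gr D S s from ⟨p.2.2, S.neg_mem p.1.2, e⟩)).2.2.symm
  obtain ⟨u, hu⟩ := ext_of_ker _ _ (le_antisymm (k h) (k h.symm))
  exact ⟨u, fun x hx => by simpa using hu (⟨x, hx⟩, 0), fun d hd => by simpa using hu (0, ⟨d, hd⟩)⟩

end

end Sp

open Sp in
/-- PROOF. Subtract the means of `c` and `Fn` (constants go into `α`), apply `ker_formula`.
By `HK` (and `h.sc`: `Fn (y * (b • g)) = Fn (y * g)`, scalars are central and in `K`) `e` is invariant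
under all of `GL(V)`: given `y, g, g'` take `x` from `HK` for `g₀ = g⁻¹ g'`, `a = (det y)⁻¹`; then
`y g x g⁻¹ ∈ G0` and `e (g x) (g x g₀) = e g g'`. So `e g (g s) = ε s` where `ε s` depends only on the
pair (`B s = {d ∈ D | s d ∈ S}`, `s` restricted to `B s`): if `s, s'` have the same such pair, the map
`x + s d ↦ x + s' d` (`x ∈ S`, `d ∈ D`) is well defined and injective on `S ⊔ s • D`, extend it
(`exists_ext`) to `u` fixing `S` pointwise with `u s = s'` on `D`.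
`Fn g = ∑_s ε s * c (g s)`. Let `𝓢` = span of the constants and the `g ↦ c (g s)` with `s • D ≤ S`.
For `s₀` put `L s₀ = {s | B s = B s₀, s = s₀ on B s₀}`; show `g ↦ ∑_{s ∈ L s₀} c (g s)` is in `𝓢` by
downward induction on `finrank (B s₀)`: if `B s₀ = D` every term is a generator; otherwise
`Z = {s | s = s₀ on B s₀}` is the disjoint union of `L s₀` and of sets `L s` with `B s > B s₀`, and
`∑_{s ∈ Z} c (g s)` is constant in `g`: by `hTr` (`Tr.mono`) some `k ∈ K` agrees with `g s₀` on `B s₀`,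
so `g Z = k Fix(B s₀)`. -/
theorem span (h : R3 K) (hT : TF K) [Fintype (V ≃ₗ[F] V)] {D S : Submodule F V}
    (hD : finrank F D + 2 ≤ finrank F V) (hS : finrank F S + 2 ≤ finrank F V)
    (hTr : Tr K (finrank F D - 1)) (c Fn : (V ≃ₗ[F] V) → ℝ)
    (hcK : ∀ k ∈ K, ∀ g, c (k * g) = c g)
    (hcD : ∀ g g' : V ≃ₗ[F] V, (∀ d ∈ D, g d = g' d) → c g = c g') (hc : ∃ g g', c g ≠ c g')
    (HK : ∀ (g₀ : V ≃ₗ[F] V) (a : Fˣ), ∃ x : V ≃ₗ[F] V, LinearEquiv.det x = a ∧
      (∃ b : F, ∀ s ∈ S, x s = b • s) ∧ ∀ g, c (g * x * g₀) = c (g * g₀))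
    (hFK : ∀ k ∈ K, ∀ g, Fn (k * g) = Fn g)
    (hFS : ∀ g g' : V ≃ₗ[F] V, (∀ s ∈ S, g s = g' s) → Fn g = Fn g') :
    ∃ (α : ℝ) (β : (V ≃ₗ[F] V) → ℝ), (∀ s, β s ≠ 0 → s • D ≤ S) ∧
      ∀ g, Fn g = α + ∑ s, β s * c (g * s) := by
  have c0 : (Fintype.card (V ≃ₗ[F] V) : ℝ) ≠ 0 := Nat.cast_ne_zero.2 Fintype.card_ne_zero
  have mean : ∀ f : (V ≃ₗ[F] V) → ℝ, ∃ m, ∑ g, (f g - m) = 0 := fun f =>
    ⟨(∑ g, f g) / Fintype.card (V ≃ₗ[F] V), by
      rw [Finset.sum_sub_distrib, Finset.sum_const, Finset.card_univ, nsmul_eq_mul]; field_simp; ring⟩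
  obtain ⟨m, hm⟩ := mean c
  obtain ⟨m', hm'⟩ := mean Fn
  obtain ⟨e, e1, e2, e3⟩ := ker_formula h hT hD hS (fun g => c g - m) (fun g => Fn g - m')
    (fun k hk g => by rw [hcK k hk]) (fun g g' a => by rw [hcD g g' a]) hm (by
      obtain ⟨g, g', n⟩ := hc
      by_contra! k
      exact n (by linarith [k g, k g'])) (fun k hk g => by rw [hFK k hk]) (fun g g' a => by rw [hFS g g' a]) hm'
  have inv : ∀ g s, e g (g * s) = e 1 s := fun g s => by
    obtain ⟨x, x1, ⟨b, x2⟩, x3⟩ := HK s (LinearEquiv.det g)⁻¹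
    have := e1 (g * x) ⟨1, by rw [map_mul, x1, mul_inv_cancel, one_pow]⟩ 1 s
    rw [← this, mul_one]
    refine e2 _ _ _ _ (fun y => congrArg (· - m') ?_) fun y => by
      rw [← mul_assoc, ← x3, mul_assoc y, mul_assoc y]
    by_cases b0 : b = 0
    · refine hFS _ _ fun s hs => ?_
      rw [x.injective ((x2 s hs).trans (by rw [b0, zero_smul, map_zero]) : x s = x 0), map_zero, map_zero]
    · obtain ⟨k, hk, ek⟩ := h.sc b b0
      rw [← hFK k hk]
      exact hFS _ _ fun s hs => by simp [ek, x2 s hs]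
  obtain ⟨α, β, h1, h2⟩ := cls (c := c) (ε := e 1) (fun s s' a => by
    obtain ⟨u, u1, u2⟩ := exists_u a
    rw [← inv u s]
    exact e2 _ _ _ _ (fun y => congrArg (· - m') (hFS _ _ fun x hx => by simp [u1 x hx]))
      fun y => congrArg (· - m) (hcD _ _ fun d hd => by simp [u2 d hd]))
    fun s _ => fib (by omega) hTr hcK s
  refine ⟨m' - m * ∑ s, e 1 s + α, β, h1, fun g => ?_⟩
  have := e3 g
  rw [← Fintype.sum_equiv (Equiv.mulLeft g) (fun s => e 1 s * (c (g * s) - m)) _ fun s => by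
    rw [Equiv.coe_mulLeft, inv]] at this
  simp only [mul_sub, Finset.sum_sub_distrib, ← Finset.sum_mul] at this
  have := h2 g
  linarith

/-- PROOF. `span` with `D = B₀` for a fixed flag `A₀ ≤ B₀` of type `(i,j)` and
`c g = ind (col (g • A₀) (g • B₀))` (non-constant by `exists_smul_pair`). `HK`: `U' = g₀ • B₀`,
`U'' = g₀ • A₀`; choose `y ∉ S` with `y ∈ U''` if `U'' ≰ S`, else `y ∈ U'` if `U' ≰ S`, else any; `φ` a
functional vanishing on `S` with `φ y = 1`; `x = v ↦ v + (a - 1) φ v • y` (dilatransvection,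
determinant `a`) fixes `S` pointwise and stabilises `U'`, `U''`. Then group the sum by
`p = (s • A₀, s • B₀)`. -/
theorem span_flag (h : R3 K) (hT : TF K) [Fintype (Submodule F V)] {i j : ℕ} (hTr : Tr K (j - 1))
    (col : Submodule F V → Submodule F V → Prop)
    (hcol : ∀ k ∈ K, ∀ A B, col (k • A) (k • B) ↔ col A B)
    (hne : ∃ A B A' B', Fl i j A B ∧ Fl i j A' B' ∧ col A B ∧ ¬ col A' B') {S : Submodule F V}
    (hjS : j ≤ finrank F S) (hS : finrank F S + 2 ≤ finrank F V) (Fn : (V ≃ₗ[F] V) → ℝ)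
    (hFK : ∀ k ∈ K, ∀ g, Fn (k * g) = Fn g)
    (hFS : ∀ g g' : V ≃ₗ[F] V, (∀ s ∈ S, g s = g' s) → Fn g = Fn g') :
    ∃ (α : ℝ) (β : Submodule F V × Submodule F V → ℝ), ∀ g : V ≃ₗ[F] V, Fn g = α +
      ∑ p, β p * ind (Fl i j p.1 p.2 ∧ p.2 ≤ S ∧ col (g • p.1) (g • p.2)) := by
  classical
  obtain ⟨A, B, A', B', ⟨l, rfl, rfl⟩, fl', c1, c2⟩ := hne
  have : Finite V := Module.finite_of_finite F
  have : Finite (V ≃ₗ[F] V) := DFunLike.finite _
  have := Fintype.ofFinite (V ≃ₗ[F] V)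
  obtain ⟨α, β, h1, h2⟩ := span h hT (D := B) (by omega) hS hTr (fun g => ind (col (g • A) (g • B))) Fn
    (fun k hk g => by rw [mul_smul, mul_smul, ind_congr (hcol k hk _ _)])
    (fun g g' e => by rw [smul_congr e l, smul_congr e le_rfl]) (by
      obtain ⟨g, rfl, rfl⟩ := exists_smul_pair l fl'.1 fl'.2.1.symm fl'.2.2.symm
      exact ⟨1, g, by rw [one_smul, one_smul, ind_true c1, ind_false c2]; exact one_ne_zero⟩) (fun g₀ a => by
      obtain ⟨y, y1, y2, y3⟩ : ∃ y ∉ S, (y ∈ g₀ • A ∨ g₀ • A ≤ S) ∧ (y ∈ g₀ • B ∨ g₀ • B ≤ S) := by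
        by_cases a : g₀ • A ≤ S
        · by_cases b : g₀ • B ≤ S
          · exact (Sp.exists_notMem (S := S) (by omega)).imp fun y hy => ⟨hy, .inr a, .inr b⟩
          · exact (SetLike.not_le_iff_exists.1 b).imp fun y hy => ⟨hy.2, .inr a, .inl hy.1⟩
        · exact (SetLike.not_le_iff_exists.1 a).imp fun y hy => ⟨hy.2, .inl hy.1, .inl (smul_le_smul.2 l hy.1)⟩
      obtain ⟨x, x1, x2, x3⟩ := Sp.dil y1 a
      exact ⟨x, x1, ⟨1, by simpa using x2⟩, fun g => by simp only [mul_smul, x3 _ y2, x3 _ y3]⟩) hFK hFS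
  refine ⟨α, fun p => ∑ s with (s • A, s • B) = p, β s, fun g => ?_⟩
  rw [h2, ← Finset.sum_fiberwise _ fun s : V ≃ₗ[F] V => (s • A, s • B)]
  refine congrArg _ (Finset.sum_congr rfl fun p _ => ?_)
  rw [Finset.sum_mul]
  refine Finset.sum_congr rfl fun s hs => ?_
  obtain rfl := (Finset.mem_filter.1 hs).2
  by_cases e : β s = 0
  · rw [e, zero_mul, zero_mul]
  · rw [mul_smul, mul_smul, ind_congr (and_iff_right ⟨smul_le_smul.2 l, finrank_smul, finrank_smul⟩),
      ind_congr (and_iff_right (h1 s e))]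

/-- PROOF. `span` with `D = L`. `HK`: if `S ⊔ g₀ • L ≠ ⊤` take a dilatransvection fixing it pointwise.
Otherwise `n = 5`, `V = S ⊕ g₀ • L`; take `x = a` on `S` and `a⁻¹` on `g₀ • L` (determinant `a³ a⁻²`);
`c` is invariant under scalars since these are central and lie in `K`. -/
theorem span_two (h : R3 K) (hT : TF K) [Fintype (V ≃ₗ[F] V)] (hTr : Tr K 1) {L S : Submodule F V}
    (hL : finrank F L = 2) (hS : finrank F S = 3) (c Fn : (V ≃ₗ[F] V) → ℝ)
    (hcK : ∀ k ∈ K, ∀ g, c (k * g) = c g)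
    (hcL : ∀ g g' : V ≃ₗ[F] V, (∀ d ∈ L, g d = g' d) → c g = c g') (hc : ∃ g g', c g ≠ c g')
    (hFK : ∀ k ∈ K, ∀ g, Fn (k * g) = Fn g)
    (hFS : ∀ g g' : V ≃ₗ[F] V, (∀ s ∈ S, g s = g' s) → Fn g = Fn g') :
    ∃ (α : ℝ) (β : (V ≃ₗ[F] V) → ℝ), (∀ s, β s ≠ 0 → s • L ≤ S) ∧
      ∀ g, Fn g = α + ∑ s, β s * c (g * s) := by
  have := h.dim
  refine span h hT (by omega) (by omega) (by rwa [hL]) c Fn hcK hcL hc (fun g₀ a => ?_) hFK hFS
  by_cases e : S ⊔ g₀ • L = ⊤
  · have h1 := Submodule.finrank_sup_add_finrank_inf_eq S (g₀ • L)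
    have h2 : finrank F (g₀ • L : Submodule F V) = 2 := finrank_smul.trans hL
    rw [e, finrank_top, h2] at h1
    have ic : IsCompl S (g₀ • L) :=
      ⟨disjoint_iff.2 (Submodule.finrank_eq_zero.1 (by omega)), codisjoint_iff.2 e⟩
    obtain ⟨k, hk, ek⟩ := h.sc _ a⁻¹.ne_zero
    refine ⟨((prodEquivOfIsCompl _ _ ic).symm.trans ((LinearEquiv.smulOfUnit a).prodCongr
      (LinearEquiv.smulOfUnit a⁻¹))).trans (prodEquivOfIsCompl _ _ ic), ?_, ⟨a, fun s hs => ?_⟩, fun g => ?_⟩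
    · have d : ∀ (W : Submodule F V) (u : Fˣ), LinearMap.det (LinearEquiv.smulOfUnit (M := W) u).toLinearMap =
          u ^ finrank F W := fun W u => by
        rw [show (LinearEquiv.smulOfUnit (M := W) u).toLinearMap = (u : F) • LinearMap.id from rfl,
          LinearMap.det_smul, LinearMap.det_id, mul_one]
      rw [LinearEquiv.det_conj, Units.ext_iff, LinearEquiv.coe_det, LinearEquiv.coe_prodCongr,
        LinearMap.det_prodMap, d, d, hS, h2, Units.val_inv_eq_inv_val]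
      field_simp
    · rw [LinearEquiv.trans_apply, LinearEquiv.trans_apply, prodEquivOfIsCompl_symm_apply_left _ _ ic ⟨s, hs⟩]
      simp [LinearEquiv.smulOfUnit, Units.smul_def]
    · rw [← hcK k hk (g * g₀)]
      refine hcL _ _ fun d hd => ?_
      simp only [LinearEquiv.mul_apply, LinearEquiv.trans_apply, ek, ← map_smul g]
      rw [prodEquivOfIsCompl_symm_apply_right _ _ ic ⟨g₀ d, d, hd, rfl⟩]
      simp [LinearEquiv.smulOfUnit, Units.smul_def]
  · obtain ⟨y, hy⟩ := Sp.exists_notMem (Submodule.finrank_lt e)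
    obtain ⟨x, x1, x2, -⟩ := Sp.dil hy a
    exact ⟨x, x1, ⟨1, fun s hs => by rw [one_smul, x2 s (mem_sup_left hs)]⟩, fun g => hcL _ _ fun d hd => by
      simp only [LinearEquiv.mul_apply, x2 _ (mem_sup_right (apply_mem_smul.2 hd))]⟩

end CL.PL
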