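/-
Rank three actions of the linear groups: flag transitivity on lines.
-/
import Cfsg.Agent.CLAS.PL.Span
import Cfsg.Agent.CLAS.PL.C0
import Cfsg.Agent.CLAS.RkB2

set_option autoImplicit false

namespace CL.PL

open Module Submodule
open scoped Pointwise

variable {F : Type*} [Field F] [Finite F] {V : Type*} [AddCommGroup V] [Module F V]
  [FiniteDimensional F V] {K : Subgroup (V ≃ₗ[F] V)}

namespace C2

section Aux

omit [Finite F]

theorem exists_dil (φ : Dual F V) (v : V) (h : 1 + φ v ≠ 0) : ∃ g : V ≃ₗ[F] V, ∀ x, g x = x + φ x • v := by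
  refine ⟨LinearEquiv.ofInjectiveEndo (LinearMap.id + φ.smulRight v) ((injective_iff_map_eq_zero _).2 fun x hx => ?_),
    fun x => rfl⟩
  have e : x + φ x • v = 0 := hx
  have e' := congrArg φ e
  rw [map_add, map_smul, map_zero, smul_eq_mul, ← mul_one_add, mul_eq_zero] at e'
  rwa [e'.resolve_right h, zero_smul, add_zero] at e

omit [FiniteDimensional F V] in
theorem exists_fn {A : Submodule F V} {y : V} (hy : y ∉ A) : ∃ φ : Dual F V, φ y = 1 ∧ ∀ a ∈ A, φ a = 0 := by
  obtain ⟨f, h1, h2⟩ := Submodule.exists_le_ker_of_notMem hy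
  exact ⟨(f y)⁻¹ • f, by simp [h1], fun a ha => by simp [show f a = 0 from h2 ha]⟩

theorem exists_fix_map {A : Submodule F V} {y y' : V} (hy : y ∉ A) (hy' : y' ∉ A) :
    ∃ g : V ≃ₗ[F] V, (∀ a ∈ A, g a = a) ∧ g y = y' := by
  obtain ⟨φ, h1, h2, h3⟩ : ∃ φ : Dual F V, φ y ≠ 0 ∧ φ y' ≠ 0 ∧ ∀ a ∈ A, φ a = 0 := by
    obtain ⟨f, f1, f2⟩ := exists_fn hy
    obtain ⟨g, g1, g2⟩ := exists_fn hy'
    by_cases a : f y' = 0
    · by_cases b : g y = 0
      · exact ⟨f + g, by simp [f1, b], by simp [g1, a], fun a ha => by simp [f2 a ha, g2 a ha]⟩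
      · exact ⟨g, b, by simp [g1], g2⟩
    · exact ⟨f, by simp [f1], a, f2⟩
  obtain ⟨g, hg⟩ := exists_dil φ ((φ y)⁻¹ • (y' - y)) (by
    rw [map_smul, map_sub, smul_eq_mul, mul_sub, inv_mul_cancel₀ h1, add_sub_cancel]
    exact mul_ne_zero (inv_ne_zero h1) h2)
  exact ⟨g, fun a ha => by rw [hg, h3 a ha, zero_smul, add_zero], by
    rw [hg, smul_smul, mul_inv_cancel₀ h1, one_smul, add_sub_cancel]⟩

theorem smul_eq_of_le {g : V ≃ₗ[F] V} {A B : Submodule F V} (h : ∀ a ∈ A, g a ∈ B) (e : finrank F A = finrank F B) :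
    g • A = B :=
  eq_of_le_of_finrank_eq (by rintro _ ⟨a, ha, rfl⟩; exact h a ha) (by rw [finrank_smul, e])

theorem subTr_of_flagTr {j : ℕ} (hj : 0 < j) (h : FlagTr K j) : SubTr K j := fun A B hA hB => by
  obtain ⟨W, hW, e⟩ := exists_le_finrank (⊥ : Submodule F A) (j := j - 1) (by simp) (by omega)
  obtain ⟨W', hW', e'⟩ := exists_le_finrank (⊥ : Submodule F B) (j := j - 1) (by simp) (by omega)
  obtain ⟨k, hk, -, e⟩ := h (W.map A.subtype) A (W'.map B.subtype) B (map_subtype_le _ _) (map_subtype_le _ _)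
    (by rw [finrank_map_subtype_eq]; omega) hA (by rw [finrank_map_subtype_eq]; omega) hB
  exact ⟨k, hk, e⟩

omit [FiniteDimensional F V] in
/-- `g ~ g'` if `k g = g'` on `W` -/
def rel (K : Subgroup (V ≃ₗ[F] V)) (W : Submodule F V) : Setoid (V ≃ₗ[F] V) where
  r g g' := ∃ k ∈ K, ∀ x ∈ W, k (g x) = g' x
  iseqv := ⟨fun _ => ⟨1, K.one_mem, fun _ _ => rfl⟩, fun ⟨k, hk, e⟩ => ⟨k⁻¹, K.inv_mem hk, fun x hx => by
    rw [← e x hx]; exact k.symm_apply_apply _⟩, fun ⟨k, hk, e⟩ ⟨k', hk', e'⟩ =>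
    ⟨k' * k, K.mul_mem hk' hk, fun x hx => by rw [LinearEquiv.mul_apply, e x hx, e' x hx]⟩⟩

omit [FiniteDimensional F V] in
theorem mk_mul {W : Submodule F V} {k : V ≃ₗ[F] V} (hk : k ∈ K) (g : V ≃ₗ[F] V) :
    Quotient.mk (rel K W) (k * g) = Quotient.mk (rel K W) g :=
  (Quotient.sound (s := rel K W) ⟨k, hk, fun _ _ => rfl⟩).symm

omit [FiniteDimensional F V] in
theorem mk_congr {W : Submodule F V} {g g' : V ≃ₗ[F] V} (h : ∀ x ∈ W, g x = g' x) :
    Quotient.mk (rel K W) g = Quotient.mk (rel K W) g' :=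
  Quotient.sound (s := rel K W) ⟨1, K.one_mem, h⟩

theorem exists_ne {j : ℕ} (h : ¬ Tr K j) {L : Submodule F V} (hL : finrank F L = j) :
    ∃ g g', Quotient.mk (rel K L) g ≠ Quotient.mk (rel K L) g' := by
  by_contra hn
  push Not at hn
  refine h fun A hA g => ?_
  obtain ⟨s, rfl⟩ := exists_smul_eq (hL.trans hA.symm)
  obtain ⟨k, hk, e⟩ := Quotient.exact (hn s (g * s))
  exact ⟨k, hk, by rintro _ ⟨x, hx, rfl⟩; exact e x hx⟩

omit [FiniteDimensional F V] in
/-- right multiplication on classes -/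
def mp (K : Subgroup (V ≃ₗ[F] V)) {A B : Submodule F V} (s : V ≃ₗ[F] V) (h : s • A ≤ B) :
    Quotient (rel K B) → Quotient (rel K A) :=
  Quotient.map (· * s) fun _ _ ⟨k, hk, e⟩ => ⟨k, hk, fun x hx => e _ (h ⟨x, hx, rfl⟩)⟩

theorem hyp_ker {S : Submodule F V} {f : Dual F S} (hf : f ≠ 0) : Hyp S ((LinearMap.ker f).map S.subtype) :=
  ⟨map_subtype_le _ _, by rw [finrank_map_subtype_eq, Dual.finrank_ker_add_one_of_ne_zero hf]⟩

theorem exists_ker {S A : Submodule F V} (h : Hyp S A) :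
    ∃ f : Dual F S, f ≠ 0 ∧ (LinearMap.ker f).map S.subtype = A := by
  obtain ⟨y, hy, hy'⟩ := SetLike.exists_of_lt (lt_of_le_of_ne h.1 fun e => by have := h.2; rw [e] at this; omega)
  obtain ⟨φ, h1, h2⟩ := exists_fn hy'
  have hf : φ ∘ₗ S.subtype ≠ 0 := fun e => one_ne_zero (h1.symm.trans (LinearMap.congr_fun e ⟨y, hy⟩))
  refine ⟨_, hf, (eq_of_le_of_finrank_eq (fun a ha => mem_map.2 ⟨⟨a, h.1 ha⟩, h2 a ha, rfl⟩) ?_).symm⟩
  have := (hyp_ker hf).2
  have := h.2
  omega

end Aux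

theorem fin_GL : Finite (V ≃ₗ[F] V) :=
  have : Finite V := Module.finite_of_finite F
  Finite.of_injective _ (DFunLike.coe_injective (F := V ≃ₗ[F] V))

/-- two lines of a plane: every map stabilising a flag `b ≤ A` agrees on `A` with one stabilising `L`, `S` -/
theorem exists_stab {L A S : Submodule F V} (hL : finrank F L = 2) (hA : finrank F A = 2) (hS : finrank F S = 3)
    (h1 : L ≤ S) (h2 : A ≤ S) : ∃ b : Submodule F V, b ≤ A ∧ finrank F b = 1 ∧ ∀ γ : V ≃ₗ[F] V, γ • b = b →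
      γ • A = A → ∃ γ' : V ≃ₗ[F] V, (∀ a ∈ A, γ' a = γ a) ∧ γ' • L = L ∧ γ' • S = S := by
  have h3 := finrank_sup_add_finrank_inf_eq A L
  have h4 := finrank_mono (sup_le h2 h1)
  obtain ⟨b, hb, b0⟩ := exists_mem_ne_zero_of_ne_bot (p := A ⊓ L) fun e => by rw [e, finrank_bot] at h3; omega
  have hb1 : finrank F (F ∙ b) = 1 := finrank_span_singleton b0
  have hbA : (F ∙ b) ≤ A := (span_singleton_le_iff_mem _ _).2 hb.1
  refine ⟨_, hbA, hb1, fun γ e1 e2 => ?_⟩
  obtain ⟨y, hy, hyA, hL'⟩ : ∃ y ∈ S, y ∉ A ∧ (L = A ∨ L = (F ∙ b) ⊔ F ∙ y) := by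
    by_cases h : L ≤ A
    · obtain ⟨y, hy, hy'⟩ := SetLike.exists_of_lt (lt_of_le_of_ne h2 fun e => by rw [e] at hA; omega)
      exact ⟨y, hy, hy', .inl (eq_of_le_of_finrank_eq h (hL.trans hA.symm))⟩
    · obtain ⟨y, hy, hy'⟩ := SetLike.not_le_iff_exists.1 h
      exact ⟨y, h1 hy, hy', .inr (eq_of_le_of_finrank_eq (sup_le ((span_singleton_le_iff_mem _ _).2 hb.2)
        ((span_singleton_le_iff_mem _ _).2 hy)) (by rw [finrank_sup_span_singleton fun h => hy' (hbA h), hb1, hL])).symm⟩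
  have hS' : S = A ⊔ F ∙ y := (eq_of_le_of_finrank_eq (sup_le h2 ((span_singleton_le_iff_mem _ _).2 hy))
    (by rw [finrank_sup_span_singleton hyA, hA, hS])).symm
  obtain ⟨τ, t1, t2⟩ := exists_fix_map (y := γ y) (y' := y) (A := A) (by rwa [← e2, apply_mem_smul]) hyA
  have e : ∀ a ∈ A, (τ * γ) a = γ a := fun a ha => t1 _ (e2 ▸ apply_mem_smul.2 ha)
  have e3 : (τ * γ) • (F ∙ y) = F ∙ y := by rw [smul_line, LinearEquiv.mul_apply, t2]
  refine ⟨τ * γ, e, ?_, by rw [hS', smul_sup, smul_congr e le_rfl, e2, e3]⟩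
  rcases hL' with rfl | rfl
  · rw [smul_congr e le_rfl, e2]
  · rw [smul_sup, smul_congr e hbA, e1, e3]

end C2

open C2

/-- PROOF. Fix `L ≤ S` (dimensions 2, 3), `c g = ind (Ag K L g)` (not constant as `¬ Tr K 2`, use
`SubTr`), `Fn g = ind (∃ k ∈ K, k • L = g • L ∧ k • S = g • S)`; subtract means: `c₀, F₀` of sum zero,
`F₀ g = α' + ∑ β s c₀ (g s)`, so `∑ F₀² = ∑_s β s ∑_g F₀ g c₀ (g s)`. For `s • L ≤ S`:
`Φ g' = ∑_{g : g s = g' on L} F₀ g` is left `K`-invariant, and right invariant under all `γ` with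
`γ • L = L`, `γ • b = b` for a point `b ≤ L` with `s • b ≤ L` (there is `γ'` stabilising `S` and `L`
with `γ' s = s γ` on `L`); by `FlagTr K 2` it is constant, so `∑_g F₀ g c₀ (g s) = 0`. -/
theorem flagTr_three (h : R3 K) (hT : TF K) (h1 : Tr K 1) (hf : FlagTr K 2) (h2 : ¬ Tr K 2) :
    FlagTr K 3 := by
  classical
  have := fin_GL (F := F) (V := V)
  have := Fintype.ofFinite (V ≃ₗ[F] V)
  intro L S L' S' hLS hLS' hL hS hL' hS'
  replace hL : finrank F L = 2 := by omega
  obtain ⟨g1, g2, hne⟩ := exists_ne h2 hL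
  let c1 : (V ≃ₗ[F] V) → ℝ := fun g => ind (Quotient.mk (rel K L) g = Quotient.mk (rel K L) g1)
  let c : (V ≃ₗ[F] V) → ℝ := fun g => c1 g - (∑ g, c1 g) / Fintype.card (V ≃ₗ[F] V)
  have cK : ∀ k ∈ K, ∀ g, c (k * g) = c g := fun k hk g => by simp only [c, c1, mk_mul hk]
  have cL : ∀ g g' : V ≃ₗ[F] V, (∀ d ∈ L, g d = g' d) → c g = c g' := fun g g' e => by simp only [c, c1, mk_congr e]
  have c0 : ∀ s, ∑ g, c (g * s) = 0 := fun s => by
    refine (Equiv.sum_comp (Equiv.mulRight s) c).trans ?_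
    simp only [c, Finset.sum_sub_distrib, Finset.sum_const, Finset.card_univ, nsmul_eq_mul]
    rw [mul_div_cancel₀ _ (Nat.cast_ne_zero.2 Fintype.card_ne_zero), sub_self]
  let Fn : (V ≃ₗ[F] V) → ℝ := fun g => ind (∃ k ∈ K, k • L = g • L ∧ k • S = g • S)
  obtain ⟨α, β, hβ, hF⟩ := span_two h hT h1 hL hS c Fn cK cL ⟨g1, g2, fun e => by
    simp only [c, c1, sub_left_inj, ind_true trivial, ind_false hne.symm] at e
    exact one_ne_zero e⟩ (fun k hk g => ind_congr ⟨fun ⟨l, hl, e1, e2⟩ => ⟨k⁻¹ * l, K.mul_mem (K.inv_mem hk) hl,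
      by rw [mul_smul, e1, mul_smul, inv_smul_smul], by rw [mul_smul, e2, mul_smul, inv_smul_smul]⟩,
      fun ⟨l, hl, e1, e2⟩ => ⟨k * l, K.mul_mem hk hl, by rw [mul_smul, e1, mul_smul], by rw [mul_smul, e2, mul_smul]⟩⟩)
    fun g g' e => by simp only [Fn, smul_congr e hLS, smul_congr e le_rfl]
  have T : ∀ s : V ≃ₗ[F] V, s • L ≤ S → ∑ g, Fn g * c (g * s) = 0 := fun s hs => by
    obtain ⟨b, hb, hb1, hγ⟩ := exists_stab hL (finrank_smul.trans hL) hS hLS hs
    let Γ := Finset.univ.filter fun γ : V ≃ₗ[F] V => γ • b = b ∧ γ • s • L = s • L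
    have hΓ : (Γ.card : ℝ) ≠ 0 := Nat.cast_ne_zero.2 (Finset.card_ne_zero.2 ⟨1, by simp [Γ]⟩)
    have a1 : ∀ g, ∑ γ ∈ Γ, c (g * γ * s) = ∑ γ ∈ Γ, c (γ * s) := fun g => by
      obtain ⟨k, hk, e1, e2⟩ := hf b (s • L) (g • b) (g • s • L) hb (smul_le_smul.2 hb) (by omega)
        (finrank_smul.trans hL) (by rw [finrank_smul]; omega) (finrank_smul.trans (finrank_smul.trans hL))
      refine Finset.sum_equiv (Equiv.mulLeft (k⁻¹ * g)) (fun γ => ?_) fun γ _ => ?_
      · simp only [Γ, Finset.mem_filter, Finset.mem_univ, true_and, Equiv.coe_mulLeft, mul_smul, inv_smul_eq_iff, e1, e2,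
          smul_left_cancel_iff]
      · rw [← cK k⁻¹ (K.inv_mem hk)]; simp only [Equiv.coe_mulLeft, mul_assoc]
    have a2 : ∑ γ ∈ Γ, c (γ * s) = 0 := by
      have : ∑ g, ∑ γ ∈ Γ, c (g * γ * s) = 0 := by
        rw [Finset.sum_comm]
        exact Finset.sum_eq_zero fun γ _ => by simp only [mul_assoc, c0]
      simp only [a1, Finset.sum_const, Finset.card_univ, nsmul_eq_mul] at this
      exact (mul_eq_zero.1 this).resolve_left (Nat.cast_ne_zero.2 Fintype.card_ne_zero)
    have a3 : ∀ γ ∈ Γ, ∑ g, Fn g * c (g * γ * s) = ∑ g, Fn g * c (g * s) := fun γ hγ' => by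
      obtain ⟨γ', e1, e2, e3⟩ := hγ γ (Finset.mem_filter.1 hγ').2.1 (Finset.mem_filter.1 hγ').2.2
      rw [← Equiv.sum_comp (Equiv.mulRight γ') fun g => Fn g * c (g * s)]
      refine Finset.sum_congr rfl fun g _ => ?_
      rw [cL (g * γ * s) (g * γ' * s) fun d hd => congrArg g (e1 _ (apply_mem_smul.2 hd)).symm]
      simp only [Fn, Equiv.coe_mulRight, mul_smul, e2, e3]
    refine (mul_eq_zero.1 ?_).resolve_left hΓ
    rw [← nsmul_eq_mul, ← Finset.sum_const, ← Finset.sum_congr rfl a3, Finset.sum_comm]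
    exact Finset.sum_eq_zero fun g _ => by rw [← Finset.mul_sum, a1, a2, mul_zero]
  have e1 : ∑ g, (Fn g - α) ^ 2 = 0 := by
    have : ∀ g, (Fn g - α) ^ 2 = ∑ s, β s * (Fn g * c (g * s)) - α * ∑ s, β s * c (g * s) := fun g => by
      have e : Fn g - α = ∑ s, β s * c (g * s) := by rw [hF g, add_sub_cancel_left]
      rw [sq, e, ← e, sub_mul, e, Finset.mul_sum]
      simp only [mul_left_comm]
    simp only [this, Finset.sum_sub_distrib, ← Finset.mul_sum]
    rw [Finset.sum_comm, Finset.sum_comm (f := fun g s => β s * c (g * s))]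
    simp only [← Finset.mul_sum, c0, mul_zero, Finset.sum_const_zero, sub_zero]
    refine Finset.sum_eq_zero fun s _ => ?_
    by_cases hs : β s = 0
    · rw [hs, zero_mul]
    · rw [T s (hβ s hs), mul_zero]
  have e2 : ∀ g, Fn g = α := fun g => sub_eq_zero.1 (pow_eq_zero_iff two_ne_zero |>.1
    ((Finset.sum_eq_zero_iff_of_nonneg fun _ _ => sq_nonneg _).1 e1 g (Finset.mem_univ g)))
  obtain ⟨g, rfl, rfl⟩ := exists_smul_pair hLS hLS' (by omega) (hS.trans hS'.symm)
  by_contra hn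
  have := (e2 g).trans (e2 1).symm
  simp only [Fn] at this
  rw [ind_false hn, ind_true ⟨1, K.one_mem, rfl, rfl⟩] at this
  exact zero_ne_one this

/-- PROOF. If not, `N` = number of classes of `g` for `g ~ g' ↔ ∃ k ∈ K, k g = g' on L`, and `N₃` the
same for `S`. Upper bound: by `span_two` every class function for `S` is in the span of the
`[3] N` functions `g ↦ ind (g s_A ∈ class)`, (`s_A • L = A` fixed for each line `A ≤ S`), so
`N₃ ≤ (q²+q+1) N`. Lower bound: the `q²(q-1)` maps `γ` fixing `L` pointwise and stabilising `S`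
give inequivalent `g γ`, all in the `L`-class of `g`: `N₃ ≥ q²(q-1) N`. False for `q ≥ 3`. -/
theorem exists_persp (h : R3 K) (hT : TF K) (h1 : Tr K 1) (h2 : ¬ Tr K 2)
    (hq : 2 < Nat.card F) : ∃ π L : Submodule F V, finrank F π = 3 ∧ Hyp π L ∧
      ∃ k ∈ fixS K L, k • π = π ∧ ∃ x ∈ π, k x ≠ x := by
  classical
  have := fin_GL (F := F) (V := V)
  have := Fintype.ofFinite (V ≃ₗ[F] V)
  by_contra hn
  push Not at hn
  obtain ⟨L, -, hL⟩ := exists_le_finrank (⊥ : Submodule F V) (j := 2) (by simp) (by have := h.dim; omega)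
  obtain ⟨S, hLS, hS⟩ := exists_le_finrank L (j := 3) (by omega) (by have := h.dim; omega)
  have : Finite V := Module.finite_of_finite F
  have : Finite (Dual F S) := Module.finite_of_finite F
  have := Fintype.ofFinite (Quotient (rel K L))
  have := Fintype.ofFinite (Quotient (rel K S))
  have := Fintype.ofFinite (Projectivization F (Dual F S))
  have up : Fintype.card (Quotient (rel K S)) ≤
      Fintype.card (Projectivization F (Dual F S)) * Fintype.card (Quotient (rel K L)) := by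
    choose t ht using fun p : Projectivization F (Dual F S) => exists_smul_eq (A := L)
      (B := (LinearMap.ker p.rep).map S.subtype) (by have := (hyp_ker p.rep_nonzero).2; omega)
    have hle : ∀ p, t p • L ≤ S := fun p => ht p ▸ map_subtype_le _ _
    let v : Projectivization F (Dual F S) × Quotient (rel K L) → Quotient (rel K S) → ℝ :=
      fun p x => ind (mp K (t p.1) (hle p.1) x = p.2)
    have m1 : ∀ p (c : Quotient (rel K L) → ℝ), (fun x => c (mp K (t p) (hle p) x)) ∈ Submodule.span ℝ (Set.range v) :=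
      fun p c => by
        have : (fun x => c (mp K (t p) (hle p) x)) = ∑ C, c C • v (p, C) := funext fun x => by
          rw [Finset.sum_apply, Finset.sum_eq_single (mp K (t p) (hle p) x) (fun C _ hC => by
            simp only [v, Pi.smul_apply, ind_false hC.symm, smul_zero]) (by simp)]
          simp only [v, Pi.smul_apply, ind_true trivial, smul_eq_mul, mul_one]
        rw [this]
        exact sum_mem fun C _ => smul_mem _ _ (subset_span ⟨_, rfl⟩)
    have m2 : ∀ (s : V ≃ₗ[F] V) (hs : s • L ≤ S) (c : Quotient (rel K L) → ℝ),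
        (fun x => c (mp K s hs x)) ∈ Submodule.span ℝ (Set.range v) := fun s hs c => by
      obtain ⟨f, f0, e⟩ := exists_ker (S := S) (A := s • L) ⟨hs, by rw [finrank_smul]; omega⟩
      have e1 : t (.mk F f f0) • L = s • L := by
        obtain ⟨a, ha⟩ := Projectivization.exists_smul_eq_mk_rep F f f0
        rw [ht, ← ha, ← e, Units.smul_def, LinearMap.ker_smul _ _ a.ne_zero]
      have e2 : ((t (.mk F f f0))⁻¹ * s) • L ≤ L := by rw [mul_smul, ← e1, inv_smul_smul]
      convert m1 (.mk F f f0) (fun x => c (mp K _ e2 x)) using 3 with x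
      obtain ⟨g, rfl⟩ := Quotient.exists_rep x
      change Quotient.mk _ (g * s) = Quotient.mk _ (g * _ * _)
      rw [mul_assoc, mul_inv_cancel_left]
    rw [← Fintype.card_prod, ← Module.finrank_fintype_fun_eq_card ℝ]
    refine finrank_le_of_span_eq_top (v := v) (eq_top_iff.2 fun Fn _ => ?_)
    obtain ⟨g1, g2, hne⟩ := exists_ne h2 hL
    obtain ⟨α, β, hβ, hF⟩ := span_two h hT h1 hL hS (fun g => ind (Quotient.mk (rel K L) g = Quotient.mk (rel K L) g1))
      (fun g => Fn (Quotient.mk _ g)) (fun k hk g => by rw [mk_mul hk]) (fun g g' e => by rw [mk_congr e])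
      ⟨g1, g2, by rw [ind_true rfl, ind_false hne.symm]; exact one_ne_zero⟩ (fun k hk g => by rw [mk_mul hk])
      fun g g' e => by rw [mk_congr e]
    have : Fn = (fun _ => α) + ∑ s, fun x => β s * ind (Quotient.mk (rel K L) (x.out * s) = Quotient.mk _ g1) :=
      funext fun x => by rw [Pi.add_apply, Finset.sum_apply, ← hF, Quotient.out_eq]
    rw [this]
    refine add_mem (m2 1 (by rwa [one_smul]) fun _ => α) (sum_mem fun s _ => ?_)
    by_cases hs : β s = 0
    · simp only [hs, zero_mul]; exact zero_mem _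
    convert m2 s (hβ s hs) (fun C => β s * ind (C = Quotient.mk _ g1)) using 5 with x
    conv_rhs => rw [← x.out_eq]
    rfl
  obtain ⟨y, hy, hyL⟩ := SetLike.exists_of_lt (lt_of_le_of_ne hLS fun e => by rw [e] at hL; omega)
  obtain ⟨φ, φ1, φ0⟩ := exists_fn hyL
  choose γ hγ using fun p : L × Fˣ => exists_dil φ (((p.2 : F) - 1) • y + p.1) (by
    rw [map_add, map_smul, φ1, φ0 _ p.1.2, smul_eq_mul, mul_one, add_zero, add_sub_cancel]; exact p.2.ne_zero)
  have γL : ∀ p, ∀ x ∈ L, γ p x = x := fun p x hx => by rw [hγ, φ0 x hx, zero_smul, add_zero]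
  have γS : ∀ p, γ p • S = S := fun p => smul_eq_of_le (fun x hx => by
    rw [hγ]; exact add_mem hx (smul_mem _ _ (add_mem (smul_mem _ _ hy) (hLS p.1.2)))) rfl
  have lo := Nat.card_le_card_of_injective
    (fun p : Quotient (rel K L) × L × Fˣ => Quotient.mk (rel K S) (p.1.out * γ p.2)) fun ⟨C, p⟩ ⟨C', p'⟩ e => by
      obtain ⟨k, hk, e1⟩ := Quotient.exact e
      have e2 : ∀ x ∈ L, k (C.out x) = C'.out x := fun x hx => by
        simpa only [LinearEquiv.mul_apply, γL _ x hx] using e1 x (hLS hx)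
      obtain rfl : C = C' := by rw [← C.out_eq, ← C'.out_eq]; exact Quotient.sound ⟨k, hk, e2⟩
      have e3 := hn (C.out • S) (C.out • L) (finrank_smul.trans hS) (Hyp.smul ⟨hLS, by omega⟩ _) k
        ⟨hk, by rintro _ ⟨x, hx, rfl⟩; exact e2 x hx⟩ (by
          have := smul_congr (g := k * (C.out * γ p)) (g' := C.out * γ p') e1 le_rfl
          rwa [mul_smul, mul_smul, mul_smul, γS, γS] at this) (C.out (γ p y))
        (apply_mem_smul.2 (γS p ▸ apply_mem_smul.2 hy))
      have e4 : γ p y = γ p' y := C.out.injective (e3.symm.trans (e1 y hy))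
      rw [hγ, hγ, φ1, one_smul, one_smul, add_right_inj] at e4
      have e5 := congrArg φ e4
      simp only [map_add, map_smul, φ1, φ0 _ p.1.2, φ0 _ p'.1.2, smul_eq_mul, mul_one, add_zero, sub_left_inj] at e5
      rw [e5, add_right_inj] at e4
      exact Prod.ext rfl (Prod.ext (Subtype.ext e4) (Units.ext e5))
  rw [Nat.card_prod, Nat.card_prod, Nat.card_units, Module.natCard_eq_pow_finrank (K := F) (V := L), hL,
    Nat.card_eq_fintype_card, Nat.card_eq_fintype_card (α := Quotient _)] at lo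
  rw [← Nat.card_eq_fintype_card (α := Projectivization _ _),
    Projectivization.card_of_finrank F _ (Subspace.dual_finrank_eq.trans hS), mul_comm] at up
  have := Nat.le_of_mul_le_mul_left (lo.trans up) (Fintype.card_pos_iff.2 ⟨Quotient.mk _ 1⟩)
  obtain ⟨q, hq'⟩ : ∃ q, Nat.card F = q + 3 := ⟨Nat.card F - 3, by omega⟩
  rw [hq'] at this
  simp only [Finset.sum_range_succ, Finset.range_zero, Finset.sum_empty, show q + 3 - 1 = q + 2 from rfl] at this
  nlinarith [Nat.zero_le (q ^ 3), Nat.zero_le (q ^ 2)]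

/-- PROOF. An involution `u ∈ K` moving `x` acts on the line `⟨x, u x⟩` as a transposition; together
with `FlagTr K 2` (the induced subgroup of `GL₂(2) = S₃` is transitive on the 3 points) this gives
`Full`, so `Tr K 2`. Hence `|K|` is odd, and `[G0 : K] = 1 + i_a + i_b` (`three`, `four`; the
`i = [K : K ⊓ a K a⁻¹]` are odd) is odd. But a transvection is an involution of `G0` without fixed
point on `G0 ⧸ K` (`TF`). -/
theorem tr_two_of_two (h : R3 K) (hT : TF K) (hf : FlagTr K 2) (hq : Nat.card F = 2) :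
    Tr K 2 := by
  classical
  have := fin_GL (F := F) (V := V)
  have : Fact (Nat.Prime 2) := ⟨Nat.prime_two⟩
  have hc : ∀ c : F, c = 0 ∨ c = 1 := fun c => by
    obtain ⟨y, -, hy⟩ := (Nat.card_eq_two_iff' (0 : F)).1 hq
    exact (eq_or_ne c 0).imp_right fun h => (hy c h).trans (hy 1 one_ne_zero).symm
  have two : ∀ x : V, x + x = 0 := fun x => by
    rw [← two_smul F, (hc 2).resolve_right (by rw [← one_add_one_eq_two, add_eq_left]; exact one_ne_zero), zero_smul]
  by_cases h2 : 2 ∣ Nat.card K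
  · obtain ⟨⟨u, hu⟩, ho⟩ := exists_prime_orderOf_dvd_card' 2 h2
    obtain ⟨u1, u2⟩ := (orderOf_eq_prime_iff.1 ho)
    have uu : ∀ x, u (u x) = x := fun x => LinearEquiv.congr_fun (congrArg Subtype.val (sq (⟨u, hu⟩ : K) ▸ u1)) x
    obtain ⟨x, hx⟩ : ∃ x, u x ≠ x := by
      by_contra hn; push Not at hn; exact u2 (Subtype.ext (LinearEquiv.ext hn))
    have x0 : x ≠ 0 := fun e => hx (by rw [e, map_zero])
    set z := x + u x with hz
    have z0 : z ≠ 0 := fun e => hx (by rw [← add_zero (u x), ← two x, ← add_assoc, add_comm (u x), ← hz, e, zero_add])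
    have uz : u z = z := by rw [hz, map_add, uu, add_comm]
    have xz : x ∉ F ∙ z := fun e => by
      obtain ⟨c, e⟩ := mem_span_singleton.1 e
      rcases hc c with rfl | rfl
      · exact x0 (by rw [← e, zero_smul])
      · exact hx (by rw [← e, one_smul, uz])
    have hL : finrank F ((F ∙ z) ⊔ F ∙ x : Submodule F V) = 2 := by
      rw [finrank_sup_span_singleton xz, finrank_span_singleton z0]
    refine tr_of_full (subTr_of_flagTr two_pos hf) hL fun g hg => ?_
    obtain ⟨k, hk, e1, e2⟩ := hf (F ∙ z) _ (g • (F ∙ z)) _ le_sup_left (hg ▸ smul_le_smul.2 le_sup_left)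
      (by rw [finrank_span_singleton z0]) hL (by rw [finrank_smul, finrank_span_singleton z0]) hL
    have e3 : k z = g z := by
      obtain ⟨c, e⟩ := mem_span_singleton.1 (show k z ∈ F ∙ g z by
        rw [← smul_line, ← e1]; exact apply_mem_smul.2 (mem_span_singleton_self z))
      rcases hc c with rfl | rfl
      · exact absurd (k.map_eq_zero_iff.1 (by rw [← e, zero_smul])) z0
      · rw [← e, one_smul]
    have ag : ∀ k ∈ K, k z = g z → k x = g x → Ag K ((F ∙ z) ⊔ F ∙ x) g := fun k hk a b => ⟨k, hk, fun s hs => by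
      obtain ⟨_, h1, _, h2, rfl⟩ := mem_sup.1 hs
      obtain ⟨c, rfl⟩ := mem_span_singleton.1 h1
      obtain ⟨d, rfl⟩ := mem_span_singleton.1 h2
      simp only [map_add, map_smul, a, b]⟩
    obtain ⟨_, ⟨_, h1, _, h2, rfl⟩, e4⟩ : ∃ s, (∃ a ∈ F ∙ z, ∃ b ∈ F ∙ x, a + b = s) ∧ k s = g x := by
      have : g x ∈ k • ((F ∙ z) ⊔ F ∙ x) := by
        rw [e2, ← hg]; exact apply_mem_smul.2 (mem_sup_right (mem_span_singleton_self x))
      obtain ⟨s, hs, e⟩ := this
      exact ⟨s, mem_sup.1 hs, e⟩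
    obtain ⟨c, rfl⟩ := mem_span_singleton.1 h1
    obtain ⟨d, rfl⟩ := mem_span_singleton.1 h2
    rcases hc d with rfl | rfl
    · rw [zero_smul, add_zero, map_smul, e3, ← map_smul] at e4
      exact absurd (g.injective e4 ▸ smul_mem _ _ (mem_span_singleton_self z)) xz
    rcases hc c with rfl | rfl
    · exact ag k hk e3 (by rw [← e4, zero_smul, zero_add, one_smul])
    · refine ag (k * u) (K.mul_mem hk hu) (by rw [LinearEquiv.mul_apply, uz, e3]) ?_
      rw [← e4, one_smul, one_smul, hz, add_right_comm, two, zero_add, LinearEquiv.mul_apply]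
  exfalso
  obtain ⟨a, ha, b, hb, aK, bK, ab⟩ := h.three
  have od : ∀ g : V ≃ₗ[F] V, Odd (MulAction.orbit K (g : (V ≃ₗ[F] V) ⧸ K)).ncard := fun g =>
    Nat.not_even_iff_odd.1 fun e => h2 (e.two_dvd.trans (by
      rw [← MulAction.index_stabilizer]; exact Subgroup.index_dvd_card _))
  have mo : ∀ g g' : V ≃ₗ[F] V, (g' : (V ≃ₗ[F] V) ⧸ K) ∈ MulAction.orbit K (g : (V ≃ₗ[F] V) ⧸ K) ↔ DC K g g' :=
    fun g g' => ⟨fun ⟨k, e⟩ => ⟨k, k.2, _, QuotientGroup.eq.1 (show ((k * g : V ≃ₗ[F] V) : _ ⧸ K) = g' from e),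
      by group⟩, fun ⟨k, hk, k', hk', e⟩ => ⟨⟨k, hk⟩, e ▸ (QuotientGroup.mk_mul_of_mem (k * g) hk').symm⟩⟩
  have d1 : ∀ g, DC K 1 g ↔ g ∈ K := fun g => ⟨fun ⟨k, hk, k', hk', e⟩ => e ▸ K.mul_mem (K.mul_mem hk K.one_mem) hk',
    fun hg => ⟨g, hg, 1, K.one_mem, by simp⟩⟩
  have dj : ∀ g g' : V ≃ₗ[F] V, ¬ DC K g g' → Disjoint (MulAction.orbit K (g : (V ≃ₗ[F] V) ⧸ K))
      (MulAction.orbit K (g' : (V ≃ₗ[F] V) ⧸ K)) := fun g g' hn => Set.disjoint_left.2 fun x h1 h2 =>
    hn ((mo g g').1 (MulAction.orbit_eq_iff.2 h1 ▸ MulAction.mem_orbit_symm.1 h2))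
  let Y : Set ((V ≃ₗ[F] V) ⧸ K) := {x | ∃ g ∈ G0 F V, (g : (V ≃ₗ[F] V) ⧸ K) = x}
  have sub : ∀ g ∈ G0 F V, MulAction.orbit K (g : (V ≃ₗ[F] V) ⧸ K) ⊆ Y := fun g hg _ ⟨k, e⟩ =>
    ⟨k * g, mul_mem (h.le k.2) hg, e⟩
  have hY : Y = MulAction.orbit K ((1 : V ≃ₗ[F] V) : (V ≃ₗ[F] V) ⧸ K) ∪
      (MulAction.orbit K (a : (V ≃ₗ[F] V) ⧸ K) ∪ MulAction.orbit K (b : (V ≃ₗ[F] V) ⧸ K)) := by
    refine Set.Subset.antisymm ?_ (Set.union_subset (sub 1 (one_mem _)) (Set.union_subset (sub a ha) (sub b hb)))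
    rintro _ ⟨g, hg, rfl⟩
    by_cases gK : g ∈ K
    · exact .inl ((mo _ _).2 ((d1 g).2 gK))
    · exact .inr (((h.four a ha b hb g hg aK bK gK).resolve_left ab).imp (mo _ _).2 (mo _ _).2)
  have oY : ¬ 2 ∣ Nat.card Y := by
    rw [Nat.card_coe_set_eq, hY, Set.ncard_union_eq (Set.disjoint_union_right.2
      ⟨dj _ _ fun e => aK ((d1 a).1 e), dj _ _ fun e => bK ((d1 b).1 e)⟩), Set.ncard_union_eq (dj a b ab)]
    exact ((od 1).add_even ((od a).add_odd (od b))).not_two_dvd_nat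
  obtain ⟨L, -, hL⟩ := exists_le_finrank (⊥ : Submodule F V) (j := 1) (by simp) (by have := h.dim; omega)
  obtain ⟨v, hv, v0⟩ := exists_mem_ne_zero_of_ne_bot (p := L) fun e => by rw [e, finrank_bot] at hL; omega
  obtain ⟨y, -, hy⟩ := SetLike.exists_of_lt (lt_top_iff_ne_top.2 (fun e => by
    have := h.dim; rw [e, finrank_top] at hL; omega : L ≠ ⊤))
  obtain ⟨φ, φ1, φ0⟩ := exists_fn hy
  set t := LinearEquiv.transvection (φ0 v hv) with ht
  have t1 : ∀ x, t x = x + φ x • v := fun x => by rw [ht, LinearEquiv.transvection.apply]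
  have t2 : t * t = 1 := LinearEquiv.ext fun x => by
    rw [LinearEquiv.mul_apply, t1, t1, map_add, map_smul, φ0 v hv, smul_zero, add_zero, add_assoc, two, add_zero]; rfl
  let σ : Y → Y := fun x => ⟨t • x.1, by
    obtain ⟨g, hg, e⟩ := x.2
    exact ⟨t * g, mul_mem (transvection_mem_G0 _) hg, e ▸ rfl⟩⟩
  have hσ : Function.Involutive σ := fun x => Subtype.ext (by simp only [σ, smul_smul, t2, one_smul])
  have := Fintype.ofFinite Y
  obtain ⟨⟨_, g, hg, rfl⟩, e⟩ := Equiv.Perm.exists_fixed_point_of_prime (p := 2) (n := 1)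
    (by rwa [← Nat.card_eq_fintype_card]) (σ := hσ.toPerm σ) (by
      rw [pow_one, sq]; exact Equiv.ext hσ)
  have e' : g⁻¹ * (t * g) ∈ K := QuotientGroup.eq.1 (congrArg Subtype.val e).symm
  rcases hT (φ ∘ₗ g.toLinearMap) (g⁻¹ v) ⟨by simpa using φ0 v hv, _, e', fun x => by simp [t1]⟩ with e | e
  · exact one_ne_zero (φ1.symm.trans (by simpa using LinearMap.congr_fun e (g⁻¹ y)))
  · exact v0 (by simpa using e)

/-- PROOF. `q = 2`: `tr_two_of_two`. `q > 2`, `¬ Tr K 2`: `flagTr_three`, `exists_persp` give a plane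
`π` whose stabiliser is transitive on its lines, and for each line `L` of `π` some `k ≠ 1` on `π`
fixing `L` pointwise: `k x = x + f x • w` on `π`, `ker f ⊓ π = L`. If some such `k` has `w ∈ L`:
`plane_full_line`, `tr_of_full`. Otherwise the centre `c(L) = F w ≰ L` is unique (two homologies with
the same axis and different centres, or the same centre and different axes, have a non-trivial
elation as commutator), equivariant and injective, so bijective lines → points; if
`p = c(L'') ≤ L` then the homology with axis `L` fixes `p`, so fixes `L'' ≠ L`, so `c(L) ≤ L''`.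
This is a polarity without absolute points, against `CL.Rk.B2.absolute` (`P 0 = ⊤`). -/
theorem tr_two (h : R3 K) (hT : TF K) (h1 : Tr K 1) (hf : FlagTr K 2) : Tr K 2 := by
  by_cases hq : Nat.card F = 2
  · exact tr_two_of_two h hT hf hq
  by_contra h2
  have f3 := flagTr_three h hT h1 hf h2
  obtain ⟨π, L, hπ, hL, k0, hk0, e0, x0, hx0, ne⟩ := exists_persp h hT h1 h2 (by
    have := Finite.one_lt_card (α := F); omega)
  have ht : ∀ L L', Hyp π L → Hyp π L' → ∃ k ∈ K, k • π = π ∧ k • L = L' := fun L L' a b => by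
    obtain ⟨k, hk, e1, e2⟩ := f3 L π L' π a.1 b.1 (a.2.trans hπ) hπ (b.2.trans hπ) hπ
    exact ⟨k, hk, e2, e1⟩
  have hN : ∀ (f : Dual F π) (w : π), w ≠ 0 → f w = 0 → (∃ k ∈ K, ∀ x : π, k x = x + f x • (w : V)) → f = 0 :=
    fun f w w0 fw ⟨k, hk, e⟩ => by
      by_contra f0
      obtain ⟨f', hf'⟩ := f.exists_extend
      have e' : ∀ x : π, f' x = f x := LinearMap.congr_fun hf'
      obtain ⟨x, hx⟩ := DFunLike.ne_iff.1 f0
      exact h2 (tr_of_full (subTr_of_flagTr two_pos hf) (by have := hL.2; omega) (plane_full_line hπ hL ht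
        ⟨k, hk, f', w, w.2, by simpa using w0, (e' w).trans fw, ⟨x, x.2, by rwa [e']⟩,
          fun x hx => (e ⟨x, hx⟩).trans (by rw [← e'])⟩))
  have ex : ∀ f : Dual F π, f ≠ 0 → ∃ w : π, w ≠ 0 ∧ ∃ k ∈ K, ∀ x : π, k x = x + f x • (w : V) := fun f f0 => by
    obtain ⟨k1, hk1, e1, e2⟩ := ht L _ hL (hyp_ker f0)
    obtain ⟨y, hy⟩ : ∃ y, f y = 1 := by
      obtain ⟨x, hx⟩ := DFunLike.ne_iff.1 f0
      exact ⟨(f x)⁻¹ • x, by rw [map_smul, smul_eq_mul, inv_mul_cancel₀ hx]⟩
    have e3 : (k1 * k0 * k1⁻¹) • π = π := by rw [mul_smul, mul_smul, inv_smul_eq_iff.2 e1.symm, e0, e1]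
    have e4 : ∀ x : π, (k1 * k0 * k1⁻¹) x = x + f x • ((k1 * k0 * k1⁻¹) y - y) := fun x => by
      obtain ⟨l, hl, e⟩ : ((x - f x • y : π) : V) ∈ k1 • L := e2 ▸ ⟨x - f x • y, by simp [hy], rfl⟩
      have : (k1 * k0 * k1⁻¹) ((x : V) - f x • y) = (x : V) - f x • y := by
        have e' : k1 l = (x : V) - f x • y := e
        rw [← e']; simp [hk0.2 l hl]
      rw [map_sub, map_smul, sub_eq_iff_eq_add] at this
      rw [this]; module
    refine ⟨⟨_, sub_mem (e3.le (apply_mem_smul.2 y.2)) y.2⟩, fun e => ne (k1.injective ?_), _,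
      K.mul_mem (K.mul_mem hk1 hk0.1) (K.inv_mem hk1), e4⟩
    have := e4 ⟨k1 x0, e1.le (apply_mem_smul.2 hx0)⟩
    rw [show (k1 * k0 * k1⁻¹) y - y = 0 from congrArg Subtype.val e, smul_zero, add_zero] at this
    simpa using this
  have same : ∀ (f f' : Dual F π) (w : π), w ≠ 0 → (∃ k ∈ K, ∀ x : π, k x = x + f x • (w : V)) →
      (∃ k ∈ K, ∀ x : π, k x = x + f' x • (w : V)) → f w • f' = f' w • f := fun f f' w w0 ⟨k, hk, e⟩ ⟨k', hk', e'⟩ => by
    have nz : ∀ (f : Dual F π) (k : V ≃ₗ[F] V), (∀ x : π, k x = x + f x • (w : V)) → 1 + f w ≠ 0 := fun f k e h0 =>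
      w0 (Subtype.ext (k.map_eq_zero_iff.1 (by rw [e, eq_neg_of_add_eq_zero_right h0, neg_one_smul, add_neg_cancel])))
    have n0 := mul_ne_zero (nz f k e) (nz f' k' e')
    have := hN (((1 + f w) * (1 + f' w))⁻¹ • (f w • f' - f' w • f)) w w0 (by simp [mul_comm])
      ⟨(k' * k)⁻¹ * (k * k'), K.mul_mem (K.inv_mem (K.mul_mem hk' hk)) (K.mul_mem hk hk'), fun x => by
        rw [LinearEquiv.mul_apply, LinearEquiv.coe_inv, LinearEquiv.symm_apply_eq]
        simp only [LinearEquiv.mul_apply, map_add, map_smul, e, e', LinearMap.smul_apply, LinearMap.sub_apply,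
          smul_eq_mul]
        match_scalars
        · rfl
        · have := nz f k e
          have := nz f' k' e'
          field_simp
          ring⟩
    exact sub_eq_zero.1 ((smul_eq_zero.1 this).resolve_left (inv_ne_zero n0))
  choose! c hc using ex
  classical
  obtain ⟨f, f0, hf⟩ := Rk.B2.absolute (F := F) (V := Dual F π)
    (fun f => if f = 0 then ⊤ else LinearMap.ker (Dual.eval F π (c f))) (fun f g hg => by
      by_cases g0 : g = 0
      · simp [g0]
      by_cases f0 : f = 0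
      · simp [f0]
      simp only [if_neg f0, if_neg g0, LinearMap.mem_ker, Dual.eval_apply] at hg ⊢
      obtain ⟨w0, k, hk, e⟩ := hc f f0
      obtain ⟨-, k', hk', e'⟩ := hc g g0
      have fw : f (c f) ≠ 0 := fun e0 => f0 (hN f _ w0 e0 ⟨k, hk, e⟩)
      have := same f (f + f (c g) • g) _ w0 ⟨k, hk, e⟩ ⟨k'⁻¹ * k * k', K.mul_mem (K.mul_mem (K.inv_mem hk') hk) hk',
        fun x => by
          rw [mul_assoc, LinearEquiv.mul_apply, LinearEquiv.coe_inv, LinearEquiv.symm_apply_eq]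
          simp only [LinearEquiv.mul_apply, map_add, map_smul, e, e', hg, LinearMap.smul_apply, LinearMap.add_apply,
            smul_eq_mul]
          module⟩
      simp only [LinearMap.add_apply, LinearMap.smul_apply, hg, smul_zero, add_zero, smul_add, add_eq_left,
        smul_eq_zero, fw, g0, or_false, false_or] at this
      exact this) (fun f g => by
      have key : ∀ f : Dual F π, 2 ≤ finrank F (if f = 0 then ⊤ else LinearMap.ker (Dual.eval F π (c f)) :
          Submodule F (Dual F π)) := fun f => by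
        have e := Subspace.dual_finrank_eq.trans hπ
        by_cases h0 : f = 0
        · rw [if_pos h0, finrank_top, e]; omega
        · rw [if_neg h0]
          have := (Dual.eval F π (c f)).finrank_range_add_finrank_ker
          have := (LinearMap.range (Dual.eval F π (c f))).finrank_le
          rw [finrank_self] at this
          omega
      have e := finrank_sup_add_finrank_inf_eq (if f = 0 then ⊤ else LinearMap.ker (Dual.eval F π (c f)))
        (if g = 0 then ⊤ else LinearMap.ker (Dual.eval F π (c g)))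
      have e1 := Submodule.finrank_le ((if f = 0 then ⊤ else LinearMap.ker (Dual.eval F π (c f))) ⊔
        (if g = 0 then ⊤ else LinearMap.ker (Dual.eval F π (c g))))
      rw [Subspace.dual_finrank_eq, hπ] at e1
      have := key f
      have := key g
      omega)
  rw [if_neg f0] at hf
  exact f0 (hN f _ (hc f f0).1 hf (hc f f0).2)

end CL.PL
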