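/-
Rank three actions of the linear groups: the pattern lemma.
-/
import Cfsg.Agent.CLAS.PL.Pat1

set_option autoImplicit false

namespace CL.PL

open Module Submodule
open scoped Pointwise

variable {F : Type*} [Field F] [Finite F] {V : Type*} [AddCommGroup V] [Module F V]
  [FiniteDimensional F V] {K : Subgroup (V ≃ₗ[F] V)}

/-- The hyperplanes of `S` with property `P` are those containing `Z`. -/
def Star (S Z : Submodule F V) (P : Submodule F V → Prop) : Prop :=
  Z ≤ S ∧ ∀ A, Hyp S A → (P A ↔ Z ≤ A)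

/-- Conclusion of the pattern lemma. -/
structure PatC {X : Type*} (S : Submodule F V) (P : X → Submodule F V → Prop) : Prop where
  star : ∀ x, ∃ Z, Star S Z (P x) ∧ (Z = ⊥ ∨ Z = S ∨ finrank F Z = 1 ∨ Hyp S Z)
  one : 3 ≤ finrank F S → ¬ ((∃ x Z, Star S Z (P x) ∧ finrank F Z = 1) ∧
    ∃ x Z, Star S Z (P x) ∧ Hyp S Z)
  triv : (∃ x Z, Star S Z (P x) ∧ Z ≠ ⊥ ∧ Z ≠ S) →
    ¬ ((∃ x, Star S ⊥ (P x)) ∧ ∃ x, Star S S (P x))

namespace Pt

variable {X : Type*} [Fintype (Submodule F V)] {S A B Z : Submodule F V} {P : X → Submodule F V → Prop}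
  {Q Q' : Submodule F V → Prop}

/-- the number of hyperplanes through `W` with property `Q` -/
noncomputable def cnt (S : Submodule F V) (Q : Submodule F V → Prop) (W : Submodule F V) : ℝ :=
  ∑ C, ind (W ≤ C) * ind (Hyp S C ∧ Q C)

/-- the uniform relation -/
def Rl (S : Submodule F V) (P : X → Submodule F V → Prop) (α u u' b c : ℝ) : Prop :=
  ∀ x A B, Hyp S A → Hyp S B → A ≠ B → ind (P x A ∧ P x B) =
    α + u * ind (P x A) + u' * ind (P x B) + b * cnt S (P x) (A ⊓ B) + c * cnt S (P x) ⊥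

/-- closed under taking the third hyperplane -/
def Cl (S : Submodule F V) (Q : Submodule F V → Prop) : Prop :=
  ∀ A B C, Hyp S A → Hyp S B → Hyp S C → A ≠ B → A ⊓ B ≤ C → Q A → Q B → Q C

omit [Finite F]

section
omit [FiniteDimensional F V]

theorem twist {γ : V ≃ₗ[F] V} (hγ : γ • S = S) (h : ∀ A, Hyp S A → (Q' A ↔ Q (γ • A))) (w : Submodule F V → ℝ) :
    ∑ C, w C * ind (Hyp S C ∧ Q' C) = ∑ C, w (γ⁻¹ • C) * ind (Hyp S C ∧ Q C) :=
  Fintype.sum_equiv (MulAction.toPerm γ) _ _ fun C => by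
    have k : Hyp S (γ • C) ↔ Hyp S C := ⟨fun e => by
      have := e.smul γ⁻¹; rwa [inv_smul_smul, ← hγ, inv_smul_smul] at this, fun e => hγ ▸ e.smul γ⟩
    rw [MulAction.toPerm_apply, inv_smul_smul, ind_congr (k.symm.and Iff.rfl),
      ind_congr (and_congr_right fun e => h C (k.1 e))]

theorem cnt_twist {γ : V ≃ₗ[F] V} (hγ : γ • S = S) (h : ∀ A, Hyp S A → (Q' A ↔ Q (γ • A))) (W : Submodule F V) :
    cnt S Q' W = cnt S Q (γ • W) :=
  (twist hγ h _).trans (Finset.sum_congr rfl fun C _ => by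
    rw [ind_congr (smul_le_smul (g := γ)).symm, smul_inv_smul])

theorem sum_eq (hA : Hyp S A) : ∑ C, ind (C = A) * ind (Hyp S C ∧ Q C) = ind (Q A) := by
  rw [Finset.sum_eq_single A (fun C _ h => by rw [ind_false h, zero_mul]) (by simp), ind_true rfl, one_mul,
    ind_congr (and_iff_right hA)]

theorem cnt_congr {W W' : Submodule F V} (h : ∀ C, Hyp S C → (W ≤ C ∧ Q C ↔ W' ≤ C ∧ Q' C)) :
    cnt S Q W = cnt S Q' W' :=
  Finset.sum_congr rfl fun C _ => by
    by_cases e : Hyp S C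
    · have := h C e
      by_cases e1 : W ≤ C <;> by_cases e2 : W' ≤ C <;> by_cases e3 : Q C <;> by_cases e4 : Q' C <;>
        simp_all [ind]
    · simp [ind, e]

theorem cnt_zero {W : Submodule F V} (h : ∀ C, Hyp S C → W ≤ C → ¬ Q C) : cnt S Q W = 0 :=
  Finset.sum_eq_zero fun C _ => by
    by_cases e : W ≤ C
    · rw [ind_false fun k : Hyp S C ∧ Q C => h C k.1 e k.2, mul_zero]
    · rw [ind_false e, zero_mul]

theorem cnt_one {W : Submodule F V} (hA : Hyp S A) (h : ∀ C, Hyp S C → (W ≤ C ∧ Q C ↔ C = A)) : cnt S Q W = 1 := by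
  have := (h A hA).2 rfl
  rw [cnt, Finset.sum_eq_single A (fun C _ n => ?_) (by simp), ind_true this.1, ind_true ⟨hA, this.2⟩, one_mul]
  by_cases e : W ≤ C
  · rw [ind_false fun k : Hyp S C ∧ Q C => n ((h C k.1).1 ⟨e, k.2⟩), mul_zero]
  · rw [ind_false e, zero_mul]

theorem cnt_lt (h : ∀ C, Hyp S C → Q' C) (hA : Hyp S A) (n : ¬ Q A) : cnt S Q ⊥ < cnt S Q' ⊥ :=
  Finset.sum_lt_sum (fun C _ => by
    rw [ind_true bot_le, one_mul, one_mul]
    by_cases e : Hyp S C ∧ Q C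
    · rw [ind_true e, ind_true ⟨e.1, h C e.1⟩]
    · rw [ind_false e]; unfold ind; split_ifs <;> norm_num)
    ⟨A, Finset.mem_univ _, by
      rw [ind_true bot_le, ind_false fun e : Hyp S A ∧ Q A => n e.2, ind_true ⟨hA, h A hA⟩]; norm_num⟩

theorem const {ι : Type*} {p : ι → Prop} {f : ι → ℝ} (h : ∀ i j, p i → p j → f i = f j) :
    ∃ c, ∀ i, p i → f i = c := by
  by_cases e : ∃ i, p i
  · exact e.elim fun j hj => ⟨f j, fun i hi => h i j hi hj⟩
  · exact ⟨0, fun i hi => (e ⟨i, hi⟩).elim⟩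

end

theorem rl_of [Finite F] (hS : 2 ≤ finrank F S)
    (hG : ∀ x, ∀ γ : V ≃ₗ[F] V, γ • S = S → ∃ x', ∀ A, Hyp S A → (P x' A ↔ P x (γ • A)))
    (hspan : ∀ A B, Hyp S A → Hyp S B → ∃ (α : ℝ) (β : Submodule F V → ℝ), ∀ x,
      ind (P x A ∧ P x B) = α + ∑ C, β C * ind (Hyp S C ∧ P x C)) : ∃ α u u' b c, Rl S P α u u' b c := by
  obtain ⟨A, B, hA, hB, n, -⟩ := two_over (S := S) bot_le (by rwa [finrank_bot, zero_add])
  obtain ⟨α, β, hβ⟩ := hspan A B hA hB
  have : Finite V := Module.finite_of_finite F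
  have : Finite (V ≃ₗ[F] V) := DFunLike.finite _
  let Γ : Subgroup (V ≃ₗ[F] V) := MulAction.stabilizer _ S ⊓ MulAction.stabilizer _ A ⊓ MulAction.stabilizer _ B
  have := Fintype.ofFinite Γ
  have c0 : (Fintype.card Γ : ℝ) ≠ 0 := Nat.cast_ne_zero.2 Fintype.card_ne_zero
  obtain ⟨β', inv, h'⟩ : ∃ β' : Submodule F V → ℝ, (∀ δ ∈ Γ, ∀ C, β' (δ • C) = β' C) ∧ ∀ x,
      ind (P x A ∧ P x B) = α + ∑ C, β' C * ind (Hyp S C ∧ P x C) := by
    refine ⟨fun C => (∑ γ : Γ, β (γ.1⁻¹ • C)) / Fintype.card Γ, fun δ hδ C => ?_, fun x => ?_⟩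
    · exact congrArg (· / _) (Fintype.sum_equiv (Equiv.mulLeft (⟨δ, hδ⟩ : Γ)⁻¹) _ _ fun γ => by simp [mul_smul])
    · have k : ∀ γ : Γ, ind (P x A ∧ P x B) = α + ∑ C, β (γ.1⁻¹ • C) * ind (Hyp S C ∧ P x C) := fun γ => by
        obtain ⟨x', e⟩ := hG x γ γ.2.1.1
        rw [← twist γ.2.1.1 e, ← hβ, e A hA, e B hB, show γ.1 • A = A from γ.2.1.2, show γ.1 • B = B from γ.2.2]
      have := Finset.sum_congr rfl fun γ (_ : γ ∈ Finset.univ) => k γ
      rw [Finset.sum_add_distrib, Finset.sum_comm, Finset.sum_const, Finset.sum_const, Finset.card_univ,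
        nsmul_eq_mul, nsmul_eq_mul] at this
      simp only [div_mul_eq_mul_div, Finset.sum_mul, ← Finset.sum_div]
      field_simp
      linarith
  obtain ⟨c, hc⟩ := const (p := fun C => Hyp S C ∧ ¬ A ⊓ B ≤ C) (f := β') fun C C' h1 h2 => by
    obtain ⟨g, rfl, e⟩ := mv h1.1 h2.1 (inf_le_left.trans hA.1) h1.2 h2.2
    exact (inv g ⟨⟨e S (inf_le_left.trans hA.1), e A inf_le_left⟩, e B inf_le_right⟩ C).symm
  obtain ⟨d, hd⟩ := const (p := fun C => Hyp S C ∧ A ⊓ B ≤ C ∧ A ≠ C ∧ B ≠ C) (f := β') fun C C' h1 h2 => by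
    obtain ⟨g, rfl, e1, e2, e3⟩ := mv2 hA hB h1.1 h2.1 n h1.2.1 h2.2.1 h1.2.2.1 h2.2.2.1 h1.2.2.2 h2.2.2.2
    exact (inv g ⟨⟨e1, e2⟩, e3⟩ C).symm
  refine ⟨α, β' A - d, β' B - d, d - c, c, fun x A' B' hA' hB' n' => ?_⟩
  obtain ⟨g, g1, rfl, rfl⟩ := mv_pair hA hB hA' hB' n n'
  obtain ⟨x', e⟩ := hG x g g1
  rw [← smul_inf, ← cnt_twist g1 e, ← smul_bot' g, ← cnt_twist g1 e, ← e A hA, ← e B hB, h', ← sum_eq hA, ← sum_eq hB]
  simp only [cnt, Finset.mul_sum, add_assoc, ← Finset.sum_add_distrib, ← mul_assoc, ← add_mul, add_right_inj]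
  refine Finset.sum_congr rfl fun C _ => ?_
  by_cases k : Hyp S C
  · congr 1
    rw [ind_true bot_le]
    by_cases a : C = A
    · rw [ind_true a, ind_false (a ▸ n), ind_true (a ▸ inf_le_left), a]; ring
    by_cases b : C = B
    · rw [ind_true b, ind_false a, ind_true (b ▸ inf_le_right), b]; ring
    rw [ind_false a, ind_false b]
    by_cases l : A ⊓ B ≤ C
    · rw [ind_true l, hd C ⟨k, l, Ne.symm a, Ne.symm b⟩]; ring
    · rw [ind_false l, hc C ⟨k, l⟩]; ring
  · rw [ind_false fun e : Hyp S C ∧ _ => k e.1, mul_zero, mul_zero]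

variable {α u u' b c : ℝ}

theorem u_one (h : Rl S P α u u' b c) {x : X} (n : ¬ Cl S (P x)) : u = 1 := by
  simp only [Cl, not_forall] at n
  obtain ⟨A, B, C, hA, hB, hC, ne, le, pA, pB, pC⟩ := n
  have ne' : A ≠ C := fun e => pC (e ▸ pA)
  have h1 := h x A B hA hB ne
  have h2 := h x A C hA hC ne'
  have h3 := h x C A hC hA ne'.symm
  rw [inf_comm] at h3
  rw [← inf_eq hA hB hC ne ne' le] at h2 h3
  simp only [ind, pA, pB, pC, and_self, and_false, false_and, if_true, if_false] at h1 h2 h3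
  linarith

theorem u_zero (h : Rl S P α u u' b c) {x : X} (n : ¬ Cl S fun A => ¬ P x A) : u = 0 ∧ u' = 0 := by
  simp only [Cl, not_forall, not_not] at n
  obtain ⟨A, B, C, hA, hB, hC, ne, le, pA, pB, pC⟩ := n
  have ne' : A ≠ C := fun e => pA (e ▸ pC)
  have h1 := h x A B hA hB ne
  have h2 := h x A C hA hC ne'
  have h3 := h x C A hC hA ne'.symm
  rw [inf_comm] at h3
  rw [← inf_eq hA hB hC ne ne' le] at h2 h3
  simp only [ind, pA, pB, pC, and_self, and_false, false_and, if_true, if_false] at h1 h2 h3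
  exact ⟨by linarith, by linarith⟩

theorem core (hS : 2 ≤ finrank F S) (h : Rl S P α u u' b c) (cl : ∀ x, Cl S (P x)) : PatC S P := by
  have t1 : ∀ {x Z}, Star S Z (P x) → Z ≠ ⊥ → Z ≠ S → u = 0 ∧ u' = 0 ∧ α + b + c * cnt S (P x) ⊥ = 0 ∧
      ∃ B, Hyp S B ∧ ¬ P x B := fun {x Z} st n1 n2 => by
    obtain ⟨y, y1, y2⟩ := SetLike.not_le_iff_exists.1 fun e => n2 (le_antisymm st.1 e)
    obtain ⟨z, z1, z2⟩ := SetLike.not_le_iff_exists.1 fun e => n1 (le_bot_iff.1 e)
    obtain ⟨A, hA, le, -⟩ := sep' y1 st.1 y2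
    obtain ⟨B, hB, -, nB⟩ := sep' (st.1 z1) bot_le z2
    have pA := (st.2 A hA).2 le
    have pB : ¬ P x B := fun e => nB ((st.2 B hB).1 e z1)
    have ne : A ≠ B := fun e => pB (e ▸ pA)
    have k : ∀ C, Hyp S C → (A ⊓ B ≤ C ∧ P x C ↔ C = A) := fun C hC =>
      ⟨fun e => by_contra fun n => pB (cl x A C B hA hC hB (Ne.symm n)
        ((inf_eq hA hB hC ne (Ne.symm n) e.1).ge.trans inf_le_right) pA e.2), fun e => by rw [e]; exact ⟨inf_le_left, pA⟩⟩
    obtain ⟨C, hC, l, c1, c2⟩ := third hA hB ne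
    obtain ⟨u0, u1⟩ := u_zero h (x := x) fun e => e B C A hB hC hA c2
      ((inf_eq hB hA hC ne.symm c2 (inf_comm A B ▸ l)).ge.trans inf_le_right) pB
      (fun p => c1 ((k C hC).1 ⟨l, p⟩).symm) pA
    have := h x A B hA hB ne
    rw [ind_false fun e => pB e.2, cnt_one hA k, u0, u1] at this
    exact ⟨u0, u1, by linarith, B, hB, pB⟩
  have t0 : ∀ {x Z}, Star S Z (P x) → 2 ≤ finrank F Z → α + c * cnt S (P x) ⊥ = 0 := fun {x Z} st d => by
    obtain ⟨A, B, hA, hB, ne, k⟩ := none_over st.1 d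
    have k' : ∀ C, Hyp S C → A ⊓ B ≤ C → ¬ P x C := fun C hC l p => k C hC l ((st.2 C hC).1 p)
    have := h x A B hA hB ne
    rw [ind_false fun e => k' A hA inf_le_left e.1, ind_false (k' A hA inf_le_left),
      ind_false (k' B hB inf_le_right), cnt_zero k'] at this
    linarith
  have t2 : ∀ {x A B}, Hyp S A → Hyp S B → A ≠ B → P x A → P x B →
      α + u + u' + b * cnt S (fun _ => True) (A ⊓ B) + c * cnt S (P x) ⊥ = 1 := fun {x A B} hA hB ne pA pB => by
    have := h x A B hA hB ne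
    rw [ind_true ⟨pA, pB⟩, ind_true pA, ind_true pB, cnt_congr (Q' := fun _ => True) (W' := A ⊓ B) fun C hC =>
      and_congr_right fun l => iff_true_intro (cl x A B C hA hB hC ne l pA pB)] at this
    linarith
  have b0 : ∀ {x Z}, Star S Z (P x) → 2 ≤ finrank F Z → Z ≠ S → b = 0 := fun {x Z} st d n => by
    have := t0 st d
    have := (t1 st (fun e => by rw [e, finrank_bot] at d; omega) n).2.2.1
    linarith
  have b1 : ∀ {x Z}, Star S Z (P x) → Z ≠ ⊥ → finrank F Z + 2 ≤ finrank F S → b ≠ 0 := fun {x Z} st n d e => by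
    obtain ⟨A, B, hA, hB, ne, l1, l2⟩ := two_over st.1 d
    have := t2 hA hB ne ((st.2 A hA).2 l1) ((st.2 B hB).2 l2)
    obtain ⟨u0, u1, k, -⟩ := t1 st n fun e => by rw [e] at d; omega
    rw [e, u0, u1] at this
    rw [e] at k
    linarith
  have fr : ∀ {Z}, Z ≤ S → Z ≠ S → finrank F Z < finrank F S := fun l n =>
    Submodule.finrank_lt_finrank_of_lt (lt_of_le_of_ne l n)
  refine ⟨fun x => ?_, ?_, ?_⟩
  · obtain ⟨Z, l, st⟩ := exists_star (cl x)
    refine ⟨Z, ⟨l, st⟩, ?_⟩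
    by_contra! n
    have := fr l n.2.1
    have := Submodule.finrank_eq_zero.not.2 n.1
    have : finrank F Z + 1 ≠ finrank F S := fun e => n.2.2.2 ⟨l, e⟩
    have := n.2.2.1
    exact b1 ⟨l, st⟩ n.1 (by omega) (b0 ⟨l, st⟩ (by omega) n.2.1)
  · rintro d ⟨⟨x, Z, st, e⟩, y, Z', st', e'⟩
    have := e'.2
    exact b1 st (fun k => by rw [k, finrank_bot] at e; omega) (by omega)
      (b0 st' (by omega) fun k => by rw [k] at this; omega)
  · rintro ⟨x, Z, st, n1, n2⟩ ⟨⟨y, sy⟩, w, sw⟩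
    obtain ⟨u0, u1, k, B, hB, pB⟩ := t1 st n1 n2
    have py : ∀ C, Hyp S C → P y C := fun C hC => (sy.2 C hC).2 bot_le
    have α0 := t0 sw hS
    rw [cnt_zero fun C hC _ p => (exists_notMem hC).elim fun s e => e.2 ((sw.2 C hC).1 p e.1)] at α0
    have lt := cnt_lt py hB pB
    by_cases d : finrank F Z + 2 ≤ finrank F S
    · obtain ⟨A, B, hA, hB, ne, l1, l2⟩ := two_over st.1 d
      have e1 := t2 hA hB ne ((st.2 A hA).2 l1) ((st.2 B hB).2 l2)
      have e2 := t2 hA hB ne (py A hA) (py B hB)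
      have c0 : c = 0 := mul_right_cancel₀ (sub_ne_zero.2 lt.ne) (by linarith)
      exact b1 st n1 d (by rw [c0] at k; linarith)
    have hZ : Hyp S Z := ⟨st.1, by have := fr st.1 n2; omega⟩
    rw [cnt_one hZ fun C hC => ⟨fun e => (eq_of_le hZ hC ((st.2 C hC).1 e.2)).symm,
      fun e => ⟨bot_le, (st.2 C hC).2 e.ge⟩⟩] at k
    obtain ⟨A, B, hA, hB, ne, -⟩ := two_over (S := S) bot_le (by rwa [finrank_bot, zero_add])
    have e := t2 hA hB ne (py A hA) (py B hB)
    by_cases d' : 2 ≤ finrank F Z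
    · have := b0 st d' n2
      rw [this, show c = 0 by linarith] at e
      linarith
    · have := finrank_inf hA hB ne
      have := hZ.2
      rw [Submodule.finrank_eq_zero.1 (show finrank F (A ⊓ B : Submodule F V) = 0 by omega),
        cnt_congr (Q' := P y) (W' := ⊥) fun C hC => and_congr_right fun _ => (iff_true_intro (py C hC)).symm,
        show c = -b by linarith] at e
      linarith

end Pt

open Pt in
/-- PROOF. Write `c_A = ind (P x A)`, `s` = number of red hyperplanes, `n_W` = number of red ones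
among the `q + 1 ≥ 3` hyperplanes through `W` (codimension 2). Fix hyperplanes `A₀ ≠ B₀` of `S`; sum
the relation over all `γ` with `γ • S = S, γ • A₀ = A₀, γ • B₀ = B₀` (use `hG`; this group is
transitive on the other hyperplanes through `A₀ ⊓ B₀` and on those not through it) and transport by
any `γ` with `γ • S = S`: for all `x` and all hyperplanes `A ≠ B`, `W = A ⊓ B`:
`c_A c_B = u c_A + u' c_B + h`, `h = α + β₂ n_W + β₃ s`. If some `x, W` have a red and a blue
hyperplane then `u = u'` (swap). Two red + one blue through one `W` give `1 - 2u = -u`, `u = 1`;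
one red + two blue give `u = 0`. So, after swapping the colours (`hspan` for `¬ P` follows from
`(1-c_A)(1-c_B)`), always `n_W ∈ {0, 1, q+1}`, and `u = u' = 0` if some pattern is mixed. Then the red
set is `Star Z`, `Z` = intersection of the red hyperplanes (dually: a subspace of the dual of `S`).
If `2 ≤ finrank Z ≤ finrank S - 2` all of `n_W = 0, 1, q+1` occur for this `x`: `h = 0, 0, 1`,
impossible. `one`: a single red hyperplane gives `α+β₂+β₃ = 0 = α+β₃`, so `β₂ = 0`; a star of a point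
has `W` with `n_W = 1` and `W` with `n_W = q+1`: `0 = α+β₃ s = 1`. `triv`: the empty pattern gives
`α = 0`, the full one `β₂(q+1) + β₃[k] = 1`; with a single red hyperplane `β₂ + β₃ = 0` and
(`k ≥ 3`) `β₃ = 0`, or `k = 2`, `[k] = q+1`: contradiction; with a star of a point (`k ≥ 3`)
`β₂ + β₃[k-1] = 0`, `β₂(q+1) + β₃[k-1] = 1`, so `β₃ = 0 = β₂`, contradiction. -/
theorem pattern {X : Type*} [Fintype (Submodule F V)] {S : Submodule F V} (hS : 2 ≤ finrank F S)
    (P : X → Submodule F V → Prop)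
    (hG : ∀ x, ∀ γ : V ≃ₗ[F] V, γ • S = S → ∃ x', ∀ A, Hyp S A → (P x' A ↔ P x (γ • A)))
    (hspan : ∀ A B, Hyp S A → Hyp S B → ∃ (α : ℝ) (β : Submodule F V → ℝ), ∀ x,
      ind (P x A ∧ P x B) = α + ∑ C, β C * ind (Hyp S C ∧ P x C)) :
    PatC S P ∨ PatC S fun x A => ¬ P x A := by
  obtain ⟨α, u, u', b, c, h⟩ := rl_of hS hG hspan
  by_cases cl : ∀ x, Cl S (P x)
  · exact .inl (core hS h cl)
  obtain ⟨x, cl⟩ := not_forall.1 cl
  obtain ⟨α', v, v', b', c', h'⟩ := rl_of (P := fun x A => ¬ P x A) hS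
    (fun x γ e => (hG x γ e).imp fun _ k A hA => (k A hA).not) fun A B hA hB => by
      obtain ⟨α, β, e⟩ := hspan A B hA hB
      refine ⟨α - 1 + ∑ C, β C * ind (Hyp S C), fun C => ind (C = A) + ind (C = B) - β C, fun x => ?_⟩
      have k : ∀ C, β C * ind (Hyp S C) = β C * ind (Hyp S C ∧ P x C) + β C * ind (Hyp S C ∧ ¬ P x C) :=
        fun C => by by_cases Hyp S C <;> by_cases P x C <;> simp [ind, *]
      have := e x
      simp only [sub_mul, add_mul, Finset.sum_add_distrib, Finset.sum_sub_distrib, k, sum_eq hA, sum_eq hB]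
      by_cases P x A <;> by_cases P x B <;> simp only [ind, *, and_self, and_false, false_and, not_true, not_false_iff,
        if_true, if_false] at this ⊢ <;> linarith
  exact .inr (core hS h' fun y => by_contra fun n => zero_ne_one ((u_zero h n).1.symm.trans (u_one h cl)))

end CL.PL
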