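/-
Rank three actions of the linear groups: colourings.
-/
import Cfsg.Agent.CLAS.PL.Span
import Cfsg.Agent.CLAS.PL.Pat
import Cfsg.Agent.CLAS.PL.C2

set_option autoImplicit false

namespace CL.PL

open Module Submodule
open scoped Pointwise

variable {F : Type*} [Field F] [Finite F] {V : Type*} [AddCommGroup V] [Module F V]
  [FiniteDimensional F V] {K : Subgroup (V ≃ₗ[F] V)}

namespace Fac

open C2

theorem fin_sub : Finite (Submodule F V) :=
  have : Finite V := Module.finite_of_finite F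
  Finite.of_injective _ (SetLike.coe_injective (A := Submodule F V))

theorem ind_and (P Q : Prop) : ind (P ∧ Q) = ind P * ind Q := by
  by_cases a : P <;> by_cases b : Q <;> simp [ind, a, b]

theorem sum_group {ι κ X : Type*} [Fintype ι] [Fintype κ] (β : ι → ℝ) (π : ι → κ) {Q : ι → X → Prop} (R : ι → Prop)
    {T : κ → X → Prop} (h : ∀ p x, Q p x ↔ R p ∧ T (π p) x) :
    ∃ β' : κ → ℝ, ∀ x, ∑ p, β p * ind (Q p x) = ∑ C, β' C * ind (T C x) := by
  classical
  refine ⟨fun C => ∑ p with π p = C, β p * ind (R p), fun x => ?_⟩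
  rw [← Finset.sum_fiberwise Finset.univ π]
  refine Finset.sum_congr rfl fun C _ => ?_
  rw [Finset.sum_mul]
  refine Finset.sum_congr rfl fun p hp => ?_
  rw [ind_congr (h p x), ind_and, (Finset.mem_filter.1 hp).2, mul_assoc]

theorem card_fib {α β : Type*} [Finite α] [Finite β] (f : α → β) (c : ℕ) (h : ∀ b, Nat.card {a // f a = b} = c) :
    Nat.card α = Nat.card β * c := by
  have := Fintype.ofFinite β
  rw [← Nat.card_congr (Equiv.sigmaFiberEquiv f), Nat.card_sigma]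
  simp [h]

omit [Finite F] [FiniteDimensional F V] in
theorem ag_mul {S : Submodule F V} {k : V ≃ₗ[F] V} (hk : k ∈ K) (g : V ≃ₗ[F] V) : Ag K S (k * g) ↔ Ag K S g :=
  ⟨fun ⟨l, hl, e⟩ => ⟨k⁻¹ * l, K.mul_mem (K.inv_mem hk) hl, fun s hs => by simp [e s hs]⟩,
    fun ⟨l, hl, e⟩ => ⟨k * l, K.mul_mem hk hl, fun s hs => by simp [e s hs]⟩⟩

theorem ag_span (h : R3 K) (hT : TF K) {i j : ℕ} (hTr : Tr K (j - 1)) (col : Submodule F V → Submodule F V → Prop)
    (hcol : ∀ k ∈ K, ∀ A B, col (k • A) (k • B) ↔ col A B)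
    (hne : ∃ A B A' B', Fl i j A B ∧ Fl i j A' B' ∧ col A B ∧ ¬ col A' B') {S : Submodule F V}
    (hjS : j ≤ finrank F S) (hS : finrank F S + 2 ≤ finrank F V) {g : V ≃ₗ[F] V}
    (hg : ∀ A B, Fl i j A B → B ≤ S → (col (g • A) (g • B) ↔ col A B)) : Ag K S g := by
  have := fin_sub (F := F) (V := V)
  have := Fintype.ofFinite (Submodule F V)
  obtain ⟨α, β, e⟩ := span_flag h hT hTr col hcol hne hjS hS (fun g => ind (Ag K S g))
    (fun k hk g => ind_congr (ag_mul hk g)) fun g g' e => ind_congr (exists_congr fun k => and_congr_right fun _ =>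
      forall₂_congr fun s hs => by rw [e s hs])
  by_contra hn
  have e1 := e g
  rw [Finset.sum_congr rfl fun p _ => congrArg (β p * ·) (ind_congr (and_congr_right fun a => and_congr_right fun b =>
    (hg _ _ a b).trans (by rw [one_smul, one_smul] : _ ↔ col ((1 : V ≃ₗ[F] V) • p.1) ((1 : V ≃ₗ[F] V) • p.2)))),
    ← e 1, ind_false hn, ind_true ⟨1, K.one_mem, fun _ _ => rfl⟩] at e1
  exact zero_ne_one e1

omit [Finite F] [FiniteDimensional F V] in
theorem eqv_smul {k : V ≃ₗ[F] V} (hk : k ∈ K) {A B : Submodule F V} : Eqv K (k • A) B ↔ Eqv K A B :=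
  ⟨fun h => Eqv.trans ⟨k, hk, rfl⟩ h, fun h => (Eqv.symm ⟨k, hk, rfl⟩).trans h⟩

omit [Finite F] in
theorem exists_hyp {S Z : Submodule F V} {y : V} (hy : y ∈ S) (hy' : y ∉ Z) (hZ : Z ≤ S) :
    ∃ W, Hyp S W ∧ Z ≤ W ∧ y ∉ W := by
  obtain ⟨φ, h1, h2⟩ := exists_fn hy'
  refine ⟨_, hyp_ker (f := φ ∘ₗ S.subtype) fun e => one_ne_zero (h1.symm.trans (LinearMap.congr_fun e ⟨y, hy⟩)),
    fun a ha => mem_map.2 ⟨⟨a, hZ ha⟩, h2 a ha, rfl⟩, ?_⟩
  rintro ⟨x, hx, rfl⟩
  exact one_ne_zero (h1.symm.trans hx)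

omit [Finite F] in
theorem le_of_hyp {S Z Z' : Submodule F V} (h1 : Z ≤ S) (h2 : Z' ≤ S) (h : ∀ W, Hyp S W → Z' ≤ W → Z ≤ W) : Z ≤ Z' :=
  fun x hx => by
    by_contra hn
    obtain ⟨W, a, b, c⟩ := exists_hyp (h1 hx) hn h2
    exact c (h W a b hx)

omit [Finite F] in
theorem Hyp.not_le {S A : Submodule F V} (h : Hyp S A) : ¬ S ≤ A := fun e => by
  have := finrank_mono e
  have := h.2
  omega

omit [Finite F] [FiniteDimensional F V] in
theorem star_smul {S Z : Submodule F V} {g : V ≃ₗ[F] V} {P : Submodule F V → Prop}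
    (h : Star S Z fun A => P (g • A)) : Star (g • S) (g • Z) P := ⟨smul_le_smul.2 h.1, fun A hA => by
  have : P (g • g⁻¹ • A) ↔ _ := h.2 (g⁻¹ • A) (by simpa using hA.smul g⁻¹)
  rwa [smul_inv_smul, ← smul_le_smul (g := g), smul_inv_smul] at this⟩

omit [Finite F] in
theorem exists_mixed {j : ℕ} {red : Submodule F V → Prop} (d : ℕ) : ∀ A B : Submodule F V, finrank F A = j →
    finrank F B = j → red A → ¬ red B → j ≤ finrank F (A ⊓ B : Submodule F V) + d →
    ∃ S A B : Submodule F V, finrank F S = j + 1 ∧ Hyp S A ∧ Hyp S B ∧ red A ∧ ¬ red B := by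
  induction d with
  | zero =>
    intro A B hA hB a b h
    have e1 : A ⊓ B = A := eq_of_le_of_finrank_le inf_le_left (by omega)
    exact (b (eq_of_le_of_finrank_eq (inf_eq_left.1 e1) (hA.trans hB.symm) ▸ a)).elim
  | succ d ih =>
    intro A B hA hB a b h
    by_cases h1 : j ≤ finrank F (A ⊓ B : Submodule F V) + d
    · exact ih A B hA hB a b h1
    have h2 := finrank_sup_add_finrank_inf_eq A B
    by_cases h3 : d = 0
    · exact ⟨A ⊔ B, A, B, by omega, ⟨le_sup_left, by omega⟩, ⟨le_sup_right, by omega⟩, a, b⟩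
    obtain ⟨x, hx, hx'⟩ := SetLike.exists_of_lt (lt_of_le_of_ne (inf_le_left (a := A) (b := B)) fun e => by
      rw [e] at h1; omega)
    obtain ⟨y, hy, hy'⟩ := SetLike.exists_of_lt (lt_of_le_of_ne (inf_le_right (a := A) (b := B)) fun e => by
      rw [e] at h1; omega)
    have e1 := finrank_sup_span_singleton hx'
    have e2 := finrank_sup_span_singleton hy'
    obtain ⟨C, hC, hC'⟩ := exists_le_finrank ((A ⊓ B ⊔ F ∙ x) ⊔ F ∙ y) (j := j) (by
      have := finrank_add_le_finrank_add_finrank (A ⊓ B ⊔ F ∙ x) (F ∙ y)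
      have := finrank_span_singleton (K := F) fun e : y = 0 => hy' (e ▸ zero_mem _)
      omega) (hA ▸ A.finrank_le)
    by_cases c : red C
    · refine ih C B hC' hB c b (le_trans (by omega) (Nat.add_le_add_right (finrank_mono (?_ : A ⊓ B ⊔ F ∙ y ≤ _)) d))
      exact le_inf ((sup_le_sup_right le_sup_left _).trans hC) (sup_le inf_le_right ((span_singleton_le_iff_mem _ _).2 hy))
    · refine ih A C hA hC' a c (le_trans (by omega) (Nat.add_le_add_right (finrank_mono (?_ : A ⊓ B ⊔ F ∙ x ≤ _)) d))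
      exact le_inf (sup_le inf_le_left ((span_singleton_le_iff_mem _ _).2 hx)) (le_sup_left.trans hC)

omit [Finite F] in
theorem st_or_pt {j : ℕ} {red : Submodule F V → Prop} (hj : 1 ≤ j)
    (hR : ∃ A : Submodule F V, finrank F A = j ∧ red A) (hB : ∃ A : Submodule F V, finrank F A = j ∧ ¬ red A)
    {S₀ : Submodule F V} (hS : finrank F S₀ = j + 1) (h : PatC S₀ fun (g : V ≃ₗ[F] V) A => red (g • A)) :
    ST j red ∨ PT j red := by
  have h0 : ∀ {S : Submodule F V}, Star S ⊥ red → ∀ A, Hyp S A → red A := fun h A hA => (h.2 A hA).2 bot_le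
  have h1 : ∀ {S : Submodule F V}, Star S S red → ∀ A, Hyp S A → ¬ red A := fun h A hA a => Hyp.not_le hA ((h.2 A hA).1 a)
  by_cases hc : 3 ≤ finrank F S₀ ∧ ∃ (g : V ≃ₗ[F] V) (Z : Submodule F V), Star S₀ Z (fun A => red (g • A)) ∧ finrank F Z = 1
  · refine .inr fun S hS' => ?_
    obtain ⟨g, rfl⟩ := exists_smul_eq (hS.trans hS'.symm)
    obtain ⟨Z, hZ, rfl | rfl | e | e⟩ := h.star g
    · exact .inl (h0 (by simpa using star_smul hZ))
    · exact .inr (.inl (h1 (star_smul hZ)))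
    · obtain ⟨z, hz, z0⟩ := exists_mem_ne_zero_of_ne_bot (p := g • Z) fun e' => by
        rw [← finrank_smul (g := g), e', finrank_bot] at e; omega
      have e' : (F ∙ z) = g • Z := eq_of_le_of_finrank_eq ((span_singleton_le_iff_mem _ _).2 hz)
        (by rw [finrank_span_singleton z0, finrank_smul, e])
      exact .inr (.inr ⟨z, (star_smul hZ).1 hz, z0, fun A hA => by
        rw [(star_smul hZ).2 A hA, ← e', span_singleton_le_iff_mem]⟩)
    · exact (h.one hc.1 ⟨hc.2, g, Z, hZ, e⟩).elim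
  refine .inl ⟨fun S hS' => ?_, fun ⟨⟨S, hS1, a⟩, S', hS2, b⟩ => ?_⟩
  · obtain ⟨g, rfl⟩ := exists_smul_eq (hS.trans hS'.symm)
    obtain ⟨Z, hZ, e⟩ := h.star g
    rcases e with rfl | rfl | e
    · exact .inl (h0 (by simpa using star_smul hZ))
    · exact .inr (.inl (h1 (star_smul hZ)))
    have e' : Hyp S₀ Z := e.elim (fun e => ⟨hZ.1, by
      have : ¬ 3 ≤ finrank F S₀ := fun h => hc ⟨h, g, Z, hZ, e⟩
      omega⟩) id
    refine .inr (.inr ⟨_, e'.smul g, fun A hA => ((star_smul hZ).2 A hA).trans ⟨fun l => (eq_of_le_of_finrank_eq l ?_).symm,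
      fun e => e.ge⟩⟩)
    have := (e'.smul g).2
    have := hA.2
    omega
  obtain ⟨A, hA, a'⟩ := hR
  obtain ⟨B, hB, b'⟩ := hB
  obtain ⟨T, A, B, hT, hA, hB, a', b'⟩ := exists_mixed j A B hA hB a' b' (Nat.le_add_left _ _)
  obtain ⟨g, rfl⟩ := exists_smul_eq (hS.trans hS1.symm)
  obtain ⟨g', rfl⟩ := exists_smul_eq (hS.trans hS2.symm)
  obtain ⟨t, rfl⟩ := exists_smul_eq (hS.trans hT.symm)
  obtain ⟨Z, hZ, -⟩ := h.star t
  refine h.triv ⟨t, Z, hZ, ?_, ?_⟩ ⟨⟨g, bot_le, fun A hA => iff_of_true (a _ (hA.smul g)) bot_le⟩,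
    g', le_rfl, fun A hA => iff_of_false (b _ (hA.smul g')) (Hyp.not_le hA)⟩
  · rintro rfl
    exact b' (h0 (by simpa using star_smul hZ) B hB)
  · rintro rfl
    exact h1 (star_smul hZ) A hA a'

theorem oc_of (h : R3 K) (hT : TF K) {j : ℕ} (hn : j + 2 ≤ finrank F V) (hj : 2 ≤ j) (hTr : Tr K (j - 1))
    (hs : SubTr K j) (col : Submodule F V → Submodule F V → Prop)
    (hcol : ∀ k ∈ K, ∀ A B, col (k • A) (k • B) ↔ col A B)
    (hne : ∃ A B A' B', Fl (j - 1) j A B ∧ Fl (j - 1) j A' B' ∧ col A B ∧ ¬ col A' B') {S : Submodule F V}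
    (hS : finrank F S = j) (hp : PatC S fun (g : V ≃ₗ[F] V) W => col (g • W) (g • S)) :
    ∃ i z, (i = 1 ∨ i + 1 = j) ∧ OC K j i z := by
  have key : ∀ A : Submodule F V, finrank F A = j → ∃ Z, Star A Z (fun W => col W A) ∧
      (finrank F Z = 1 ∨ finrank F Z + 1 = j) := fun A hA => by
    obtain ⟨g, rfl⟩ := exists_smul_eq (hS.trans hA.symm)
    obtain ⟨Z, hZ, e⟩ := hp.star g
    have hZ' := star_smul (P := fun W => col W (g • S)) hZ
    obtain ⟨W1, A1, W2, A2, f1, f2, a, b⟩ := hne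
    refine ⟨_, hZ', ?_⟩
    rw [finrank_smul]
    rcases e with rfl | rfl | e | e
    · obtain ⟨k, hk, e⟩ := hs A2 _ f2.2.2 hA
      refine (b ((hcol k hk _ _).1 (e ▸ (hZ'.2 (k • W2) (e ▸ Hyp.smul ⟨f2.1, ?_⟩ k)).2 (by simp)))).elim
      rw [f2.2.1, f2.2.2]; omega
    · obtain ⟨k, hk, e⟩ := hs A1 _ f1.2.2 hA
      have : Hyp (g • Z) (k • W1) := e ▸ Hyp.smul ⟨f1.1, by rw [f1.2.1, f1.2.2]; omega⟩ k
      exact (Hyp.not_le this ((hZ'.2 _ this).1 (e ▸ (hcol k hk _ _).2 a))).elim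
    · exact .inl e
    · exact .inr (e.2.trans hS)
  choose! z hz hd using key
  have eqv : ∀ k ∈ K, ∀ A : Submodule F V, finrank F A = j → z (k • A) = k • z A := fun k hk A hA => by
    have h1 := hz _ (finrank_smul (g := k).trans hA)
    have h2 : Star (k • A) (k • z A) fun W => col W (k • A) := star_smul (by simpa only [hcol k hk] using hz A hA)
    exact le_antisymm (le_of_hyp h1.1 h2.1 fun W a b => (h1.2 W a).1 ((h2.2 W a).2 b))
      (le_of_hyp h2.1 h1.1 fun W a b => (h2.2 W a).1 ((h1.2 W a).2 b))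
  refine ⟨_, z, hd S hS, hTr, hs, fun A hA => (hz A hA).1, fun A hA => ?_, eqv, fun A hA g e => ?_⟩
  · obtain ⟨k, hk, rfl⟩ := hs S A hS hA
    rw [eqv k hk S hS, finrank_smul]
  · refine ag_span h hT hTr col hcol hne hA.ge (by omega) fun W B f l => ?_
    obtain rfl : B = A := eq_of_le_of_finrank_eq l (f.2.2.trans hA.symm)
    have : Hyp B W := ⟨f.1, by rw [f.2.1, f.2.2]; omega⟩
    exact ((hz _ (finrank_smul.trans hA)).2 _ (this.smul g)).trans (e ▸ smul_le_smul.trans ((hz _ hA).2 _ this).symm)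

theorem card_diff {W A : Submodule F V} (h : W ≤ A) :
    Nat.card {x // x ∈ A ∧ x ∉ W} = Nat.card F ^ finrank F A - Nat.card F ^ finrank F W := by
  have : Finite V := Module.finite_of_finite F
  rw [← Module.natCard_eq_pow_finrank, ← Module.natCard_eq_pow_finrank]
  exact Set.ncard_diff (s := (W : Set V)) (t := (A : Set V)) h

theorem card_over {W S : Submodule F V} (h : W ≤ S) :
    Nat.card {A : Submodule F V // W ≤ A ∧ A ≤ S ∧ finrank F A = finrank F W + 1} * (Nat.card F - 1) =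
      Nat.card F ^ (finrank F S - finrank F W) - 1 := by
  have : Finite V := Module.finite_of_finite F
  have := fin_sub (F := F) (V := V)
  have e := card_fib (fun x : {x // x ∈ S ∧ x ∉ W} => (⟨W ⊔ F ∙ x.1, le_sup_left,
    sup_le h ((span_singleton_le_iff_mem _ _).2 x.2.1), finrank_sup_span_singleton x.2.2⟩ :
      {A : Submodule F V // W ≤ A ∧ A ≤ S ∧ finrank F A = finrank F W + 1}))
    (Nat.card F ^ (finrank F W + 1) - Nat.card F ^ finrank F W) fun A => by
      refine Eq.trans ?_ ((card_diff A.2.1).trans (by rw [A.2.2.2]))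
      exact Nat.card_congr ⟨fun x => ⟨x.1.1, (congrArg Subtype.val x.2).le (mem_sup_right (mem_span_singleton_self _)),
        x.1.2.2⟩, fun x => ⟨⟨x.1, A.2.2.1 x.2.1, x.2.2⟩, Subtype.ext (eq_of_le_of_finrank_eq
          (sup_le A.2.1 ((span_singleton_le_iff_mem _ _).2 x.2.1))
          ((finrank_sup_span_singleton x.2.2).trans A.2.2.2.symm))⟩, fun _ => rfl, fun _ => rfl⟩
  obtain ⟨d, hd⟩ := Nat.exists_eq_add_of_le (finrank_mono h)
  rw [card_diff h, hd, pow_add, pow_succ, ← Nat.mul_sub_one, ← Nat.mul_sub_one, mul_left_comm] at e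
  rw [hd, Nat.add_sub_cancel_left]
  exact (Nat.eq_of_mul_eq_mul_left (pow_pos Nat.card_pos _) e).symm

theorem card_hyp (S : Submodule F V) :
    Nat.card {A : Submodule F V // Hyp S A} * (Nat.card F - 1) = Nat.card F ^ finrank F S - 1 := by
  have e := card_over (F := F) (V := Dual F S) (W := ⊥) (S := ⊤) bot_le
  rw [finrank_top, finrank_bot, Subspace.dual_finrank_eq, Nat.sub_zero] at e
  rw [← e]
  congr 1
  refine Nat.card_eq_of_bijective (fun A => ⟨(A.1.comap S.subtype).dualAnnihilator, bot_le, le_top, ?_⟩)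
    ⟨fun A B e => Subtype.ext ?_, fun P => ⟨⟨P.1.dualCoannihilator.map S.subtype, map_subtype_le _ _, ?_⟩, ?_⟩⟩
  · have := Subspace.finrank_add_finrank_dualAnnihilator_eq (A.1.comap S.subtype)
    have := (comapSubtypeEquivOfLe A.2.1).finrank_eq
    have := A.2.2
    omega
  · have := congrArg (map S.subtype) (Subspace.dualAnnihilator_inj.1 (congrArg Subtype.val e))
    rwa [map_comap_subtype, map_comap_subtype, inf_eq_right.2 A.2.1, inf_eq_right.2 B.2.1] at this
  · have := Subspace.finrank_add_finrank_dualAnnihilator_eq P.1.dualCoannihilator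
    rw [Subspace.dualCoannihilator_dualAnnihilator_eq, P.2.2.2] at this
    rw [finrank_map_subtype_eq]
    omega
  · exact Subtype.ext (by
      simp only [comap_map_eq_of_injective S.injective_subtype, Subspace.dualCoannihilator_dualAnnihilator_eq])

end Fac

open Fac C2

/-- PROOF. `col _ B = Eqv K B A₁` (`i = 0` or `i = j`) in `span_flag` with `S = A`,
`Fn g' = ind (Ag K A g')`: the only `p.2` is `A`, so `Fn g = Fn 1 = 1`. -/
theorem ag_of_not_subTr (h : R3 K) (hT : TF K) {j : ℕ} (hn : j + 2 ≤ finrank F V)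
    (hTr : Tr K (j - 1)) (hs : ¬ SubTr K j) {A : Submodule F V} (hA : finrank F A = j) :
    Full K A := by
  obtain ⟨A1, B1, h1, h2, ne⟩ : ∃ A B : Submodule F V, finrank F A = j ∧ finrank F B = j ∧ ¬ Eqv K A B := by
    by_contra h'; push Not at h'; exact hs h'
  refine fun g hg => ag_span h hT (i := 0) hTr (fun _ B => Eqv K B B1) (fun k hk _ _ => eqv_smul hk)
    ⟨⊥, B1, ⊥, A1, ⟨bot_le, finrank_bot _ _, h2⟩, ⟨bot_le, finrank_bot _ _, h1⟩, .refl _, ne⟩ hA.ge (by omega)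
    fun _ B f l => ?_
  rw [eq_of_le_of_finrank_eq l (f.2.2.trans hA.symm), hg]

/-- PROOF. `red₀ B = Eqv K B A₁`. `ag0`, `ag1` as in `ag_of_not_subTr` (`Fn g' = ind (Ag K S g')`), they
do not change when the colours are swapped. Fix `S₀` of dimension `j + 1`, apply `pattern` to
`P g A = red₀ (g • A)` (`hspan` from `span_flag` with `Fn g = ind (P g A ∧ P g B)`), every
`(j+1)`-space is some `g • S₀`. A mixed `(j+1)`-space exists (red `A`, blue `B` with `A ⊓ B` of
maximal dimension; if it is not a hyperplane of `A` insert `C` between). If some pattern is a star of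
a point (and `j ≥ 2`) then `PT` by `PatC.one`; otherwise `ST` (for `j = 1` points are hyperplanes). -/
theorem exists_tc (h : R3 K) (hT : TF K) {j : ℕ} (hj : 1 ≤ j) (hn : j + 3 ≤ finrank F V)
    (hTr : Tr K (j - 1)) (hs : ¬ SubTr K j) :
    ∃ red, TC K j red ∧ (ST j red ∨ PT j red) := by
  have := fin_sub (F := F) (V := V)
  have := Fintype.ofFinite (Submodule F V)
  obtain ⟨A1, B1, h1, h2, ne⟩ : ∃ A B : Submodule F V, finrank F A = j ∧ finrank F B = j ∧ ¬ Eqv K A B := by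
    by_contra h'; push Not at h'; exact hs h'
  have hne : ∃ A B A' B' : Submodule F V, Fl 0 j A B ∧ Fl 0 j A' B' ∧ Eqv K B B1 ∧ ¬ Eqv K B' B1 :=
    ⟨⊥, B1, ⊥, A1, ⟨bot_le, finrank_bot _ _, h2⟩, ⟨bot_le, finrank_bot _ _, h1⟩, .refl _, ne⟩
  have tc : TC K j fun B => Eqv K B B1 := ⟨hTr, fun k hk _ => eqv_smul hk, ⟨B1, h2, .refl _⟩, ⟨A1, h1, ne⟩,
    fun A hA g e => ag_span h hT hTr (fun _ B => Eqv K B B1) (fun k hk _ _ => eqv_smul hk) hne hA.ge (by omega)
      fun _ B f l => by rwa [eq_of_le_of_finrank_eq l (f.2.2.trans hA.symm)],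
    fun S hS g e => ag_span h hT hTr (fun _ B => Eqv K B B1) (fun k hk _ _ => eqv_smul hk) hne (by omega) (by omega)
      fun _ B f l => e B ⟨l, by rw [f.2.2, hS]⟩⟩
  obtain ⟨S, -, hS⟩ := exists_le_finrank (⊥ : Submodule F V) (j := j + 1) (by simp) (by omega)
  rcases pattern (S := S) (by omega) (fun (g : V ≃ₗ[F] V) A => Eqv K (g • A) B1)
    (fun g γ _ => ⟨g * γ, fun A _ => by rw [mul_smul]⟩) (fun A B hA hB => by
      obtain ⟨α, β, e⟩ := span_flag h hT hTr (fun _ B => Eqv K B B1) (fun k hk _ _ => eqv_smul hk) hne (S := S)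
        (by omega) (by omega) (fun g => ind (Eqv K (g • A) B1 ∧ Eqv K (g • B) B1))
        (fun k hk g => by rw [mul_smul, mul_smul, eqv_smul hk, eqv_smul hk])
        fun g g' e => by rw [smul_congr e hA.1, smul_congr e hB.1]
      obtain ⟨β', e'⟩ := sum_group β Prod.snd (Q := fun p (g : V ≃ₗ[F] V) => Fl 0 j p.1 p.2 ∧ p.2 ≤ S ∧ Eqv K (g • p.2) B1)
        (fun p => p.1 ≤ p.2 ∧ finrank F p.1 = 0) (T := fun C g => Hyp S C ∧ Eqv K (g • C) B1) fun p g =>
          ⟨fun ⟨a, b, c⟩ => ⟨⟨a.1, a.2.1⟩, ⟨b, by rw [a.2.2, hS]⟩, c⟩,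
            fun ⟨a, b, c⟩ => ⟨⟨a.1, a.2, by have := b.2; omega⟩, b.1, c⟩⟩
      exact ⟨α, β', fun g => by rw [e, e']⟩) with hp | hp
  · exact ⟨_, tc, st_or_pt hj tc.exR tc.exB hS hp⟩
  · exact ⟨fun B => ¬ Eqv K B B1, ⟨hTr, fun k hk A => not_congr (tc.inv k hk A), tc.exB,
      tc.exR.imp fun _ h => ⟨h.1, not_not.2 h.2⟩, fun A hA g e => tc.ag0 A hA g (not_iff_not.1 e),
      fun S hS g e => tc.ag1 S hS g fun A hA => not_iff_not.1 (e A hA)⟩,
      st_or_pt hj tc.exB (tc.exR.imp fun _ h => ⟨h.1, not_not.2 h.2⟩) hS hp⟩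

/-- PROOF. `col W A` = the flag `(W, A)` is in the `K`-orbit of a fixed flag of type `(j-1, j)`.
Fix `S` of dimension `j`, `P g W = col (g • W) (g • S)`, `pattern`; by `SubTr` every `j`-space has
red and blue hyperplanes, so after swapping colours the pattern is `Star Z` with `Z` a point or a
hyperplane. `z A = sInf {W | Hyp A W ∧ col' W A}` (`= Z`); the dimension is constant by `SubTr`;
`ag` from `span_flag` with `Fn g' = ind (Ag K A g')`. -/
theorem exists_oc (h : R3 K) (hT : TF K) {j : ℕ} (hj : 2 ≤ j) (hn : j + 2 ≤ finrank F V)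
    (hTr : Tr K (j - 1)) (hs : SubTr K j) (hf : ¬ FlagTr K j) :
    ∃ i z, (i = 1 ∨ i + 1 = j) ∧ OC K j i z := by
  have := fin_sub (F := F) (V := V)
  have := Fintype.ofFinite (Submodule F V)
  obtain ⟨W1, A1, W2, A2, a1, a2, a3, a4, a5, a6, ne⟩ : ∃ W A W' A' : Submodule F V, W ≤ A ∧ W' ≤ A' ∧
      finrank F W + 1 = j ∧ finrank F A = j ∧ finrank F W' + 1 = j ∧ finrank F A' = j ∧
      ¬ ∃ k ∈ K, k • W = W' ∧ k • A = A' := by
    by_contra h'
    exact hf fun W A W' A' a b c d e f => by_contra fun g => h' ⟨W, A, W', A', a, b, c, d, e, f, g⟩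
  let col : Submodule F V → Submodule F V → Prop := fun W A => ∃ k ∈ K, k • W = W2 ∧ k • A = A2
  have hcol : ∀ k ∈ K, ∀ A B, col (k • A) (k • B) ↔ col A B := fun k hk A B =>
    ⟨fun ⟨l, hl, e⟩ => ⟨l * k, K.mul_mem hl hk, by rwa [mul_smul, mul_smul]⟩,
      fun ⟨l, hl, e⟩ => ⟨l * k⁻¹, K.mul_mem hl (K.inv_mem hk), by rwa [mul_smul, mul_smul, inv_smul_smul, inv_smul_smul]⟩⟩
  have f1 : Fl (j - 1) j W1 A1 := ⟨a1, by omega, a4⟩
  have f2 : Fl (j - 1) j W2 A2 := ⟨a2, by omega, a6⟩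
  have c2 : col W2 A2 := ⟨1, K.one_mem, one_smul _ _, one_smul _ _⟩
  rcases pattern (S := A1) (by omega) (fun (g : V ≃ₗ[F] V) W => col (g • W) (g • A1))
    (fun g γ e => ⟨g * γ, fun A _ => by rw [mul_smul, mul_smul, e]⟩) (fun A B hA hB => by
      obtain ⟨α, β, e⟩ := span_flag h hT hTr col hcol ⟨_, _, _, _, f2, f1, c2, ne⟩ (S := A1)
        a4.ge (by omega) (fun g => ind (col (g • A) (g • A1) ∧ col (g • B) (g • A1)))
        (fun k hk g => by simp only [mul_smul, hcol k hk])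
        fun g g' e => by rw [smul_congr e hA.1, smul_congr e hB.1, smul_congr e le_rfl]
      obtain ⟨β', e'⟩ := sum_group β Prod.fst
        (Q := fun p (g : V ≃ₗ[F] V) => Fl (j - 1) j p.1 p.2 ∧ p.2 ≤ A1 ∧ col (g • p.1) (g • p.2))
        (fun p => p.2 = A1) (T := fun C g => Hyp A1 C ∧ col (g • C) (g • A1)) fun p g =>
          ⟨fun ⟨a, b, c⟩ => by
            have e := eq_of_le_of_finrank_eq b (a.2.2.trans a4.symm)
            exact ⟨e, ⟨a.1.trans b, by rw [a.2.1, a4]; omega⟩, e ▸ c⟩,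
            fun ⟨a, b, c⟩ => by rw [a]; exact ⟨⟨b.1, by have := b.2; omega, a4⟩, le_rfl, c⟩⟩
      exact ⟨α, β', fun g => by rw [e, e']⟩) with hp | hp
  · exact oc_of h hT hn hj hTr hs col hcol ⟨_, _, _, _, f2, f1, c2, ne⟩ a4 hp
  · exact oc_of h hT hn hj hTr hs (fun W A => ¬ col W A) (fun k hk A B => not_congr (hcol k hk A B))
      ⟨_, _, _, _, f1, f2, ne, not_not.2 c2⟩ a4 hp

/-- PROOF. Fix `S ≥ W` of dimension `j`. Count `N = #{g ∈ GL(V) | z (g • S) = g • Z}`.
(1) the sets `{g | z (g • S) = g • Z'}`, `Z' ≤ S` of dimension `i`, partition `GL(V)` and have equal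
size (right multiplication by `γ` with `γ • S = S`, `γ • Z = Z'`); there are `[j] = (q^j-1)/(q-1)` such
`Z'` (points or hyperplanes of `S`). (2) for `A ≥ W` of dimension `j` and `g`, let `ν(g)` be the number
of such `A` with `z (g • A) = g • Z`; it equals `ν(1)` (`tr`: some `k ∈ K` agrees with `g` on `W`);
`∑_g ν(g) = [n-j+1] N` (right multiplication by `γ` fixing `W` pointwise with `γ • S = A`). -/
theorem OC.nu {j i : ℕ} {z : Submodule F V → Submodule F V} (h : OC K j i z) (hj : 2 ≤ j)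
    (hn : j ≤ finrank F V) (hi : i = 1 ∨ i + 1 = j) {Z W : Submodule F V} (hZ : Z ≤ W)
    (hZi : finrank F Z = i) (hW : finrank F W + 1 = j) :
    Nat.card {A : Submodule F V // W ≤ A ∧ finrank F A = j ∧ z A = Z} * (Nat.card F ^ j - 1) =
      Nat.card F ^ (finrank F V - j + 1) - 1 := by
  have := fin_sub (F := F) (V := V)
  have := fin_GL (F := F) (V := V)
  obtain ⟨S, hWS, hS⟩ := exists_le_finrank W (j := j) (by omega) hn
  set N := Nat.card {g : V ≃ₗ[F] V // z (g • S) = g • Z} with hN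
  have e0 : ∀ S' Z' : Submodule F V, Z' ≤ S' → finrank F S' = j → finrank F Z' = i →
      Nat.card {g : V ≃ₗ[F] V // z (g • S') = g • Z'} = N := fun S' Z' a b c => by
    obtain ⟨γ, rfl, rfl⟩ := exists_smul_pair (hZ.trans hWS) a (hZi.trans c.symm) (hS.trans b.symm)
    exact Nat.card_congr ((Equiv.mulRight γ).subtypeEquiv fun g => by simp only [Equiv.coe_mulRight, mul_smul])
  have e1 := card_fib (fun g : V ≃ₗ[F] V => (⟨g⁻¹ • z (g • S), by
    rw [← smul_le_smul (g := g), smul_inv_smul]; exact h.le _ (finrank_smul.trans hS), by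
    rw [finrank_smul, h.dim _ (finrank_smul.trans hS)]⟩ : {Z' : Submodule F V // Z' ≤ S ∧ finrank F Z' = i})) N
    fun Z' => by
      rw [← e0 S Z' Z'.2.1 hS Z'.2.2]
      exact Nat.card_congr (Equiv.subtypeEquivRight fun g => by rw [Subtype.ext_iff, inv_smul_eq_iff])
  have e2 : Nat.card {Z' : Submodule F V // Z' ≤ S ∧ finrank F Z' = i} * (Nat.card F - 1) = Nat.card F ^ j - 1 := by
    rcases hi with rfl | hi
    · have := card_over (bot_le (a := S))
      simpa only [bot_le, true_and, finrank_bot, zero_add, Nat.sub_zero, hS] using this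
    · rw [← hS, ← card_hyp S]
      congr 1
      exact Nat.card_congr (Equiv.subtypeEquivRight fun A => and_congr_right fun _ => by omega)
  have e3 := card_fib (fun p : {p : (V ≃ₗ[F] V) × Submodule F V // W ≤ p.2 ∧ finrank F p.2 = j ∧
      z (p.1 • p.2) = p.1 • Z} => p.1.1) (Nat.card {A : Submodule F V // W ≤ A ∧ finrank F A = j ∧ z A = Z}) fun g => by
    obtain ⟨k, hk, -, e⟩ := (h.tr W (by omega) g).smul_eq
    refine Nat.card_congr ⟨fun p => ⟨(k⁻¹ * g) • p.1.1.2, ?_, finrank_smul.trans p.1.2.2.1, ?_⟩,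
      fun A => ⟨⟨(g, (k⁻¹ * g)⁻¹ • A.1), ?_, finrank_smul.trans A.2.2.1, ?_⟩, rfl⟩,
      fun p => Subtype.ext (Subtype.ext (Prod.ext p.2.symm (inv_smul_smul _ _))), fun A => Subtype.ext (smul_inv_smul _ _)⟩
    · rw [mul_smul, ← smul_le_smul (g := k), smul_inv_smul, e W le_rfl, smul_le_smul]; exact p.1.2.1
    · have := p.1.2.2.2
      rw [p.2] at this
      rw [mul_smul, h.eqv _ (K.inv_mem hk) _ (finrank_smul.trans p.1.2.2.1), this, ← e Z hZ, inv_smul_smul]
    · rw [← smul_le_smul (g := k⁻¹ * g), smul_inv_smul, mul_smul, ← e W le_rfl, inv_smul_smul]; exact A.2.1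
    · simp only [mul_inv_rev, inv_inv, mul_smul, smul_inv_smul]
      rw [h.eqv _ hk _ A.2.2.1, A.2.2.2, e Z hZ]
  have e4 := card_fib (fun p : {p : (V ≃ₗ[F] V) × Submodule F V // W ≤ p.2 ∧ finrank F p.2 = j ∧
      z (p.1 • p.2) = p.1 • Z} => (⟨p.1.2, p.2.1, le_top, p.2.2.1.trans hW.symm⟩ :
        {A : Submodule F V // W ≤ A ∧ A ≤ ⊤ ∧ finrank F A = finrank F W + 1})) N fun A => by
    rw [← e0 A Z (hZ.trans A.2.1) (A.2.2.2.trans hW) hZi]
    exact Nat.card_congr ⟨fun p => ⟨p.1.1.1, congrArg Subtype.val p.2 ▸ p.1.2.2.2⟩,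
      fun g => ⟨⟨(g.1, A.1), A.2.1, A.2.2.2.trans hW, g.2⟩, rfl⟩,
      fun p => Subtype.ext (Subtype.ext (Prod.ext rfl (congrArg Subtype.val p.2).symm)), fun _ => rfl⟩
  have e5 := card_over (le_top (a := W))
  rw [finrank_top, show finrank F V - finrank F W = finrank F V - j + 1 by omega] at e5
  have N0 : 0 < N := Nat.pos_of_ne_zero fun e => by
    rw [e, mul_zero] at e1; exact Nat.card_pos.ne' e1
  rw [e4, e1, mul_right_comm] at e3
  rw [← e5, ← e2, Nat.eq_of_mul_eq_mul_right N0 e3]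
  ring

end CL.PL
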