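/-
Rank three actions of the linear groups: a single red hyperplane.
-/
import Cfsg.Agent.CLAS.PL.Span
import Cfsg.Agent.CLAS.PL.Fac

set_option autoImplicit false

namespace CL.PL

open Module Submodule
open scoped Pointwise

variable {F : Type*} [Field F] [Finite F] {V : Type*} [AddCommGroup V] [Module F V]
  [FiniteDimensional F V] {K : Subgroup (V ≃ₗ[F] V)}

variable {j : ℕ} {red : Submodule F V → Prop}

namespace AS

omit [Finite F]

theorem sup_eq {W A : Submodule F V} {y : V} (h : Hyp A W) (hy : y ∈ A) (hy' : y ∉ W) : W ⊔ F ∙ y = A :=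
  eq_of_le_of_finrank_eq (sup_le h.1 ((span_singleton_le_iff_mem _ _).2 hy))
    ((finrank_sup_span_singleton hy').trans h.2)

theorem hyp_sup {W : Submodule F V} {y : V} (hy : y ∉ W) : Hyp (W ⊔ F ∙ y) W :=
  ⟨le_sup_left, (finrank_sup_span_singleton hy).symm⟩

omit [FiniteDimensional F V] in
theorem mem_r (W : Submodule F V) (y : V) : y ∈ W ⊔ F ∙ y := mem_sup_right (mem_span_singleton_self y)

theorem ex_notin {A B : Submodule F V} (h : finrank F A < finrank F B) : ∃ x ∈ B, x ∉ A :=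
  SetLike.not_le_iff_exists.1 fun e => (finrank_mono e).not_gt h

/-- `W` and the red `j`-spaces over it -/
def RW (red : Submodule F V → Prop) (W : Submodule F V)
    (h : ∀ S A B : Submodule F V, Hyp A W → Hyp B W → Hyp S A → Hyp S B → A ≠ B → red A → red B →
      ∀ C, Hyp S C → red C) : Submodule F V where
  carrier := {y | y ∉ W → red (W ⊔ F ∙ y)}
  zero_mem' := fun h => (h W.zero_mem).elim
  smul_mem' c y hy hc := by
    have h1 : y ∉ W := fun e => hc (W.smul_mem c e)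
    rw [sup_eq (hyp_sup h1) (smul_mem _ c (mem_r W y)) hc]
    exact hy h1
  add_mem' {x y} hx hy hc := by
    by_cases h1 : x ∈ W
    · have h2 : y ∉ W := fun e => hc (W.add_mem h1 e)
      rw [sup_eq (hyp_sup h2) (add_mem (mem_sup_left h1) (mem_r W y)) hc]
      exact hy h2
    by_cases h2 : y ∈ W ⊔ F ∙ x
    · rw [sup_eq (hyp_sup h1) (add_mem (mem_r W x) h2) hc]
      exact hx h1
    have h3 : y ∉ W := fun e => h2 (mem_sup_left e)
    have e1 := (hyp_sup h1).2
    have e2 := (hyp_sup h2).2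
    refine h _ _ _ (hyp_sup h1) (hyp_sup h3) (hyp_sup h2) ⟨sup_le_sup_right le_sup_left _, ?_⟩
      (fun e => h2 (e ▸ mem_r W y)) (hx h1) (hy h3) _ ⟨sup_le (le_sup_left.trans le_sup_left)
        ((span_singleton_le_iff_mem _ _).2 (add_mem (mem_sup_left (mem_r W x)) (mem_r _ y))), ?_⟩
    · rw [← (hyp_sup h3).2]; omega
    · rw [← (hyp_sup hc).2]; omega

omit [FiniteDimensional F V] in
theorem two_red (hs : ST j red) {W : Submodule F V} (hW : finrank F W + 1 = j) (S A B : Submodule F V) (h1 : Hyp A W)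
    (_ : Hyp B W) (h2 : Hyp S A) (h3 : Hyp S B) (ne : A ≠ B) (a : red A) (b : red B) : ∀ C, Hyp S C → red C := by
  rcases hs.1 S (by rw [← h2.2, ← h1.2, hW]) with h | h | ⟨A₀, -, h⟩
  · exact h
  · exact (h A h2 a).elim
  · exact (ne (((h A h2).1 a).trans ((h B h3).1 b).symm)).elim

end AS

open AS

/-- PROOF. The red points together with `0` form a subspace (a line with two red points is red),
which is `K`-invariant, non-zero and proper. -/
theorem TC.not_irr (h : TC K 1 red) (hp : ST 1 red ∨ PT 1 red) : ¬ Irr K := by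
  intro hI
  have h0 : finrank F (⊥ : Submodule F V) + 1 = 1 := by simp
  have key : ∀ S A B : Submodule F V, Hyp A ⊥ → Hyp B ⊥ → Hyp S A → Hyp S B → A ≠ B → red A → red B →
      ∀ C, Hyp S C → red C := by
    rcases hp with hp | hp
    · exact two_red hp h0
    intro S A B h1 h1' h2 h3 ne a b
    rcases hp S (by rw [← h2.2, ← h1.2, h0]) with h | h | ⟨z, -, z0, h⟩
    · exact h
    · exact (h A h2 a).elim
    · exact (ne ((sup_eq h1 ((h A h2).1 a) z0).symm.trans (sup_eq h1' ((h B h3).1 b) z0))).elim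
  have pt : ∀ A : Submodule F V, finrank F A = 1 → ∃ a, a ∉ (⊥ : Submodule F V) ∧ ⊥ ⊔ (F ∙ a) = A := fun A hA => by
    obtain ⟨a, ha, a0⟩ := ex_notin (A := ⊥) (B := A) (by simp [hA])
    exact ⟨a, a0, sup_eq ⟨bot_le, h0.trans hA.symm⟩ ha a0⟩
  rcases hI (RW red ⊥ key) (fun k hk v hv h0 => by
    rw [bot_sup_eq, ← smul_line, h.inv k hk, ← bot_sup_eq (F ∙ v)]
    exact hv fun e => h0 (by simpa using e)) with e | e
  · obtain ⟨A, hA, r⟩ := h.exR
    obtain ⟨a, a0, rfl⟩ := pt A hA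
    exact a0 (e.le fun _ => r)
  · obtain ⟨A, hA, r⟩ := h.exB
    obtain ⟨a, a0, rfl⟩ := pt A hA
    exact r (e.ge trivial a0)

/-- No `(j+1)`-space is completely red.
PROOF. For `W` of dimension `j - 1` let `R W` = `W` together with all `y` such that `W ⊔ F y` is a red
`j`-space; it is a subspace (two red `A, A' > W` span a `(j+1)`-space with two red hyperplanes, which
is all red). `finrank (R W) = j - 1 + ρ` is constant (`tr`). Suppose some `(j+1)`-space is all red:
`ρ ≥ 2` and no `(j+1)`-space is all blue. Take `B` blue. Every `y ∉ B` lies in `R W ⊔ B` for exactly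
one hyperplane `W` of `B` (`W = A ⊓ B`, `A` the unique red hyperplane of `B ⊔ F y`), and
`R W ⊓ B = W`. So `q^n - q^j = [j] q^j (q^ρ - 1)`, i.e. `(q^(n-j) - 1)(q - 1) = (q^j - 1)(q^ρ - 1)`,
which fails mod `q²` since `n - j, j, ρ ≥ 2`. -/
theorem TC.no_all_red (h : TC K j red) (hs : ST j red) (hj : 2 ≤ j) (hn : j + 2 ≤ finrank F V)
    {S : Submodule F V} (hS : finrank F S = j + 1) : ∃ A, Hyp S A ∧ ¬ red A := by
  by_contra hn'
  push Not at hn'
  have : Finite V := Module.finite_of_finite F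
  have := Fac.fin_sub (F := F) (V := V)
  let R : ∀ W : Submodule F V, finrank F W + 1 = j → Submodule F V := fun W hW => RW red W (two_red hs hW)
  have mR : ∀ W hW y, y ∈ R W hW ↔ (y ∉ W → red (W ⊔ F ∙ y)) := fun _ _ _ => Iff.rfl
  obtain ⟨W0, h0, hW0⟩ := exists_le_finrank (⊥ : Submodule F S) (j := j - 1) (by simp) (by omega)
  have hW0' : finrank F (W0.map S.subtype) + 1 = j := by rw [finrank_map_subtype_eq]; omega
  have r0 : j + 1 ≤ finrank F (R _ hW0') := hS ▸ finrank_mono fun y hy hy' => hn' _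
    ⟨sup_le (map_subtype_le _ _) ((span_singleton_le_iff_mem _ _).2 hy), by rw [← (hyp_sup hy').2]; omega⟩
  have rc : ∀ W hW, finrank F (R W hW) = finrank F (R _ hW0') := fun W hW => by
    obtain ⟨k, hk, rfl⟩ := h.tr.subTr (W0.map S.subtype) W (by omega) (by omega)
    rw [← finrank_smul (g := k) (A := R _ hW0'), show R _ hW = k • R _ hW0' from Submodule.ext fun y => ?_]
    obtain ⟨y, rfl⟩ := k.surjective y
    rw [apply_mem_smul, mR _ hW, mR _ hW0', apply_mem_smul, ← smul_line, ← smul_sup, h.inv k hk]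
  obtain ⟨B, hB, b⟩ := h.exB
  have hh : ∀ {W}, Hyp B W → finrank F W + 1 = j := fun h => h.2.trans hB
  have key : ∀ y : {y // y ∈ (⊤ : Submodule F V) ∧ y ∉ B}, ∃ W : {W // Hyp B W},
      ∀ W' : {W // Hyp B W}, W = W' ↔ y.1 ∈ R W' (hh W'.2) ⊔ B := fun ⟨y, _, hy⟩ => by
    have e := (hyp_sup hy).2
    obtain ⟨A, hA, u⟩ := ((hs.1 _ (e.symm.trans (by rw [hB]))).resolve_left fun a => b (a B (hyp_sup hy))).resolve_left
      fun a => hs.2 ⟨⟨S, hS, hn'⟩, _, e.symm.trans (by rw [hB]), a⟩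
    have a := (u A hA).2 rfl
    have e1 := hA.2
    obtain ⟨x, hx, hx'⟩ : ∃ x ∈ A, x ∉ B := SetLike.not_le_iff_exists.1 fun l =>
      b (eq_of_le_of_finrank_eq l (by omega) ▸ a)
    have e2 : A ⊔ B = B ⊔ F ∙ y := le_antisymm (sup_le hA.1 le_sup_left) (by
      rw [← sup_eq (hyp_sup hy) (hA.1 hx) hx']
      exact sup_le le_sup_right ((span_singleton_le_iff_mem _ _).2 (mem_sup_left hx)))
    have e3 := finrank_sup_add_finrank_inf_eq A B
    rw [e2] at e3
    refine ⟨⟨A ⊓ B, inf_le_right, by omega⟩, fun W => ⟨?_, fun hW => ?_⟩⟩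
    · rintro rfl
      refine sup_le_sup_right (fun z hz hz' => ?_) B (e2.ge (mem_r B y))
      rwa [sup_eq ⟨inf_le_left, by omega⟩ hz hz']
    · obtain ⟨r, hr, c, hc, rfl⟩ := mem_sup.1 hW
      have r1 : r ∉ B := fun e => hy (add_mem e hc)
      have r2 : r ∉ W.1 := fun e => r1 (W.2.1 e)
      have e4 := W.2.2
      have := (u _ ⟨sup_le (W.2.1.trans le_sup_left) ((span_singleton_le_iff_mem _ _).2
        (by simpa using sub_mem (mem_r B (r + c)) (mem_sup_left hc))), by rw [← (hyp_sup r2).2]; omega⟩).1 (hr r2)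
      exact Subtype.ext (eq_of_le_of_finrank_eq (le_inf (this ▸ le_sup_left) W.2.1) (by omega)).symm
  choose f hf using key
  have e := Fac.card_fib f (Nat.card F ^ (finrank F (R _ hW0') + 1) - Nat.card F ^ j) fun W => by
    have e1 : R W (hh W.2) ⊓ B = W := le_antisymm (fun y hy => by_contra fun hy' =>
      b (sup_eq W.2 (mem_inf.1 hy).2 hy' ▸ (mR _ (hh W.2) _).1 (mem_inf.1 hy).1 hy')) (le_inf (fun y (hy : y ∈ W.1) hy' => (hy' hy).elim) W.2.1)
    have e2 := finrank_sup_add_finrank_inf_eq (R W (hh W.2)) B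
    have e3 := hh W.2
    rw [e1, rc _ e3] at e2
    refine Eq.trans ?_ ((Fac.card_diff (le_sup_right (a := R W (hh W.2)))).trans (by rw [hB]; congr 2; omega))
    exact Nat.card_congr ⟨fun y => ⟨y.1.1, (hf _ _).1 y.2, y.1.2.2⟩, fun y => ⟨⟨y.1, trivial, y.2.2⟩, (hf _ _).2 y.2.1⟩,
      fun _ => rfl, fun _ => rfl⟩
  have e1 := Fac.card_hyp B
  rw [Fac.card_diff le_top, finrank_top, hB] at e
  rw [hB] at e1
  obtain ⟨a, ha⟩ := Nat.exists_eq_add_of_le hn
  obtain ⟨c, hc⟩ := Nat.exists_eq_add_of_le r0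
  obtain ⟨d, rfl⟩ := Nat.exists_eq_add_of_le hj
  have q1 : 1 < Nat.card F := Finite.one_lt_card
  rw [ha, hc] at e
  generalize Nat.card F = q at e e1 q1
  generalize Nat.card {W // Hyp B W} = M at e e1
  zify [Nat.pow_le_pow_right q1.le (show 2 + d ≤ 2 + d + 2 + a by omega), q1.le, Nat.one_le_pow (2 + d) q (by omega),
    Nat.pow_le_pow_right q1.le (show 2 + d ≤ 2 + d + 1 + c + 1 by omega)] at e e1
  have q0 : (q : ℤ) ≠ 0 := by positivity
  have e2 : (q : ℤ) ^ (2 + a) - 1 = M * (q ^ (2 + c) - 1) :=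
    mul_left_cancel₀ (pow_ne_zero (2 + d) q0) (by linear_combination e)
  have e3 : (q : ℤ) * (q ^ (1 + a) - q ^ a - q ^ (2 + c + d) + q ^ c + q ^ d) = 1 :=
    mul_left_cancel₀ q0 (by linear_combination (q - 1 : ℤ) * e2 + (q ^ (2 + c) - 1) * e1)
  have := Int.eq_one_of_mul_eq_one_right (by positivity) e3
  omega

theorem TC.uniq (h : TC K j red) (hs : ST j red) (hj : 2 ≤ j) (hn : j + 2 ≤ finrank F V) {S A : Submodule F V}
    (hS : finrank F S = j + 1) (hA : Hyp S A) (a : red A) {B : Submodule F V} (hB : Hyp S B) : red B ↔ B = A := by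
  rcases hs.1 S hS with h1 | h1 | ⟨A₀, -, h1⟩
  · obtain ⟨C, c1, c2⟩ := h.no_all_red hs hj hn hS
    exact (c2 (h1 C c1)).elim
  · exact (h1 A hA a).elim
  · rw [h1 B hB, (h1 A hA).1 a]

/-- PROOF. `A` red, `Full` by `ag0`. For `y, y' ∉ A` take `g` fixing `A` pointwise with `g y = y'`
(`exists_ext`); `A` is the only red hyperplane of `A ⊔ F y` and of `A ⊔ F y'`; `ag1`. -/
theorem TC.of_ST (h : TC K j red) (hs : ST j red) (hj : 2 ≤ j) (hn : j + 2 ≤ finrank F V) :
    ∃ A : Submodule F V, finrank F A = j ∧ Full K A ∧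
      ∀ y ∉ A, ∀ y' ∉ A, ∃ k ∈ fixS K A, k y - y' ∈ A := by
  obtain ⟨A, hA, a⟩ := h.exR
  refine ⟨A, hA, fun g hg => h.ag0 A hA g (by rw [hg]), fun y hy y' hy' => ?_⟩
  obtain ⟨g, g1, rfl⟩ := C2.exists_fix_map hy hy'
  have e : g • A = A := (smul_congr (g' := 1) g1 le_rfl).trans (one_smul _ _)
  have e1 := (hyp_sup hy).2
  obtain ⟨k, hk, e2⟩ := h.ag1 (A ⊔ F ∙ y) (by omega) g fun B hB => by
    rw [h.uniq hs hj hn (by omega) (hyp_sup hy) a hB, h.uniq hs hj hn (finrank_smul.trans (by omega))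
      (by simpa only [e] using (hyp_sup hy).smul g) a (hB.smul g), ← smul_left_cancel_iff g (x := B), e]
  exact ⟨k, ⟨hk, fun w hw => (e2 w (mem_sup_left hw)).trans (g1 w hw)⟩, by rw [e2 y (mem_r A y), sub_self]; exact zero_mem _⟩

/-- PROOF. Every plane has at most one red line (`no_all_red`), so distinct red lines meet trivially,
and every point is on a red line (`tr`). (i) A solid with exactly one red line: `ℓ` red, `π > ℓ` a
plane; a solid over `π` with a second red line is `π ⊔ R(y')`, `R(y')` the red line through a point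
`y'` of `π` outside `ℓ` (`q²` points); these cover at most `q³ + q²(q⁴ - q³) < q^n` vectors.
(ii) `S = A ⊕ B` with `A, B` red. `span_flag` (`i = j = 2`, `col _ L = red L`) for
`Fn g = ind (red (g • A) ∧ red (g • B)) = α + ∑_E β_E ind (red (g • E))`. For every line `E ≤ S` take
`g` mapping `S` to the solid of (i) and `E` to its red line: `0 = α + β_E`. So
`Fn g = α (1 - number of red lines in g • S)`; compare `g = 1` and `g` with `g • S = S`, `g • A` a
line of `S` meeting `A` in a point (blue). -/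
theorem TC.spread (h3 : R3 K) (hT : TF K) (h : TC K 2 red) (hs : ST 2 red)
    (hn : 6 ≤ finrank F V) : False := by
  classical
  have : Finite V := Module.finite_of_finite F
  have := Fac.fin_sub (F := F) (V := V)
  have := Fintype.ofFinite (Submodule F V)
  have meet : ∀ {A B : Submodule F V} {x : V}, finrank F A = 2 → finrank F B = 2 → red A → red B → x ≠ 0 → x ∈ A →
      x ∈ B → A = B := fun {A B x} hA hB a b x0 xa xb => by
    by_cases l : A ≤ B
    · exact eq_of_le_of_finrank_eq l (hA.trans hB.symm)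
    have e1 := finrank_sup_add_finrank_inf_eq A B
    have e2 := finrank_lt_finrank_of_lt (inf_lt_left.2 l)
    have e3 := finrank_mono ((span_singleton_le_iff_mem x (A ⊓ B)).2 ⟨xa, xb⟩)
    rw [finrank_span_singleton x0] at e3
    exact (h.uniq hs le_rfl (by omega) (S := A ⊔ B) (by omega) ⟨le_sup_right, by omega⟩ b ⟨le_sup_left, by omega⟩).1 a
  obtain ⟨A, hA, a⟩ := h.exR
  obtain ⟨x, hx, x0⟩ := ex_notin (A := ⊥) (B := A) (by simp [hA])
  have thr : ∀ y : V, y ≠ 0 → ∃ B : Submodule F V, finrank F B = 2 ∧ red B ∧ y ∈ B := fun y y0 => by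
    obtain ⟨g, -, rfl⟩ := C2.exists_fix_map x0 (y' := y) y0
    obtain ⟨k, hk, e⟩ := h.tr (F ∙ x) (finrank_span_singleton x0) g
    exact ⟨k • A, finrank_smul.trans hA, (h.inv k hk A).2 a, e x (mem_span_singleton_self x) ▸ apply_mem_smul.2 hx⟩
  obtain ⟨p, -, hp⟩ := ex_notin (A := A) (B := ⊤) (by rw [finrank_top]; omega)
  have e0 := (hyp_sup hp).2
  obtain ⟨T, hAT, hT4, uT⟩ : ∃ T : Submodule F V, A ≤ T ∧ finrank F T = 4 ∧
      ∀ B ≤ T, finrank F B = 2 → red B → B = A := by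
    by_contra hc
    push Not at hc
    choose R r1 r2 r3 using fun l : A => thr (p + l) fun e => hp (by
      rw [eq_neg_of_add_eq_zero_left e]; exact neg_mem l.2)
    have key : ∀ y : {y // y ∈ (⊤ : Submodule F V) ∧ y ∉ A ⊔ F ∙ p}, ∃ l : A, y.1 ∈ (A ⊔ F ∙ p) ⊔ R l :=
      fun ⟨y, _, hy⟩ => by
        have e1 := (hyp_sup hy).2
        obtain ⟨B, hB, b1, b2, ne⟩ := hc _ (le_sup_left.trans le_sup_left) (by omega : finrank F (A ⊔ F ∙ p ⊔ F ∙ y :
          Submodule F V) = 4)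
        have e2 := finrank_sup_add_finrank_inf_eq (A ⊔ F ∙ p) B
        have e3 := finrank_mono (sup_le le_sup_left hB)
        obtain ⟨z, hz, z0⟩ := ex_notin (A := ⊥) (B := (A ⊔ F ∙ p) ⊓ B) (by rw [finrank_bot]; omega)
        obtain ⟨l, hl, _, hc, rfl⟩ := mem_sup.1 hz.1
        obtain ⟨c, rfl⟩ := mem_span_singleton.1 hc
        have c0 : c ≠ 0 := fun e => ne (meet b1 hA b2 a z0 hz.2 (by simpa [e] using hl))
        refine ⟨⟨c⁻¹ • l, smul_mem _ _ hl⟩, ?_⟩
        rw [meet (r1 _) b1 (r2 _) b2 (x := l + c • p) z0 (by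
          simpa [smul_smul, c0, add_comm] using smul_mem _ c (r3 ⟨c⁻¹ • l, smul_mem _ _ hl⟩)) hz.2]
        obtain ⟨w, hw, hw'⟩ : ∃ w ∈ B, w ∉ A ⊔ F ∙ p := SetLike.not_le_iff_exists.1 fun l =>
          ne ((h.uniq hs le_rfl (by omega) (by omega) (hyp_sup hp) a ⟨l, by omega⟩).1 b2)
        exact sup_le le_sup_left ((span_singleton_le_iff_mem _ _).2 (mem_sup_right hw))
          ((sup_eq (hyp_sup hy) (hB hw) hw').ge (mem_r _ y))
    choose f hf using key
    have := Fintype.ofFinite A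
    have e := Nat.card_le_card_of_injective (fun y => (⟨f y, y.1, hf y, y.2.2⟩ :
      Σ l : A, {y // y ∈ (A ⊔ F ∙ p) ⊔ R l ∧ y ∉ A ⊔ F ∙ p})) fun y y' e =>
        Subtype.ext (congrArg (fun s : Σ l : A, {y // y ∈ (A ⊔ F ∙ p) ⊔ R l ∧ y ∉ A ⊔ F ∙ p} => s.2.1) e)
    have q1 : 1 < Nat.card F := Finite.one_lt_card
    rw [Nat.card_sigma, Fac.card_diff le_top, finrank_top, ← e0, hA] at e
    have e1 := e.trans (Finset.sum_le_card_nsmul _ _ (Nat.card F ^ 4 - Nat.card F ^ 3) fun l _ => by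
      have e2 := finrank_sup_add_finrank_inf_eq (A ⊔ F ∙ p) (R l)
      have e3 := finrank_mono ((span_singleton_le_iff_mem (p + l) ((A ⊔ F ∙ p) ⊓ R l)).2
        ⟨add_mem (mem_r A p) (mem_sup_left l.2), r3 l⟩)
      rw [finrank_span_singleton fun e => hp (by rw [eq_neg_of_add_eq_zero_left e]; exact neg_mem l.2)] at e3
      have := r1 l
      rw [Fac.card_diff le_sup_left, ← e0, hA]
      exact Nat.sub_le_sub_right (Nat.pow_le_pow_right q1.le (by omega)) _)
    rw [Finset.card_univ, ← Nat.card_eq_fintype_card, Module.natCard_eq_pow_finrank (K := F) (V := A), hA, smul_eq_mul,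
      Nat.mul_sub, ← pow_add, ← pow_add] at e1
    have := Nat.pow_le_pow_right q1.le hn
    have := Nat.pow_lt_pow_right q1 (show 2 + 1 < 2 + 3 by omega)
    have := Nat.pow_lt_pow_right q1 (show 2 + 3 < 6 by omega)
    rw [show 2 + 4 = 6 from rfl] at e1
    omega
  obtain ⟨B, hB, b, hp'⟩ := thr p fun e => hp (e ▸ zero_mem _)
  have ne : A ≠ B := fun e => hp (e ▸ hp')
  have e4 := finrank_sup_add_finrank_inf_eq A B
  rw [show A ⊓ B = ⊥ from eq_bot_iff.2 fun z hz => by_contra fun z0 => ne (meet hA hB a b z0 hz.1 hz.2),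
    finrank_bot] at e4
  obtain ⟨B', hB', b'⟩ := h.exB
  obtain ⟨α, β, e⟩ := span_flag h3 hT (i := 0) h.tr (fun _ L => red L) (fun k hk _ L => h.inv k hk L)
    ⟨⊥, A, ⊥, B', ⟨bot_le, finrank_bot _ _, hA⟩, ⟨bot_le, finrank_bot _ _, hB'⟩, a, b'⟩ (S := A ⊔ B) (by omega) (by omega)
    (fun g => ind (red (g • A) ∧ red (g • B))) (fun k hk g => by rw [mul_smul, mul_smul, h.inv k hk, h.inv k hk])
    fun g g' e => by rw [smul_congr e le_sup_left, smul_congr e le_sup_right]
  obtain ⟨β', e'⟩ := Fac.sum_group β Prod.snd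
    (Q := fun p (g : V ≃ₗ[F] V) => Fl 0 2 p.1 p.2 ∧ p.2 ≤ A ⊔ B ∧ red (g • p.2)) (fun p => p.1 ≤ p.2 ∧ finrank F p.1 = 0)
    (T := fun C g => (C ≤ A ⊔ B ∧ finrank F C = 2) ∧ red (g • C)) fun p g =>
      ⟨fun ⟨a, b, c⟩ => ⟨⟨a.1, a.2.1⟩, ⟨b, a.2.2⟩, c⟩, fun ⟨a, b, c⟩ => ⟨⟨a.1, a.2, b.2⟩, b.1, c⟩⟩
  simp only [e'] at e
  have hβ : ∀ C ≤ A ⊔ B, finrank F C = 2 → β' C = -α := fun C c1 c2 => by
    obtain ⟨g, g1, g2⟩ := exists_smul_pair c1 hAT (c2.trans hA.symm) (by omega)
    have u : ∀ D ≤ A ⊔ B, finrank F D = 2 → red (g • D) → D = C := fun D d1 d2 d3 =>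
      smul_left_cancel g ((uT _ (g2 ▸ smul_le_smul.2 d1) (finrank_smul.trans d2) d3).trans g1.symm)
    have := e g
    rw [ind_false fun d => ne ((u A le_sup_left hA d.1).trans (u B le_sup_right hB d.2).symm),
      Finset.sum_eq_single C (fun D _ hD => by rw [ind_false fun d => hD (u D d.1.1 d.1.2 d.2), mul_zero]) (by simp),
      ind_true ⟨⟨c1, c2⟩, g1 ▸ a⟩, mul_one] at this
    exact (neg_eq_of_add_eq_zero_right this.symm).symm
  have e5 : ∀ g : V ≃ₗ[F] V, g • (A ⊔ B) = A ⊔ B → ind (red (g • A) ∧ red (g • B)) =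
      α + ∑ C : Submodule F V, -α * ind ((C ≤ A ⊔ B ∧ finrank F C = 2) ∧ red C) := fun g hg => by
    rw [e, ← Equiv.sum_comp (MulAction.toPerm g) fun C => -α * ind ((C ≤ A ⊔ B ∧ finrank F C = 2) ∧ red C)]
    refine congrArg _ (Finset.sum_congr rfl fun C _ => ?_)
    rw [MulAction.toPerm_apply, finrank_smul, ← hg, smul_le_smul, hg]
    by_cases c : C ≤ A ⊔ B ∧ finrank F C = 2
    · rw [hβ C c.1 c.2]
    · rw [ind_false fun d => c d.1, mul_zero, mul_zero]
  have xp : p ∉ F ∙ x := fun e => hp ((span_singleton_le_iff_mem _ _).2 hx e)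
  have e6 := (hyp_sup xp).2
  rw [finrank_span_singleton x0] at e6
  obtain ⟨g, g1, g2⟩ := exists_smul_pair (le_sup_left (a := A) (b := B)) (sup_le_sup
    ((span_singleton_le_iff_mem _ _).2 hx) ((span_singleton_le_iff_mem _ _).2 hp')) (hA.trans e6) rfl
  have e7 := (e5 g g2).trans (e5 1 (one_smul _ _)).symm
  rw [one_smul, one_smul, ind_true (And.intro a b), g1, ind_false fun d => hp (meet e6.symm hA (And.left d) a x0
    (mem_sup_left (mem_span_singleton_self x)) hx ▸ mem_r _ p)] at e7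
  exact zero_ne_one e7

end CL.PL
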