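/-
Rank three actions of the linear groups: a distinguished point on each line.
-/
import Cfsg.Agent.CLAS.PL.Span
import Cfsg.Agent.CLAS.PL.Hy

set_option autoImplicit false
set_option maxHeartbeats 200000

namespace CL.PL

open Module Submodule
open scoped Pointwise

variable {F : Type*} [Field F] [Finite F] {V : Type*} [AddCommGroup V] [Module F V]
  [FiniteDimensional F V] {K : Subgroup (V ≃ₗ[F] V)}

namespace B2x

open Hy

variable {z : Submodule F V → Submodule F V} {a A p S : Submodule F V}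

omit [Finite F] in
theorem pt_eq (ha : finrank F a = 1) (h : ¬ a ≤ A) : ∃ x, x ∉ A ∧ a = F ∙ x := by
  obtain ⟨x, hx, hx'⟩ := SetLike.not_le_iff_exists.1 h
  refine ⟨x, hx', (eq_of_le_of_finrank_eq ((span_singleton_le_iff_mem _ _).2 hx) ?_).symm⟩
  rw [finrank_span_singleton (v := x) fun e => hx' (e ▸ A.zero_mem), ha]

omit [Finite F] in
theorem move_two {a' : Submodule F V} (hS : Hyp S A) (hp : Hyp A p) (hp1 : finrank F p = 1)
    (ha : a ≤ A) (ha1 : finrank F a = 1) (hne : a ≠ p) (ha' : a' ≤ A) (ha1' : finrank F a' = 1)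
    (hne' : a' ≠ p) : ∃ g : V ≃ₗ[F] V, g • S = S ∧ g • p = p ∧ g • A = A ∧ g • a = a' := by
  obtain ⟨x, hx, rfl⟩ := pt_eq ha1 fun h => hne (eq_of_le_of_finrank_eq h (ha1.trans hp1.symm))
  obtain ⟨x', hx', rfl⟩ :=
    pt_eq ha1' fun h => hne' (eq_of_le_of_finrank_eq h (ha1'.trans hp1.symm))
  obtain ⟨g₁, h1, h2⟩ := ext_one (B := p) 1 hx (by rw [one_smul]; exact hx')
  have h3 : g₁ • p = p := by rw [smul_congr h1 le_rfl, one_smul]
  have h4 : g₁ • A = A := by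
    conv_lhs => rw [eq_sup hp (ha (mem_span_singleton_self x)) hx]
    rw [smul_sup, smul_line, h2, h3, ← eq_sup hp (ha' (mem_span_singleton_self x')) hx']
  obtain ⟨g, h5, h6⟩ := ext_hyp g₁ hS (h4.symm ▸ hS)
  exact ⟨g, h6, by rw [smul_congr h5 hp.1, h3], by rw [smul_congr h5 le_rfl, h4],
    by rw [smul_congr h5 ha, smul_line, h2]⟩

omit [Finite F] in
theorem move_three {a' : Submodule F V} (hS : Hyp S A) (hp : p ≤ S) (hp1 : finrank F p = 1)
    (hpA : ¬ p ≤ A) (ha : a ≤ A) (ha' : a' ≤ A) (hd : finrank F a = finrank F a') :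
    ∃ g : V ≃ₗ[F] V, g • S = S ∧ g • p = p ∧ g • A = A ∧ g • a = a' := by
  obtain ⟨v, hv, rfl⟩ := pt_eq hp1 hpA
  obtain ⟨g₁, h1, h2⟩ := exists_smul_pair ha ha' hd rfl
  obtain ⟨g, h3, h4⟩ := ext_one g₁ hv (h2.symm ▸ hv)
  have h5 : g • A = A := by rw [smul_congr h3 le_rfl, h2]
  refine ⟨g, ?_, by rw [smul_line, h4], h5, by rw [smul_congr h3 ha, h1]⟩
  rw [eq_sup hS (hp (mem_span_singleton_self v)) hv, smul_sup, smul_line, h4, h5]

theorem two_val {α β : ℝ} {x y w : ℕ} (hx : (x : ℝ) ^ 2 = α + β * x) (hy : (y : ℝ) ^ 2 = α + β * y)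
    (hw : (w : ℝ) ^ 2 = α + β * w) (h : x ≠ y) : w = x ∨ w = y := by
  have h1 : (x : ℝ) - y ≠ 0 := sub_ne_zero.2 (Nat.cast_injective.ne h)
  have h2 : β = x + y := mul_left_cancel₀ h1 (by linear_combination hy - hx)
  have h3 : ((w : ℝ) - x) * (w - y) = 0 := by
    rw [h2] at hx hw
    linear_combination hw - hx
  rcases mul_eq_zero.1 h3 with h | h
  exacts [Or.inl (Nat.cast_injective (sub_eq_zero.1 h)),
    Or.inr (Nat.cast_injective (sub_eq_zero.1 h))]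

variable [Fintype (Submodule F V)]

/-- The lines of `S` with distinguished point `p`. -/
noncomputable def Ls (z : Submodule F V → Submodule F V) (p S : Submodule F V) :
    Finset (Submodule F V) := fs fun l => finrank F l = 2 ∧ l ≤ S ∧ z l = p

omit [Finite F] [FiniteDimensional F V] in
theorem mem_Ls : A ∈ Ls z p S ↔ finrank F A = 2 ∧ A ≤ S ∧ z A = p := mem_fs

omit [Finite F] [FiniteDimensional F V] in
theorem Ls_smul (h : OC K 2 1 z) {k : V ≃ₗ[F] V} (hk : k ∈ K) :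
    (Ls z (k • p) (k • S)).card = (Ls z p S).card := by
  rw [Ls, ← card_fs_smul _ k, Ls]
  congr 1
  refine fs_congr fun A => ?_
  rw [finrank_smul, smul_le_smul]
  exact and_congr_right fun hA => by rw [h.eqv k hk A hA, smul_left_cancel_iff]

omit [Finite F] [FiniteDimensional F V] in
theorem Ls_sum (h : OC K 2 1 z) (hp : finrank F p = 1) (g : V ≃ₗ[F] V) :
    ∑ l ∈ fs (fun l => Hyp l p ∧ l ≤ S), ind (z (g • l) = g • p) = (Ls z (g • p) (g • S)).card := by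
  rw [sum_ind, Ls, ← card_fs_smul (fun l => finrank F l = 2 ∧ l ≤ g • S ∧ z l = g • p) g]
  congr 2
  refine fs_congr fun A => ?_
  rw [finrank_smul, smul_le_smul]
  refine ⟨fun ⟨⟨h1, h2⟩, h3⟩ => ⟨by have := h1.2; omega, h2, h3⟩,
    fun ⟨h1, h2, h3⟩ => ⟨⟨⟨?_, by omega⟩, h2⟩, h3⟩⟩
  rw [← smul_le_smul (g := g), ← h3]
  exact h.le _ (finrank_smul.trans h1)

omit [Finite F] in
theorem flag_sum (h : OC K 2 1 z) (hp : finrank F p = 1) (hpS : p ≤ S) (hS : finrank F S = 3)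
    (Γ : Subgroup (V ≃ₗ[F] V)) [Fintype Γ] (hΓ : ∀ γ, γ ∈ Γ ↔ γ • S = S ∧ γ • p = p)
    (ha : a ≤ A) (ha1 : finrank F a = 1) (hA : finrank F A = 2) (hAS : A ≤ S) :
    ∃ u v : ℝ, ∀ g : V ≃ₗ[F] V, ∑ γ : Γ, ind (z ((g * γ) • A) = (g * γ) • a) =
      u + v * (Ls z (g • p) (g • S)).card := by
  classical
  have hH : Hyp S A := ⟨hAS, by omega⟩
  have haM : a ∈ fs fun a => a ≤ A ∧ finrank F a = 1 := mem_fs.2 ⟨ha, ha1⟩
  by_cases hpA : p ≤ A
  · have hp' : Hyp A p := ⟨hpA, by omega⟩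
    obtain ⟨v, hv⟩ : ∃ v : ℝ, ∀ g : V ≃ₗ[F] V, ∑ γ : Γ, ind (z ((g * γ) • A) = (g * γ) • p) =
        v * (Ls z (g • p) (g • S)).card := by
      have e := avg Γ (fs fun l => Hyp l p ∧ l ≤ S) (fun l g => ind (z (g • l) = g • p))
        (fun g => ind (z (g • A) = g • p)) fun l hl => by
          obtain ⟨hl1, hl2⟩ := mem_fs.1 hl
          obtain ⟨δ, d1, d2, d3⟩ := ex_triple hpA hl1.1 rfl hH ⟨hl2, by have := hl1.2; omega⟩
          exact ⟨δ, (hΓ δ).2 ⟨d3, d1⟩, fun g => by rw [mul_smul, mul_smul, d1, d2]⟩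
      have hc : ((fs fun l => Hyp l p ∧ l ≤ S).card : ℝ) ≠ 0 :=
        Nat.cast_ne_zero.2 (Finset.card_ne_zero.2 ⟨A, mem_fs.2 ⟨hp', hAS⟩⟩)
      refine ⟨Fintype.card Γ / (fs fun l => Hyp l p ∧ l ≤ S).card, fun g => ?_⟩
      refine mul_left_cancel₀ hc ?_
      rw [e g, Finset.sum_congr rfl fun (γ : Γ) _ => by
        rw [Ls_sum h hp, mul_smul, mul_smul, ((hΓ γ).1 γ.2).1, ((hΓ γ).1 γ.2).2],
        Finset.sum_const, nsmul_eq_mul, Finset.card_univ]
      field_simp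
    by_cases hap : a = p
    · exact ⟨0, v, fun g => by rw [hap, hv, zero_add]⟩
    have e := avg Γ ((fs fun a => a ≤ A ∧ finrank F a = 1).erase p)
      (fun a g => ind (z (g • A) = g • a)) (fun g => ind (z (g • A) = g • a)) fun a' ha' => by
        obtain ⟨h1, h2⟩ := Finset.mem_erase.1 ha'
        obtain ⟨δ, d1, d2, d3, d4⟩ := move_two hH hp' hp ha ha1 hap (mem_fs.1 h2).1
          (mem_fs.1 h2).2 h1
        exact ⟨δ, (hΓ δ).2 ⟨d1, d2⟩, fun g => by rw [mul_smul, mul_smul, d3, d4]⟩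
    have hc : (((fs fun a => a ≤ A ∧ finrank F a = 1).erase p).card : ℝ) ≠ 0 :=
      Nat.cast_ne_zero.2 (Finset.card_ne_zero.2 ⟨a, Finset.mem_erase.2 ⟨hap, haM⟩⟩)
    refine ⟨Fintype.card Γ / ((fs fun a => a ≤ A ∧ finrank F a = 1).erase p).card,
      -v / ((fs fun a => a ≤ A ∧ finrank F a = 1).erase p).card, fun g => ?_⟩
    refine mul_left_cancel₀ hc ?_
    rw [e g, Finset.sum_congr rfl fun (γ : Γ) _ => by
      rw [Finset.sum_erase_eq_sub (mem_fs.2 ⟨hpA, hp⟩), sum_one h hA],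
      Finset.sum_sub_distrib, hv, Finset.sum_const, nsmul_eq_mul, Finset.card_univ]
    field_simp
    ring
  · have e := avg Γ (fs fun a => a ≤ A ∧ finrank F a = 1)
      (fun a g => ind (z (g • A) = g • a)) (fun g => ind (z (g • A) = g • a)) fun a' ha' => by
        obtain ⟨δ, d1, d2, d3, d4⟩ := move_three hH hpS hp hpA ha (mem_fs.1 ha').1
          (ha1.trans (mem_fs.1 ha').2.symm)
        exact ⟨δ, (hΓ δ).2 ⟨d1, d2⟩, fun g => by rw [mul_smul, mul_smul, d3, d4]⟩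
    have hc : ((fs fun a => a ≤ A ∧ finrank F a = 1).card : ℝ) ≠ 0 :=
      Nat.cast_ne_zero.2 (Finset.card_ne_zero.2 ⟨a, haM⟩)
    refine ⟨Fintype.card Γ / (fs fun a => a ≤ A ∧ finrank F a = 1).card, 0, fun g => ?_⟩
    refine mul_left_cancel₀ hc ?_
    rw [e g, Finset.sum_congr rfl fun (γ : Γ) _ => sum_one h hA _, Finset.sum_const, nsmul_eq_mul,
      Finset.card_univ]
    field_simp
    ring

theorem quad (h3 : R3 K) (hT : TF K) (h : OC K 2 1 z) : ∃ α β : ℝ, ∀ p S : Submodule F V, p ≤ S →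
    finrank F p = 1 → finrank F S = 3 → ((Ls z p S).card : ℝ) ^ 2 = α + β * (Ls z p S).card := by
  classical
  have : Finite V := Module.finite_of_finite F
  have : Finite (V ≃ₗ[F] V) := DFunLike.finite _
  have := Fintype.ofFinite (V ≃ₗ[F] V)
  have hn := h3.dim
  obtain ⟨S, -, hS⟩ := exists_le_finrank (⊥ : Submodule F V) (j := 3) (by simp) (by omega)
  obtain ⟨l, -, hlS, hl⟩ := between (W := ⊥) (A := S) (j := 2) bot_le (by simp) (by omega)
  have hp := h.dim l hl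
  have hpS := (h.le l hl).trans hlS
  obtain ⟨y, hy, hy'⟩ := ex_notin (A := z l) (B := l) (by omega)
  obtain ⟨α, β, hF⟩ := span_flag h3 hT (i := 1) (j := 2) h.tr
    (fun A B => finrank F B = 2 ∧ z B = A)
    (fun k hk A B => by
      rw [finrank_smul]
      exact and_congr_right fun hB => by rw [h.eqv k hk B hB, smul_left_cancel_iff])
    ⟨z l, l, F ∙ y, l, ⟨h.le l hl, hp, hl⟩, ⟨(span_singleton_le_iff_mem _ _).2 hy,
      finrank_span_singleton fun e => hy' (e ▸ zero_mem _), hl⟩, ⟨hl, rfl⟩,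
      fun e => hy' (e.2 ▸ mem_span_singleton_self y)⟩ (S := S) (by omega) (by omega)
    (fun g => ((Ls z (g • z l) (g • S)).card : ℝ) ^ 2)
    (fun k hk g => by rw [mul_smul, mul_smul, Ls_smul h hk])
    (fun g g' e => by rw [smul_congr e le_rfl, smul_congr e hpS])
  generalize z l = p at hp hpS hF
  let Γ := MulAction.stabilizer (V ≃ₗ[F] V) S ⊓ MulAction.stabilizer (V ≃ₗ[F] V) p
  have hΓ : ∀ γ, γ ∈ Γ ↔ γ • S = S ∧ γ • p = p := fun _ => Iff.rfl
  have key : ∀ q : Submodule F V × Submodule F V, ∃ u v : ℝ, ∀ g : V ≃ₗ[F] V,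
      ∑ γ : Γ, ind (Fl 1 2 q.1 q.2 ∧ q.2 ≤ S ∧ finrank F ((g * γ) • q.2 : Submodule F V) = 2 ∧
        z ((g * γ) • q.2) = (g * γ) • q.1) = u + v * (Ls z (g • p) (g • S)).card := by
    rintro ⟨a, A⟩
    by_cases hq : Fl 1 2 a A ∧ A ≤ S
    swap
    · exact ⟨0, 0, fun g => by
        rw [Finset.sum_eq_zero fun _ _ => ind_false fun e => hq ⟨e.1, e.2.1⟩]
        simp⟩
    obtain ⟨⟨ha, ha1, hA⟩, hAS⟩ := hq
    obtain ⟨u, v, e⟩ := flag_sum h hp hpS hS Γ hΓ ha ha1 hA hAS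
    refine ⟨u, v, fun g => (Finset.sum_congr rfl fun γ _ => ?_).trans (e g)⟩
    exact ind_congr ⟨fun e => e.2.2.2, fun e => ⟨⟨ha, ha1, hA⟩, hAS, finrank_smul.trans hA, e⟩⟩
  choose u v huv using key
  have hc : (Fintype.card Γ : ℝ) ≠ 0 := Nat.cast_ne_zero.2 Fintype.card_ne_zero
  refine ⟨α + (∑ q, β q * u q) / Fintype.card Γ, (∑ q, β q * v q) / Fintype.card Γ,
    fun p' S' h1 h2 h4 => ?_⟩
  obtain ⟨g, rfl, rfl⟩ := exists_smul_pair hpS h1 (hp.trans h2.symm) (hS.trans h4.symm)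
  have e : ∑ γ : Γ, ((Ls z ((g * γ) • p) ((g * γ) • S)).card : ℝ) ^ 2 =
      Fintype.card Γ * ((Ls z (g • p) (g • S)).card : ℝ) ^ 2 := by
    rw [Finset.sum_congr rfl fun (γ : Γ) _ => by
      rw [mul_smul, mul_smul, ((hΓ γ).1 γ.2).1, ((hΓ γ).1 γ.2).2], Finset.sum_const, nsmul_eq_mul,
      Finset.card_univ]
  rw [Finset.sum_congr rfl fun (γ : Γ) _ => hF (g * γ), Finset.sum_add_distrib, Finset.sum_const,
    nsmul_eq_mul, Finset.card_univ, Finset.sum_comm] at e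
  simp only [← Finset.mul_sum, huv, mul_add, Finset.sum_add_distrib, ← mul_assoc,
    ← Finset.sum_mul] at e
  refine mul_left_cancel₀ hc ?_
  rw [← e]
  field_simp
  ring

theorem plane_sum (h : OC K 2 1 z) (hS : finrank F S = 3) :
    ∑ p ∈ fs (fun p => Hyp p ⊥ ∧ p ≤ S), (Ls z p S).card = Nat.card F ^ 2 + Nat.card F + 1 := by
  classical
  have h1 := Finset.card_eq_sum_card_fiberwise (f := z)
    (s := fs fun l : Submodule F V => finrank F l = 2 ∧ l ≤ S)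
    (t := fs fun p => Hyp p ⊥ ∧ p ≤ S) fun l hl => by
      obtain ⟨h1, h2⟩ := mem_fs.1 hl
      exact mem_fs.2 ⟨⟨bot_le, by simp [h.dim l h1]⟩, (h.le l h1).trans h2⟩
  have h2 := Finset.card_mul_eq_card_mul (s := fs fun p : Submodule F V => Hyp p ⊥ ∧ p ≤ S)
    (t := fs fun l : Submodule F V => finrank F l = 2 ∧ l ≤ S) (fun p l => p ≤ l)
    (m := Nat.card F + 1) (n := Nat.card F + 1) (fun p hp => by
      obtain ⟨h1, h2⟩ := mem_fs.1 hp
      have h3 : finrank F p = 1 := by simpa using h1.2.symm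
      rw [← card_over_two h2 (by omega)]
      congr 1
      ext l
      simp only [Finset.mem_bipartiteAbove, mem_fs, Hyp, h3]
      exact ⟨fun h => ⟨⟨h.2, h.1.1.symm⟩, h.1.2⟩, fun h => ⟨⟨h.1.2.symm, h.2⟩, h.1.1⟩⟩)
    (fun l hl => by
      obtain ⟨h1, h2⟩ := mem_fs.1 hl
      rw [← card_over_two (W := ⊥) (S := l) bot_le (by simp [h1])]
      congr 1
      ext p
      simp only [Finset.mem_bipartiteBelow, mem_fs]
      exact ⟨fun h => ⟨h.1.1, h.2⟩, fun h => ⟨⟨h.1, h.2.trans h2⟩, h.2⟩⟩)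
  rw [← card_over_three (W := ⊥) (S := S) bot_le (by simp [hS]),
    Nat.eq_of_mul_eq_mul_right (Nat.succ_pos _) h2, h1]
  refine Finset.sum_congr rfl fun p _ => ?_
  congr 1
  ext l
  simp only [mem_Ls, Finset.mem_filter, mem_fs, and_assoc]

omit [Finite F] in
open Classical in
theorem solid_sum (h : OC K 2 1 z) (hp : finrank F p = 1) (hA : finrank F A = 2) (hpA : p ≤ A)
    (hAS : A ≤ S) : ((Ls z p S).erase A).card =
      ∑ P ∈ fs (fun P => Hyp P A ∧ P ≤ S), ((Ls z p P).erase A).card := by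
  have key : ∀ m : Submodule F V, m ≠ A → finrank F m = 2 → z m = p → Hyp (A ⊔ m) A := by
    intro m h1 h2 h3
    have h4 := Submodule.finrank_sup_add_finrank_inf_eq A m
    have h5 : finrank F p ≤ finrank F (A ⊓ m : Submodule F V) :=
      Submodule.finrank_mono (le_inf hpA (h3 ▸ h.le m h2))
    have h6 : finrank F A < finrank F (A ⊔ m : Submodule F V) :=
      Submodule.finrank_lt_finrank_of_lt (left_lt_sup.2 fun e =>
        h1 (eq_of_le_of_finrank_eq e (h2.trans hA.symm)))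
    exact ⟨le_sup_left, by omega⟩
  rw [Finset.card_eq_sum_card_fiberwise (f := fun m => A ⊔ m)
    (t := fs fun P => Hyp P A ∧ P ≤ S) fun m hm => by
      obtain ⟨h1, h2⟩ := Finset.mem_erase.1 hm
      obtain ⟨h2, h3, h4⟩ := mem_Ls.1 h2
      exact mem_fs.2 ⟨key m h1 h2 h4, sup_le hAS h3⟩]
  refine Finset.sum_congr rfl fun P hP => ?_
  obtain ⟨hP, hPS⟩ := mem_fs.1 hP
  congr 1
  ext m
  simp only [Finset.mem_filter, Finset.mem_erase, mem_Ls]
  refine ⟨fun ⟨⟨h1, h2, _, h4⟩, h5⟩ => ⟨h1, h2, h5 ▸ le_sup_right, h4⟩,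
    fun ⟨h1, h2, h3, h4⟩ => ⟨⟨h1, h2, h3.trans hPS, h4⟩, ?_⟩⟩
  exact eq_of_le_of_finrank_eq (sup_le hP.1 h3) ((key m h1 h2 h4).2.symm.trans hP.2)

end B2x

open B2x Hy

theorem OC.false_two (h3 : R3 K) (hT : TF K) {z : Submodule F V → Submodule F V}
    (h : OC K 2 1 z) : False := by
  classical
  have : Finite V := Module.finite_of_finite F
  have := Fintype.ofFinite (Submodule F V)
  have hn := h3.dim
  have hq := Finite.one_lt_card (α := F)
  obtain ⟨α, β, hQ⟩ := quad h3 hT h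
  obtain ⟨l, -, hl⟩ := exists_le_finrank (⊥ : Submodule F V) (j := 2) (by simp) (by omega)
  have hp := h.dim l hl
  obtain ⟨y, hy, hy'⟩ := ex_notin (A := z l) (B := l) (by omega)
  obtain ⟨k, hk, hkp⟩ := h.tr.subTr (F ∙ y) (z l)
    (finrank_span_singleton fun e => hy' (e ▸ zero_mem _)) hp
  have hl₀ : finrank F (k • l : Submodule F V) = 2 := finrank_smul.trans hl
  have hpl₀ : z l ≤ k • l := hkp ▸ smul_le_smul.2 ((span_singleton_le_iff_mem _ _).2 hy)
  have hz₀ : z (k • l) ≠ z l := fun e => by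
    rw [h.eqv k hk l hl] at e
    exact hy' ((smul_left_cancel k (e.trans hkp.symm)) ▸ mem_span_singleton_self y)
  obtain ⟨T, hT4, hT'⟩ := exists_le_finrank (l ⊔ k • l) (j := 4) (by
    have := Submodule.finrank_sup_add_finrank_inf_eq l (k • l)
    omega) (by omega)
  have hlT : l ≤ T := le_sup_left.trans hT4
  have hl₀T : k • l ≤ T := le_sup_right.trans hT4
  have E1 := solid_sum h hp hl (h.le l hl) hlT
  have E2 := solid_sum h hp hl₀ hpl₀ hl₀T
  have hN : 0 < (Ls z (z l) T).card := Finset.card_pos.2 ⟨l, mem_Ls.2 ⟨hl, hlT, rfl⟩⟩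
  rw [Finset.card_erase_of_mem (mem_Ls.2 ⟨hl, hlT, rfl⟩), Finset.sum_congr rfl fun P hP =>
    Finset.card_erase_of_mem (mem_Ls.2 ⟨hl, (mem_fs.1 hP).1.1, rfl⟩)] at E1
  simp only [Finset.erase_eq_of_notMem fun e => hz₀ (mem_Ls.1 e).2.2] at E2
  have c1 := card_over_two hlT (by omega)
  have c2 := card_over_two hl₀T (by omega)
  have f1 : ∀ P ∈ fs fun P => Hyp P l ∧ P ≤ T, z l ≤ P ∧ finrank F P = 3 := fun P hP =>
    ⟨(h.le l hl).trans (mem_fs.1 hP).1.1, by have := (mem_fs.1 hP).1.2; omega⟩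
  have f2 : ∀ P ∈ fs fun P => Hyp P (k • l) ∧ P ≤ T, z l ≤ P ∧ finrank F P = 3 := fun P hP =>
    ⟨hpl₀.trans (mem_fs.1 hP).1.1, by have := (mem_fs.1 hP).1.2; omega⟩
  by_cases hall : ∀ p S : Submodule F V, p ≤ S → finrank F p = 1 → finrank F S = 3 →
      (Ls z p S).card = 1
  · rw [Finset.sum_eq_zero fun P hP => Nat.sub_eq_zero_of_le
      (hall _ P (f1 P hP).1 hp (f1 P hP).2).le] at E1
    rw [Finset.sum_congr rfl fun P hP => hall _ P (f2 P hP).1 hp (f2 P hP).2, Finset.sum_const,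
      c2, smul_eq_mul] at E2
    omega
  push Not at hall
  obtain ⟨p₁, S, h1, h2, hS, hne⟩ := hall
  have hsum := plane_sum h hS
  have hpts := card_over_three (W := ⊥) (S := S) bot_le (by simp [hS])
  have hm : p₁ ∈ fs fun p => Hyp p ⊥ ∧ p ≤ S := mem_fs.2 ⟨⟨bot_le, by simp [h2]⟩, h1⟩
  have f3 : ∀ p ∈ fs fun p => Hyp p ⊥ ∧ p ≤ S, p ≤ S ∧ finrank F p = 1 := fun p hp =>
    ⟨(mem_fs.1 hp).2, by simpa using (mem_fs.1 hp).1.2.symm⟩
  obtain ⟨p₂, hp₂, h0⟩ : ∃ p ∈ fs fun p => Hyp p ⊥ ∧ p ≤ S, (Ls z p S).card = 0 := by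
    by_contra hh
    push Not at hh
    have := Finset.sum_lt_sum (f := fun _ => 1) (g := fun p => (Ls z p S).card)
      (fun p hp => Nat.pos_of_ne_zero (hh p hp)) ⟨p₁, hm, by have := hh p₁ hm; omega⟩
    rw [hsum, Finset.sum_const, hpts, smul_eq_mul] at this
    omega
  obtain ⟨p₃, hp₃, ha⟩ : ∃ p ∈ fs fun p => Hyp p ⊥ ∧ p ≤ S, 2 ≤ (Ls z p S).card := by
    by_contra hh
    push Not at hh
    have := Finset.sum_lt_sum (g := fun _ => 1) (f := fun p => (Ls z p S).card)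
      (fun p hp => Nat.lt_succ_iff.1 (hh p hp)) ⟨p₂, hp₂, by omega⟩
    rw [hsum, Finset.sum_const, hpts, smul_eq_mul] at this
    omega
  have hval : ∀ p' S' : Submodule F V, p' ≤ S' → finrank F p' = 1 → finrank F S' = 3 →
      (Ls z p' S').card = 0 ∨ (Ls z p' S').card = (Ls z p₃ S).card := fun p' S' a b c => by
    rw [← h0]
    exact two_val (hQ _ _ (f3 _ hp₂).1 (f3 _ hp₂).2 hS) (hQ _ _ (f3 _ hp₃).1 (f3 _ hp₃).2 hS)
      (hQ _ _ a b c) (by omega)
  generalize (Ls z p₃ S).card = a at ha hval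
  have hdv : ∀ p' S' : Submodule F V, p' ≤ S' → finrank F p' = 1 → finrank F S' = 3 →
      a ∣ (Ls z p' S').card := fun p' S' a b c => by
    rcases hval p' S' a b c with e | e <;> simp [e]
  have d1 : a ∣ Nat.card F ^ 2 + Nat.card F + 1 :=
    hsum ▸ Finset.dvd_sum fun p hp => hdv _ _ (f3 p hp).1 (f3 p hp).2 hS
  have d2 : a ∣ (Ls z (z l) T).card :=
    E2 ▸ Finset.dvd_sum fun P hP => hdv _ _ (f2 P hP).1 hp (f2 P hP).2
  rw [Finset.sum_congr rfl (g := fun _ => a - 1) fun P hP => by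
    rw [(hval _ P (f1 P hP).1 hp (f1 P hP).2).resolve_left
      (Finset.card_ne_zero.2 ⟨l, mem_Ls.2 ⟨hl, (mem_fs.1 hP).1.1, rfl⟩⟩)],
    Finset.sum_const, c1, smul_eq_mul] at E1
  obtain ⟨b, rfl⟩ : ∃ b, a = b + 1 := ⟨a - 1, by omega⟩
  have d3 : b + 1 ∣ Nat.card F := by
    refine (Nat.dvd_add_right d2).1 ⟨Nat.card F + 1, ?_⟩
    rw [Nat.add_sub_cancel] at E1
    have : (Ls z (z l) T).card = (Nat.card F + 1) * b + 1 := by omega
    rw [this]
    ring
  have := Nat.le_of_dvd one_pos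
    ((Nat.dvd_add_right (dvd_add (dvd_pow d3 two_ne_zero) d3)).1 d1)
  omega

end CL.PL
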