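/-
Rank three actions of the linear groups: coprime elements of the linear group.
-/
import Cfsg.Agent.CLAS.PL.Def

set_option autoImplicit false
set_option linter.unusedSectionVars false

namespace CL.PL.Pe

open Module Submodule
open scoped Pointwise

variable {F : Type*} [Field F] [Finite F] {V : Type*} [AddCommGroup V] [Module F V]
  [FiniteDimensional F V] {K : Subgroup (V ≃ₗ[F] V)}

/-- The map `g - 1`. -/
def Nm (g : V ≃ₗ[F] V) : V →ₗ[F] V := g.toLinearMap - LinearMap.id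

/-- The fixed space. -/
def Cx (g : V ≃ₗ[F] V) : Submodule F V := LinearMap.ker (Nm g)

/-- The commutator space. -/
def Ux (g : V ≃ₗ[F] V) : Submodule F V := LinearMap.range (Nm g)

theorem Nm_apply (g : V ≃ₗ[F] V) (v : V) : Nm g v = g v - v := rfl

theorem mem_Cx {g : V ≃ₗ[F] V} {v : V} : v ∈ Cx g ↔ g v = v := sub_eq_zero

theorem mem_Ux {g : V ≃ₗ[F] V} {v : V} : v ∈ Ux g ↔ ∃ u, g u - u = v := Iff.rfl

theorem finGL : Finite (V ≃ₗ[F] V) :=
  haveI : Finite V := Module.finite_of_finite F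
  Finite.of_injective (fun g : V ≃ₗ[F] V => (g : V → V)) DFunLike.coe_injective

theorem card_GL : Nat.card (V ≃ₗ[F] V) =
    ∏ i : Fin (finrank F V), (Nat.card F ^ finrank F V - Nat.card F ^ (i : ℕ)) := by
  have := Fintype.ofFinite F
  let b := Module.finBasis F V
  rw [Nat.card_eq_fintype_card (α := F), ← Matrix.card_GL_field]
  refine Nat.card_congr ?_
  exact ((LinearMap.GeneralLinearGroup.generalLinearEquiv F V).symm.toEquiv.trans
    (Matrix.GeneralLinearGroup.toLin' b).symm.toEquiv)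

variable (F) in
theorem exists_char : ∃ p : ℕ, p.Prime ∧ p ∣ Nat.card F ∧ ∀ k : ℕ, (k : F) = 0 ↔ p ∣ k := by
  have := Fintype.ofFinite F
  obtain ⟨p, hp⟩ := CharP.exists F
  obtain ⟨n, hpp, hn⟩ := FiniteField.card F p
  refine ⟨p, hpp, ?_, fun k => CharP.cast_eq_zero_iff F p k⟩
  rw [Nat.card_eq_fintype_card, hn]
  exact dvd_pow_self _ n.ne_zero

theorem cast_ne_zero {r d : ℕ} (hr : r.Prime) (hd0 : 0 < d)
    (ho : orderOf ((Nat.card F : ℕ) : ZMod r) = d) : (r : F) ≠ 0 := by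
  obtain ⟨p, hp, hq, h⟩ := exists_char F
  intro h0
  have e : p = r := (Nat.prime_dvd_prime_iff_eq hp hr).1 ((h r).1 h0)
  subst e
  have := Fact.mk hp
  rw [(ZMod.natCast_eq_zero_iff _ _).2 hq, orderOf_zero] at ho
  omega

theorem pow_mem {g : V ≃ₗ[F] V} {A : Submodule F V} (hA : ∀ v ∈ A, g v ∈ A) (n : ℕ) :
    ∀ v ∈ A, (g ^ n) v ∈ A := by
  induction n with
  | zero => exact fun v hv => hv
  | succ n ih => exact fun v hv => by rw [pow_succ, LinearEquiv.mul_apply]; exact ih _ (hA v hv)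

theorem pow_fix {g : V ≃ₗ[F] V} {v : V} (h : g v = v) (n : ℕ) : (g ^ n) v = v := by
  induction n with
  | zero => rfl
  | succ n ih => rw [pow_succ, LinearEquiv.mul_apply, h, ih]

theorem Cx_le_pow (g : V ≃ₗ[F] V) (n : ℕ) : Cx g ≤ Cx (g ^ n) :=
  fun _ hv => mem_Cx.2 (pow_fix (mem_Cx.1 hv) n)

theorem Cx_le_of_mem {g h : V ≃ₗ[F] V} (hh : h ∈ Subgroup.zpowers g) : Cx g ≤ Cx h := by
  have := finGL (F := F) (V := V)
  obtain ⟨n, rfl⟩ := mem_powers_iff_mem_zpowers.2 hh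
  exact Cx_le_pow g n

theorem Cx_eq_top {g : V ≃ₗ[F] V} : Cx g = ⊤ ↔ g = 1 :=
  ⟨fun h => LinearEquiv.ext fun v => mem_Cx.1 (h ▸ Submodule.mem_top), fun h =>
    Submodule.eq_top_iff'.2 fun v => mem_Cx.2 (by rw [h]; rfl)⟩

theorem Cx_conj (a g : V ≃ₗ[F] V) : Cx (a * g * a⁻¹) = a • Cx g := by
  ext v
  rw [mem_smul', mem_Cx, mem_Cx, LinearEquiv.mul_apply, LinearEquiv.mul_apply]
  constructor
  · intro h
    apply a.injective
    rw [h]
    simp
  · intro h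
    rw [h]
    simp

theorem rank_add (g : V ≃ₗ[F] V) : finrank F (Ux g) + finrank F (Cx g) = finrank F V :=
  LinearMap.finrank_range_add_finrank_ker _

theorem rank_map (f : V →ₗ[F] V) (A : Submodule F V) :
    finrank F (A.map f) + finrank F (A ⊓ LinearMap.ker f : Submodule F V) = finrank F A := by
  have h := LinearMap.finrank_range_add_finrank_ker (f.domRestrict A)
  rw [LinearMap.range_domRestrict, LinearMap.ker_domRestrict] at h
  rw [← h, ← Submodule.finrank_map_subtype_eq A ((LinearMap.ker f).comap A.subtype),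
    Submodule.map_comap_subtype]

theorem Ux_inv {g h : V ≃ₗ[F] V} (hc : h * g = g * h) : ∀ v ∈ Ux g, h v ∈ Ux g := by
  rintro _ ⟨u, rfl⟩
  refine ⟨h u, ?_⟩
  rw [Nm_apply, Nm_apply, map_sub, ← LinearEquiv.mul_apply, ← hc, LinearEquiv.mul_apply]

theorem Cx_inv {g h : V ≃ₗ[F] V} (hc : h * g = g * h) : ∀ v ∈ Cx g, h v ∈ Cx g := by
  intro v hv
  rw [mem_Cx] at hv ⊢
  rw [← LinearEquiv.mul_apply, ← hc, LinearEquiv.mul_apply, hv]

theorem map_inv_of {g h : V ≃ₗ[F] V} (hc : h * g = g * h) {A : Submodule F V}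
    (hA : ∀ v ∈ A, h v ∈ A) : ∀ v ∈ A.map (Nm g), h v ∈ A.map (Nm g) := by
  rintro _ ⟨u, hu, rfl⟩
  refine ⟨h u, hA u hu, ?_⟩
  rw [Nm_apply, Nm_apply, map_sub, ← LinearEquiv.mul_apply, ← hc, LinearEquiv.mul_apply]

theorem map_le_of {g : V ≃ₗ[F] V} {A : Submodule F V} (hA : ∀ v ∈ A, g v ∈ A) :
    A.map (Nm g) ≤ A := by
  rintro _ ⟨u, hu, rfl⟩
  exact A.sub_mem (hA u hu) hu

/-- Counting fixed vectors. -/
theorem modEq {g : V ≃ₗ[F] V} {r k : ℕ} (hr : r.Prime) (hg : g ^ r ^ k = 1) {A : Submodule F V}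
    (hA : ∀ v ∈ A, g v ∈ A) :
    Nat.card F ^ finrank F A ≡ Nat.card F ^ finrank F (A ⊓ Cx g : Submodule F V) [MOD r] := by
  classical
  have : Finite V := Module.finite_of_finite F
  have := Fintype.ofFinite A
  have := Fact.mk hr
  let f : Function.End A := fun v => ⟨g v, hA v v.2⟩
  have hf : ∀ n : ℕ, ∀ v : A, ((f ^ n) v : V) = (g ^ n) v := by
    intro n
    induction n with
    | zero => exact fun v => rfl
    | succ n ih =>
      intro v
      rw [pow_succ, pow_succ, LinearEquiv.mul_apply]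
      exact ih (f v)
  have h1 : f ^ r ^ k = 1 := funext fun v => Subtype.ext (by rw [hf, hg]; rfl)
  have h2 := Equiv.Perm.card_fixedPoints_modEq h1
  rw [← Nat.card_eq_fintype_card, ← Nat.card_eq_fintype_card] at h2
  rw [← Module.natCard_eq_pow_finrank, ← Module.natCard_eq_pow_finrank]
  refine h2.trans ?_
  rw [Nat.card_congr (β := (A ⊓ Cx g : Submodule F V))
    ⟨fun v => ⟨v.1.1, v.1.2, mem_Cx.2 (congrArg Subtype.val v.2)⟩,
      fun v => ⟨⟨v.1, v.2.1⟩, Subtype.ext (mem_Cx.1 v.2.2)⟩, fun _ => rfl, fun _ => rfl⟩]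

theorem dvd_sub {g : V ≃ₗ[F] V} {r k d : ℕ} (hr : r.Prime) (hg : g ^ r ^ k = 1) (hd0 : 0 < d)
    (ho : orderOf ((Nat.card F : ℕ) : ZMod r) = d) {A : Submodule F V} (hA : ∀ v ∈ A, g v ∈ A) :
    d ∣ finrank F A - finrank F (A ⊓ Cx g : Submodule F V) := by
  have h := (ZMod.natCast_eq_natCast_iff _ _ _).2 (modEq hr hg hA)
  push_cast at h
  rw [(orderOf_pos_iff.1 (ho ▸ hd0)).pow_eq_pow_iff_modEq, ho] at h
  exact (Nat.modEq_iff_dvd' (Submodule.finrank_mono inf_le_left)).1 h.symm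

theorem dvd_rank {g : V ≃ₗ[F] V} {r d : ℕ} (hr : r.Prime) (hg : g ^ r = 1) (hd0 : 0 < d)
    (ho : orderOf ((Nat.card F : ℕ) : ZMod r) = d) {A : Submodule F V} (hA : ∀ v ∈ A, g v ∈ A)
    (h0 : A ⊓ Cx g = ⊥) : d ∣ finrank F A := by
  have := dvd_sub (k := 1) hr (by rwa [pow_one]) hd0 ho hA
  rwa [h0, finrank_bot, Nat.sub_zero] at this

/-- An invariant subspace with few dimensions above the fixed vectors is fixed. -/
theorem le_Cx {g : V ≃ₗ[F] V} {r k d : ℕ} (hr : r.Prime) (hg : g ^ r ^ k = 1) (hd0 : 0 < d)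
    (ho : orderOf ((Nat.card F : ℕ) : ZMod r) = d) {A B : Submodule F V} (hA : ∀ v ∈ A, g v ∈ A)
    (hB : B ≤ A) (hB' : B ≤ Cx g) (hlt : finrank F A < finrank F B + d) : A ≤ Cx g := by
  have h1 := dvd_sub hr hg hd0 ho hA
  have h2 : finrank F B ≤ finrank F (A ⊓ Cx g : Submodule F V) :=
    Submodule.finrank_mono (le_inf hB hB')
  have h3 := Nat.eq_zero_of_dvd_of_lt h1 (by omega)
  have h4 : A ⊓ Cx g = A := Submodule.eq_of_le_of_finrank_le inf_le_left (by omega)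
  exact h4 ▸ inf_le_right

/-- A unipotent element has fixed vectors. -/
theorem inf_Cx_ne_bot {g : V ≃ₗ[F] V} {p k : ℕ} (hp : p.Prime) (hq : p ∣ Nat.card F)
    (hg : g ^ p ^ k = 1) {A : Submodule F V} (hA : ∀ v ∈ A, g v ∈ A) (h0 : A ≠ ⊥) :
    A ⊓ Cx g ≠ ⊥ := by
  intro h
  have h1 := modEq hp hg hA
  rw [h, finrank_bot, pow_zero] at h1
  have h2 : finrank F A ≠ 0 := fun e => h0 (Submodule.finrank_eq_zero.1 e)
  have h3 : p ∣ 1 := (h1.dvd_iff (dvd_refl p)).1 (hq.trans (dvd_pow_self _ h2))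
  exact hp.one_lt.ne' (Nat.dvd_one.1 h3)

theorem rank_map_lt {g : V ≃ₗ[F] V} {p k : ℕ} (hp : p.Prime) (hq : p ∣ Nat.card F)
    (hg : g ^ p ^ k = 1) {A : Submodule F V} (hA : ∀ v ∈ A, g v ∈ A) (h0 : A ≠ ⊥) :
    finrank F (A.map (Nm g)) < finrank F A := by
  have h1 := rank_map (Nm g) A
  have h2 : finrank F (A ⊓ Cx g : Submodule F V) ≠ 0 := fun e =>
    inf_Cx_ne_bot hp hq hg hA h0 (Submodule.finrank_eq_zero.1 e)
  change _ + finrank F (A ⊓ Cx g : Submodule F V) = _ at h1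
  omega

theorem sum_fix {g : V ≃ₗ[F] V} {n : ℕ} (hg : g ^ n = 1) (v : V) :
    ∑ i ∈ Finset.range n, (g ^ i) v ∈ Cx g := by
  rw [mem_Cx, map_sum]
  have h := Finset.sum_range_succ (fun i => (g ^ i) v) n
  rw [Finset.sum_range_succ', hg] at h
  simp only [pow_zero, add_left_inj] at h
  rw [← h]
  exact Finset.sum_congr rfl fun i _ => by rw [pow_succ', LinearEquiv.mul_apply]

theorem Ux_inf_Cx {g : V ≃ₗ[F] V} {n : ℕ} (hg : g ^ n = 1) (hn : (n : F) ≠ 0) :
    Ux g ⊓ Cx g = ⊥ := by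
  rw [eq_bot_iff]
  rintro v ⟨⟨u, hu⟩, hv⟩
  have h1 : ∑ i ∈ Finset.range n, (g ^ i) v = (n : F) • v := by
    rw [Finset.sum_congr rfl fun i _ => pow_fix (mem_Cx.1 hv) i]
    simp [Nat.cast_smul_eq_nsmul]
  have h2 : ∑ i ∈ Finset.range n, (g ^ i) v = 0 := by
    have h3 := mem_Cx.1 (sum_fix hg u)
    rw [← sub_eq_zero, map_sum, ← Finset.sum_sub_distrib] at h3
    rw [← h3, ← hu]
    refine Finset.sum_congr rfl fun i _ => ?_
    rw [Nm_apply, map_sub, ← LinearEquiv.mul_apply, ← pow_succ, pow_succ', LinearEquiv.mul_apply]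
  rw [h2] at h1
  exact (smul_eq_zero.1 h1.symm).resolve_left hn

theorem isCompl {g : V ≃ₗ[F] V} {n : ℕ} (hg : g ^ n = 1) (hn : (n : F) ≠ 0) :
    IsCompl (Cx g) (Ux g) := by
  have h := Ux_inf_Cx hg hn
  rw [inf_comm] at h
  refine ⟨disjoint_iff.2 h, codisjoint_iff.2 (Submodule.eq_top_of_finrank_eq ?_)⟩
  have h1 := Submodule.finrank_sup_add_finrank_inf_eq (Cx g) (Ux g)
  have h2 := rank_add g
  rw [h, finrank_bot] at h1
  omega

theorem mem_zpowers_pow {G : Type*} [Group G] {x : G} {r j : ℕ} (hr : r.Prime) (hx : x ^ r = 1)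
    (hj : x ^ j ≠ 1) : x ∈ Subgroup.zpowers (x ^ j) := by
  have h1 : x ≠ 1 := by
    rintro rfl
    exact hj (one_pow _)
  have := Fact.mk hr
  have h2 := orderOf_eq_prime hx h1
  rw [mem_zpowers_pow_iff, h2]
  refine ((Nat.coprime_comm.1 ((Nat.Prime.coprime_iff_not_dvd hr).2 fun h => hj ?_)))
  rwa [← orderOf_dvd_iff_pow_eq_one, h2]

/-- An elementary abelian group of rank two is not fixed point free. -/
theorem exists_not_le {x y : V ≃ₗ[F] V} {r : ℕ} (hr : r.Prime) (hr0 : (r : F) ≠ 0)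
    (hc : x * y = y * x) (hx : x ^ r = 1) (hy : y ^ r = 1) {W : Submodule F V} (hW : W ≠ ⊤)
    (h : Cx x ≤ W) : ∃ i : ℕ, ¬ Cx (x ^ i * y) ≤ W := by
  by_contra hn
  push Not at hn
  have hx1 : x ≠ 1 := fun e => hW (top_le_iff.1 ((Cx_eq_top.2 e).ge.trans h))
  have := Fact.mk hr
  have ho := orderOf_eq_prime hx hx1
  have hc' : Commute x y := hc
  refine hW (Submodule.eq_top_iff'.2 fun v => ?_)
  have h1 : ∑ i ∈ Finset.range r, ∑ j ∈ Finset.range r, ((x ^ i * y) ^ j) v ∈ W :=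
    W.sum_mem fun i _ => hn i (sum_fix (by
      rw [(hc'.pow_left i).mul_pow, hy, ← pow_mul, mul_comm, pow_mul, hx, one_pow, one_mul]) v)
  rw [Finset.sum_comm] at h1
  obtain ⟨s, rfl⟩ : ∃ s, r = s + 1 := ⟨r - 1, by have := hr.pos; omega⟩
  rw [Finset.sum_range_succ'] at h1
  have h2 : ∑ j ∈ Finset.range s, ∑ i ∈ Finset.range (s + 1), ((x ^ i * y) ^ (j + 1)) v ∈ W := by
    refine W.sum_mem fun j hj => ?_
    have h3 : x ^ (j + 1) ≠ 1 := fun e => by
      have := Nat.le_of_dvd (Nat.succ_pos j) (ho ▸ orderOf_dvd_of_pow_eq_one e)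
      have := Finset.mem_range.1 hj
      omega
    have h4 := sum_fix (g := x ^ (j + 1)) (n := s + 1)
      (by rw [← pow_mul, mul_comm, pow_mul, hx, one_pow]) ((y ^ (j + 1)) v)
    refine h (Cx_le_of_mem (mem_zpowers_pow hr hx h3) ?_)
    convert h4 using 2 with i
    rw [(hc'.pow_left i).mul_pow, LinearEquiv.mul_apply, ← pow_mul, ← pow_mul, mul_comm i]
  have h5 := (W.add_mem_iff_right h2).1 h1
  simp only [pow_zero, LinearEquiv.coe_one, id, Finset.sum_const, Finset.card_range] at h5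
  rw [← Nat.cast_smul_eq_nsmul F] at h5
  exact (W.smul_mem_iff hr0).1 h5

end CL.PL.Pe
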