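/-
Rank three actions of the linear groups: tools for the argument of Perin.
-/
import Cfsg.Agent.CLAS.PL.Per1

set_option autoImplicit false
set_option linter.unusedSectionVars false

namespace CL.PL.Pe

open Module Submodule
open scoped Pointwise

section Grp
variable {G : Type*} [Group G] [Finite G]

theorem exists_ord {H : Subgroup G} {r : ℕ} (hr : r.Prime) (h : r ∣ Nat.card H) :
    ∃ x ∈ H, x ≠ 1 ∧ x ^ r = 1 := by
  have := Fact.mk hr
  obtain ⟨x, hx⟩ := exists_prime_orderOf_dvd_card' r h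
  refine ⟨x, x.2, fun e => ?_, ?_⟩
  · rw [← Subgroup.orderOf_coe, e, orderOf_one] at hx
    exact hr.one_lt.ne hx
  · rw [← hx, ← Subgroup.orderOf_coe, pow_orderOf_eq_one]

theorem dvd_card_of_mem {H : Subgroup G} {r : ℕ} (hr : r.Prime) {x : G} (hx : x ∈ H) (h1 : x ≠ 1)
    (h : x ^ r = 1) : r ∣ Nat.card H := by
  have := Fact.mk hr
  rw [← orderOf_eq_prime h h1]
  exact Subgroup.orderOf_dvd_natCard H hx

theorem dvd_of_orbit {X : Type*} [MulAction G X] {H L : Subgroup G} (hL : L ≤ H) (a : X)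
    (ht : ∀ h ∈ H, ∃ l ∈ L, l • a = h • a) {r : ℕ} (hr : r.Prime) (hd : r ∣ Nat.card H)
    (hs : ∀ x ∈ H, x • a = a → x ^ r = 1 → x = 1) : r ∣ Nat.card L := by
  have h1 : MulAction.orbit L a = MulAction.orbit H a := by
    ext b
    constructor
    · rintro ⟨l, rfl⟩
      exact ⟨⟨l, hL l.2⟩, rfl⟩
    · rintro ⟨h, rfl⟩
      obtain ⟨l, hl, e⟩ := ht h h.2
      exact ⟨⟨l, hl⟩, e⟩
  have h2 := (MulAction.stabilizer L a).index_dvd_card
  rw [MulAction.index_stabilizer, h1, ← MulAction.index_stabilizer] at h2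
  rw [← (MulAction.stabilizer H a).card_mul_index] at hd
  rcases (Nat.Prime.dvd_mul hr).1 hd with h | h
  · obtain ⟨x, hx, hx1, hx2⟩ := exists_ord hr h
    exact absurd (Subtype.ext (hs x x.2 hx (congrArg Subtype.val hx2))) hx1
  · exact h.trans h2

/-- The Frattini argument. -/
theorem frat {D : Subgroup G} {r : ℕ} [Fact r.Prime] (P : Sylow r D) {a : G}
    (ha : ∀ x, x ∈ D ↔ a * x * a⁻¹ ∈ D) :
    ∃ δ ∈ D, δ * a ∈ Subgroup.normalizer (((P : Subgroup D).map D.subtype : Subgroup G) : Set G) := by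
  let φ : D ≃* D := D.normalizerMonoidHom ⟨a, ha⟩
  have hφ : ∀ x : D, (φ x : G) = a * x * a⁻¹ := fun x => rfl
  obtain ⟨δ, hδ⟩ := MulAction.exists_smul_eq D ((show MulAut D from φ) • P) P
  refine ⟨δ, δ.2, Subgroup.mem_normalizer_fintype ?_⟩
  rintro _ ⟨x, hx, rfl⟩
  refine ⟨δ * φ x * δ⁻¹, ?_, ?_⟩
  · rw [← hδ]
    change _ ∈ ((δ • ((show MulAut D from φ) • P) : Sylow r D) : Subgroup D)
    rw [Sylow.coe_subgroup_smul, Sylow.pointwise_smul_def]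
    exact Subgroup.smul_mem_pointwise_smul _ _ _ (Subgroup.smul_mem_pointwise_smul _ _ _ hx)
  · simp [hφ, mul_assoc]

theorem comm_of_norm {x a b : G} (ha : a ∈ Subgroup.normalizer (Subgroup.zpowers x : Set G))
    (hb : b ∈ Subgroup.normalizer (Subgroup.zpowers x : Set G)) :
    a * b * a⁻¹ * b⁻¹ * x = x * (a * b * a⁻¹ * b⁻¹) := by
  have key : ∀ g ∈ Subgroup.normalizer (Subgroup.zpowers x : Set G),
      ∃ i : ℤ, ∀ k : ℤ, g * x ^ k * g⁻¹ = x ^ (i * k) := by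
    intro g hg
    obtain ⟨i, hi⟩ := (Subgroup.mem_normalizer_iff.1 hg x).1 (Subgroup.mem_zpowers x)
    exact ⟨i, fun k => by rw [← conj_zpow, ← hi, zpow_mul]⟩
  obtain ⟨i, hi⟩ := key a ha
  obtain ⟨j, hj⟩ := key b hb
  obtain ⟨k, hk⟩ := key _ (Subgroup.inv_mem _ (Subgroup.mul_mem _ hb ha))
  have h1 := hk 1
  rw [zpow_one] at h1
  have h2 : a * (b * x ^ (k * 1) * b⁻¹) * a⁻¹ = b * (a * x ^ (k * 1) * a⁻¹) * b⁻¹ := by
    rw [hj, hi, hi, hj, mul_left_comm]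
  rw [← h1] at h2
  calc a * b * a⁻¹ * b⁻¹ * x = a * (b * ((b * a)⁻¹ * x * (b * a)⁻¹⁻¹) * b⁻¹) * a⁻¹ *
        (a * b * a⁻¹ * b⁻¹) := by group
    _ = x * (a * b * a⁻¹ * b⁻¹) := by rw [h2]; group

theorem norm_of_mem {x m : G} (h : m * x * m⁻¹ ∈ Subgroup.zpowers x) :
    m ∈ Subgroup.normalizer (Subgroup.zpowers x : Set G) := by
  refine Subgroup.mem_normalizer_fintype ?_
  rintro _ ⟨k, rfl⟩
  change m * x ^ k * m⁻¹ ∈ _
  rw [← conj_zpow]
  exact Subgroup.zpow_mem _ h k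

theorem exists_pow_p (c : G) {p : ℕ} (hp : p.Prime) : ∃ m e : ℕ, ¬ p ∣ m ∧ (c ^ m) ^ p ^ e = 1 := by
  obtain ⟨e, m, hm, h⟩ := Nat.exists_eq_pow_mul_and_not_dvd (orderOf_pos c).ne' p hp.one_lt.ne'
  exact ⟨m, e, hm, by rw [← pow_mul, mul_comm, ← h, pow_orderOf_eq_one]⟩

end Grp

variable {F : Type*} [Field F] [Finite F] {V : Type*} [AddCommGroup V] [Module F V]
  [FiniteDimensional F V] {K : Subgroup (V ≃ₗ[F] V)} {W : Submodule F V}

theorem smul_eq_of_le {g : V ≃ₗ[F] V} (h : ∀ w ∈ W, g w ∈ W) : g • W = W :=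
  Submodule.eq_of_le_of_finrank_eq (by rintro _ ⟨w, hw, rfl⟩; exact h w hw) finrank_smul

theorem mem_of_smul {g : V ≃ₗ[F] V} (h : g • W = W) {w : V} (hw : w ∈ W) : g w ∈ W :=
  h ▸ apply_mem_smul.2 hw

theorem inv_agree {a m : V ≃ₗ[F] V} (ha : a • W = W) (e : ∀ w ∈ W, m w = a w) :
    ∀ w ∈ W, m⁻¹ w = a⁻¹ w := by
  intro w hw
  have h1 : a⁻¹ w ∈ W := mem_smul'.1 (ha.symm ▸ hw)
  apply m.injective
  rw [e _ h1]
  simp

theorem conj_fixS {a : V ≃ₗ[F] V} (ha : a ∈ K) (hW : a • W = W) (x : V ≃ₗ[F] V) :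
    x ∈ fixS K W ↔ a * x * a⁻¹ ∈ fixS K W := by
  have key : ∀ a ∈ K, a • W = W → ∀ x ∈ fixS K W, a * x * a⁻¹ ∈ fixS K W := by
    intro a ha hW x hx
    refine ⟨K.mul_mem (K.mul_mem ha hx.1) (K.inv_mem ha), fun w hw => ?_⟩
    rw [LinearEquiv.mul_apply, LinearEquiv.mul_apply, hx.2 _ (mem_smul'.1 (hW.symm ▸ hw))]
    simp
  refine ⟨key a ha hW x, fun h => ?_⟩
  have := key a⁻¹ (K.inv_mem ha) (inv_smul_eq_iff.2 hW.symm) _ h
  simpa [mul_assoc] using this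

theorem ag_mul {M : Subgroup (V ≃ₗ[F] V)} {a b : V ≃ₗ[F] V} (ha : Ag M W a) (hb : Ag M W b)
    (hW : b • W = W) : Ag M W (a * b) := by
  obtain ⟨m, hm, e⟩ := ha
  obtain ⟨m', hm', e'⟩ := hb
  exact ⟨m * m', M.mul_mem hm hm', fun w hw => by
    rw [LinearEquiv.mul_apply, LinearEquiv.mul_apply, e' w hw, e _ (mem_of_smul hW hw)]⟩

theorem ag_comm {M M' : Subgroup (V ≃ₗ[F] V)} {a b : V ≃ₗ[F] V} (ha : Ag M W a) (hb : Ag M W b)
    (hWa : a • W = W) (hWb : b • W = W)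
    (h : ∀ m ∈ M, ∀ m' ∈ M, m * m' * m⁻¹ * m'⁻¹ ∈ M') : Ag M' W (a * b * a⁻¹ * b⁻¹) := by
  obtain ⟨m, hm, e⟩ := ha
  obtain ⟨m', hm', e'⟩ := hb
  refine ⟨_, h m hm m' hm', fun w hw => ?_⟩
  have h1 : b⁻¹ w ∈ W := mem_smul'.1 (hWb.symm ▸ hw)
  have h2 : a⁻¹ (b⁻¹ w) ∈ W := mem_smul'.1 (hWa.symm ▸ h1)
  simp only [LinearEquiv.mul_apply]
  rw [inv_agree hWb e' w hw, inv_agree hWa e _ h1, e' _ h2, e _ (mem_of_smul hWb h2)]

theorem tv_congr {a m : V ≃ₗ[F] V} (h : TvOn W a) (e : ∀ w ∈ W, m w = a w) : TvOn W m := by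
  obtain ⟨f, w, h1, h2, h3, h4, h5⟩ := h
  exact ⟨f, w, h1, h2, h3, h4, fun x hx => (e x hx).trans (h5 x hx)⟩

theorem tv_smul {a : V ≃ₗ[F] V} (h : TvOn W a) : a • W = W := by
  obtain ⟨f, w, h1, -, -, -, h5⟩ := h
  exact smul_eq_of_le fun x hx => h5 x hx ▸ W.add_mem hx (W.smul_mem _ h1)

theorem tv_pow {a : V ≃ₗ[F] V} (h : TvOn W a) {k : ℕ} (hk : (k : F) ≠ 0) : TvOn W (a ^ k) := by
  obtain ⟨f, w, h1, h2, h3, ⟨y, hy, h4⟩, h5⟩ := h
  refine ⟨(k : F) • f, w, h1, h2, by simp [h3], ⟨y, hy, by simp [hk, h4]⟩, fun x hx => ?_⟩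
  clear hk
  induction k with
  | zero => simp
  | succ k ih =>
    rw [pow_succ', LinearEquiv.mul_apply, ih, map_add, map_smul, h5 x hx, h5 w h1, h3]
    simp only [LinearMap.smul_apply, smul_eq_mul, Nat.cast_succ]
    module

theorem not_tf {c : V ≃ₗ[F] V} (hc : c ∈ K) (h : TvOn W c) {U : Submodule F V} (hU : IsCompl W U)
    (h1 : U ≤ Cx c) : ¬ TF K := by
  obtain ⟨f, w, h2, h3, h4, ⟨y, hy, h5⟩, h6⟩ := h
  intro hT
  let π : V →ₗ[F] V := W.subtype ∘ₗ Submodule.projectionOnto W U hU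
  have hπ : ∀ x ∈ W, π x = x := fun x hx => by
    exact congrArg Subtype.val (Submodule.projectionOnto_apply_left hU ⟨x, hx⟩)
  have hπ' : ∀ x ∈ U, π x = 0 := fun x hx => by
    exact congrArg Subtype.val (Submodule.projectionOnto_apply_of_mem_right hU hx)
  have h7 : ∀ x, c x = x + (f ∘ₗ π) x • w := fun x => by
    obtain ⟨a, ha, b, hb, rfl⟩ := Submodule.mem_sup.1 (hU.sup_eq_top ▸ Submodule.mem_top (x := x))
    rw [map_add, h6 a ha, mem_Cx.1 (h1 hb), LinearMap.comp_apply, map_add, hπ a ha, hπ' b hb,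
      add_zero]
    abel
  rcases hT (f ∘ₗ π) w ⟨by rw [LinearMap.comp_apply, hπ w h2, h4], c, hc, h7⟩ with h | h
  · exact h5 (by simpa [hπ y hy] using LinearMap.congr_fun h y)
  · exact h3 h

theorem exists_dual (W : Submodule F V) : ∃ (e : Fin (finrank F W) → V)
    (f : Fin (finrank F W) → Dual F V), (∀ i, e i ∈ W) ∧ (∀ i, f i (e i) = 1) ∧
      ∀ i j, i ≠ j → f i (e j) = 0 := by
  obtain ⟨U, hU⟩ := W.exists_isCompl
  let b := Module.finBasis F W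
  refine ⟨fun i => b i, fun i => b.coord i ∘ₗ Submodule.projectionOnto W U hU,
    fun i => (b i).2, fun i => by simp, fun i j h => by simp [h]⟩

theorem tv_stab {f : Dual F V} {v : V} (h : f v = 0) (hv : v ∈ W) :
    LinearEquiv.transvection h • W = W :=
  smul_eq_of_le fun w hw => by
    rw [LinearEquiv.transvection.apply]
    exact W.add_mem hw (W.smul_mem _ hv)

theorem tv_on {f : Dual F V} {v : V} (h : f v = 0) (hv : v ∈ W) (h0 : v ≠ 0) {x : V} (hx : x ∈ W)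
    (h1 : f x ≠ 0) : TvOn W (LinearEquiv.transvection h) :=
  ⟨f, v, hv, h0, h, ⟨x, hx, h1⟩, fun _ _ => LinearEquiv.transvection.apply h _⟩

theorem tv_comm {f g : Dual F V} {v w : V} (h1 : g v = 0) (h2 : f w = 0) (h3 : f v = 0)
    (h4 : g w = 1) : LinearEquiv.transvection h1 * LinearEquiv.transvection h2 *
      (LinearEquiv.transvection h1)⁻¹ * (LinearEquiv.transvection h2)⁻¹ =
      LinearEquiv.transvection h3 := by
  rw [mul_inv_eq_iff_eq_mul, mul_inv_eq_iff_eq_mul]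
  ext x
  simp only [LinearEquiv.mul_apply, LinearEquiv.transvection.apply, map_add, map_smul, h2, h3,
    h4]
  module

end CL.PL.Pe
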