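/-
Rank three actions of the linear groups: dimension five.
-/
import Cfsg.Agent.CLAS.PL.Fac
import Cfsg.Agent.CLAS.PL.Hy
import Cfsg.Agent.CLAS.PL.Per2

set_option autoImplicit false

namespace CL.PL

open Module Submodule
open scoped Pointwise

variable {F : Type*} [Field F] [Finite F] {V : Type*} [AddCommGroup V] [Module F V]
  [FiniteDimensional F V] {K : Subgroup (V ≃ₗ[F] V)}

variable {z : Submodule F V → Submodule F V}

namespace B5

section
omit [Finite F]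

omit [FiniteDimensional F V] in
theorem rank_one {u : V ≃ₗ[F] V} {w : V} (hw : w ≠ 0) :
    ∃ f : Dual F V, (∀ x, u x = x → f x = 0) ∧ ∀ x, u x - x ∈ F ∙ w → u x = x + f x • w := by
  obtain ⟨ψ, h, -⟩ := Hy.ex_dual (W := (⊥ : Submodule F V)) hw
  refine ⟨ψ ∘ₗ (u.toLinearMap - LinearMap.id), fun x e => by simp [e], fun x hx => ?_⟩
  obtain ⟨c, e⟩ := mem_span_singleton.1 hx
  change _ = x + ψ (u x - x) • w
  rw [← e, map_smul, h, smul_eq_mul, mul_one, e, add_sub_cancel]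

omit [FiniteDimensional F V] in
theorem tf1 (hT : TF K) {u : V ≃ₗ[F] V} (hu : u ∈ K) {w : V} (h : ∀ x, u x - x ∈ F ∙ w) (hw : u w = w) : u = 1 := by
  by_cases w0 : w = 0
  · exact LinearEquiv.ext fun x => by simpa [w0, sub_eq_zero] using h x
  obtain ⟨f, f1, f2⟩ := rank_one (u := u) w0
  obtain rfl := (hT f w ⟨f1 w hw, u, hu, fun x => f2 x (h x)⟩).resolve_right w0
  exact LinearEquiv.ext fun x => by simpa using f2 x (h x)

/-- `u` is trivial on `V / π` and acts on `π` as a given transvection -/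
def Un (K : Subgroup (V ≃ₗ[F] V)) (π : Submodule F V) (f : Dual F V) (w : V) (u : V ≃ₗ[F] V) : Prop :=
  u ∈ K ∧ (∀ x ∈ π, u x = x + f x • w) ∧ ∀ x, u x - x ∈ π

variable {π Z : Submodule F V} {f f' : Dual F V} {w : V} {u u' g : V ≃ₗ[F] V}

omit [FiniteDimensional F V] in
theorem Un.conj (h : Un K π f w u) (hw : w ∈ π) {k : V ≃ₗ[F] V} (hk : k ∈ K) (e : ∀ x ∈ π, k x = g x)
    (hg : g • π = π) (hf : ∀ x ∈ π, f' (g x) = f x) : Un K π f' (g w) (k * u * k⁻¹) := by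
  refine ⟨K.mul_mem (K.mul_mem hk h.1) (K.inv_mem hk), fun x hx => ?_, fun x => ?_⟩
  · obtain ⟨y, hy, rfl⟩ := mem_smul.1 (hg.ge hx)
    rw [hf y hy, ← e y hy, ← e w hw, ← map_smul, ← map_add, ← h.2.1 y hy]
    simp
  · obtain ⟨y, rfl⟩ := k.surjective x
    have := hg.le (apply_mem_smul.2 (h.2.2 y))
    rw [← e _ (h.2.2 y)] at this
    simpa using this

omit [FiniteDimensional F V] in
theorem Un.mul (h : Un K π f w u) (h' : Un K π f' w u') (hw : w ∈ π) (hf : f w = 0) : Un K π (f + f') w (u * u') := by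
  refine ⟨K.mul_mem h.1 h'.1, fun x hx => ?_, fun x => ?_⟩
  · rw [LinearEquiv.mul_apply, h'.2.1 x hx, map_add, map_smul, h.2.1 x hx, h.2.1 w hw, hf, LinearMap.add_apply]
    module
  · simpa using π.add_mem (h.2.2 (u' x)) (h'.2.2 x)

end

theorem exists_ne (hn : finrank F V = 5) {π Z : Submodule F V} (hπ : finrank F π = 3)
    (hZ : Z ≤ π) (hZi : finrank F Z = 1 ∨ finrank F Z = 2)
    (ha : ∀ g : V ≃ₗ[F] V, g • π = π → g • Z = Z → Ag K π g) :
    ∃ u ∈ K, (∀ x ∈ Z, u x = x) ∧ (∀ x ∈ π, u x - x ∈ Z) ∧ (∀ x, u x - x ∈ π) ∧ ∃ x ∈ π, u x ≠ x := by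
  have : Finite (V ≃ₗ[F] V) := Pe.finGL
  let E : Subgroup (V ≃ₗ[F] V) :=
    { carrier := {k | k ∈ K ∧ (∀ x ∈ Z, k x = x) ∧ ∀ x ∈ π, k x - x ∈ Z}
      one_mem' := ⟨K.one_mem, fun _ _ => rfl, fun x _ => by simp⟩
      mul_mem' := fun {a b} ha hb => ⟨K.mul_mem ha.1 hb.1, fun x hx => by
        rw [LinearEquiv.mul_apply, hb.2.1 x hx, ha.2.1 x hx], fun x hx => by
        have := Z.add_mem (ha.2.2 x hx) (hb.2.2 x hx)
        rw [← ha.2.1 _ (hb.2.2 x hx), map_sub] at this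
        simpa using this⟩
      inv_mem' := fun {a} ha => ⟨K.inv_mem ha.1, fun x hx => by
        rw [LinearEquiv.coe_inv, LinearEquiv.symm_apply_eq, ha.2.1 x hx], fun x hx => by
        have m := ha.2.2 x hx
        have : a⁻¹ (a x - x) = a x - x := by rw [LinearEquiv.coe_inv, LinearEquiv.symm_apply_eq, ha.2.1 _ m]
        rw [← this] at m
        simpa using Z.neg_mem m⟩ }
  have st : ∀ k : E, k.1 • π = π := fun k => Pe.smul_eq_of_le fun x hx => by
    simpa using π.add_mem (hZ (k.2.2.2 x hx)) hx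
  let ρ : E →* (V ⧸ π) ≃ₗ[F] V ⧸ π := MonoidHom.mk' (fun k => Quotient.equiv π π k.1 (st k)) fun a b =>
    LinearEquiv.ext fun x => by induction x using Submodule.Quotient.induction_on; rfl
  let θ : E →* Multiplicative ((π ⧸ Z.comap π.subtype) →ₗ[F] Z) := MonoidHom.mk' (fun k => Multiplicative.ofAdd
    ((Z.comap π.subtype).liftQ ((Pe.Nm k.1 ∘ₗ π.subtype).codRestrict Z fun x => k.2.2.2 x x.2)
      fun x hx => Subtype.ext (sub_eq_zero.2 (k.2.2.1 x hx)))) fun a b => congrArg Multiplicative.ofAdd (by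
    ext x
    change a.1 (b.1 x) - x = a.1 x - x + (b.1 x - x)
    rw [← a.2.2.1 _ (b.2.2.2 x x.2), map_sub]; abel)
  have sj : θ.range = ⊤ := MonoidHom.range_eq_top.2 fun φ => by
    have k0 : ∀ x : π, x.1 ∈ Z → φ.toAdd ((Z.comap π.subtype).mkQ x) = 0 := fun x hx => by
      rw [mkQ_apply, (Quotient.mk_eq_zero (Z.comap π.subtype)).2 hx, map_zero]
    obtain ⟨g, hg⟩ := exists_ext (π.subtype + Z.subtype ∘ₗ φ.toAdd ∘ₗ (Z.comap π.subtype).mkQ)
      ((injective_iff_map_eq_zero _).2 fun x e => by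
        have e' : x.1 + (φ.toAdd ((Z.comap π.subtype).mkQ x)).1 = 0 := e
        rw [k0 x (eq_neg_of_add_eq_zero_left e' ▸ Z.neg_mem (SetLike.coe_mem _))] at e'
        simpa using e')
    have g1 : ∀ x ∈ Z, g x = x := fun x hx => (hg ⟨x, hZ hx⟩).trans (by
      change x + (φ.toAdd ((Z.comap π.subtype).mkQ _)).1 = x
      rw [k0 _ hx]; simp)
    obtain ⟨k, hk, e⟩ := ha g (Pe.smul_eq_of_le fun x hx => hg ⟨x, hx⟩ ▸ π.add_mem hx (hZ (SetLike.coe_mem _)))
      (Pe.smul_eq_of_le fun x hx => (g1 x hx).symm ▸ hx)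
    refine ⟨⟨k, hk, fun x hx => (e x (hZ hx)).trans (g1 x hx), fun x hx => by
      rw [e x hx, hg ⟨x, hx⟩]; simp⟩, congrArg Multiplicative.ofAdd ?_⟩
    ext x
    change k x - x = _
    rw [e x x.2, hg x]; exact add_sub_cancel_left _ _
  by_contra! hc
  have d := Subgroup.index_dvd_of_le (show ρ.ker ≤ θ.ker from fun k hk => congrArg Multiplicative.ofAdd (by
    ext x
    exact sub_eq_zero.2 (hc k k.2.1 k.2.2.1 k.2.2.2 (fun y => (Submodule.Quotient.eq _).1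
      (LinearEquiv.congr_fun hk (Submodule.Quotient.mk y))) x x.2)))
  rw [Subgroup.index_ker, Subgroup.index_ker, sj, Subgroup.card_top] at d
  have d' := d.trans (Subgroup.card_subgroup_dvd_card _)
  have h1 := π.finrank_quotient_add_finrank
  have h2 := (Z.comap π.subtype).finrank_quotient_add_finrank
  rw [(comapSubtypeEquivOfLe hZ).finrank_eq] at h2
  have h3 : finrank F (π ⧸ Z.comap π.subtype) * finrank F Z = 2 := by
    rcases hZi with e | e <;> rw [e] at h2 ⊢ <;> omega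
  rw [Pe.card_GL, show finrank F (V ⧸ π) = 2 by omega, Nat.card_congr Multiplicative.toAdd,
    Module.natCard_eq_pow_finrank (K := F), Module.finrank_linearMap, h3, Fin.prod_univ_two] at d'
  have q1 : 1 < Nat.card F := Finite.one_lt_card
  have := Nat.le_of_dvd (Nat.sub_pos_of_lt (Nat.pow_lt_pow_right q1 (by decide)))
    (((Nat.coprime_self_sub_right (Nat.pow_le_pow_right q1.le (by decide))).2 (by simp)).dvd_of_dvd_mul_left d')
  have := Nat.sub_lt (Nat.pow_pos (n := 2) (zero_lt_one.trans q1)) (Nat.pow_pos (n := (1 : Fin 2)) (zero_lt_one.trans q1))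
  omega

end B5

open B5 in
/-- PROOF. `E = {k ∈ K | k • π = π, k = 1 on Z and on π / Z}`, `P` a Sylow `p`-subgroup of `E`; it maps
onto the group `Hom(π/Z, Z)` (order `q²`) induced by `E` on `π`. `P` acts on `V ⧸ π` (dimension 2)
through a `p`-group of order `≤ q`, so the kernel `P₀` is non-trivial on `π`. The set of `φ` induced
by `O = {k ∈ E | k = 1 on V ⧸ π}` is an additive subgroup, non-zero, invariant under all `g` with
`g • π = π`, `g • Z = Z` (conjugate by `k ∈ K` agreeing with `g` on `π`), and these are transitive on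
the non-zero elements `f ⊗ w` of `Hom(π/Z, Z)` (one of `Z`, `π/Z` is a point). -/
theorem exists_unip (hn : finrank F V = 5) {π Z : Submodule F V} (hπ : finrank F π = 3)
    (hZ : Z ≤ π) (hZi : finrank F Z = 1 ∨ finrank F Z = 2)
    (ha : ∀ g : V ≃ₗ[F] V, g • π = π → g • Z = Z → Ag K π g) {f : Dual F V} {w : V} (hw : w ∈ Z)
    (hf : ∀ x ∈ Z, f x = 0) :
    ∃ u ∈ K, (∀ x ∈ π, u x = x + f x • w) ∧ ∀ x, u x - x ∈ π := by
  by_cases n : w = 0 ∨ ∀ x ∈ π, f x = 0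
  · exact ⟨1, K.one_mem, fun x hx => by rcases n with n | n <;> simp [*], fun x => by simp⟩
  push Not at n
  obtain ⟨w0, y, y1, y2⟩ := n
  obtain ⟨u, u1, u2, u3, u4, x, x1, x2⟩ := exists_ne hn hπ hZ hZi ha
  have w1 := u3 x x1
  obtain ⟨f₀, f1, f2⟩ := rank_one (u := u) (sub_ne_zero.2 x2)
  have U : Un K π f₀ (u x - x) u := ⟨u1, fun a ha => f2 a (by
    rcases hZi with e | e
    · exact (Submodule.eq_of_le_of_finrank_eq ((span_singleton_le_iff_mem _ _).2 w1)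
        (by rw [e, finrank_span_singleton (sub_ne_zero.2 x2)])).ge (u3 a ha)
    · obtain ⟨b, hb, c, rfl⟩ := Hy.mem_sup_line_iff.1
        ((Hy.eq_sup (W := Z) ⟨hZ, by omega⟩ x1 fun m => x2 (u2 x m)).le ha)
      rw [map_add, map_smul, u2 b hb, add_sub_add_left_eq_sub, ← smul_sub]
      exact smul_mem _ _ (mem_span_singleton_self _)), u4⟩
  have f3 : f₀ x ≠ 0 := fun e => x2 (by rw [U.2.1 x x1, e, zero_smul, add_zero])
  have f4 : ∀ a ∈ Z, f₀ a = 0 := fun a ha => f1 a (u2 a ha)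
  have w2 := sub_ne_zero.2 x2
  generalize u x - x = w₀ at U w1 w2
  obtain ⟨φ, p1, p2⟩ : ∃ φ : Dual F V, φ w₀ = 1 ∧ φ w ≠ 0 := by
    obtain ⟨a, a1, -⟩ := Hy.ex_dual (W := (⊥ : Submodule F V)) w2
    obtain ⟨b, b1, -⟩ := Hy.ex_dual (W := (⊥ : Submodule F V)) w0
    by_cases a2 : a w = 0
    · by_cases b2 : b w₀ = 0
      · exact ⟨a + b, by simp [a1, b2], by simp [a2, b1]⟩
      · exact ⟨(b w₀)⁻¹ • b, by simp [b2], by simp [b1, b2]⟩
    · exact ⟨a, a1, a2⟩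
  obtain ⟨v, v1, v2, v3⟩ : ∃ v ∈ π, f₀ v ≠ 0 ∧ f v ≠ 0 := by
    by_cases a2 : f x = 0
    · by_cases b2 : f₀ y = 0
      · exact ⟨x + y, π.add_mem x1 y1, by simpa [b2], by simpa [a2]⟩
      · exact ⟨y, y1, b2, y2⟩
    · exact ⟨x, x1, f3, a2⟩
  obtain ⟨g, hg⟩ := C2.exists_dil φ (w - w₀) (by simpa [p1])
  obtain ⟨g', hg'⟩ := C2.exists_dil ((f v)⁻¹ • (f₀ - f)) v (by simp [mul_sub, v2, v3])
  have m := Z.sub_mem hw w1
  have s1 : g • π = π := Pe.smul_eq_of_le fun a ha => hg a ▸ π.add_mem ha (π.smul_mem _ (hZ m))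
  have s2 : g' • π = π := Pe.smul_eq_of_le fun a ha => hg' a ▸ π.add_mem ha (π.smul_mem _ v1)
  have s3 : ∀ a ∈ Z, g' a = a := fun a ha => by simp [hg', f4 a ha, hf a ha]
  obtain ⟨k, k1, k2⟩ := ha g s1 (Pe.smul_eq_of_le fun a ha => hg a ▸ Z.add_mem ha (Z.smul_mem _ m))
  obtain ⟨k', k3, k4⟩ := ha g' s2 (Pe.smul_eq_of_le fun a ha => (s3 a ha).symm ▸ ha)
  have U1 := U.conj (f' := f₀) (hZ w1) k1 k2 s1 fun a _ => by rw [hg, map_add, map_smul, f4 _ m, smul_zero, add_zero]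
  rw [hg, p1, one_smul, add_sub_cancel] at U1
  have U2 := U1.conj (f' := f) (hZ hw) k3 k4 s2 fun a _ => by
    rw [hg', map_add, map_smul, LinearMap.smul_apply, LinearMap.sub_apply, smul_eq_mul, smul_eq_mul]
    field_simp
    ring
  exact ⟨_, s3 w hw ▸ U2⟩

namespace B5

variable {j i : ℕ}

theorem uniq (hn : finrank F V = 5) (h : OC K 3 i z) (hi : i = 1 ∨ i + 1 = 3) {Z W : Submodule F V} (hZ : Z ≤ W)
    (hZi : finrank F Z = i) (hW : finrank F W = 2) : ∃! A, W ≤ A ∧ finrank F A = 3 ∧ z A = Z := by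
  have := h.nu (by omega) (by omega) hi hZ hZi (by omega)
  rw [hn, mul_eq_right₀ (Nat.sub_pos_of_lt (Nat.one_lt_pow (by omega) Finite.one_lt_card)).ne',
    Nat.card_eq_one_iff_exists] at this
  obtain ⟨A, e⟩ := this
  exact ⟨A, A.2, fun B hB => congrArg Subtype.val (e ⟨B, hB⟩)⟩

omit [Finite F] [FiniteDimensional F V] in
theorem OC.ha (h : OC K j i z) {π : Submodule F V} (hπ : finrank F π = j) (g : V ≃ₗ[F] V) (e : g • π = π)
    (e' : g • z π = z π) : Ag K π g := h.ag π hπ g (by rw [e, e'])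

omit [Finite F] in
theorem dep0 {W : Type*} [AddCommGroup W] [Module F W] [FiniteDimensional F W] (h : finrank F W ≤ 2) (a b d : W) :
    ∃ c : Fin 3 → F, ∃ i, c i ≠ 0 ∧ c 0 • a + c 1 • b + c 2 • d = 0 := by
  have li : ¬ LinearIndependent F ![a, b, d] := fun li => by
    have h1 := li.fintype_card_le_finrank
    rw [Fintype.card_fin] at h1
    omega
  obtain ⟨c, hc, i, hi⟩ := Fintype.not_linearIndependent_iff.1 li
  exact ⟨c, i, hi, by simpa [Fin.sum_univ_three] using hc⟩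

omit [Finite F] in
theorem dep (hn : finrank F V = 5) {π : Submodule F V} (hπ : finrank F π = 3) (a b d : Dual F V)
    (ha : ∀ x ∈ π, a x = 0) (hb : ∀ x ∈ π, b x = 0) (hd : ∀ x ∈ π, d x = 0) :
    ∃ c : Fin 3 → F, ∃ i, c i ≠ 0 ∧ ∀ x, c 0 * a x + c 1 * b x + c 2 * d x = 0 := by
  have := Subspace.finrank_add_finrank_dualAnnihilator_eq π
  obtain ⟨c, i, hi, e⟩ := dep0 (F := F) (W := π.dualAnnihilator) (by omega) ⟨a, (mem_dualAnnihilator _).2 ha⟩
    ⟨b, (mem_dualAnnihilator _).2 hb⟩ ⟨d, (mem_dualAnnihilator _).2 hd⟩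
  have e' : c 0 • a + c 1 • b + c 2 • d = 0 := congrArg Subtype.val e
  exact ⟨c, i, hi, fun x => LinearMap.congr_fun e' x⟩

section One
variable (hn : finrank F V = 5) (h : OC K 3 1 z) (hT : TF K) {π : Submodule F V} (hπ : finrank F π = 3) {v : V}
  (hv : z π = F ∙ v) {f f' : Dual F V} {u u' : V ≃ₗ[F] V}
include hn h hT hπ hv

theorem Un.eq_one (a : Un K π f v u) (hf : f v = 0) {y : V} (hy : y ∉ π) (e : u y - y ∈ F ∙ v) : u = 1 := by
  have d : finrank F (F ∙ v) = 1 := hv ▸ h.dim π hπ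
  have l : F ∙ v ≤ π := hv ▸ h.le π hπ
  have uv : u v = v := by rw [a.2.1 v (l (mem_span_singleton_self v)), hf, zero_smul, add_zero]
  have d2 : finrank F ((F ∙ v) ⊔ F ∙ y : Submodule F V) = 2 := by have := (Hy.hyp_sup fun m => hy (l m)).2; omega
  obtain ⟨A, ⟨a1, a2, a3⟩, uq⟩ := uniq hn h (.inl rfl) le_sup_left d d2
  have st : u • A = A := uq _ ⟨by
    rw [← Pe.smul_eq_of_le (g := u) (W := (F ∙ v) ⊔ F ∙ y) fun x hx => ?_]
    · exact smul_le_smul.2 a1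
    · obtain ⟨b, hb, c', rfl⟩ := Hy.mem_sup_line_iff.1 hx
      obtain ⟨c, rfl⟩ := mem_span_singleton.1 hb
      rw [map_add, map_smul, map_smul, uv, ← sub_add_cancel (u y) y]
      exact add_mem (mem_sup_left hb) (smul_mem _ _ (add_mem_sup e (mem_span_singleton_self y))),
    finrank_smul.trans a2, by rw [h.eqv u a.1 A a2, a3, smul_line, uv]⟩
  have inf : π ⊓ A = F ∙ v := le_antisymm (fun x hx => by_contra fun n => by
    have d3 : finrank F ((F ∙ v) ⊔ F ∙ x : Submodule F V) = 2 := by have := (Hy.hyp_sup n).2; omega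
    exact hy (((uniq hn h (.inl rfl) le_sup_left d d3).unique ⟨Hy.sup_line_le l hx.1, hπ, hv⟩
      ⟨Hy.sup_line_le (le_sup_left.trans a1) hx.2, a2, a3⟩).ge (a1 (Hy.mem_sup_line _ y))))
    (le_inf l (le_sup_left.trans a1))
  have sup : π ⊔ A = ⊤ := Submodule.eq_top_of_finrank_eq (by
    have := Submodule.finrank_sup_add_finrank_inf_eq π A
    rw [inf] at this; omega)
  refine tf1 hT a.1 (fun x => ?_) uv
  obtain ⟨b, hb, c, hc, rfl⟩ := mem_sup.1 (sup.ge (mem_top (x := x)))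
  rw [map_add, add_sub_add_comm, a.2.1 b hb, add_sub_cancel_left]
  exact add_mem (smul_mem _ _ (mem_span_singleton_self v))
    (inf.le ⟨a.2.2 c, A.sub_mem (Pe.mem_of_smul st hc) hc⟩)

theorem Un.eq (a : Un K π f v u) (a' : Un K π f' v u') (e : ∀ x ∈ π, f x = f' x) : u = u' := by
  have l : F ∙ v ≤ π := hv ▸ h.le π hπ
  have m := l (mem_span_singleton_self v)
  have b : Un K π 0 v (u'⁻¹ * u) := ⟨K.mul_mem (K.inv_mem a'.1) a.1, fun x hx => by
    rw [LinearEquiv.mul_apply, LinearEquiv.coe_inv, LinearEquiv.symm_apply_eq, a.2.1 x hx, e x hx, ← a'.2.1 x hx]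
    simp, fun x => by simpa using π.sub_mem (a.2.2 x) (a'.2.2 (u'⁻¹ (u x)))⟩
  rw [← mul_one u', ← inv_mul_eq_iff_eq_mul]
  generalize u'⁻¹ * u = t at b
  have t1 : ∀ x ∈ π, t x = x := fun x hx => by simpa using b.2.1 x hx
  obtain ⟨y, -, hy⟩ := Hy.ex_notin (A := π) (B := ⊤) (by rw [finrank_top]; omega)
  refine b.eq_one hn h hT hπ hv rfl hy (by_contra fun n => ?_)
  obtain ⟨g, g1, g2⟩ := Hy.ex_dual n
  obtain ⟨s, s1, s2, s3⟩ := exists_unip hn hπ l (.inl (hv ▸ h.dim π hπ)) (hv ▸ OC.ha h hπ) (mem_span_singleton_self v) g2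
  have k : ∀ x, (s * t * (t * s)⁻¹) (t (s x)) = t (s x) + g (t x - x) • v := fun x => by
    have e1 := s2 _ (b.2.2 x)
    have e2 := t1 _ (s3 x)
    rw [map_sub] at e1 e2
    simp only [LinearEquiv.mul_apply, mul_inv_rev, LinearEquiv.coe_inv, LinearEquiv.symm_apply_apply]
    linear_combination (norm := module) e1 - e2
  have := tf1 hT (K.mul_mem (K.mul_mem s1 b.1) (K.inv_mem (K.mul_mem b.1 s1))) (w := v) (fun x => by
    obtain ⟨x, rfl⟩ := (t * s).surjective x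
    rw [LinearEquiv.mul_apply t, k, add_sub_cancel_left]
    exact smul_mem _ _ (mem_span_singleton_self v)) (by
    have := k v
    rwa [s2 v m, g2 v (mem_span_singleton_self v), zero_smul, add_zero, t1 v m, sub_self, map_zero, zero_smul,
      add_zero] at this)
  have e1 := k y
  rw [this, g1, one_smul, LinearEquiv.coe_one, id, left_eq_add] at e1
  have := h.dim π hπ
  rw [hv, e1, span_zero_singleton, finrank_bot] at this
  omega

theorem Un.inj (a : Un K π f v u) (hf : f v = 0) (n : u ≠ 1) {g : Dual F V} (hg : g v = 0)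
    (e : ∀ x, g (u x - x) = 0) : ∀ x ∈ π, g x = 0 := fun x hx => by_contra fun gx => by
  have H := Pt.hyp_ker hx gx
  obtain ⟨ψ, -, e'⟩ := Pt.exists_ker (S := π ⊓ LinearMap.ker g) (A := F ∙ v) ⟨(span_singleton_le_iff_mem _ _).2
    ⟨h.le π hπ (hv.ge (mem_span_singleton_self v)), hg⟩, by have := H.2; have := hv ▸ h.dim π hπ; omega⟩
  obtain ⟨y, y1, y2⟩ := Hy.ex_notin (A := π) (B := LinearMap.ker (ψ ∘ₗ Pe.Nm u)) (by
    have h1 := (ψ ∘ₗ Pe.Nm u).finrank_range_add_finrank_ker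
    have h2 := (Submodule.finrank_le (LinearMap.range (ψ ∘ₗ Pe.Nm u))).trans (finrank_self F).le
    omega)
  exact n (a.eq_one hn h hT hπ hv hf y2 (e'.ge ⟨⟨a.2.2 y, e y⟩, y1⟩))

end One

/-- a non-trivial element with `u - 1` mapping into `m` and vanishing on `m` -/
def El (K : Subgroup (V ≃ₗ[F] V)) (m : Submodule F V) (u : V ≃ₗ[F] V) : Prop :=
  u ∈ K ∧ u ≠ 1 ∧ Pe.Ux u ≤ m ∧ m ≤ Pe.Cx u

theorem exists_el (hn : finrank F V = 5) (h : OC K 3 2 z) {m : Submodule F V} (hm : finrank F m = 2) :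
    ∃ u, El K m u := by
  obtain ⟨π, ⟨l, hπ, rfl⟩, -⟩ := uniq hn h (.inr rfl) le_rfl hm hm
  obtain ⟨f, ⟨y, y1, y2⟩, e⟩ := Pt.exists_ker (S := π) ⟨l, by omega⟩
  obtain ⟨w', w1, w2⟩ := Hy.ex_notin (A := (⊥ : Submodule F V)) (B := z π) (by rw [finrank_bot]; omega)
  obtain ⟨w, w3, w4⟩ := Hy.ex_notin (A := F ∙ w') (B := z π) (by rw [finrank_span_singleton w2]; omega)
  have hf : ∀ x ∈ z π, f x = 0 := fun x hx => (e.le hx).2
  obtain ⟨b, b1, b2, b3⟩ := exists_unip hn hπ l (.inr hm) (OC.ha h hπ) w3 hf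
  obtain ⟨c, c1, c2, c3⟩ := exists_unip hn hπ l (.inr hm) (OC.ha h hπ) w1 hf
  have b4 : ∀ x ∈ z π, b x = x := fun x hx => by rw [b2 x (l hx), hf x hx, zero_smul, add_zero]
  have c4 : ∀ x ∈ z π, c x = x := fun x hx => by rw [c2 x (l hx), hf x hx, zero_smul, add_zero]
  by_cases g : ∀ x, f (c x - x) = 0
  · refine ⟨c, c1, fun e' => ?_, by rintro _ ⟨x, rfl⟩; exact e.ge ⟨c3 x, g x⟩, fun x hx => Pe.mem_Cx.2 (c4 x hx)⟩
    have := c2 y y1
    rw [e', LinearEquiv.coe_one, id, left_eq_add, smul_eq_zero] at this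
    exact this.elim y2 w2
  obtain ⟨x₀, g⟩ := not_forall.1 g
  have k : ∀ x, (b * c * (c * b)⁻¹) (c (b x)) = c (b x) + (f (c x - x) • w - f (b x - x) • w') := fun x => by
    have e1 := b2 _ (c3 x)
    have e2 := c2 _ (b3 x)
    rw [map_sub b] at e1
    rw [map_sub c] at e2
    simp only [LinearEquiv.mul_apply, mul_inv_rev, LinearEquiv.coe_inv, LinearEquiv.symm_apply_apply]
    linear_combination (norm := module) e1 - e2
  refine ⟨b * c * (c * b)⁻¹, K.mul_mem (K.mul_mem b1 c1) (K.inv_mem (K.mul_mem c1 b1)), fun e' => w4 ?_, ?_,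
    fun x hx => ?_⟩
  · have := k x₀
    rw [e', LinearEquiv.coe_one, id, left_eq_add, sub_eq_zero] at this
    exact (smul_mem_iff _ g).1 (this ▸ smul_mem _ _ (mem_span_singleton_self _))
  · rintro _ ⟨x, rfl⟩
    obtain ⟨x, rfl⟩ := (c * b).surjective x
    rw [Pe.Nm_apply, LinearEquiv.mul_apply c, k, add_sub_cancel_left]
    exact sub_mem (smul_mem _ _ w3) (smul_mem _ _ w1)
  · have := k x
    rwa [b4 x hx, c4 x hx, sub_self, map_zero, zero_smul, zero_smul, sub_self, add_zero, ← Pe.mem_Cx] at this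

theorem El.rank (hT : TF K) {m : Submodule F V} (hm : finrank F m = 2) {u : V ≃ₗ[F] V} (a : El K m u) :
    Pe.Ux u = m := by
  refine Submodule.eq_of_le_of_finrank_le a.2.2.1 (not_lt.1 fun n => a.2.1 ?_)
  obtain ⟨w, e⟩ := finrank_le_one_iff.1 (show finrank F (Pe.Ux u) ≤ 1 by omega)
  refine tf1 hT a.1 (w := w) (fun x => ?_) (Pe.mem_Cx.1 (a.2.2.2 (a.2.2.1 w.2)))
  obtain ⟨c, e⟩ := e ⟨_, x, rfl⟩
  exact mem_span_singleton.2 ⟨c, congrArg Subtype.val e⟩

theorem El.ker (hn : finrank F V = 5) (hT : TF K) {m m' : Submodule F V} (hm : finrank F m = 2)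
    (hm' : finrank F m' = 2) {u u' : V ≃ₗ[F] V} (a : El K m u) (a' : El K m' u') (l : m' ≤ Pe.Cx u) (n : m ≠ m') :
    Pe.Cx u' = Pe.Cx u := by
  have r := Pe.rank_add u
  have r' := Pe.rank_add u'
  rw [a.rank hT hm] at r
  rw [a'.rank hT hm'] at r'
  have H : Hyp (Pe.Cx u) m := ⟨a.2.2.2, by omega⟩
  have H' : Hyp (Pe.Cx u) m' := ⟨l, by omega⟩
  obtain ⟨y, y1, y2⟩ := Pt.exists_diff H H' n
  have k : ∀ x, (u' * u * (u * u')⁻¹) (u (u' x)) = u (u' x) + Pe.Nm u' (Pe.Nm u x) := fun x => by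
    have e1 : u (u' x - x) = u' x - x := Pe.mem_Cx.1 (l (a'.2.2.1 ⟨x, rfl⟩))
    rw [map_sub] at e1
    simp only [LinearEquiv.mul_apply, mul_inv_rev, LinearEquiv.coe_inv, LinearEquiv.symm_apply_apply, Pe.Nm_apply,
      map_sub]
    linear_combination (norm := module) -e1
  have m1 : Pe.Nm u' y ∈ m' := a'.2.2.1 ⟨y, rfl⟩
  have t := tf1 hT (K.mul_mem (K.mul_mem a'.1 a.1) (K.inv_mem (K.mul_mem a.1 a'.1))) (w := Pe.Nm u' y) (fun x => by
    obtain ⟨x, rfl⟩ := (u * u').surjective x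
    rw [LinearEquiv.mul_apply u, k, add_sub_cancel_left]
    obtain ⟨b, hb, c, e⟩ := Hy.mem_sup_line_iff.1 ((Hy.eq_sup (A := m) (W := m ⊓ m') ⟨inf_le_left, by
      have := Pt.finrank_inf H H' n; omega⟩ y1 fun e => y2 e.2).le (a.2.2.1 ⟨x, rfl⟩))
    rw [← e, map_add, map_smul, show Pe.Nm u' b = 0 from a'.2.2.2 hb.2, zero_add]
    exact smul_mem _ _ (mem_span_singleton_self _)) (by
    have := k (Pe.Nm u' y)
    rwa [Pe.mem_Cx.1 (a'.2.2.2 m1), Pe.mem_Cx.1 (l m1), show Pe.Nm u (Pe.Nm u' y) = 0 from l m1, map_zero,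
      add_zero] at this)
  refine (Submodule.eq_of_le_of_finrank_eq ?_ (by omega)).symm
  rw [Hy.eq_sup H' (H.1 y1) y2]
  refine Hy.sup_line_le a'.2.2.2 ?_
  obtain ⟨x, rfl⟩ := (a.rank hT hm).ge y1
  have := k x
  rwa [t, LinearEquiv.coe_one, id, left_eq_add] at this

end B5

open B5 in
/-- PROOF. By `OC.nu` each flag `p < m` lies in exactly one plane `π(p,m)` with `z π = p`. Fix `π`,
`p = z π = F v`. Let `u ∈ K` be the identity on `p`, `π/p`, `V/π`, and `X : V/π → π/p` induced by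
`u - 1`. Claim: `u = 1` or `X` is bijective. If `u y - y ∈ p`, `y ∉ π`, then `u` fixes the lines
`⟨v, y + a⟩` (`a ∈ π`) and so the planes `π_a = π(p, ⟨v, y + a⟩)`; `π_a ⊓ π = p`, and
`π_a ⊓ π₀ = p` for `a ∉ p` (uniqueness). For `x ∈ π₀` pick `b ∈ π` with `x + b ∈ π_a`
(`V = π ⊔ π_a`); `u(x+b) - (x+b) ∈ π_a`, `u b - b ∈ p`, so `u x - x ∈ π_a ⊓ π₀ = p`. As
`V = π ⊔ π₀`, `u - 1` maps `V` into `p`, `u` is a transvection or `1`.
For `f` vanishing on `p` let `u_f` be given by `exists_unip` (`w = v`), `X_f` its map; `X_f` depends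
only on `f|π` (if `u, u'` agree on `π` and `u₀ = u⁻¹u' ≠ 1` then `X₀` is bijective and the commutator
of `u₀` with `u_f`, `f|π ≠ 0`, is the transvection `(f ∘ X₀) ⊗ v`), additively.
`p = 2`: `u_f² = 1 + (f ∘ X_f) ⊗ v` is a transvection. `p` odd: basis `v, e₁, e₂` of `π`, dual
`f₁, f₂`; `k ∈ K` with `v ↦ v, e₁ ↦ e₁, e₂ ↦ e₂ + e₁` (`ag`), acting as `g₁` on `π/p`, `g₂` on `V/π`:
`g₁ X_f g₂⁻¹ = X_{f k⁻¹}`, `f₂ k⁻¹ = f₂`, `f₁ k⁻¹ = f₁ - f₂` on `π`; so `Y = X_{f₁} X_{f₂}⁻¹` satisfies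
`g₁ Y g₁⁻¹ = Y - 1`; traces: `2 = 0`. -/
theorem OC.not_tf_five_one (hn : finrank F V = 5) (h : OC K 3 1 z) : ¬ TF K := by
  intro hT
  obtain ⟨π, -, hπ⟩ := exists_le_finrank (⊥ : Submodule F V) (j := 3) (by simp) (by omega)
  have d := h.dim π hπ
  have l := h.le π hπ
  obtain ⟨v, v1, v2⟩ := Hy.ex_notin (A := (⊥ : Submodule F V)) (B := z π) (by rw [finrank_bot]; omega)
  have hv : z π = F ∙ v := (Submodule.eq_of_le_of_finrank_eq ((span_singleton_le_iff_mem _ _).2 v1)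
    (by rw [d, finrank_span_singleton v2])).symm
  obtain ⟨a, a1, a2⟩ := Hy.ex_notin (A := z π) (B := π) (by omega)
  obtain ⟨b, b1, b2⟩ := Hy.ex_notin (A := z π ⊔ F ∙ a) (B := π) (by have := (Hy.hyp_sup a2).2; omega)
  obtain ⟨f, f1, f2⟩ := Hy.ex_dual a2
  obtain ⟨g, g1, g2⟩ := Hy.ex_dual b2
  have g3 := g2 a (Hy.mem_sup_line _ _)
  have g4 := g2 v (mem_sup_left v1)
  have f4 := f2 v v1
  obtain ⟨s, S⟩ : ∃ s, Un K π f v s := exists_unip hn hπ l (.inl d) (OC.ha h hπ) v1 f2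
  obtain ⟨t, T⟩ : ∃ t, Un K π g v t := exists_unip hn hπ l (.inl d) (OC.ha h hπ) v1 fun x hx => g2 x (mem_sup_left hx)
  have ne : ∀ {f u x}, Un K π f v u → x ∈ π → f x = 1 → u ≠ 1 := fun {f u x} U hx e n => v2 (by
    have := U.2.1 x hx
    rwa [n, e, one_smul, LinearEquiv.coe_one, id, left_eq_add] at this)
  have cancel : ∀ {c c' : F}, c • v = c' • v → c = c' := fun e => smul_left_injective F v2 e
  have two : (2 : F) ≠ 0 := fun e => by
    have e1 := (S.mul S (l v1) f4).eq hn h hT hπ hv (u' := 1) (f' := 0) ⟨K.one_mem, by simp, by simp⟩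
      fun x _ => by rw [LinearMap.add_apply, ← two_mul, e, zero_mul, LinearMap.zero_apply]
    refine one_ne_zero (f1.symm.trans (S.inj hn h hT hπ hv f4 (ne S a1 f1) f4 (fun x => cancel ?_) a a1))
    have e2 := S.2.1 _ (S.2.2 x)
    rw [map_sub s, show s (s x) = x from LinearEquiv.congr_fun e1 x] at e2
    linear_combination (norm := module) e • (x - s x) - e2
  have sym : ∀ x, g (s x - x) = f (t x - x) := fun x => cancel (by
    have e1 := LinearEquiv.congr_fun ((S.mul T (l v1) f4).eq hn h hT hπ hv (T.mul S (l v1) g4)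
      fun x _ => by rw [add_comm]) x
    have e2 := S.2.1 _ (T.2.2 x)
    have e3 := T.2.1 _ (S.2.2 x)
    rw [map_sub s] at e2
    rw [map_sub t] at e3
    simp only [LinearEquiv.mul_apply] at e1
    linear_combination (norm := module) e2 - e3 - e1)
  have inj : ∀ c c' : F, (∀ x, c * f (t x - x) + c' * g (t x - x) = 0) → c = 0 ∧ c' = 0 := fun c c' e => by
    have k := T.inj hn h hT hπ hv g4 (ne T b1 g1) (g := c • f + c' • g) (by simp [f4, g4]) e
    have k1 : c = 0 := by simpa [f1, g3] using k a a1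
    exact ⟨k1, by simpa [k1, g1] using k b b1⟩
  obtain ⟨c, i, hi, rel⟩ := dep hn hπ (f ∘ₗ Pe.Nm s) (f ∘ₗ Pe.Nm t) (g ∘ₗ Pe.Nm t)
    (fun x hx => by simp [Pe.Nm_apply, S.2.1 x hx, f4]) (fun x hx => by simp [Pe.Nm_apply, T.2.1 x hx, f4])
    fun x hx => by simp [Pe.Nm_apply, T.2.1 x hx, g4]
  simp only [LinearMap.comp_apply, Pe.Nm_apply] at rel
  obtain ⟨r, hr⟩ := C2.exists_dil (-g) a (by simp [g3])
  have r1 : r • π = π := Pe.smul_eq_of_le fun x hx => hr x ▸ π.add_mem hx (π.smul_mem _ a1)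
  have r2 : r v = v := by simp [hr, g4]
  obtain ⟨k, k1, k2⟩ := OC.ha h hπ r r1 (by rw [hv, smul_line, r2])
  have kf : ∀ x ∈ π, f (k x) + g (k x) = f x := fun x hx => by simp [k2 x hx, hr, f1, g3]
  have kg : ∀ x ∈ π, g (k x) = g x := fun x hx => by simp [k2 x hx, hr, g3]
  have S' := S.conj (f' := f + g) (l v1) k1 k2 r1 fun x hx => by rw [← k2 x hx]; exact kf x hx
  have T' := T.conj (f' := g) (l v1) k1 k2 r1 fun x hx => by rw [← k2 x hx]; exact kg x hx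
  rw [r2] at S' T'
  have e1 := S'.eq hn h hT hπ hv (S.mul T (l v1) f4) fun _ _ => rfl
  have e2 := T'.eq hn h hT hπ hv T fun _ _ => rfl
  have c0 := (inj (2 * c 0) (c 0 + c 1) fun x => by
    obtain ⟨x, rfl⟩ := k.surjective x
    have p1 : k (s x - x) = s (k x) - k x + (t (k x) - k x) + f (t (k x) - k x) • v := by
      have e3 := S.2.1 _ (T.2.2 (k x))
      have e4 : k (s x) = s (t (k x)) := by simpa using LinearEquiv.congr_fun e1 (k x)
      rw [map_sub s] at e3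
      rw [map_sub]
      linear_combination (norm := module) e3 + e4
    have p2 : k (t x - x) = t (k x) - k x := by
      rw [map_sub, show k (t x) = t (k x) by simpa using LinearEquiv.congr_fun e2 (k x)]
    have q1 := kf _ (S.2.2 x)
    have q2 := kf _ (T.2.2 x)
    have q3 := kg _ (T.2.2 x)
    rw [p1, map_add, map_add, map_add, map_add, map_smul, map_smul, f4, g4, sym, smul_zero] at q1
    rw [p2] at q2 q3
    linear_combination rel x - rel (k x) + c 0 * q1 + c 1 * q2 + c 2 * q3).1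
  have c1 : c 0 = 0 := (mul_eq_zero.1 c0).resolve_left two
  have := inj (c 1) (c 2) fun x => by simpa [c1] using rel x
  fin_cases i
  exacts [hi c1, hi this.1, hi this.2]

open B5 in
/-- PROOF. By `OC.nu` each line `m` is `z π` for exactly one plane `π = π(m)`. (1) For every line `m`
there is `u ∈ K`, `u ≠ 1`, with `u - 1` mapping `V` into `m` and killing `m`: `m = ⟨w, w'⟩`, `f`
vanishing on `m` with `f y = 1`, `y ∈ π(m)`; `b, b'` from `exists_unip`; modulo `m`, `b - 1 = g ⊗ y`,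
`b' - 1 = g' ⊗ y` (`g, g'` vanish on `π`). If `g = 0` take `b`; otherwise
`⁅b, b'⁆ = 1 + g' ⊗ w - g ⊗ w' ≠ 1`. By `TF`, `u - 1` has rank 2, `κ = ker (u - 1)` is a plane over `m`.
(2) If `m' ≤ κ` is a line `≠ m` and `u' = 1 + β'` is any such element for `m'` then `β β' = 0` and
`⁅u', u⁆ = 1 + β' β` has rank `≤ 1`, so `β' β = 0`, `ker β' = m ⊔ m' = κ`. Choose `m' ≤ κ` with
`m' ≠ m`, `m' ≠ z κ`. All elements for `m'` have kernel `κ`, so every `k ∈ K` with `k • m' = m'`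
fixes `κ`. But there is a plane `π'' > m'` different from `κ` and `π(m')`, and `g` with
`g • κ = π''`, `g • m' = m'`, `g • z κ = z π''`; `ag` gives such a `k` moving `κ`. -/
theorem OC.not_tf_five_two (hn : finrank F V = 5) (h : OC K 3 2 z) : ¬ TF K := by
  intro hT
  obtain ⟨m, -, hm⟩ := exists_le_finrank (⊥ : Submodule F V) (j := 2) (by simp) (by omega)
  obtain ⟨u, U⟩ := exists_el hn h hm
  have r := Pe.rank_add u
  rw [U.rank hT hm] at r
  have d : finrank F (Pe.Cx u) = 3 := by omega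
  have H : Hyp (Pe.Cx u) m := ⟨U.2.2.2, by omega⟩
  have H' : Hyp (Pe.Cx u) (z (Pe.Cx u)) := ⟨h.le _ d, by rw [h.dim _ d, d]⟩
  obtain ⟨m', H2, n1, n2⟩ : ∃ m', Hyp (Pe.Cx u) m' ∧ m ≠ m' ∧ z (Pe.Cx u) ≠ m' := by
    by_cases e : m = z (Pe.Cx u)
    · obtain ⟨y, y1, y2⟩ := Hy.ex_notin (A := (⊥ : Submodule F V)) (B := m) (by rw [finrank_bot]; omega)
      obtain ⟨A, hA, -, n⟩ := Pt.sep' (H.1 y1) bot_le y2
      exact ⟨A, hA, fun e' => n (e' ▸ y1), fun e' => n (e' ▸ e ▸ y1)⟩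
    · exact (Pt.third H H' e).imp fun C c => ⟨c.1, c.2.2⟩
  have hm' : finrank F m' = 2 := by have := H2.2; omega
  obtain ⟨u', U'⟩ := exists_el hn h hm'
  obtain ⟨π, ⟨p1, p2, p3⟩, uq⟩ := uniq hn h (.inr rfl) le_rfl hm' hm'
  obtain ⟨y, -, hy⟩ := Hy.ex_notin (A := Pe.Cx u ⊔ π) (B := ⊤) (by
    have := Submodule.finrank_sup_add_finrank_inf_eq (Pe.Cx u) π
    have := Submodule.finrank_mono (le_inf H2.1 p1)
    rw [finrank_top]; omega)
  have G := Hy.hyp_sup (W := m') fun e => hy (mem_sup_right (p1 e))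
  have d' : finrank F (m' ⊔ F ∙ y : Submodule F V) = 3 := by have := G.2; omega
  have G' : Hyp (m' ⊔ F ∙ y) (z (m' ⊔ F ∙ y)) := ⟨h.le _ d', by rw [h.dim _ d', d']⟩
  have n3 : z (m' ⊔ F ∙ y) ≠ m' := fun e =>
    hy (mem_sup_right ((uq _ ⟨le_sup_left, d', e⟩).le (Hy.mem_sup_line _ y)))
  obtain ⟨g, g1, g2⟩ := exists_smul_two (A := z (Pe.Cx u)) (B := m') ((h.dim _ d).trans (h.dim _ d').symm) rfl (by
    have := Pt.finrank_inf H' H2 n2; have := Pt.finrank_inf G' G n3; omega)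
  have sup : ∀ {S A B : Submodule F V}, Hyp S A → Hyp S B → A ≠ B → S = A ⊔ B := fun {S A B} a b n =>
    (Submodule.eq_of_le_of_finrank_eq (sup_le a.1 b.1) (by
      have := Submodule.finrank_sup_add_finrank_inf_eq A B
      have := Pt.finrank_inf a b n; have := a.2; have := b.2; omega)).symm
  have g3 : g • Pe.Cx u = m' ⊔ F ∙ y := by rw [sup H' H2 n2, smul_sup, g1, g2, ← sup G' G n3]
  obtain ⟨k, k1, -, k2⟩ := (h.ag _ d g (by rw [g3, g1])).smul_eq
  have k3 : k • m' = m' := (k2 _ H2.1).trans g2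
  have e := U.ker hn hT hm hm' (u' := k * u' * k⁻¹) ⟨K.mul_mem (K.mul_mem k1 U'.1) (K.inv_mem k1),
    fun e => U'.2.1 (conj_eq_one_iff.1 e), by
      rintro _ ⟨x, rfl⟩
      obtain ⟨x, rfl⟩ := k.surjective x
      simpa [Pe.Nm_apply] using Pe.mem_of_smul k3 (U'.2.2.1 ⟨x, rfl⟩),
    by rw [Pe.Cx_conj, ← k3]; exact smul_le_smul.2 U'.2.2.2⟩ H2.1 n1
  rw [Pe.Cx_conj, U.ker hn hT hm hm' U' H2.1 n1, k2 _ le_rfl, g3] at e
  exact hy (mem_sup_left (e.le (Hy.mem_sup_line _ y)))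

end CL.PL
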