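/-
Rank three actions of the linear groups: the argument of Perin.
-/
import Cfsg.Agent.CLAS.PL.Per2

set_option autoImplicit false
set_option linter.unusedSectionVars false

namespace CL.PL

open Module Submodule
open scoped Pointwise

variable {F : Type*} [Field F] [Finite F] {V : Type*} [AddCommGroup V] [Module F V]
  [FiniteDimensional F V] {K : Subgroup (V ≃ₗ[F] V)}

namespace Pe

theorem exists_cen {G : Type*} [Group G] [Finite G] {R : Subgroup G} {r : ℕ} (hr : r.Prime)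
    (hR : IsPGroup r R) (h0 : R ≠ ⊥) :
    ∃ x ∈ R, x ≠ 1 ∧ x ^ r = 1 ∧ ∀ y ∈ R, x * y = y * x := by
  have := Fact.mk hr
  have := (Subgroup.nontrivial_iff_ne_bot R).2 h0
  have h1 := hR.center_nontrivial
  obtain ⟨n, hn0, hn⟩ := (hR.to_subgroup (Subgroup.center R)).nontrivial_iff_card.1 h1
  obtain ⟨x, hx, hx1, hx2⟩ := exists_ord hr (H := Subgroup.center R)
    (hn ▸ dvd_pow_self _ hn0.ne')
  exact ⟨x, x.2, fun e => hx1 (Subtype.ext e), congrArg Subtype.val hx2, fun y hy =>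
    congrArg Subtype.val (Subgroup.mem_center_iff.1 hx ⟨y, hy⟩).symm⟩

variable {W : Submodule F V} {r d : ℕ}

theorem frat_ag [Fact r.Prime] (P : Sylow r (fixS K W)) {a : V ≃ₗ[F] V} (hW : a • W = W)
    (h : Ag K W a) : Ag (K ⊓ Subgroup.normalizer
      (((P : Subgroup (fixS K W)).map (fixS K W).subtype : Subgroup _) : Set (V ≃ₗ[F] V))) W a := by
  have := finGL (F := F) (V := V)
  obtain ⟨k, hk, e⟩ := h
  have hk' : k • W = W := (smul_congr e le_rfl).trans hW
  obtain ⟨δ, hδ, h1⟩ := frat P (conj_fixS hk hk')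
  exact ⟨δ * k, ⟨K.mul_mem hδ.1 hk, h1⟩, fun w hw => by
    rw [LinearEquiv.mul_apply, hδ.2 _ (mem_of_smul hk' hw), e w hw]⟩

theorem norm_le {R : Subgroup (V ≃ₗ[F] V)} (hr : r.Prime) (hr0 : (r : F) ≠ 0) (hW : W ≠ ⊤)
    (hA : ∀ z ∈ R, z ≠ 1 → z ^ r = 1 → Cx z ≤ W) {x : V ≃ₗ[F] V} (hx : x ∈ R) (h1 : x ≠ 1)
    (h2 : x ^ r = 1) (h3 : ∀ y ∈ R, x * y = y * x) :
    Subgroup.normalizer (R : Set (V ≃ₗ[F] V)) ≤
      Subgroup.normalizer (Subgroup.zpowers x : Set (V ≃ₗ[F] V)) := by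
  have := finGL (F := F) (V := V)
  intro m hm
  have hy := (Subgroup.mem_normalizer_iff.1 hm x).1 hx
  have hy2 : (m * x * m⁻¹) ^ r = 1 := by rw [conj_pow, h2, mul_one, mul_inv_cancel]
  obtain ⟨i, hi⟩ := exists_not_le hr hr0 (h3 _ hy) h2 hy2 hW (hA x hx h1 h2)
  have hc : Commute x (m * x * m⁻¹) := h3 _ hy
  have h4 : x ^ i * (m * x * m⁻¹) = 1 := by
    by_contra h
    exact hi (hA _ (R.mul_mem (R.pow_mem hx i) hy) h (by
      rw [(hc.pow_left i).mul_pow, hy2, ← pow_mul, mul_comm, pow_mul, h2, one_pow, one_mul]))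
  refine norm_of_mem ?_
  rw [eq_inv_of_mul_eq_one_right h4]
  exact Subgroup.inv_mem _ (Subgroup.pow_mem _ (Subgroup.mem_zpowers x) i)

theorem ag_mono {M M' : Subgroup (V ≃ₗ[F] V)} {a : V ≃ₗ[F] V} (h : Ag M W a) (hM : M ≤ M') :
    Ag M' W a :=
  let ⟨k, hk, e⟩ := h
  ⟨k, hM hk, e⟩

theorem cx_eq (hr : r.Prime) (hd : finrank F W + d = finrank F V) (hd0 : 0 < d)
    (ho : orderOf ((Nat.card F : ℕ) : ZMod r) = d) {x : V ≃ₗ[F] V} (hx : ∀ w ∈ W, x w = w)
    (h1 : x ≠ 1) (hxr : x ^ r = 1) : Cx x = W := by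
  have hle : W ≤ Cx x := fun w hw => mem_Cx.2 (hx w hw)
  have h2 := dvd_sub (k := 1) hr (by rwa [pow_one]) hd0 ho (A := ⊤) (fun _ _ => trivial)
  rw [top_inf_eq, finrank_top] at h2
  have h3 : finrank F (Cx x) < finrank F V := Submodule.finrank_lt fun e => h1 (Cx_eq_top.1 e)
  have h4 := Nat.le_of_dvd (by omega) h2
  exact (Submodule.eq_of_le_of_finrank_le hle (by omega)).symm

theorem ux_le (hr : r.Prime) (hd0 : 0 < d) (ho : orderOf ((Nat.card F : ℕ) : ZMod r) = d)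
    {x : V ≃ₗ[F] V} (hxr : x ^ r = 1) (hU : finrank F (Ux x) = d) {c : V ≃ₗ[F] V}
    (hc : c * x = x * c) {p e : ℕ} (hp : p.Prime) (hq : p ∣ Nat.card F) (hce : c ^ p ^ e = 1) :
    Ux x ≤ Cx c := by
  have h1 := map_le_of (Ux_inv hc)
  have h2 := dvd_rank hr hxr hd0 ho (map_inv_of hc.symm (Ux_inv rfl)) (eq_bot_iff.2
    ((inf_le_inf_right _ h1).trans (Ux_inf_Cx hxr (cast_ne_zero hr hd0 ho)).le))
  have h3 := rank_map_lt hp hq hce (Ux_inv hc) (fun h => by rw [h, finrank_bot] at hU; omega)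
  have h4 := Submodule.finrank_eq_zero.1 (Nat.eq_zero_of_dvd_of_lt h2 (by omega))
  exact LinearMap.le_ker_iff_map.2 h4

theorem not_tf_comm (hr : r.Prime) (hd : finrank F W + d = finrank F V) (hd0 : 0 < d)
    (ho : orderOf ((Nat.card F : ℕ) : ZMod r) = d) {x : V ≃ₗ[F] V} (hx : ∀ w ∈ W, x w = w)
    (h1 : x ≠ 1) (hxr : x ^ r = 1) {c : V ≃ₗ[F] V} (hK : c ∈ K) (hc : c * x = x * c)
    (ht : TvOn W c) : ¬ TF K := by
  have := finGL (F := F) (V := V)
  obtain ⟨p, hp, hq, hch⟩ := exists_char F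
  obtain ⟨m, e, hm, he⟩ := exists_pow_p c hp
  have h2 := cx_eq hr hd hd0 ho hx h1 hxr
  have h3 := rank_add x
  have h4 := isCompl hxr (cast_ne_zero hr hd0 ho)
  rw [h2] at h3 h4
  exact not_tf (K.pow_mem hK m) (tv_pow ht fun h => hm ((hch m).1 h)) h4
    (ux_le hr hd0 ho hxr (by omega) ((show Commute c x from hc).pow_left m) hp hq he)

theorem half (h2 : (2 : F) = 0) {y : V ≃ₗ[F] V} {U : Submodule F V} (hU : ∀ v ∈ U, y v ∈ U)
    (h : ∀ v ∈ U, y (y v) = v) :
    finrank F U ≤ 2 * finrank F (U ⊓ Cx y : Submodule F V) := by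
  have h1 := rank_map (Nm y) U
  have h3 : U.map (Nm y) ≤ U ⊓ Cx y := le_inf (map_le_of hU) (by
    rintro _ ⟨u, hu, rfl⟩
    rw [mem_Cx, Nm_apply, map_sub, h u hu]
    have : u - y u = y u - u + (2 : F) • (u - y u) := by module
    rwa [h2, zero_smul, add_zero] at this)
  have h4 := Submodule.finrank_mono h3
  change _ + finrank F (U ⊓ Cx y : Submodule F V) = _ at h1
  omega

theorem even_of_inv (hr : r.Prime) (hd0 : 0 < d) (ho : orderOf ((Nat.card F : ℕ) : ZMod r) = d)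
    (hq : Nat.card F = 2) {z : V ≃ₗ[F] V} (hzr : z ^ r = 1) (hU : finrank F (Ux z) = d)
    {y : V ≃ₗ[F] V} (hy : y * z * y⁻¹ = z⁻¹) {e : ℕ} (he : (y * y) ^ 2 ^ e = 1) : Even d := by
  obtain ⟨p, hp, hpq, hch⟩ := exists_char F
  have h2 : (2 : F) = 0 := by
    rw [hq] at hpq
    exact_mod_cast (hch 2).2 hpq
  have hc : y * y * z = z * (y * y) := by
    have h1 : y * z⁻¹ * y⁻¹ = z := by rw [← conj_inv, hy, inv_inv]
    calc y * y * z = y * (y * z * y⁻¹) * y⁻¹ * (y * y) := by group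
      _ = z * (y * y) := by rw [hy, h1]
  have h3 := ux_le hr hd0 ho hzr hU hc Nat.prime_two (by rw [hq]) he
  have hyz : ∀ v, y (z v) = z⁻¹ (y v) := fun v => by
    rw [← hy]
    simp
  have h4 : ∀ v ∈ Ux z, y v ∈ Ux z := by
    rintro _ ⟨u, rfl⟩
    refine ⟨-(z⁻¹ (y u)), ?_⟩
    rw [Nm_apply, Nm_apply, map_sub, hyz]
    simp [neg_add_eq_sub]
  have h5 := half h2 h4 fun v hv => mem_Cx.1 (h3 hv)
  have h6 := half h2 (y := z * y) (U := Ux z) (fun v hv => Ux_inv rfl _ (h4 v hv)) fun v hv => by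
    simp only [LinearEquiv.mul_apply]
    rw [hyz]
    simpa using mem_Cx.1 (h3 hv)
  have h7 := Submodule.finrank_sup_add_finrank_inf_eq (Ux z ⊓ Cx y) (Ux z ⊓ Cx (z * y))
  have h8 : Ux z ⊓ Cx y ⊓ (Ux z ⊓ Cx (z * y)) = ⊥ := by
    refine eq_bot_iff.2 (le_trans ?_ (Ux_inf_Cx hzr (cast_ne_zero hr hd0 ho)).le)
    rintro v ⟨⟨a, b⟩, -, c⟩
    refine ⟨a, mem_Cx.2 ?_⟩
    have c' := mem_Cx.1 c
    rwa [LinearEquiv.mul_apply, mem_Cx.1 b] at c'
  have h9 : finrank F (Ux z ⊓ Cx y ⊔ Ux z ⊓ Cx (z * y) : Submodule F V) ≤ finrank F (Ux z) :=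
    Submodule.finrank_mono (sup_le inf_le_left inf_le_left)
  rw [h8, finrank_bot] at h7
  exact ⟨finrank F (Ux z ⊓ Cx y : Submodule F V), by omega⟩

end Pe

open Pe

/-- PROOF. `D = fixS K W`, `R` a Sylow `r`-subgroup of `D`, `x ∈ Z(R)` of order `r` (`r ≠ p` since
`q` is a unit mod `r`). `V = C(x) ⊕ U`, `U = range (x - 1)`; an `x`-invariant `U₀ ≤ U` has
`q^(dim U₀) ≡ 1 mod r`, so `d ∣ dim U₀`; hence `dim U = d`, `C(x) = W`, `U` is irreducible.
Whatever commutes with `x` stabilises `U` and acts on it through the unit group of the finite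
division ring `End_{F[x]} U` (a field; units cyclic of order prime to `p`); so `R` (faithful on `U`)
is cyclic and `⟨x⟩` is its only subgroup of order `r`. Frattini: `D` is normal in the stabiliser
`K_W`, so every element of `K_W` agrees on `W` with an element of `M = N_{K_W}(⟨x⟩)`.
First case: `a, b ∈ M`, `m = ⁅a,b⁆` centralises `x` (`Aut ⟨x⟩` abelian); `m^N` with `N ≡ 1 mod p`
killing the action on `U` is a transvection of `V` (`s` on `W`, identity on `U`).
Second case (`q = 2`): `m ∈ M` acting as `s` on `W`, replace it by an odd power which is a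
2-element; if it does not centralise `x`, a power `y` inverts `x`, `y²` centralises `x` so is trivial
on `U`; `C_U(y) ⊓ C_U(xy) = ⊥` and both involutions fix at least half of `U`, so `d` is even. -/
theorem per {W : Submodule F V} {r d : ℕ} (hr : r.Prime) (hd : finrank F W + d = finrank F V)
    (hd0 : 0 < d) (ho : orderOf ((Nat.card F : ℕ) : ZMod r) = d) (hdv : r ∣ Nat.card (fixS K W))
    (H : (∃ a b : V ≃ₗ[F] V, a • W = W ∧ b • W = W ∧ Ag K W a ∧ Ag K W b ∧
      TvOn W (a * b * a⁻¹ * b⁻¹)) ∨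
      (Nat.card F = 2 ∧ Odd d ∧ ∃ a : V ≃ₗ[F] V, Ag K W a ∧ TvOn W a)) : ¬ TF K := by
  classical
  have := finGL (F := F) (V := V)
  have := Fact.mk hr
  obtain ⟨P⟩ : Nonempty (Sylow r (fixS K W)) := inferInstance
  have hR : ∀ z ∈ (P : Subgroup (fixS K W)).map (fixS K W).subtype, z ∈ fixS K W := by
    rintro _ ⟨z, -, rfl⟩
    exact z.2
  obtain ⟨x, hx, h1, h2, h3⟩ := exists_cen hr (P.2.map (fixS K W).subtype) fun h =>
    P.ne_bot_of_dvd_card hdv ((Subgroup.map_eq_bot_iff_of_injective _ Subtype.val_injective).1 h)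
  have hN := norm_le hr (cast_ne_zero hr hd0 ho) (W := W)
    (fun h => by rw [h, finrank_top] at hd; omega)
    (fun z hz z1 z2 => (cx_eq hr hd hd0 ho (hR z hz).2 z1 z2).le) hx h1 h2 h3
  have hA : ∀ a : V ≃ₗ[F] V, a • W = W → Ag K W a →
      Ag (K ⊓ Subgroup.normalizer (Subgroup.zpowers x : Set (V ≃ₗ[F] V))) W a :=
    fun a ha h => ag_mono (frat_ag P ha h) (inf_le_inf_left _ hN)
  rcases H with ⟨a, b, ha, hb, ha', hb', ht⟩ | ⟨hq, hodd, a, ha, ht⟩
  · obtain ⟨c, hc, e⟩ := ag_comm (M' := K ⊓ Subgroup.centralizer {x}) (hA a ha ha') (hA b hb hb')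
      ha hb fun m hm m' hm' => ⟨K.mul_mem (K.mul_mem (K.mul_mem hm.1 hm'.1) (K.inv_mem hm.1))
        (K.inv_mem hm'.1), Subgroup.mem_centralizer_singleton_iff.2 (comm_of_norm hm.2 hm'.2)⟩
    exact not_tf_comm hr hd hd0 ho (hR x hx).2 h1 h2 hc.1
      (Subgroup.mem_centralizer_singleton_iff.1 hc.2) (tv_congr ht e)
  · obtain ⟨m₀, hm₀, e⟩ := hA a (tv_smul ht) ha
    obtain ⟨k, n, hk, hn⟩ := exists_pow_p m₀ Nat.prime_two
    obtain ⟨p, hp, hpq, hch⟩ := exists_char F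
    obtain rfl : p = 2 := (Nat.prime_dvd_prime_iff_eq hp Nat.prime_two).1 (hq ▸ hpq)
    have ht' := tv_pow (tv_congr ht e) fun h => hk ((hch k).1 h)
    have hm := Subgroup.pow_mem _ hm₀ k
    generalize m₀ ^ k = m at hn ht' hm
    have hex : ∃ j, m ^ 2 ^ j * x = x * m ^ 2 ^ j := ⟨n, by rw [hn, one_mul, mul_one]⟩
    have hj := Nat.find_spec hex
    rcases hj0 : Nat.find hex with _ | j
    · rw [hj0, pow_zero, pow_one] at hj
      exact not_tf_comm hr hd hd0 ho (hR x hx).2 h1 h2 hm.1 hj ht'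
    have hj' := Nat.find_min hex (m := j) (by omega)
    rw [hj0, pow_succ, pow_mul, sq] at hj
    have hy := (Subgroup.pow_mem _ hm (2 ^ j)).2
    have hyn : (m ^ 2 ^ j * m ^ 2 ^ j) ^ 2 ^ n = 1 := by
      rw [← sq, ← pow_mul (m ^ 2 ^ j), pow_right_comm, mul_comm, pow_mul, hn, one_pow, one_pow]
    generalize m ^ 2 ^ j = y at hj hj' hy hyn
    obtain ⟨i, hi⟩ := (Subgroup.mem_normalizer_iff.1 hy x).1 (Subgroup.mem_zpowers x)
    change x ^ i = _ at hi
    have hz1 : x ^ (i - 1) ≠ 1 := fun h => hj' (by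
      rw [zpow_sub_one, hi, mul_inv_eq_one, mul_inv_eq_iff_eq_mul] at h
      exact h)
    have hz2 : (x ^ (i - 1)) ^ r = 1 := by
      rw [← zpow_natCast, ← zpow_mul, mul_comm, zpow_mul, zpow_natCast, h2, one_zpow]
    have hz3 : y * x ^ (i - 1) * y⁻¹ = (x ^ (i - 1))⁻¹ := by
      have h4 : y * x ^ i * y⁻¹ = x := by
        rw [hi]
        calc y * (y * x * y⁻¹) * y⁻¹ = (y * y * x) * (y * y)⁻¹ := by group
          _ = x := by rw [hj]; group
      calc y * x ^ (i - 1) * y⁻¹ = (y * x ^ i * y⁻¹) * (y * x * y⁻¹)⁻¹ := by group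
        _ = (x ^ (i - 1))⁻¹ := by rw [h4, ← hi]; group
    have h5 := rank_add (x ^ (i - 1))
    rw [cx_eq hr hd hd0 ho ((fixS K W).zpow_mem (hR x hx) _).2 hz1 hz2] at h5
    exact absurd (even_of_inv hr hd0 ho hq hz2 (by omega) hz3 hyn) (Nat.not_even_iff_odd.2 hodd)

/-- PROOF. Basis `e₁, e₂, ..` of `W` extended to `V`: `E₁₃ = ⁅E₁₂, E₂₃⁆` if `dim W ≥ 3`;
`⁅diag(a,1), E₁₂(1)⁆ = E₁₂(a - 1)` if `q > 2`; otherwise `q = 2` and `d` is odd. -/
theorem per_full {W : Submodule F V} {r d : ℕ} (hr : r.Prime)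
    (hd : finrank F W + d = finrank F V) (hd0 : 0 < d)
    (ho : orderOf ((Nat.card F : ℕ) : ZMod r) = d) (hdv : r ∣ Nat.card (fixS K W))
    (hW : 2 ≤ finrank F W) (hF : Full K W)
    (H : 3 ≤ finrank F W ∨ 2 < Nat.card F ∨ Odd d) : ¬ TF K := by
  refine per hr hd hd0 ho hdv ?_
  obtain ⟨e, f, he, h1, h0⟩ := exists_dual W
  have hne : ∀ i, e i ≠ 0 := fun i h => by simpa [h] using h1 i
  by_cases h3 : 3 ≤ finrank F W
  · let i : Fin (finrank F W) := ⟨0, by omega⟩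
    let j : Fin (finrank F W) := ⟨1, by omega⟩
    let k : Fin (finrank F W) := ⟨2, by omega⟩
    have hji : f j (e i) = 0 := h0 _ _ (by simp [i, j])
    have hkj : f k (e j) = 0 := h0 _ _ (by simp [k, j])
    have hki : f k (e i) = 0 := h0 _ _ (by simp [k, i])
    refine Or.inl ⟨_, _, tv_stab hji (he i), tv_stab hkj (he j), hF _ (tv_stab hji (he i)),
      hF _ (tv_stab hkj (he j)), ?_⟩
    rw [tv_comm hji hkj hki (h1 j)]
    exact tv_on hki (he i) (hne i) (he k) (by simp [h1])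
  let i : Fin (finrank F W) := ⟨0, by omega⟩
  let j : Fin (finrank F W) := ⟨1, by omega⟩
  have hji : f j (e i) = 0 := h0 _ _ (by simp [i, j])
  by_cases hq : 2 < Nat.card F
  · obtain ⟨c, hc0, hc1⟩ : ∃ c : F, c ≠ 0 ∧ c ≠ -1 := by
      by_contra hn
      push Not at hn
      have h4 : (Set.univ : Set F) ⊆ {0, -1} := fun c _ => (eq_or_ne c 0).imp id (hn c)
      have h5 := (Set.ncard_le_ncard h4).trans (Set.ncard_insert_le _ _)
      rw [Set.ncard_univ, Set.ncard_singleton] at h5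
      omega
    have hu : IsUnit (1 + (c • f i) (e i)) := by
      rw [LinearMap.smul_apply, h1, smul_eq_mul, mul_one, isUnit_iff_ne_zero]
      exact fun h => hc1 (eq_neg_of_add_eq_zero_right h)
    have ha : LinearEquiv.dilatransvection hu • W = W := smul_eq_of_le fun w hw => by
      rw [LinearEquiv.dilatransvection.apply]
      exact W.add_mem hw (W.smul_mem _ (he i))
    have hc : (c • f j) (e i) = 0 := by simp [hji]
    refine Or.inl ⟨_, _, ha, tv_stab hji (he i), hF _ ha, hF _ (tv_stab hji (he i)), ?_⟩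
    have : LinearEquiv.dilatransvection hu * LinearEquiv.transvection hji *
        (LinearEquiv.dilatransvection hu)⁻¹ * (LinearEquiv.transvection hji)⁻¹ =
        LinearEquiv.transvection hc := by
      rw [mul_inv_eq_iff_eq_mul, mul_inv_eq_iff_eq_mul]
      ext x
      simp only [LinearEquiv.mul_apply, LinearEquiv.transvection.apply,
        LinearEquiv.dilatransvection.apply, map_add, map_smul, hji, h1, LinearMap.smul_apply,
        smul_eq_mul]
      module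
    rw [this]
    exact tv_on hc (he i) (hne i) (he j) (by simp [h1, hc0])
  · have h2 : 1 < Nat.card F := Finite.one_lt_card
    exact Or.inr ⟨by omega, (H.resolve_left h3).resolve_left hq, _, hF _ (tv_stab hji (he i)),
      tv_on hji (he i) (hne i) (he j) (by simp [h1])⟩

/-- PROOF. Cauchy gives `x ∈ K` of order `r`; `W = C(x)`, `dim range (x - 1)` is a positive multiple
of `d` and at most `n < 2d`. -/
theorem exists_fix {r d : ℕ} (hr : r.Prime) (hd0 : 0 < d) (hn : finrank F V < 2 * d)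
    (ho : orderOf ((Nat.card F : ℕ) : ZMod r) = d) (hdv : r ∣ Nat.card K) :
    ∃ W : Submodule F V, finrank F W + d = finrank F V ∧ r ∣ Nat.card (fixS K W) := by
  have := finGL (F := F) (V := V)
  obtain ⟨x, hx, h1, h2⟩ := exists_ord hr hdv
  refine ⟨Cx x, ?_, dvd_card_of_mem hr (x := x) ⟨hx, fun w hw => mem_Cx.1 hw⟩ h1 h2⟩
  have h3 := dvd_sub (k := 1) hr (by rwa [pow_one]) hd0 ho (A := ⊤) (g := x) (fun _ _ => trivial)
  rw [top_inf_eq, finrank_top] at h3
  have h4 : finrank F (Cx x) < finrank F V := Submodule.finrank_lt fun e => h1 (Cx_eq_top.1 e)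
  obtain ⟨k, hk⟩ := h3
  rcases k with _ | _ | k
  · omega
  · omega
  · have : d * (k + 1 + 1) = 2 * d + d * k := by ring
    omega

theorem Pe.dvd_GL {r d : ℕ} (hd0 : 0 < d) (hdn : d ≤ finrank F V)
    (ho : orderOf ((Nat.card F : ℕ) : ZMod r) = d) :
    r ∣ Nat.card (⊤ : Subgroup (V ≃ₗ[F] V)) := by
  rw [Subgroup.card_top, card_GL]
  refine dvd_trans ?_ (Finset.dvd_prod_of_mem _ (Finset.mem_univ ⟨finrank F V - d, by omega⟩))
  refine (Nat.modEq_iff_dvd' (Nat.pow_le_pow_right Nat.card_pos (Nat.sub_le _ _))).1 ?_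
  rw [← ZMod.natCast_eq_natCast_iff]
  push_cast
  rw [(orderOf_pos_iff.1 (ho ▸ hd0)).pow_eq_pow_iff_modEq, ho]
  exact (Nat.modEq_iff_dvd' (Nat.sub_le _ _)).2 (by rw [Nat.sub_sub_self hdn])

/-- PROOF. The stabiliser `K_W` is transitive on the `(q^d-1)/(q-1)` subspaces `A` (`r` divides this
number as `d ≥ 2`), `K_W / fixS K W` embeds in `GL(W)` whose order is prime to `r`. -/
theorem dvd_fix_of_flag {W : Submodule F V} {r d : ℕ} (hr : r.Prime)
    (hd : finrank F W + d = finrank F V) (hd2 : 2 ≤ d) (hW : finrank F W < d)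
    (ho : orderOf ((Nat.card F : ℕ) : ZMod r) = d)
    (ht : ∀ A A' : Submodule F V, Hyp A W → Hyp A' W → ∃ k ∈ K, k • W = W ∧ k • A = A') :
    r ∣ Nat.card (fixS K W) := by
  have := finGL (F := F) (V := V)
  have hd0 : 0 < d := by omega
  have hfix : ∀ x : V ≃ₗ[F] V, x • W = W → x ^ r = 1 → W ≤ Cx x := fun x hx hxr =>
    le_Cx (k := 1) hr (by rwa [pow_one]) hd0 ho (B := ⊥) (fun _ hv => mem_of_smul hx hv) bot_le
      bot_le (by omega)
  obtain ⟨A, hA, hA'⟩ := exists_le_finrank W (j := finrank F W + 1) (by omega) (by omega)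
  obtain ⟨W₀, h0, h0'⟩ := exists_fix (K := (⊤ : Subgroup (V ≃ₗ[F] V))) hr hd0 (by omega) ho (dvd_GL hd0 (by omega) ho)
  obtain ⟨x, hx, h1, h2⟩ := exists_ord hr h0'
  obtain ⟨g, rfl⟩ := exists_smul_eq (A := W₀) (B := W) (by omega)
  have h3 : r ∣ Nat.card (MulAction.stabilizer (V ≃ₗ[F] V) (g • W₀)) := by
    refine dvd_card_of_mem hr (x := g * x * g⁻¹) ?_ (by simpa using h1)
      (by rw [conj_pow, h2, mul_one, mul_inv_cancel])
    rw [MulAction.mem_stabilizer_iff, mul_smul, mul_smul, inv_smul_smul,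
      smul_eq_of_le (g := x) fun w hw => by rwa [hx.2 w hw]]
  generalize g • W₀ = W at *
  have h4 := dvd_of_orbit (L := K ⊓ MulAction.stabilizer (V ≃ₗ[F] V) W) inf_le_right A
    (fun h hh => by
      have h5 : Hyp A W := ⟨hA, hA'.symm⟩
      have h6 := h5.smul h
      rw [MulAction.mem_stabilizer_iff.1 hh] at h6
      obtain ⟨k, hk, e1, e2⟩ := ht _ _ h5 h6
      exact ⟨k, ⟨hk, e1⟩, e2⟩) hr h3 fun y hy hyA hyr => by
      have h5 := le_Cx (k := 1) hr (by rwa [pow_one]) hd0 ho (fun _ hv => mem_of_smul hyA hv) hA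
        (hfix y hy hyr) (by omega)
      exact Cx_eq_top.1 (top_le_iff.1 (le_Cx (k := 1) hr (by rwa [pow_one]) hd0 ho (A := ⊤)
        (fun _ _ => trivial) le_top h5 (by rw [finrank_top]; omega)))
  obtain ⟨y, hy, h5, h6⟩ := exists_ord hr h4
  exact dvd_card_of_mem hr (x := y) ⟨hy.1, fun w hw => mem_Cx.1 (hfix y hy.2 h6 hw)⟩ h5 h6

/-- PROOF. `GL(V)` is transitive on `j`-spaces with stabiliser of order
`|GL_j| |GL_(n-j)| q^(j(n-j))`, prime to `r`, while `r ∣ |GL_n|`; so `r` divides the number of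
`j`-spaces, which divides `|K|`. (Or count independent `j`-tuples, `card_linearIndependent`.) -/
theorem dvd_card_of_subTr {r d j : ℕ} (hr : r.Prime) (hj : j < d) (hn : finrank F V < j + d)
    (hdn : d ≤ finrank F V) (ho : orderOf ((Nat.card F : ℕ) : ZMod r) = d) (ht : SubTr K j) :
    r ∣ Nat.card K := by
  have := finGL (F := F) (V := V)
  have hd0 : 0 < d := by omega
  obtain ⟨A, -, hA⟩ := exists_le_finrank (⊥ : Submodule F V) (j := j) (by simp) (by omega)
  refine dvd_of_orbit (H := ⊤) le_top A (fun h _ => ht _ _ hA (by rw [finrank_smul, hA])) hr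
    (dvd_GL hd0 hdn ho) fun y _ hyA hyr => ?_
  have h5 := le_Cx (k := 1) hr (by rwa [pow_one]) hd0 ho (B := ⊥)
    (fun _ hv => mem_of_smul hyA hv) bot_le bot_le (by omega)
  exact Cx_eq_top.1 (top_le_iff.1 (le_Cx (k := 1) hr (by rwa [pow_one]) hd0 ho (A := ⊤)
    (fun _ _ => trivial) le_top h5 (by rw [finrank_top]; omega)))

end CL.PL
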