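/-
Rank three actions of the linear groups: the argument of Perin without a primitive prime.
-/
import Cfsg.Agent.CLAS.PL.Per
import Cfsg.Agent.KSG.Zsigmondy

set_option autoImplicit false
set_option linter.unusedSectionVars false

namespace CL.PL

open Module Submodule
open scoped Pointwise

variable {F : Type*} [Field F] [Finite F] {V : Type*} [AddCommGroup V] [Module F V]
  [FiniteDimensional F V] {K : Subgroup (V ≃ₗ[F] V)}

namespace Pe

variable {W : Submodule F V}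

variable (K W) in
/-- The action on the quotient. -/
def qh : fixS K W →* ((V ⧸ W) ≃ₗ[F] (V ⧸ W)) where
  toFun k := Submodule.Quotient.equiv W W k.1 (smul_eq_of_le fun w hw => by rwa [k.2.2 w hw])
  map_one' := LinearEquiv.ext fun q => by
    induction q using Submodule.Quotient.induction_on
    rfl
  map_mul' a b := LinearEquiv.ext fun q => by
    induction q using Submodule.Quotient.induction_on
    rfl

theorem qh_mk (k : fixS K W) (v : V) :
    qh K W k (Submodule.Quotient.mk v) = Submodule.Quotient.mk (k.1 v) := rfl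

theorem exists_idx {d : ℕ} (hd : finrank F W + d = finrank F V)
    (ht : ∀ y ∉ W, ∀ y' ∉ W, ∃ k ∈ fixS K W, k y - y' ∈ W) {y : V} (hy : y ∉ W) :
    ∃ S : Subgroup (fixS K W), S.index = Nat.card F ^ d - 1 ∧ ∀ k : fixS K W, k.1 y = y → k ∈ S := by
  have : Finite V := Module.finite_of_finite F
  have : Finite (V ⧸ W) := Module.finite_of_finite F
  let := MulAction.compHom (V ⧸ W) (qh K W)
  refine ⟨MulAction.stabilizer (fixS K W) (Submodule.Quotient.mk y : V ⧸ W), ?_, fun k hk => ?_⟩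
  · have h1 : MulAction.orbit (fixS K W) (Submodule.Quotient.mk y : V ⧸ W) = {0}ᶜ := by
      ext q
      induction q using Submodule.Quotient.induction_on with | _ v => ?_
      rw [Set.mem_compl_singleton_iff, Ne, Submodule.Quotient.mk_eq_zero]
      constructor
      · rintro ⟨k, hk⟩ hv
        have h2 : k.1 y - v ∈ W := (Submodule.Quotient.eq W).1 hk
        have h3 : k.1 y ∈ W := by simpa using W.add_mem h2 hv
        exact hy (k.1.injective (k.2.2 _ h3) ▸ h3)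
      · intro hv
        obtain ⟨k, hk, e⟩ := ht y hy v hv
        exact ⟨⟨k, hk⟩, (Submodule.Quotient.eq W).2 e⟩
    have h2 := W.finrank_quotient_add_finrank
    rw [MulAction.index_stabilizer, h1, Set.ncard_compl ({0} : Set (V ⧸ W)), Set.ncard_singleton,
      Module.natCard_eq_pow_finrank (K := F), show finrank F (V ⧸ W) = d by omega]
  · change qh K W k (Submodule.Quotient.mk y) = _
    rw [qh_mk, hk]

theorem exists_not_mem {d : ℕ} (hd : finrank F W + d = finrank F V) (hd0 : 0 < d) : ∃ y, y ∉ W := by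
  by_contra h
  push Not at h
  rw [Submodule.eq_top_iff'.2 h, finrank_top] at hd
  omega

theorem two_perm {G X : Type*} [Group G] [MulAction G X] {p q : X} (hpq : p ≠ q) {a b : G}
    (h1 : a • p = p ∨ a • p = q) (h2 : a • q = p ∨ a • q = q) (h3 : b • p = p ∨ b • p = q)
    (h4 : b • q = p ∨ b • q = q) :
    (a * b * a⁻¹ * b⁻¹) • p = p ∧ (a * b * a⁻¹ * b⁻¹) • q = q := by
  have key : ∀ a : G, (a • p = p ∨ a • p = q) → (a • q = p ∨ a • q = q) →
      (a • p = p ∧ a • q = q ∧ a⁻¹ • p = p ∧ a⁻¹ • q = q) ∨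
        (a • p = q ∧ a • q = p ∧ a⁻¹ • p = q ∧ a⁻¹ • q = p) := by
    rintro a (h | h) (h' | h')
    · exact absurd (MulAction.injective a (h.trans h'.symm)) hpq
    · exact Or.inl ⟨h, h', inv_smul_eq_iff.2 h.symm, inv_smul_eq_iff.2 h'.symm⟩
    · exact Or.inr ⟨h, h', inv_smul_eq_iff.2 h'.symm, inv_smul_eq_iff.2 h.symm⟩
    · exact absurd (MulAction.injective a (h.trans h'.symm)) hpq
  rcases key a h1 h2 with ⟨a1, a2, a3, a4⟩ | ⟨a1, a2, a3, a4⟩ <;>
    rcases key b h3 h4 with ⟨b1, b2, b3, b4⟩ | ⟨b1, b2, b3, b4⟩ <;>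
    simp only [mul_smul, a1, a2, a3, a4, b1, b2, b3, b4, and_self]

theorem ord7 (hq : Nat.card F = 2) : orderOf ((Nat.card F : ℕ) : ZMod 7) = 3 := by
  have := Fact.mk Nat.prime_three
  rw [hq]
  exact orderOf_eq_prime (by decide) (by decide)

theorem seven_ne (hq : Nat.card F = 2) : ((7 : ℕ) : F) ≠ 0 :=
  cast_ne_zero Nat.prime_seven three_pos (ord7 hq)

theorem two_eq (hq : Nat.card F = 2) {k : ℕ} : (k : F) = 0 ↔ 2 ∣ k := by
  obtain ⟨p, hp, hpq, hch⟩ := exists_char F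
  obtain rfl : p = 2 := (Nat.prime_dvd_prime_iff_eq hp Nat.prime_two).1 (hq ▸ hpq)
  exact hch k

theorem fin6 (hq : Nat.card F = 2) (hd : finrank F W + 6 = finrank F V) (hW : 3 ≤ finrank F W)
    {x : V ≃ₗ[F] V} (hx : x ^ 7 = 1) (hC : Cx x = W) {M₀ M₁ : Subgroup (V ≃ₗ[F] V)}
    (h0 : ∀ a : V ≃ₗ[F] V, a • W = W → Ag M₀ W a)
    (h1 : ∀ m ∈ M₀, ∀ m' ∈ M₀, m * m' * m⁻¹ * m'⁻¹ ∈ M₁)
    (h2 : ∀ m ∈ M₁, ∀ m' ∈ M₁, m * m' * m⁻¹ * m'⁻¹ ∈ K ⊓ Subgroup.centralizer {x}) : ¬ TF K := by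
  have := finGL (F := F) (V := V)
  obtain ⟨e, f, he, e1, e0⟩ := exists_dual W
  have step : ∀ M M' : Subgroup (V ≃ₗ[F] V), (∀ m ∈ M, ∀ m' ∈ M, m * m' * m⁻¹ * m'⁻¹ ∈ M') →
      (∀ a b (h : f b (e a) = 0), b ≠ a → Ag M W (LinearEquiv.transvection h)) →
      ∀ a b (h : f b (e a) = 0), b ≠ a → Ag M' W (LinearEquiv.transvection h) := by
    intro M M' hM H a b h hab
    obtain ⟨c, hca, hcb⟩ : ∃ c, c ≠ a ∧ b ≠ c := by
      by_contra hn
      push Not at hn
      have a0 := hn ⟨0, by omega⟩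
      have a1 := hn ⟨1, by omega⟩
      have a2 := hn ⟨2, by omega⟩
      simp only [Ne, Fin.ext_iff] at a0 a1 a2
      omega
    rw [← tv_comm (e0 c a hca) (e0 b c hcb) h (e1 c)]
    exact ag_comm (H _ _ _ hca) (H _ _ _ hcb) (tv_stab _ (he a)) (tv_stab _ (he c)) hM
  have h3 := step _ _ h2 (step _ _ h1 fun a b h _ => h0 _ (tv_stab h (he a)))
  let i : Fin (finrank F W) := ⟨0, by omega⟩
  let j : Fin (finrank F W) := ⟨1, by omega⟩
  let k : Fin (finrank F W) := ⟨2, by omega⟩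
  have hji : f j (e i) = 0 := e0 _ _ (by simp [i, j])
  have hkj : f k (e j) = 0 := e0 _ _ (by simp [k, j])
  have hki : f k (e i) = 0 := e0 _ _ (by simp [k, i])
  have h4 := ag_mul (h3 _ _ hji (by simp [i, j])) (h3 _ _ hkj (by simp [k, j])) (tv_stab _ (he j))
  obtain ⟨m, hm, em⟩ := h4
  have ht2 : (2 : F) = 0 := by exact_mod_cast (two_eq hq).2 (dvd_refl 2)
  have hs : (LinearEquiv.transvection hji * LinearEquiv.transvection hkj) • W = W := by
    rw [mul_smul, tv_stab _ (he j), tv_stab _ (he i)]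
  have h5 : TvOn W (m * m) := by
    refine ⟨f k, e i, he i, fun h => by simpa [h] using e1 i, hki, ⟨e k, he k, by simp [e1]⟩,
      fun w hw => ?_⟩
    rw [LinearEquiv.mul_apply, em w hw, em _ (mem_of_smul hs hw)]
    have : w + f k w • e i =
        w + f k w • e i + (2 : F) • (f k w • e j + (f j w + f k w) • e i) := by
      rw [ht2, zero_smul, add_zero]
    rw [this]
    simp only [LinearEquiv.mul_apply, LinearEquiv.transvection.apply, map_add, map_smul, hji, hkj,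
      hki, e1]
    module
  obtain ⟨l, n, hl, hn⟩ := exists_pow_p m Nat.prime_two
  have h6 := tv_pow h5 fun h => hl ((two_eq hq).1 h)
  rw [(Commute.refl m).mul_pow] at h6
  have hm' := Subgroup.pow_mem _ hm l
  generalize m ^ l = c at hn h6 hm'
  have hc : c * x = x * c := Subgroup.mem_centralizer_singleton_iff.1 hm'.2
  have h7 := isCompl hx (seven_ne hq)
  have h8 := rank_add x
  rw [hC] at h7 h8
  refine not_tf (K.mul_mem hm'.1 hm'.1) h6 h7 fun v hv => ?_
  have hb := Ux_inf_Cx hx (seven_ne hq)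
  have i1 := Ux_inv hc
  have i2 := map_inv_of (g := c) rfl i1
  have j1 := map_inv_of hc.symm (Ux_inv (g := x) rfl)
  have j2 := map_inv_of hc.symm j1
  have l1 := map_le_of i1
  have l2 := (map_le_of i2).trans l1
  have d1 := dvd_rank Nat.prime_seven hx three_pos (ord7 hq) j1
    (eq_bot_iff.2 ((inf_le_inf_right _ l1).trans hb.le))
  have d2 := dvd_rank Nat.prime_seven hx three_pos (ord7 hq) j2
    (eq_bot_iff.2 ((inf_le_inf_right _ l2).trans hb.le))
  have r1 := rank_map_lt Nat.prime_two (by rw [hq]) hn i1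
    (fun h => by rw [h, finrank_bot] at h8; omega)
  have h9 : ((Ux x).map (Nm c)).map (Nm c) = ⊥ := by
    by_cases h : (Ux x).map (Nm c) = ⊥
    · rw [h, Submodule.map_bot]
    have r2 := rank_map_lt Nat.prime_two (by rw [hq]) hn i2 h
    exact Submodule.finrank_eq_zero.1 (by omega)
  have h10 : Nm c (Nm c v) = 0 :=
    (Submodule.eq_bot_iff _).1 h9 _ (Submodule.mem_map_of_mem (Submodule.mem_map_of_mem hv))
  rw [Nm_apply, Nm_apply, map_sub] at h10
  rw [mem_Cx, LinearEquiv.mul_apply]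
  have : c (c v) = v + (c (c v) - c v - (c v - v)) + (2 : F) • (c v - v) := by module
  rw [this, h10, ht2, zero_smul, add_zero, add_zero]

/-- Elements of order seven with extra fixed vectors. -/
def SS (R : Subgroup (V ≃ₗ[F] V)) (W : Submodule F V) (s : V ≃ₗ[F] V) : Prop :=
  s ∈ R ∧ s ≠ 1 ∧ s ^ 7 = 1 ∧ ¬ Cx s ≤ W

section
variable (hq : Nat.card F = 2) (hd : finrank F W + 6 = finrank F V) {R : Subgroup (V ≃ₗ[F] V)}
  (hR : ∀ g ∈ R, W ≤ Cx g) (hc : ∀ a ∈ R, ∀ b ∈ R, a * b = b * a) {s u : V ≃ₗ[F] V}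
include hq hd hR

theorem SS.dim (h : SS R W s) :
    finrank F (Cx s) = finrank F W + 3 ∧ finrank F (Ux s) = 3 := by
  have h1 := dvd_sub (k := 1) Nat.prime_seven (by rw [pow_one, h.2.2.1]) three_pos (ord7 hq)
    (A := ⊤) (g := s) (fun _ _ => trivial)
  rw [top_inf_eq, finrank_top] at h1
  have h2 : finrank F (Cx s) < finrank F V := Submodule.finrank_lt fun e => h.2.1 (Cx_eq_top.1 e)
  have h3 := Submodule.finrank_lt_finrank_of_lt (lt_of_le_not_ge (hR s h.1) h.2.2.2)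
  have h4 := rank_add s
  omega

theorem SS.not_le (h : SS R W s) : ¬ Ux s ≤ Cx s := fun hle => by
  have h1 := Ux_inf_Cx h.2.2.1 (seven_ne hq)
  have h2 := (h.dim hq hd hR).2
  rw [inf_eq_left.2 hle] at h1
  rw [h1, finrank_bot] at h2
  omega

theorem SS.of_le (h : SS R W s) (hu : u ∈ R) (h1 : u ≠ 1) (h7 : u ^ 7 = 1) (hle : Ux s ≤ Cx u) :
    SS R W u ∧ Cx u = W ⊔ Ux s := by
  have h2 : SS R W u := ⟨hu, h1, h7, fun h' => h.not_le hq hd hR (hle.trans (h'.trans (hR s h.1)))⟩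
  refine ⟨h2, (Submodule.eq_of_le_of_finrank_le (sup_le (hR u hu) hle) ?_).symm⟩
  have h3 := Submodule.finrank_sup_add_finrank_inf_eq W (Ux s)
  have h4 : W ⊓ Ux s = ⊥ := eq_bot_iff.2 ((inf_le_inf_right _ (hR s h.1)).trans
    ((inf_comm _ _).le.trans (Ux_inf_Cx h.2.2.1 (seven_ne hq)).le))
  rw [h4, finrank_bot] at h3
  have := h2.dim hq hd hR
  have := h.dim hq hd hR
  omega

theorem SS.conj (h : SS R W s) {m : V ≃ₗ[F] V}
    (hm : m ∈ Subgroup.normalizer (R : Set (V ≃ₗ[F] V))) : SS R W (m * s * m⁻¹) := by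
  refine ⟨(Subgroup.mem_normalizer_iff.1 hm s).1 h.1, by simpa using h.2.1,
    by rw [conj_pow, h.2.2.1, mul_one, mul_inv_cancel], fun hle => ?_⟩
  have h1 := Submodule.finrank_mono hle
  rw [Cx_conj, finrank_smul, (h.dim hq hd hR).1] at h1
  omega

include hc

theorem SS.reg (h : SS R W s) {g : V ≃ₗ[F] V} (hg : g ∈ R) : ∃ i : ℕ, Ux s ≤ Cx (s ^ i * g) := by
  have : Finite V := Module.finite_of_finite F
  have := finGL (F := F) (V := V)
  have := Fact.mk Nat.prime_seven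
  have hb := Ux_inf_Cx h.2.2.1 (seven_ne hq)
  obtain ⟨v, hv, hv'⟩ := SetLike.not_le_iff_exists.1 (h.not_le hq hd hR)
  have hv0 : v ≠ 0 := fun e => hv' (e ▸ Submodule.zero_mem _)
  have hgv := Ux_inv (hc g hg s h.1) v hv
  have hgv0 : g v ≠ 0 := by simpa using hv0
  have h1 : MulAction.orbit (Subgroup.zpowers s) (g v) ⊆ (Ux s : Set V) \ {0} := by
    rintro _ ⟨⟨_, hz⟩, rfl⟩
    obtain ⟨n, rfl⟩ := mem_powers_iff_mem_zpowers.2 hz
    exact ⟨pow_mem (Ux_inv rfl) n _ hgv, fun e => hgv0 ((s ^ n).map_eq_zero_iff.1 e)⟩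
  have h2 : ((Ux s : Set V) \ {0}).ncard = 7 := by
    rw [Set.ncard_sdiff_singleton_of_mem (Submodule.zero_mem _), ← Nat.card_coe_set_eq]
    change Nat.card (Ux s) - 1 = 7
    rw [Module.natCard_eq_pow_finrank (K := F), hq, (h.dim hq hd hR).2]
    rfl
  have h3 := (MulAction.stabilizer (Subgroup.zpowers s) (g v)).index_dvd_card
  rw [Nat.card_zpowers, orderOf_eq_prime h.2.2.1 h.2.1] at h3
  rcases (Nat.dvd_prime Nat.prime_seven).1 h3 with h4 | h4
  · have h5 : (⟨s, Subgroup.mem_zpowers s⟩ : Subgroup.zpowers s) ∈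
        MulAction.stabilizer (Subgroup.zpowers s) (g v) := by
      rw [Subgroup.index_eq_one.1 h4]
      trivial
    exact absurd ((Submodule.eq_bot_iff _).1 hb _ ⟨hgv, mem_Cx.2 h5⟩) hgv0
  rw [MulAction.index_stabilizer] at h4
  have h5 := Set.eq_of_subset_of_ncard_le h1 (by omega)
  obtain ⟨⟨_, hz⟩, e⟩ : v ∈ MulAction.orbit (Subgroup.zpowers s) (g v) := h5 ▸ ⟨hv, hv0⟩
  obtain ⟨i, rfl⟩ := mem_powers_iff_mem_zpowers.2 hz
  refine ⟨i, ?_⟩
  have hcs := hc s h.1 _ (R.mul_mem (R.pow_mem h.1 i) hg)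
  have h6 := dvd_rank Nat.prime_seven h.2.2.1 three_pos (ord7 hq) (A := Ux s ⊓ Cx (s ^ i * g))
    (fun x hx => ⟨Ux_inv rfl x hx.1, Cx_inv hcs x hx.2⟩)
    (eq_bot_iff.2 ((inf_le_inf_right _ inf_le_left).trans hb.le))
  have h7 : finrank F (Ux s ⊓ Cx (s ^ i * g) : Submodule F V) ≠ 0 := fun h0 =>
    hv0 ((Submodule.eq_bot_iff _).1 (Submodule.finrank_eq_zero.1 h0) v ⟨hv, mem_Cx.2 e⟩)
  have h8 := (h.dim hq hd hR).2
  exact inf_eq_left.1 (Submodule.eq_of_le_of_finrank_le inf_le_left (by omega))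

theorem SS.mem_W (h : SS R W s) (hu : u ∈ R) (hC : Cx u = W ⊔ Ux s) {i : ℕ} (hi : s ^ i ≠ 1) {v : V}
    (hv : u v = (s ^ i) v) : v ∈ W := by
  have := finGL (F := F) (V := V)
  have hb := (Submodule.eq_bot_iff _).1 (Ux_inf_Cx h.2.2.1 (seven_ne hq))
  obtain ⟨c, hc', e, he, rfl⟩ := Submodule.mem_sup.1
    ((isCompl h.2.2.1 (seven_ne hq)).sup_eq_top ▸ Submodule.mem_top (x := v))
  rw [map_add, map_add, mem_Cx.1 (hC.ge (Submodule.mem_sup_right he)),
    pow_fix (mem_Cx.1 hc')] at hv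
  have h1 : u c - c = (s ^ i) e - e := by rw [sub_eq_sub_iff_add_eq_add, hv, add_comm]
  have h2 : u c - c = 0 := hb _ ⟨h1 ▸ Submodule.sub_mem _ (pow_mem (Ux_inv rfl) i e he) he,
    Submodule.sub_mem _ (Cx_inv (hc u hu s h.1) c hc') hc'⟩
  have h3 : e = 0 := hb e ⟨he, Cx_le_of_mem (mem_zpowers_pow Nat.prime_seven h.2.2.1 hi)
    (h1.symm.trans h2)⟩
  obtain ⟨w, hw, e', he', rfl⟩ := Submodule.mem_sup.1 (hC.le (show c ∈ Cx u from h2))
  rw [h3, add_zero, hb e' ⟨he', (Submodule.add_mem_iff_right _ (hR s h.1 hw)).1 hc'⟩, add_zero]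
  exact hw

theorem SS.dich (h : SS R W s) (hu : SS R W u) : u ∈ Subgroup.zpowers s ∨ Cx u = W ⊔ Ux s := by
  obtain ⟨i, hi⟩ := h.reg hq hd hR hc hu.1
  by_cases h1 : s ^ i * u = 1
  · rw [eq_inv_of_mul_eq_one_right h1]
    exact Or.inl (Subgroup.inv_mem _ (Subgroup.pow_mem _ (Subgroup.mem_zpowers s) i))
  have hm := R.mul_mem (R.pow_mem h.1 i) hu.1
  have hcm : Commute s u := hc s h.1 u hu.1
  have h2 := (h.of_le hq hd hR hm h1 (by rw [(hcm.pow_left i).mul_pow, hu.2.2.1, pow_right_comm,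
    h.2.2.1, one_pow, one_mul]) hi).2
  by_cases h3 : s ^ i = 1
  · rw [h3, one_mul] at h2
    exact Or.inr h2
  exact absurd (fun v hv => h.mem_W hq hd hR hc hm h2 h3
    (by rw [LinearEquiv.mul_apply, mem_Cx.1 hv])) hu.2.2.2

theorem SS.norm (h : SS R W s) {m : V ≃ₗ[F] V} (hm : m ∈ Subgroup.normalizer (R : Set (V ≃ₗ[F] V)))
    (e : m • Cx s = Cx s) : m ∈ Subgroup.normalizer (Subgroup.zpowers s : Set (V ≃ₗ[F] V)) := by
  have := finGL (F := F) (V := V)
  refine norm_of_mem ((h.dich hq hd hR hc (h.conj hq hd hR hm)).resolve_right fun h1 => ?_)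
  rw [Cx_conj, e] at h1
  exact h.not_le hq hd hR (h1 ▸ le_sup_right)

end

theorem comm_P (hq : Nat.card F = 2) (hd : finrank F W + 6 = finrank F V) [Fact (Nat.Prime 7)]
    (P : Sylow 7 (fixS K W)) (a b : P) : a * b = b * a := by
  have := finGL (F := F) (V := V)
  have := finGL (F := F) (V := V ⧸ W)
  have h1 : Function.Injective ((qh K W).comp (P : Subgroup (fixS K W)).subtype) := by
    rw [injective_iff_map_eq_one]
    intro k hk
    obtain ⟨n, hn⟩ := P.2 k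
    have h2 := Ux_inf_Cx (g := k.1.1) (congrArg (fun z : P => z.1.1) hn)
      (by rw [Nat.cast_pow]; exact pow_ne_zero _ (seven_ne hq))
    refine Subtype.ext (Subtype.ext (LinearEquiv.ext fun v => sub_eq_zero.1 ?_))
    have h3 : k.1.1 v - v ∈ W :=
      (Submodule.Quotient.eq W).1 (LinearEquiv.congr_fun hk (Submodule.Quotient.mk v))
    exact (Submodule.eq_bot_iff _).1 h2 _ ⟨⟨v, rfl⟩, mem_Cx.2 (k.1.2.2 _ h3)⟩
  have h2 := Subgroup.card_dvd_of_injective _ h1
  have h3 := W.finrank_quotient_add_finrank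
  rw [card_GL, hq, Fin.prod_univ_eq_prod_range (fun i => 2 ^ finrank F (V ⧸ W) - 2 ^ i),
    show finrank F (V ⧸ W) = 6 by omega] at h2
  obtain ⟨n, hn⟩ := IsPGroup.iff_card.1 P.2
  have h4 : n ≤ 2 := by
    by_contra h
    have := (pow_dvd_pow 7 (show 3 ≤ n by omega)).trans (hn ▸ h2)
    revert this
    decide
  by_cases h5 : n = 2
  · exact (IsPGroup.isMulCommutative_of_card_eq_prime_sq (h5 ▸ hn)).is_comm.comm a b
  · have : IsCyclic P := isCyclic_of_card_dvd_prime (p := 7)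
      (hn ▸ (pow_dvd_pow 7 (show n ≤ 1 by omega)).trans (pow_one 7).dvd)
    exact mul_comm' a b

end Pe

open Pe

/-- PROOF. `D = fixS K W` is transitive on the 63 non-zero vectors of `V ⧸ W`; `R` a Sylow 7-subgroup
of `D` fixes none of them (a stabiliser has index 63), so `C_V(R) = W`, `V = W ⊕ U`, `U = [V,R]` of
dimension 6, `R` faithful on `U`; every `R`-invariant `U₀ ≤ U` has `2^dim ≡ 1 mod 7`, `3 ∣ dim U₀`.
Frattini: `M = N_{K_W}(R)` induces `GL(W)`. Claim `M'' ≤ C(R)`: if every `x ≠ 1` of `R` has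
`C_U(x) = ⊥` then `R` acts freely on 63 vectors, `|R| = 7`, `Aut R` abelian. Otherwise `U = E₁ ⊕ E₂`
(`E₁ = C_U(x)`, `E₂ = [U,x]` for central `x`; also fine: `|R| ≤ 49`, so `R` is abelian), `R` acts on
each `Eᵢ` (7 non-zero vectors) through a group of order 7, `R = C_R(E₁) × C_R(E₂)` and these are the
only subgroups of order 7 with fixed vectors in `U`; `M` permutes them, so `M'` normalises both
and `M''` centralises both. A 2-element `m ∈ C(R)` has `(m-1)² = 0` on `U` (the chain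
`ker (m-1) < ker (m-1)² ..` consists of `R`-invariant subspaces). All `E_ij` (`i,j ≤ 3`) lie in
`GL(W)''`; take `m ∈ M''` acting on `W` as `E₁₂E₂₃` (order 4), replace it by an odd power which
is a 2-element; `m²` is `E₁₃` on `W` and `1` on `U`. -/
theorem per_six (hq : Nat.card F = 2) {W : Submodule F V} (hd : finrank F W + 6 = finrank F V)
    (hW : 3 ≤ finrank F W) (hF : Full K W)
    (ht : ∀ y ∉ W, ∀ y' ∉ W, ∃ k ∈ fixS K W, k y - y' ∈ W) : ¬ TF K := by
  have := finGL (F := F) (V := V)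
  have := Fact.mk Nat.prime_seven
  obtain ⟨P⟩ : Nonempty (Sylow 7 (fixS K W)) := inferInstance
  have hA := fun a ha => frat_ag P ha (hF a ha)
  have hP := P.2.map (fixS K W).subtype
  have hR : ∀ z ∈ (P : Subgroup (fixS K W)).map (fixS K W).subtype, W ≤ Cx z := by
    rintro _ ⟨z, -, rfl⟩ w hw
    exact mem_Cx.2 (z.2.2 w hw)
  have hc : ∀ a ∈ (P : Subgroup (fixS K W)).map (fixS K W).subtype,
      ∀ b ∈ (P : Subgroup (fixS K W)).map (fixS K W).subtype, a * b = b * a := by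
    rintro _ ⟨a, ha, rfl⟩ _ ⟨b, hb, rfl⟩
    exact congrArg (fun z : P => z.1.1) (comm_P hq hd P ⟨a, ha⟩ ⟨b, hb⟩)
  have hf : ∀ y ∉ W, ∃ g ∈ (P : Subgroup (fixS K W)).map (fixS K W).subtype, g y ≠ y := by
    intro y hy
    by_contra hn
    push Not at hn
    obtain ⟨S, h1, h2⟩ := exists_idx hd ht hy
    have h3 := Subgroup.index_dvd_of_le (show (P : Subgroup (fixS K W)) ≤ S from
      fun k hk => h2 k (hn _ ⟨k, hk, rfl⟩))
    rw [h1, hq] at h3
    exact P.not_dvd_index (dvd_trans (by decide) h3)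
  generalize (P : Subgroup (fixS K W)).map (fixS K W).subtype = R at hA hP hR hc hf
  have hK : ∀ {m m' : V ≃ₗ[F] V}, m ∈ K → m' ∈ K → m * m' * m⁻¹ * m'⁻¹ ∈ K := fun h h' =>
    K.mul_mem (K.mul_mem (K.mul_mem h h') (K.inv_mem h)) (K.inv_mem h')
  by_cases hS : ∃ s, SS R W s
  · obtain ⟨s, hs⟩ := hS
    obtain ⟨y, hy, hy'⟩ := SetLike.not_le_iff_exists.1 hs.2.2.2
    obtain ⟨g, hg, hgy⟩ := hf y hy'
    obtain ⟨i, hi⟩ := hs.reg hq hd hR hc hg
    have hle := Subgroup.zpowers_le.2 (R.mul_mem (R.pow_mem hs.1 i) hg)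
    obtain ⟨t, ht, t1, t7, -⟩ := exists_cen Nat.prime_seven (hP.to_le hle) fun h => hgy (by
      have h1 := LinearEquiv.congr_fun (Subgroup.zpowers_eq_bot.1 h) y
      rwa [LinearEquiv.mul_apply, pow_fix (mem_Cx.1 (Cx_inv (hc g hg s hs.1) y hy))] at h1)
    obtain ⟨hts, hC⟩ := hs.of_le hq hd hR (hle ht) t1 t7 (hi.trans (Cx_le_of_mem ht))
    have hpq : Cx s ≠ Cx t := fun h => hs.not_le hq hd hR (by rw [h, hC]; exact le_sup_right)
    have h1 : ∀ u, SS R W u → ∀ m ∈ Subgroup.normalizer (R : Set (V ≃ₗ[F] V)),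
        m • Cx u = Cx s ∨ m • Cx u = Cx t := by
      intro u hu m hm
      have h2 := hu.conj hq hd hR hm
      rw [← Cx_conj, hC]
      exact (hs.dich hq hd hR hc h2).imp_left fun h => (Submodule.eq_of_le_of_finrank_eq
        (Cx_le_of_mem h) ((hs.dim hq hd hR).1.trans (h2.dim hq hd hR).1.symm)).symm
    have hst : Commute s t := hc s hs.1 t hts.1
    have h6 : s ^ 6 * s = 1 := by rw [← pow_succ, hs.2.2.1]
    refine fin6 hq hd hW (x := s * t) (by rw [hst.mul_pow, hs.2.2.1, t7, one_mul])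
      (le_antisymm (fun v hv => hs.mem_W hq hd hR hc hts.1 hC (i := 6) (fun h => hs.2.1
        (by rwa [h, one_mul] at h6)) ?_) (hR _ (R.mul_mem hs.1 hts.1))) hA
      (M₁ := K ⊓ (Subgroup.normalizer (Subgroup.zpowers s : Set (V ≃ₗ[F] V)) ⊓
        Subgroup.normalizer (Subgroup.zpowers t : Set (V ≃ₗ[F] V)))) (fun m hm m' hm' => ?_)
      fun m hm m' hm' => ⟨hK hm.1 hm'.1, Subgroup.mem_centralizer_singleton_iff.2 ?_⟩
    · conv_rhs => rw [← mem_Cx.1 hv, ← LinearEquiv.mul_apply, ← mul_assoc, h6, one_mul]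
    · have h2 := two_perm hpq (h1 s hs m hm.2) (h1 t hts m hm.2) (h1 s hs m' hm'.2)
        (h1 t hts m' hm'.2)
      have a := (Subgroup.mem_inf.1 hm).2
      have a' := (Subgroup.mem_inf.1 hm').2
      have h3 := Subgroup.mul_mem _ (Subgroup.mul_mem _ (Subgroup.mul_mem _ a a')
        (Subgroup.inv_mem _ a)) (Subgroup.inv_mem _ a')
      exact ⟨hK hm.1 hm'.1, hs.norm hq hd hR hc h3 h2.1, hts.norm hq hd hR hc h3 h2.2⟩
    · exact ((show Commute _ s from comm_of_norm hm.2.1 hm'.2.1).mul_right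
        (show Commute _ t from comm_of_norm hm.2.2 hm'.2.2)).eq
  · have h1 : ∀ z ∈ R, z ≠ 1 → z ^ 7 = 1 → Cx z ≤ W := fun z hz z1 z7 => by
      by_contra h
      exact hS ⟨z, hz, z1, z7, h⟩
    obtain ⟨y, hy⟩ := exists_not_mem hd (by omega)
    obtain ⟨g, hg, hgy⟩ := hf y hy
    obtain ⟨x, hx, x1, x7, h2⟩ := exists_cen Nat.prime_seven hP fun h => hgy (by
      rw [h, Subgroup.mem_bot] at hg
      rw [hg]
      rfl)
    have hN := norm_le Nat.prime_seven (seven_ne hq) (W := W) (fun h => hy (h ▸ Submodule.mem_top)) h1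
      hx x1
      x7 h2
    refine fin6 hq hd hW x7 (le_antisymm (h1 x hx x1 x7) (hR x hx)) hA
      (M₁ := K ⊓ Subgroup.centralizer {x}) (fun m hm m' hm' => ⟨hK hm.1 hm'.1,
        Subgroup.mem_centralizer_singleton_iff.2 (comm_of_norm (hN hm.2) (hN hm'.2))⟩)
      fun m hm m' hm' => Subgroup.mul_mem _ (Subgroup.mul_mem _ (Subgroup.mul_mem _ hm hm')
        (Subgroup.inv_mem _ hm)) (Subgroup.inv_mem _ hm')

/-- PROOF. `CL.Zsig.exists_prime_orderOf_eq` gives `r` unless `q = 2, d = 6` (`per_six`);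
`r ∣ q^d - 1 ∣ |fixS K W|` (orbit on `V ⧸ W`); `per_full`. -/
theorem per_star {W : Submodule F V} {d : ℕ} (hd : finrank F W + d = finrank F V) (hd3 : 3 ≤ d)
    (hW : 2 ≤ finrank F W) (hF : Full K W) (H : 3 ≤ finrank F W ∨ 2 < Nat.card F ∨ Odd d)
    (ht : ∀ y ∉ W, ∀ y' ∉ W, ∃ k ∈ fixS K W, k y - y' ∈ W) : ¬ TF K := by
  by_cases h6 : Nat.card F = 2 ∧ d = 6
  · obtain ⟨hq, rfl⟩ := h6
    refine per_six hq hd ?_ hF ht
    rcases H with h | h | h
    · exact h
    · omega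
    · exact absurd h (by decide)
  have h1 : 1 < Nat.card F := Finite.one_lt_card
  obtain ⟨r, hr, ho⟩ := CL.Zsig.exists_prime_orderOf_eq_of_three_le h1 hd3 h6
  obtain ⟨y, hy⟩ := exists_not_mem hd (by omega)
  obtain ⟨S, h2, -⟩ := exists_idx hd ht hy
  refine per_full hr hd (by omega) ho (dvd_trans ?_ S.index_dvd_card) hW hF H
  rw [h2]
  refine (Nat.modEq_iff_dvd' (Nat.one_le_pow _ _ (by omega))).1 ?_
  rw [← ZMod.natCast_eq_natCast_iff]
  push_cast
  rw [← ho, pow_orderOf_eq_one]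

end CL.PL
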