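/-
Rank three actions of the linear groups: a distinguished subspace in each plane or solid.
-/
import Cfsg.Agent.CLAS.PL.B5
import Cfsg.Agent.CLAS.PL.Per6
import Cfsg.Agent.CLAS.PL.Hy

set_option autoImplicit false
set_option maxHeartbeats 200000

namespace CL.PL

open Module Submodule
open scoped Pointwise

variable {F : Type*} [Field F] [Finite F] {V : Type*} [AddCommGroup V] [Module F V]
  [FiniteDimensional F V] {K : Subgroup (V ≃ₗ[F] V)}

variable {z : Submodule F V → Submodule F V} {i : ℕ}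

namespace B3x

open Hy

theorem dvd_of_pow {q a b : ℕ} (hq : 1 < q) (h : q ^ a - 1 ∣ q ^ b - 1) : a ∣ b := by
  have h1 := Nat.pow_sub_one_gcd_pow_sub_one q a b
  rw [Nat.gcd_eq_left h] at h1
  have h2 : 0 < q ^ a := by positivity
  have h3 : 0 < q ^ Nat.gcd a b := by positivity
  have h4 : a = Nat.gcd a b := Nat.pow_right_injective hq (by
    change q ^ a = q ^ Nat.gcd a b
    omega)
  rw [h4]
  exact Nat.gcd_dvd_right a b

omit [Finite F] in
/-- Another subspace of the same dimension. -/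
theorem ex_ne {A B : Submodule F V} (h0 : 0 < finrank F A)
    (h1 : finrank F A < finrank F B) :
    ∃ A' : Submodule F V, A' ≤ B ∧ finrank F A' = finrank F A ∧ A' ≠ A := by
  obtain ⟨y, hy, hy'⟩ := ex_notin h1
  have hy0 : y ≠ 0 := fun e => hy' (e ▸ A.zero_mem)
  obtain ⟨A', h2, h3, h4⟩ := between (j := finrank F A) ((span_singleton_le_iff_mem _ _).2 hy)
    (by rw [finrank_span_singleton hy0]; omega) h1.le
  exact ⟨A', h3, h4, fun e => hy' (e ▸ h2 (mem_span_singleton_self y))⟩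

theorem nu_dvd {j : ℕ} (h : OC K j i z) (hj : 2 ≤ j) (hn : j ≤ finrank F V)
    (hi : i = 1 ∨ i + 1 = j) : j ∣ finrank F V - j + 1 := by
  obtain ⟨W, -, hW⟩ := exists_le_finrank (⊥ : Submodule F V) (j := j - 1) (by simp) (by omega)
  obtain ⟨Z, -, hZ, hZi⟩ := between (W := ⊥) (A := W) (j := i) bot_le (by simp) (by omega)
  exact dvd_of_pow Finite.one_lt_card (Dvd.intro_left _ (h.nu hj hn hi hZ hZi (by omega)))

omit [Finite F] in
theorem tv_smul {f : Dual F V} {v : V} (hf : f v = 0) {A : Submodule F V}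
    (h : v ∈ A ∨ ∀ x ∈ A, f x = 0) : LinearEquiv.transvection hf • A = A := by
  refine eq_of_le_of_finrank_eq ?_ finrank_smul
  rintro _ ⟨x, hx, rfl⟩
  change LinearEquiv.transvection hf x ∈ A
  rw [LinearEquiv.transvection.apply]
  rcases h with h | h
  · exact add_mem hx (smul_mem _ _ h)
  · rwa [h x hx, zero_smul, add_zero]

end B3x

open B3x Hy

theorem OC.subTr_four (h3 : R3 K) (hT : TF K) (hi : i = 1 ∨ i = 2) (h : OC K 3 i z)
    (hn : 6 ≤ finrank F V) : SubTr K 4 := by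
  classical
  have : Finite V := Module.finite_of_finite F
  have := Fintype.ofFinite (Submodule F V)
  have : Finite (V ≃ₗ[F] V) := DFunLike.finite _
  have := Fintype.ofFinite (V ≃ₗ[F] V)
  intro S S' hS hS'
  obtain ⟨g, rfl⟩ := exists_smul_eq (hS.trans hS'.symm)
  obtain ⟨B₀, -, hB₀⟩ := exists_le_finrank (⊥ : Submodule F V) (j := 3) (by simp) (by omega)
  have hz := h.dim B₀ hB₀
  obtain ⟨A₀, h1, h2, h4⟩ := ex_ne (A := z B₀) (B := B₀) (by omega) (by omega)
  obtain ⟨α, β, hF⟩ := span_flag h3 hT (i := i) (j := 3) h.tr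
    (fun A B => finrank F B = 3 ∧ z B = A)
    (fun k hk A B => by
      rw [finrank_smul]
      exact and_congr_right fun hB => by rw [h.eqv k hk B hB, smul_left_cancel_iff])
    ⟨z B₀, B₀, A₀, B₀, ⟨h.le B₀ hB₀, hz, hB₀⟩, ⟨h1, h2.trans hz, hB₀⟩, ⟨hB₀, rfl⟩,
      fun e => h4 e.2.symm⟩ (S := S) (by omega) (by omega) (fun g => ind (Eqv K (g • S) S))
    (fun k hk g => ind_congr ⟨fun e => Eqv.trans ⟨k, hk, (mul_smul _ _ _).symm⟩ e,
      fun e => (Eqv.symm ⟨k, hk, (mul_smul _ _ _).symm⟩).trans e⟩)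
    (fun g g' e => by rw [smul_congr e le_rfl])
  let Γ := MulAction.stabilizer (V ≃ₗ[F] V) S
  have key : ∀ (p : Submodule F V × Submodule F V) (g g' : V ≃ₗ[F] V),
      ∑ γ : Γ, ind (Fl i 3 p.1 p.2 ∧ p.2 ≤ S ∧ finrank F ((g * γ) • p.2 : Submodule F V) = 3 ∧
        z ((g * γ) • p.2) = (g * γ) • p.1) =
      ∑ γ : Γ, ind (Fl i 3 p.1 p.2 ∧ p.2 ≤ S ∧ finrank F ((g' * γ) • p.2 : Submodule F V) = 3 ∧
        z ((g' * γ) • p.2) = (g' * γ) • p.1) := by
    rintro ⟨A, B⟩ g g'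
    by_cases hp : Fl i 3 A B ∧ B ≤ S
    swap
    · rw [Finset.sum_eq_zero fun _ _ => ind_false fun e => hp ⟨e.1, e.2.1⟩,
        Finset.sum_eq_zero fun _ _ => ind_false fun e => hp ⟨e.1, e.2.1⟩]
    obtain ⟨⟨hAB, hA, hB⟩, hBS⟩ := hp
    have hH : Hyp S B := ⟨hBS, by omega⟩
    have e1 : ∀ g : V ≃ₗ[F] V, ind (Fl i 3 A B ∧ B ≤ S ∧ finrank F (g • B : Submodule F V) = 3 ∧
        z (g • B) = g • A) = ind (z (g • B) = g • A) := fun g =>
      ind_congr ⟨fun e => e.2.2.2, fun e => ⟨⟨hAB, hA, hB⟩, hBS, finrank_smul.trans hB, e⟩⟩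
    have e2 := avg Γ (fs fun a => a ≤ B ∧ finrank F a = i) (fun a g => ind (z (g • B) = g • a))
      (fun g => ind (z (g • B) = g • A)) fun a ha => by
        obtain ⟨δ, d1, d2, d3⟩ := ex_triple hAB (mem_fs.1 ha).1 (hA.trans (mem_fs.1 ha).2.symm)
          hH hH
        exact ⟨δ, d3, fun g => by rw [mul_smul, mul_smul, d1, d2]⟩
    simp only [sum_one h hB] at e2
    simp only [e1]
    refine mul_left_cancel₀ (Nat.cast_ne_zero.2 (Finset.card_ne_zero.2
      ⟨A, mem_fs.2 ⟨hAB, hA⟩⟩ : (fs fun a => a ≤ B ∧ finrank F a = i).card ≠ 0)) ?_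
    rw [e2, e2]
  have hsum : ∀ g : V ≃ₗ[F] V, (Fintype.card Γ : ℝ) * ind (Eqv K (g • S) S) =
      Fintype.card Γ * α + ∑ p, β p * ∑ γ : Γ, ind (Fl i 3 p.1 p.2 ∧ p.2 ≤ S ∧
        finrank F ((g * γ) • p.2 : Submodule F V) = 3 ∧ z ((g * γ) • p.2) = (g * γ) • p.1) := by
    intro g
    have e : ∑ γ : Γ, ind (Eqv K ((g * γ) • S) S) = Fintype.card Γ * ind (Eqv K (g • S) S) := by
      rw [Finset.sum_congr rfl fun γ _ => by
        rw [mul_smul, MulAction.mem_stabilizer_iff.1 γ.2], Finset.sum_const, nsmul_eq_mul,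
        Finset.card_univ]
    rw [← e, Finset.sum_congr rfl fun (γ : Γ) _ => hF (g * γ), Finset.sum_add_distrib, Finset.sum_const,
      nsmul_eq_mul, Finset.card_univ, Finset.sum_comm]
    simp only [Finset.mul_sum]
  have h5 := hsum g
  simp only [fun p => key p g 1] at h5
  rw [← hsum 1, one_smul, ind_true (Eqv.refl S)] at h5
  have h6 := mul_left_cancel₀ (Nat.cast_ne_zero.2 Fintype.card_ne_zero) h5
  by_contra hne
  rw [ind_false fun e => hne e.symm] at h6
  exact zero_ne_one h6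

theorem OC.false_three (h3 : R3 K) (hT : TF K) (hi : i = 1 ∨ i + 1 = 3) (h : OC K 3 i z) :
    False := by
  have hn := h3.dim
  have hd := nu_dvd h (by omega) (by omega) hi
  by_cases h5 : finrank F V = 5
  · rcases hi with rfl | hi
    · exact h.not_tf_five_one h5 hT
    · obtain rfl : i = 2 := by omega
      exact h.not_tf_five_two h5 hT
  obtain ⟨r, hr, ho⟩ := CL.Zsig.exists_prime_orderOf_eq_of_three_le (a := Nat.card F)
    (n := finrank F V - 3) Finite.one_lt_card (by omega) (by omega)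
  have hs := h.subTr_four h3 hT (by omega) (by omega)
  obtain ⟨W, hW, hdv⟩ := exists_fix hr (by omega) (by omega) ho
    (dvd_card_of_subTr hr (by omega) (by omega) (by omega) ho hs)
  have hW3 : finrank F W = 3 := by omega
  have hz := h.dim W hW3
  obtain ⟨P, L, hPL, hLW, hP, hL, hzW⟩ : ∃ P L : Submodule F V, P ≤ L ∧ L ≤ W ∧ finrank F P = 1 ∧
      finrank F L = 2 ∧ (z W = P ∨ z W = L) := by
    rcases hi with rfl | hi
    · obtain ⟨L, h1, h2, h4⟩ := between (j := 2) (h.le W hW3) (by omega) (by omega)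
      exact ⟨_, L, h1, h2, hz, h4, Or.inl rfl⟩
    · obtain ⟨P, -, h2, h4⟩ := between (W := ⊥) (A := z W) (j := 1) bot_le (by simp) (by omega)
      exact ⟨P, _, h2, h.le W hW3, h4, by omega, Or.inr rfl⟩
  obtain ⟨e₁, he₁, he₁'⟩ := ex_notin (A := ⊥) (B := P) (by simp [hP])
  obtain ⟨e₂, he₂, he₂'⟩ := ex_notin (A := P) (B := L) (by omega)
  obtain ⟨e₃, he₃, he₃'⟩ := ex_notin (A := L) (B := W) (by omega)
  obtain ⟨f₂, hf₂, hf₂'⟩ := ex_dual he₂'
  obtain ⟨f₃, hf₃, hf₃'⟩ := ex_dual he₃'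
  have a0 := hf₂' e₁ he₁
  have b0 := hf₃' e₂ he₂
  have c0 := hf₃' e₁ (hPL he₁)
  have haW := tv_smul a0 (A := W) (Or.inl (hLW (hPL he₁)))
  have hbW := tv_smul b0 (A := W) (Or.inl (hLW he₂))
  refine per hr hW (by omega) ho hdv (Or.inl ⟨_, _, haW, hbW, h.ag W hW3 _ ?_, h.ag W hW3 _ ?_,
    f₃, e₁, hLW (hPL he₁), by simpa using he₁', c0, ⟨e₃, he₃, by simp [hf₃]⟩, fun x _ => ?_⟩) hT
  · rw [haW]
    rcases hzW with e | e <;> rw [e]
    exacts [(tv_smul a0 (Or.inl he₁)).symm, (tv_smul a0 (Or.inl (hPL he₁))).symm]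
  · rw [hbW]
    rcases hzW with e | e <;> rw [e]
    exacts [(tv_smul b0 (Or.inr fun x hx => hf₃' x (hPL hx))).symm, (tv_smul b0 (Or.inl he₂)).symm]
  · rw [LinearEquiv.transvection.inv_eq a0 (by simp [a0]),
      LinearEquiv.transvection.inv_eq b0 (by simp [b0])]
    simp only [LinearEquiv.mul_apply, LinearEquiv.transvection.apply, map_add, map_smul, map_neg,
      a0, b0, c0, hf₂, smul_eq_mul]
    module

theorem OC.false_four (hq : Nat.card F = 2) (he : Even (finrank F V)) (hn : 4 ≤ finrank F V)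
    (hi : i = 1 ∨ i + 1 = 4) (h : OC K 4 i z) : False := by
  have hd := nu_dvd h (by omega) hn hi
  obtain ⟨m, hm⟩ := he
  omega

end CL.PL
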