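/-
Rank three actions of the linear groups: flag transitivity on planes and solids.
-/
import Cfsg.Agent.CLAS.PL.Per6
import Cfsg.Agent.CLAS.PL.C0
import Cfsg.Agent.CLAS.PL.C2

set_option autoImplicit false

namespace CL.PL

open Module Submodule
open scoped Pointwise

variable {F : Type*} [Field F] [Finite F] {V : Type*} [AddCommGroup V] [Module F V]
  [FiniteDimensional F V] {K : Subgroup (V ≃ₗ[F] V)}

namespace C3

theorem of_flag {j : ℕ} (hj : 2 ≤ j) (hn : 2 * j < finrank F V) (h6 : ¬ (Nat.card F = 2 ∧ finrank F V - j = 6))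
    (h2 : Tr K j) (hf : FlagTr K (j + 1)) (H : 3 ≤ j ∨ 2 < Nat.card F ∨ Odd (finrank F V - j)) : ¬ TF K := by
  obtain ⟨r, hr, ho⟩ := CL.Zsig.exists_prime_orderOf_eq_of_three_le (Finite.one_lt_card (α := F))
    (n := finrank F V - j) (by omega) h6
  obtain ⟨W, -, hW⟩ := exists_le_finrank (⊥ : Submodule F V) (j := j) (by simp) (by omega)
  exact per_full hr (by omega) (by omega) ho (dvd_fix_of_flag hr (by omega) (by omega) (by omega) ho
    fun A A' a a' => hf W A W A' a.1 a'.1 (by omega) (by rw [← a.2, hW]) (by omega) (by rw [← a'.2, hW])) (by omega)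
    (h2.full hW) (hW ▸ H)

theorem card_K {j : ℕ} (hj : j ≤ finrank F V) (h : Tr K j) {b : Fin j → V} (hb : LinearIndependent F b) :
    Nat.card K = Nat.card (fixS K (Submodule.span F (Set.range b))) *
      ∏ i : Fin j, (Nat.card F ^ finrank F V - Nat.card F ^ (i : ℕ)) := by
  have : Finite V := Module.finite_of_finite F
  have := Fintype.ofFinite F
  have := C2.fin_GL (F := F) (V := V)
  rw [Nat.card_eq_fintype_card (α := F), ← card_linearIndependent hj, ← (MulAction.stabilizer K b).card_mul_index,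
    MulAction.index_stabilizer]
  congr 1
  · refine Nat.card_congr ⟨fun k => ⟨k.1.1, k.1.2, fun w hw => LinearMap.eqOn_span (f := k.1.1.toLinearMap)
      (g := LinearMap.id) (by rintro _ ⟨i, rfl⟩; exact congrFun k.2 i) hw⟩,
      fun k => ⟨⟨k.1, k.2.1⟩, funext fun i => k.2.2 _ (subset_span ⟨i, rfl⟩)⟩, fun _ => rfl, fun _ => rfl⟩
  · refine congrArg Set.ncard (Set.ext fun s => ⟨?_, fun hs => ?_⟩ : _ = {s | LinearIndependent F s})
    · rintro ⟨k, rfl⟩
      exact hb.map' k.1.toLinearMap k.1.ker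
    · obtain ⟨g, hg⟩ := exists_ext _ ((Basis.span hb).injective_constr_of_linearIndependent (R₂ := F) hs)
      obtain ⟨k, hk, e⟩ := h _ (by rw [finrank_span_eq_card hb, Fintype.card_fin]) g
      refine ⟨⟨k, hk⟩, funext fun i => (e _ (subset_span ⟨i, rfl⟩)).trans ?_⟩
      rw [hg ⟨b i, subset_span ⟨i, rfl⟩⟩, ← Basis.span_apply hb i, Basis.constr_basis]

omit [Finite F] [FiniteDimensional F V] in
theorem two_cases (hq : Nat.card F = 2) (c : F) : c = 0 ∨ c = 1 := by
  obtain ⟨y, -, hy⟩ := (Nat.card_eq_two_iff' (0 : F)).1 hq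
  exact (eq_or_ne c 0).imp_right fun h => (hy c h).trans (hy 1 one_ne_zero).symm

omit [Finite F] [FiniteDimensional F V] in
theorem two_zero (hq : Nat.card F = 2) : (2 : F) = 0 :=
  (two_cases hq 2).resolve_right (by rw [← one_add_one_eq_two, add_eq_left]; exact one_ne_zero)

theorem ord31 : orderOf ((2 : ℕ) : ZMod 31) = 5 :=
  have : Fact (Nat.Prime 5) := ⟨Nat.prime_five⟩
  orderOf_eq_prime (by decide) (by decide)

theorem arith {D : ℕ} (h : D ∣ 2 ^ 12 * 3) :
    ¬ 31 ∣ D * 7560 ∧ ∀ e, e ∣ 31 - 1 → D * 7560 ≡ e [MOD 31] → 3 ∣ e := by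
  obtain ⟨d1, d2, h1, h2, rfl⟩ := exists_dvd_and_dvd_of_dvd_mul h
  obtain ⟨a, ha, rfl⟩ := (Nat.dvd_prime_pow Nat.prime_two).1 h1
  have : ∀ a ≤ 12, ∀ d ∈ [1, 3], ¬ 31 ∣ 2 ^ a * d * 7560 ∧ ∀ e ≤ 30, e ∣ 31 - 1 → 2 ^ a * d * 7560 ≡ e [MOD 31] → 3 ∣ e := by
    decide +kernel
  have := this a ha d2 (by simpa using (Nat.dvd_prime Nat.prime_three).1 h2)
  exact ⟨this.1, fun e he => this.2 e (Nat.le_of_dvd (by norm_num) he) he⟩

end C3

open C3 Pe

/-- PROOF. `d = n - 2`, primitive prime, `dvd_fix_of_flag`, `per_full` for a line `W`. -/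
theorem not_tf_of_flag_three (hn : 5 ≤ finrank F V) (h2 : Tr K 2) (hf : FlagTr K 3)
    (hq : 2 < Nat.card F ∨ Odd (finrank F V)) : ¬ TF K := by
  refine of_flag le_rfl (by omega) (fun h => ?_) h2 hf (.inr (hq.imp_right fun h => Nat.Odd.sub_even (by omega) h even_two))
  rcases hq with hq | ⟨k, hq⟩ <;> omega

/-- PROOF. `K` has even order (`Tr K 2`: a map swapping two vectors); an involution `u ∈ K` moves
some `x`, fixes at least half of `V` (dimension `≥ 3`), pick `y` fixed outside `⟨x, u x⟩`; `u` is a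
transvection on `π = ⟨x, u x, y⟩`; `plane_full_two`, `tr_of_full`. -/
theorem tr_three (hq : Nat.card F = 2) (hn : 5 ≤ finrank F V) (h2 : Tr K 2) (hf : FlagTr K 3) :
    Tr K 3 := by
  have := finGL (F := F) (V := V)
  have two : ∀ x : V, x + x = 0 := fun x => by rw [← two_smul F, two_zero hq, zero_smul]
  obtain ⟨b, hb⟩ := exists_linearIndependent_of_le_finrank (R := F) (M := V) (n := 2) (by omega)
  obtain ⟨u, hu, u1, u2⟩ := exists_ord (H := K) Nat.prime_two (by
    rw [card_K (by omega) h2 hb, hq, Fin.prod_univ_two, ← mul_assoc]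
    exact Dvd.dvd.mul_left (Nat.dvd_sub (dvd_pow_self 2 (by omega)) (dvd_pow_self 2 (by simp))) _)
  have uu : ∀ x, u (u x) = x := fun x => LinearEquiv.congr_fun (sq u ▸ u2) x
  obtain ⟨x, hx⟩ : ∃ x, u x ≠ x := by
    by_contra hn; push Not at hn; exact u1 (LinearEquiv.ext hn)
  have z0 : x + u x ≠ 0 := fun e => hx (by rw [← add_zero (u x), ← two x, ← add_assoc, add_comm (u x), e, zero_add])
  have uz : x + u x ∈ Cx u := mem_Cx.2 (by rw [map_add, uu, add_comm])
  have hh := half (two_zero hq) (y := u) (U := ⊤) (fun _ _ => trivial) fun v _ => uu v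
  rw [finrank_top, top_inf_eq] at hh
  obtain ⟨y, hy, hy'⟩ : ∃ y ∈ Cx u, y ∉ F ∙ (x + u x) := SetLike.not_le_iff_exists.1 fun e => by
    have := finrank_mono e
    rw [finrank_span_singleton z0] at this
    omega
  have le : (F ∙ (x + u x)) ⊔ (F ∙ y) ≤ Cx u :=
    sup_le ((span_singleton_le_iff_mem _ _).2 uz) ((span_singleton_le_iff_mem _ _).2 hy)
  have hx' : x ∉ (F ∙ (x + u x)) ⊔ F ∙ y := fun e => hx (mem_Cx.1 (le e))
  have hπ : finrank F ((F ∙ (x + u x)) ⊔ (F ∙ y) ⊔ F ∙ x : Submodule F V) = 3 := by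
    rw [finrank_sup_span_singleton hx', finrank_sup_span_singleton hy', finrank_span_singleton z0]
  obtain ⟨f, f1, f0⟩ := C2.exists_fn hx'
  refine tr_of_full (C2.subTr_of_flagTr (by omega) hf) hπ (plane_full_two hq hπ (fun L L' a a' => ?_)
    ⟨u, hu, f, x + u x, mem_sup_left (mem_sup_left (mem_span_singleton_self _)), z0,
      f0 _ (mem_sup_left (mem_span_singleton_self _)), ⟨x, mem_sup_right (mem_span_singleton_self _), by simp [f1]⟩,
      fun v hv => ?_⟩)
  · obtain ⟨k, hk, e1, e2⟩ := hf L _ L' _ a.1 a'.1 (a.2.trans hπ) hπ (a'.2.trans hπ) hπ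
    exact ⟨k, hk, e2, e1⟩
  · obtain ⟨w, hw, _, hc, rfl⟩ := mem_sup.1 hv
    obtain ⟨c, rfl⟩ := mem_span_singleton.1 hc
    rw [map_add, map_add, mem_Cx.1 (le hw), f0 w hw, map_smul, map_smul, f1, zero_add, smul_eq_mul, mul_one, add_assoc,
      ← smul_add, ← add_assoc x, two, zero_add]

/-- PROOF. `d = n - 3` odd, `≥ 5`; `dvd_fix_of_flag`, `per_full` for a plane `W`. -/
theorem not_tf_of_flag_four (he : Even (finrank F V)) (hn : 8 ≤ finrank F V) (h3 : Tr K 3)
    (hf : FlagTr K 4) : ¬ TF K := by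
  obtain ⟨k, hk⟩ := he
  exact of_flag (by omega) (by omega) (by omega) h3 hf (.inl le_rfl)

/-- PROOF. `r` primitive for `d = 3`; `GL(A)` has order divisible by `r`, so `r ∣ |K|`;
`exists_fix` gives a line `W`; `per_full` (`d` odd). -/
theorem not_tf_of_full_five (hn : finrank F V = 5) (h2 : Tr K 2) {A : Submodule F V}
    (hA : finrank F A = 3) (hF : Full K A) : ¬ TF K := by
  have := finGL (F := F) (V := V)
  have := finGL (F := F) (V := A)
  obtain ⟨r, hr, ho⟩ := CL.Zsig.exists_prime_orderOf_eq_of_three_le (Finite.one_lt_card (α := F)) (n := 3) le_rfl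
    (by omega)
  obtain ⟨x, -, x1, x2⟩ := exists_ord hr (Pe.dvd_GL (V := A) (by omega) hA.ge ho)
  obtain ⟨g, hg⟩ := exists_ext (A.subtype ∘ₗ x.toLinearMap) (A.injective_subtype.comp x.injective)
  obtain ⟨k, hk, e⟩ := hF g (smul_eq_of_le fun w hw => (hg ⟨w, hw⟩).symm ▸ (x ⟨w, hw⟩).2)
  have e1 : ∀ (n : ℕ) (a : A), (k ^ n) a = (x ^ n) a := fun n => by
    induction n with
    | zero => intro a; rfl
    | succ n ih => intro a; rw [pow_succ', pow_succ', LinearEquiv.mul_apply, ih, e _ ((x ^ n) a).2, hg]; rfl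
  have : Fact r.Prime := ⟨hr⟩
  obtain ⟨W, hW, hd⟩ := exists_fix (K := K) hr (by omega) (by omega) ho (by
    rw [← orderOf_eq_prime x2 x1]
    refine (orderOf_dvd_of_pow_eq_one (LinearEquiv.ext fun a => Subtype.ext ?_)).trans (K.orderOf_dvd_natCard hk)
    rw [← e1, pow_orderOf_eq_one]; rfl)
  exact per_full hr hW (by omega) ho hd (by omega) (h2.full (by omega)) (.inr (.inr (by decide)))

/-- PROOF. `π` a plane, `D = fixS K π`, `|K| = 63·62·60·|D|`. If `7 ∣ |D|`: `per_full` (`d = 3`).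
Otherwise `|D| = 2^a 3^b`, `b ≤ 1` (`D` is a subgroup of the pointwise stabiliser of `π` in `GL(V)`, of
order `2^9·168`). `R = ⟨x⟩` Sylow of order 31; `V = C(x) ⊕ U`, `|U| = 32`, `⟨x⟩` regular on `U \ 0`,
so `C_K(x) = R` (an element commuting with `x` and fixing `u₀ ∈ U \ 0` is trivial on `U`, and on
`C(x)` which has one non-zero vector). `e = [N_K(R) : R] ∣ 30`, `e ≡ 7560 |D| ≡ 27·2^a·3^b mod 31`,
so `e ∈ {15, 30}`; some `m ∈ K` has `m x m⁻¹ = x^5`, and `m u₀ = u₀` after multiplying by a power of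
`x`. From `u₀ + x u₀ = x^j u₀` get `u₀ + x^5 u₀ = x^(5j) u₀`; on `U`, `1 + x = x^j`, so
`1 + x^5 = (1 + x)^5 = 1 + x + x^4 + x^5`, `x³ = 1` on `U`, contradiction. -/
theorem not_tf_six (hq : Nat.card F = 2) (hn : finrank F V = 6) (h3 : Tr K 3) : ¬ TF K := by
  have := finGL (F := F) (V := V)
  have : Finite V := Module.finite_of_finite F
  have two : ∀ x : V, x + x = 0 := fun x => by rw [← two_smul F, two_zero hq, zero_smul]
  obtain ⟨b, hb⟩ := exists_linearIndependent_of_le_finrank (R := F) (M := V) (n := 3) (by omega)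
  have hπ : finrank F (Submodule.span F (Set.range b)) = 3 := by rw [finrank_span_eq_card hb, Fintype.card_fin]
  by_cases h7 : 7 ∣ Nat.card (fixS K (Submodule.span F (Set.range b)))
  · exact per_full (by norm_num) (d := 3) (by omega) (by omega) (ord7 hq) h7 (by omega) (h3.full hπ) (.inl hπ.ge)
  intro _
  have e1 := card_K (by omega) h3 hb
  have e2 := card_K (K := ⊤) (by omega) (fun _ _ g => ⟨g, trivial, fun _ _ => rfl⟩) hb
  have e3 := Subgroup.card_dvd_of_le (show fixS K (Submodule.span F (Set.range b)) ≤ fixS ⊤ _ from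
    fun k hk => ⟨trivial, hk.2⟩)
  rw [Subgroup.card_top, card_GL] at e2
  rw [hq, hn] at e1 e2
  simp only [Fin.prod_univ_succ, Fin.prod_univ_zero, Fin.val_zero, Fin.val_succ] at e1 e2
  norm_num at e1 e2
  rw [show Nat.card (fixS ⊤ (Submodule.span F (Set.range b))) = 2 ^ 12 * 3 * 7 by omega] at e3
  replace e3 := (Nat.coprime_comm.1 ((Nat.Prime.coprime_iff_not_dvd (by norm_num)).2 h7)).dvd_of_dvd_mul_right e3
  generalize Nat.card (fixS K (Submodule.span F (Set.range b))) = D at e1 e3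
  have p31 : Nat.Prime 31 := by norm_num
  have : Fact (Nat.Prime 31) := ⟨p31⟩
  have ho : orderOf ((Nat.card F : ℕ) : ZMod 31) = 5 := by
    rw [hq]; exact ord31
  have r0 := cast_ne_zero p31 (by omega) ho
  obtain ⟨x, hx, x1, x2⟩ := exists_ord (H := K) p31 (e1 ▸ Dvd.dvd.mul_left (by norm_num) _)
  have ox : orderOf x = 31 := orderOf_eq_prime x2 x1
  have uc := Ux_inf_Cx x2 r0
  have hU : finrank F (Ux x) = 5 := by
    obtain ⟨c, hc⟩ := dvd_rank p31 x2 (by omega) ho (Ux_inv rfl) uc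
    have := rank_add x
    have : finrank F (Cx x) ≠ 6 := fun e => x1 (Cx_eq_top.1 (eq_top_of_finrank_eq (e.trans hn.symm)))
    omega
  have free : ∀ y ∈ Subgroup.zpowers x, ∀ u ∈ Ux x, u ≠ 0 → y u = u → y = 1 := fun y hy u hu u0 e => by
    obtain ⟨i, rfl⟩ := (Submonoid.mem_powers_iff _ _).1 (mem_powers_iff_mem_zpowers.2 hy)
    by_contra h
    exact u0 (uc.le ⟨hu, Cx_le_of_mem (mem_zpowers_pow p31 x2 h) (mem_Cx.2 e)⟩)
  have cm : ∀ y ∈ Subgroup.zpowers x, ∀ {c}, c * x = x * c → y * c = c * y := by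
    rintro _ ⟨i, rfl⟩ c hc
    exact ((show Commute c x from hc).zpow_right i).eq.symm
  have reg : ∀ u ∈ Ux x, u ≠ 0 → ∀ v ∈ Ux x, v ≠ 0 → ∃ y ∈ Subgroup.zpowers x, y u = v := fun u hu u0 v hv v0 => by
    obtain ⟨y, e⟩ := (Function.Injective.bijective_of_nat_card_le (f := fun y : Subgroup.zpowers x =>
      (⟨y.1 u, Ux_inv (cm _ y.2 rfl) u hu, by simpa using u0⟩ : {v // v ∈ Ux x ∧ v ≠ 0}))
      (fun y z e => Subtype.ext (inv_mul_eq_one.1 (free _ (mul_mem (inv_mem y.2) z.2) u hu u0 (by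
        rw [LinearEquiv.mul_apply, ← show y.1 u = z.1 u from congrArg Subtype.val e]; simp)))) (by
      rw [Nat.card_zpowers, ox]
      have : Nat.card {v // v ∈ Ux x ∧ v ≠ 0} = Nat.card (Ux x) - 1 :=
        Set.ncard_diff_singleton_of_mem (s := (Ux x : Set V)) (Ux x).zero_mem
      rw [this, Module.natCard_eq_pow_finrank (K := F), hq, hU]; norm_num)).2 ⟨v, hv, v0⟩
    exact ⟨y, y.2, congrArg Subtype.val e⟩
  have cen : ∀ c, c * x = x * c → c ∈ Subgroup.zpowers x := fun c hc => by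
    obtain ⟨u, hu, u0⟩ := exists_mem_ne_zero_of_ne_bot (p := Ux x) fun e => by rw [e, finrank_bot] at hU; omega
    obtain ⟨y, hy, e⟩ := reg u hu u0 _ (Ux_inv hc u hu) (by simpa using u0)
    refine (LinearEquiv.ext fun v => ?_ : y = c) ▸ hy
    obtain ⟨w, hw, v, hv, rfl⟩ := mem_sup.1 ((isCompl x2 r0).sup_eq_top.ge (mem_top : v ∈ ⊤))
    rw [map_add, map_add, mem_Cx.1 (Cx_le_of_mem hy hw)]
    congr 1
    · by_cases w0 : w = 0
      · simp [w0]
      have := rank_add x
      obtain ⟨a, ha⟩ := mem_span_singleton.1 ((eq_of_le_of_finrank_eq ((span_singleton_le_iff_mem w _).2 hw)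
        (by rw [finrank_span_singleton w0]; omega)).ge (Cx_inv hc w hw))
      rcases two_cases hq a with rfl | rfl
      · exact absurd (c.map_eq_zero_iff.1 (by rw [← ha, zero_smul])) w0
      · rw [← ha, one_smul]
    · by_cases v0 : v = 0
      · simp [v0]
      obtain ⟨z, hz, rfl⟩ := reg u hu u0 v hv v0
      rw [← LinearEquiv.mul_apply, ← LinearEquiv.mul_apply, ← cm z hz hc, ← cm z hz (cm y hy rfl),
        LinearEquiv.mul_apply, LinearEquiv.mul_apply, e]
  set Z := Subgroup.zpowers (⟨x, hx⟩ : K) with hZ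
  have cZ : Nat.card Z = 31 := by rw [Nat.card_zpowers, ← ox, Subgroup.orderOf_mk]
  have mZ : ∀ k : K, k ∈ Z ↔ k.1 ∈ Subgroup.zpowers x := fun k =>
    ⟨fun ⟨i, e⟩ => ⟨i, congrArg Subtype.val e⟩, fun ⟨i, e⟩ => ⟨i, Subtype.ext e⟩⟩
  have iZ := Z.card_mul_index
  replace iZ : Z.index = D * 7560 := by rw [cZ] at iZ; omega
  let P : Sylow 31 K := (IsPGroup.of_card (p := 31) (n := 1) cZ).toSylow (iZ ▸ (arith e3).1)
  have s1 := card_sylow_modEq_one 31 K
  rw [P.card_eq_index_normalizer] at s1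
  have s2 := Subgroup.card_dvd_of_injective _ (QuotientGroup.kerLift_injective Z.normalizerMonoidHom)
  rw [Subgroup.normalizerMonoidHom_ker, ← Subgroup.index, ← Subgroup.relIndex, IsCyclic.card_mulAut, cZ,
    show Subgroup.centralizer (Z : Set K) = Z from le_antisymm (fun c hc => (mZ c).2 (cen _
      (congrArg Subtype.val (hc _ (Subgroup.mem_zpowers _))).symm)) Z.le_centralizer, Nat.totient_prime p31] at s2
  have s3 := Subgroup.relIndex_mul_index Z.le_normalizer
  have s4 : 3 ∣ Z.relIndex (Subgroup.normalizer (Z : Set K)) := by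
    change (Subgroup.normalizer (Z : Set K)).index ≡ 1 [MOD 31] at s1
    have s5 := s1.mul_left (Z.relIndex (Subgroup.normalizer (Z : Set K)))
    rw [s3, mul_one, iZ] at s5
    exact (arith e3).2 _ s2 s5
  obtain ⟨⟨m, hm⟩, mN, m1, m3⟩ := exists_ord (H := Subgroup.normalizer (Z : Set K)) Nat.prime_three
    (s4.trans (Subgroup.relIndex_dvd_card _ _))
  have m3' : m ^ 3 = 1 := congrArg Subtype.val m3
  obtain ⟨k, hk, ek⟩ : ∃ k < 31, x ^ k = m * x * m⁻¹ := by
    classical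
    have := (mZ _).1 ((Subgroup.mem_normalizer_iff.1 mN _).1 (Subgroup.mem_zpowers _))
    rw [mem_zpowers_iff_mem_range_orderOf, ox, Finset.mem_image] at this
    exact this.imp fun _ h => ⟨Finset.mem_range.1 h.1, h.2⟩
  have cj : ∀ i : ℕ, m ^ i * x * (m ^ i)⁻¹ = x ^ k ^ i := fun i => by
    induction i with
    | zero => simp
    | succ i ih => rw [pow_succ k, mul_comm, pow_mul, ek, conj_pow, ← ih, pow_succ']; group
  have k1 : k ≠ 1 := fun e => by
    rw [e, pow_one, eq_mul_inv_iff_mul_eq] at ek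
    have h1 := orderOf_dvd_of_mem_zpowers (cen m ek.symm)
    have : Fact (Nat.Prime 3) := ⟨Nat.prime_three⟩
    rw [ox, orderOf_eq_prime m3' fun e => m1 (Subtype.ext e)] at h1
    omega
  have k3 : k ^ 3 ≡ 1 [MOD 31] := by
    rw [← ox, ← pow_eq_pow_iff_modEq, ← cj, m3']; simp
  obtain ⟨n, n3, en⟩ : ∃ n : V ≃ₗ[F] V, n ^ 3 ^ 1 = 1 ∧ n * x * n⁻¹ = x ^ 5 := by
    have : k = 5 ∨ k = 25 := by unfold Nat.ModEq at k3; interval_cases k <;> omega
    rcases this with rfl | rfl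
    · exact ⟨m, m3', ek.symm⟩
    · exact ⟨m ^ 2, by rw [← pow_mul, mul_comm, pow_mul, pow_one, m3', one_pow], by
        rw [cj, pow_eq_pow_iff_modEq, ox]; decide⟩
  have nU : ∀ v ∈ Ux x, n v ∈ Ux x := by
    rintro _ ⟨v, rfl⟩
    have : ∀ (i : ℕ) (w : V), (x ^ i) w - w ∈ Ux x := fun i w => by
      induction i with
      | zero => simp
      | succ i ih => simpa [pow_succ'] using add_mem (mem_Ux.2 ⟨(x ^ i) w, rfl⟩) ih
    simpa [Nm_apply, ← en] using this 5 (n v)
  obtain ⟨u, hu, u0⟩ := exists_mem_ne_zero_of_ne_bot (p := Ux x ⊓ Cx n) fun e => by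
    have := modEq Nat.prime_three n3 nU
    rw [e, hU, hq, finrank_bot] at this
    exact absurd this (by decide)
  have xU := Ux_inv (g := x) rfl
  obtain ⟨y, hy, ey⟩ := reg u hu.1 u0 (u + x u) (add_mem hu.1 (xU u hu.1)) fun e => x1 (free x
    (Subgroup.mem_zpowers x) u hu.1 u0 (by rw [← add_zero (x u), ← two u, ← add_assoc, add_comm (x u), e, zero_add]))
  have y1 : ∀ v ∈ Ux x, y v = v + x v := fun v hv => by
    by_cases v0 : v = 0
    · simp [v0]
    obtain ⟨z, hz, rfl⟩ := reg u hu.1 u0 v hv v0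
    rw [← LinearEquiv.mul_apply, ← cm z hz (cm y hy rfl), LinearEquiv.mul_apply, ey, map_add,
      ← LinearEquiv.mul_apply x, ← cm z hz rfl, LinearEquiv.mul_apply]
  have y5 : n * y * n⁻¹ = y ^ 5 := by
    obtain ⟨i, rfl⟩ := (Submonoid.mem_powers_iff _ _).1 (mem_powers_iff_mem_zpowers.2 hy)
    rw [← conj_pow, en, ← pow_mul, ← pow_mul, mul_comm]
  have nu : n u = u := mem_Cx.1 hu.2
  have nu' : n⁻¹ u = u := n.symm_apply_eq.2 nu.symm
  have e5 := LinearEquiv.congr_fun y5 u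
  have e6 := LinearEquiv.congr_fun en u
  have yU := Ux_inv (cm y hy rfl)
  simp only [LinearEquiv.mul_apply, nu', pow_succ, pow_zero, one_mul] at e5 e6
  rw [ey, map_add, nu, e6, y1 _ (yU _ (yU _ (yU _ (ey ▸ yU _ hu.1)))), y1 _ (yU _ (yU _ (ey ▸ yU _ hu.1))),
    y1 _ (yU _ (ey ▸ yU _ hu.1)), y1 _ (ey ▸ yU _ hu.1)] at e5
  simp only [map_add] at e5
  have e7 : (x ^ 3) (x u) = x u := by
    simp only [LinearEquiv.mul_apply, pow_succ, pow_zero, one_mul]
    linear_combination (norm := module) -e5 - (3 : ℤ) • two (x u) - (5 : ℤ) • two (x (x u)) -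
      (5 : ℤ) • two (x (x (x u))) - (2 : ℤ) • two (x (x (x (x u))))
  have := orderOf_dvd_of_pow_eq_one (free _ (pow_mem (Subgroup.mem_zpowers x) 3) _ (xU u hu.1) (by simpa using u0) e7)
  rw [ox] at this
  omega

end CL.PL
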