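/-
Rank three actions of the linear groups: many axes.
-/
import Cfsg.Agent.CLAS.PL.Arc
import Cfsg.Agent.CLAS.PL.Gen

set_option autoImplicit false
set_option linter.unusedSectionVars false

namespace CL.PL

open Module Submodule
open scoped Pointwise

variable {F : Type*} [Field F] [Finite F] {V : Type*} [AddCommGroup V] [Module F V]
  [FiniteDimensional F V] {K : Subgroup (V ≃ₗ[F] V)}

namespace Ia

theorem ex_notin {A B : Submodule F V} (h : finrank F A < finrank F B) : ∃ x ∈ B, x ∉ A := by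
  by_contra! a
  exact absurd (Submodule.finrank_mono a) (by omega)

theorem line {z h : V} (hz : z ≠ 0) (hh : h ∉ F ∙ z) : finrank F ((F ∙ z) ⊔ (F ∙ h) : Submodule F V) = 2 := by
  rw [Submodule.finrank_sup_span_singleton hh, finrank_span_singleton hz]

theorem ex_line {W : Submodule F V} (h : 2 ≤ finrank F W) : ∃ L ≤ W, finrank F L = 2 := by
  obtain ⟨z, hz, z0⟩ := ex_notin (A := ⊥) (B := W) (by rw [finrank_bot]; omega)
  rw [Submodule.mem_bot] at z0
  obtain ⟨y, hy, hy'⟩ := ex_notin (A := F ∙ z) (B := W) (by rw [finrank_span_singleton z0]; omega)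
  exact ⟨_, sup_le ((span_singleton_le_iff_mem _ _).2 hz) ((span_singleton_le_iff_mem _ _).2 hy),
    line z0 hy'⟩

theorem ker3 (f g g' : Dual F V) :
    finrank F V ≤ finrank F (LinearMap.ker f ⊓ (LinearMap.ker g ⊓ LinearMap.ker g') : Submodule F V) + 3 := by
  have h1 := LinearMap.finrank_range_add_finrank_ker (f.prod (g.prod g'))
  have h2 := Submodule.finrank_le (LinearMap.range (f.prod (g.prod g')))
  rw [LinearMap.ker_prod, LinearMap.ker_prod] at h1
  simp only [finrank_prod, finrank_self] at h2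
  omega

theorem ker2 (f g : Dual F V) :
    finrank F V ≤ finrank F (LinearMap.ker f ⊓ LinearMap.ker g : Submodule F V) + 2 := by
  have h1 := LinearMap.finrank_range_add_finrank_ker (f.prod g)
  have h2 := Submodule.finrank_le (LinearMap.range (f.prod g))
  rw [LinearMap.ker_prod] at h1
  simp only [finrank_prod, finrank_self] at h2
  omega

theorem surj {S T : Set F} {a : F} (ha : a ≠ 0) (h : ∀ s ∈ S, a * s ∈ T) (hc : T.ncard ≤ S.ncard)
    {t : F} (ht : t ∈ T) : ∃ s ∈ S, a * s = t := by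
  have e : (fun s => a * s) '' S = T := Set.eq_of_subset_of_ncard_le (by rintro _ ⟨s, hs, rfl⟩; exact h s hs)
    (by rwa [Set.ncard_image_of_injective _ (mul_right_injective₀ ha)])
  exact e.ge ht

theorem le {S T : Set F} {a : F} (ha : a ≠ 0) (h : ∀ s ∈ S, a * s ∈ T) : S.ncard ≤ T.ncard :=
  Set.ncard_le_ncard_of_injOn (fun s => a * s) h (mul_right_injective₀ ha).injOn

/-- centres -/
def Cn (K : Subgroup (V ≃ₗ[F] V)) (v : V) : Prop := v ≠ 0 ∧ Rd K v ≠ ⊤

theorem Cn.smul_iff {c : F} {v : V} (hc : c ≠ 0) : Cn K (c • v) ↔ Cn K v := by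
  simp only [Cn, Rd_smul hc, ne_eq, smul_eq_zero, hc, false_or]

theorem Cn.apply_iff {k : V ≃ₗ[F] V} (hk : k ∈ K) {v : V} : Cn K (k v) ↔ Cn K v := by
  refine and_congr (by simp) (not_congr ?_)
  rw [Rd_apply hk, Submodule.eq_top_iff', Submodule.eq_top_iff']
  exact ⟨fun h x => apply_mem_smul.1 (h (k x)), fun h x => mem_smul'.2 (h _)⟩

theorem many (hn : 4 ≤ finrank F V) (hI : Irr K) (h2 : Two K) (hne : ∃ v, Cn K v) {W : Submodule F V}
    (hW : 2 ≤ finrank F W) {h : V} (hh : h ∉ W) : ∃ w ∈ W, Cn K (w + h) := by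
  have h0 : h ≠ 0 := fun e => hh (e ▸ W.zero_mem)
  by_cases ha : ∃ v, v ≠ 0 ∧ ¬ Cn K v
  swap
  · push Not at ha
    exact ⟨0, W.zero_mem, ha _ (by rwa [zero_add])⟩
  have M := fun L => meet hn hI h2 (S := {v | Cn K v}) (fun e => e.1 rfl) (fun _ _ hc => Cn.smul_iff hc)
    (fun _ hk _ => Cn.apply_iff hk) hne ha (L := L)
  by_contra! hn'
  obtain ⟨L, hL, hL2⟩ := ex_line hW
  obtain ⟨z, hz, z0, hz'⟩ := (M L hL2).2
  obtain ⟨c, hc, hc'⟩ := (M _ (line z0 fun e => hh ((span_singleton_le_iff_mem _ _).2 (hL hz) e))).1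
  obtain ⟨_, h1, _, h3, rfl⟩ := Submodule.mem_sup.1 hc
  obtain ⟨a, rfl⟩ := mem_span_singleton.1 h1
  obtain ⟨b, rfl⟩ := mem_span_singleton.1 h3
  by_cases hb : b = 0
  · rw [hb, zero_smul, add_zero] at hc'
    exact hz' ((Cn.smul_iff fun e => hc'.1 (by rw [e, zero_smul])).1 hc')
  · refine hn' ((b⁻¹ * a) • z) (W.smul_mem _ (hL hz)) ((Cn.smul_iff hb).1 ?_)
    rwa [smul_add, smul_smul, mul_inv_cancel_left₀ hb]

theorem inc (hR : ∀ v, v ≠ 0 → Rd K v = ⊤ ∨ Rd K v = F ∙ v) {v w : V} {f : Dual F V} (hv : Cn K v)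
    (hw : w ≠ 0) (hf : f v = 0) : ∃ a : F, a ≠ 0 ∧ ∀ c : F, TV K (c • f) w → TV K ((a * c) • f) v := by
  by_cases h : w ∈ F ∙ v
  · obtain ⟨a, rfl⟩ := mem_span_singleton.1 h
    have ha : a ≠ 0 := fun e => hw (by rw [e, zero_smul])
    exact ⟨a, ha, fun c h => by rw [mul_smul]; exact (TV.smul_iff ha).2 h⟩
  · rw [← (hR v hv.1).resolve_left hv.2, mem_Rd] at h
    push Not at h
    obtain ⟨g, hg, hg'⟩ := h
    exact ⟨g w, hg', fun c h => by rw [mul_smul]; exact h.com hg (by simp [hf])⟩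

theorem com {v w : V} {f g : Dual F V} {γ δ : F} (h1 : TV K (γ • f) v) (h2 : TV K (δ • g) w)
    (h : f w = 0) : TV K ((γ * g v * δ) • f) w := by
  have := h1.com h2 (by simp [h])
  rwa [smul_smul, LinearMap.smul_apply, smul_eq_mul, show δ * g v * γ = γ * g v * δ by ring] at this

end Ia

open Ia in
/-- PROOF. Centres: `v ≠ 0` with `Rd K v ≠ ⊤`. (M) for `W' < H''` with `dim W' ≥ 2`,
`dim H'' = dim W' + 1` there is a centre in `H''` outside `W'`, and every line contains a centre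
(trivial if all vectors are centres; otherwise `meet`: if not, for `z ∈ W'` the centre on the line
`⟨z, h⟩` is `z`, so `W'` consists of centres). `C(v,f) = {c | TV K (c • f) v}` additive. (INC) if `v` is
a centre, `TV K f v'`, `f, v' ≠ 0`, `f v = 0` then `C(v,f) ≠ 0` (`v' ∈ F v`, or `v' ∉ Rd K v` and
`TV.com`). (COM) `f w = f v = g w = 0`, `γ ∈ C(v,f)`, `δ ∈ C(w,g)` give `γ δ g v ∈ C(w,f)`.
Take independent `f, g, g'` with `TV K · v₀` (their common kernel for all is `F v₀`, `n ≥ 5`), a centre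
`w ∈ W' = ker f ⊓ ker g ⊓ ker g'`. By (M), (COM) in both directions `|C(w,f)| = |C(w,g)| = |C(w,g')|`,
and for a centre `b ∈ ker f` with `g b, g' b ≠ 0`, `0 ≠ γ ∈ C(b,f)`:
`γ g(b) C(w,g) = C(w,f) = γ g'(b) C(w,g')`. By (M) for `H'' = ker f ⊓ ker (g' - λ g)` every ratio
`λ ≠ 0` occurs, so `C(w,g') = F = C(w,f)`; (COM) gives `C(w₁,f) = F` for all centres `w₁ ∈ ker f`, these
span `ker f` by (M), `TV.add_right`; `tv_all`. -/
theorem tv_of_Rd (hn : 5 ≤ finrank F V) (hI : Irr K) (h2 : Two K) (hT : ¬ TF K)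
    (hR : ∀ v, v ≠ 0 → Rd K v = ⊤ ∨ Rd K v = F ∙ v) : ∀ f v, f v = 0 → TV K f v := by
  obtain ⟨f, w, hf, f0, w0⟩ : ∃ f w, TV K f w ∧ f ≠ 0 ∧ w ≠ 0 := by
    by_contra! a
    exact hT fun f v h => or_iff_not_imp_left.2 (a f v h)
  obtain ⟨x₀, hx₀⟩ : ∃ x, f x ≠ 0 := by
    by_contra! a
    exact f0 (LinearMap.ext a)
  have cw : Cn K w := ⟨w0, fun e => hx₀ (mem_Rd.1 (e ▸ Submodule.mem_top) f hf)⟩
  have eR := (hR w w0).resolve_left cw.2
  have pick : ∀ U : Submodule F V, 2 ≤ finrank F U → ∃ x ∈ U, ∃ g, TV K g w ∧ g x ≠ 0 := fun U hU => by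
    obtain ⟨x, hx, hx'⟩ := ex_notin (A := F ∙ w) (B := U) (by rw [finrank_span_singleton w0]; omega)
    rw [← eR, mem_Rd] at hx'
    push Not at hx'
    exact ⟨x, hx, hx'⟩
  obtain ⟨x, ⟨fx, -⟩, g, hg, gx⟩ := pick _ (by have := ker2 f f; omega :
    2 ≤ finrank F (LinearMap.ker f ⊓ LinearMap.ker f : Submodule F V))
  obtain ⟨x', ⟨fx', gx'⟩, g', hg', gx''⟩ := pick _ (by have := ker2 f g; omega :
    2 ≤ finrank F (LinearMap.ker f ⊓ LinearMap.ker g : Submodule F V))
  replace fx : f x = 0 := fx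
  replace fx' : f x' = 0 := fx'
  replace gx' : g x' = 0 := gx'
  have M : ∀ h, f h ≠ 0 ∨ g h ≠ 0 → ∃ b, Cn K b ∧ f b = f h ∧ g b = g h ∧ g' b = g' h := fun h hh => by
    obtain ⟨u, ⟨u1, u2, u3⟩, hu⟩ := many (by omega) hI h2 ⟨w, cw⟩ (h := h) (by have := ker3 f g g'; omega :
      2 ≤ finrank F (LinearMap.ker f ⊓ (LinearMap.ker g ⊓ LinearMap.ker g') : Submodule F V))
      fun e => hh.elim (fun a => a e.1) fun a => a e.2.1
    exact ⟨_, hu, by rw [map_add, show f u = 0 from u1, zero_add],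
      by rw [map_add, show g u = 0 from u2, zero_add], by rw [map_add, show g' u = 0 from u3, zero_add]⟩
  -- `|C(w,f)| ≤ |C(w,g')|`
  obtain ⟨b, cb, b1, -, b3⟩ := M (x₀ - (g' x₀ / g' x') • x') (Or.inl (by simpa [fx'] using hx₀))
  have fb : f b ≠ 0 := by rw [b1]; simpa [fx'] using hx₀
  have gb : g' b = 0 := by rw [b3]; simp [gx'']
  have hle : {c : F | TV K (c • f) w}.ncard ≤ {c : F | TV K (c • g') w}.ncard := by
    obtain ⟨a, a0, ha⟩ := inc hR cb w0 gb
    exact le (mul_ne_zero (mul_ne_zero a0 one_ne_zero) fb) fun s hs =>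
      com (ha 1 (by rwa [one_smul])) hs hg'.1
  have hall : ∀ c : F, TV K (c • g') w := fun c => by
    by_cases c0 : c = 0
    · rw [c0, zero_smul]; exact TV.zero_left w
    obtain ⟨b', cb', b1', b2', b3'⟩ := M (x + ((c⁻¹ * g x - g' x) / g' x') • x') (Or.inr (by simpa [gx'] using gx))
    have e1 : f b' = 0 := by rw [b1']; simp [fx, fx']
    have e2 : g b' = g x := by rw [b2']; simp [gx']
    have e3 : g' b' = c⁻¹ * g x := by rw [b3']; simp [gx'']
    obtain ⟨a, a0, ha⟩ := inc hR cb' w0 e1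
    have h1 := ha 1 (by rwa [one_smul])
    obtain ⟨s, hs, e⟩ := surj (S := {c : F | TV K (c • g') w}) (T := {c : F | TV K (c • f) w})
      (mul_ne_zero (mul_ne_zero a0 one_ne_zero) (show g' b' ≠ 0 from e3 ▸ mul_ne_zero (inv_ne_zero c0) gx))
      (fun s hs => com h1 hs hf.1) hle (com (δ := 1) (g := g) h1 (by rwa [one_smul]) hf.1)
    rw [e2, e3] at e
    have : s = c := by field_simp at e; exact e
    exact this ▸ hs
  let U : Submodule F V :=
    { carrier := {v | g' v = 0 ∧ ∀ c : F, TV K (c • g') v}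
      zero_mem' := ⟨map_zero _, fun c => ⟨map_zero _, 1, K.one_mem, by simp⟩⟩
      add_mem' := fun h1 h2 => ⟨by rw [map_add, h1.1, h2.1, add_zero], fun c => (h1.2 c).add_right (h2.2 c)⟩
      smul_mem' := fun a v h => ⟨by rw [map_smul, h.1, smul_zero], fun c => by
        by_cases a0 : a = 0
        · rw [a0, zero_smul]; exact ⟨map_zero _, 1, K.one_mem, by simp⟩
        · exact (TV.smul_iff a0).1 (by rw [smul_smul]; exact h.2 _)⟩ }
  have hU : ∀ v, Cn K v → g' v = 0 → v ∈ U := fun v cv gv => ⟨gv, fun c => by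
    obtain ⟨a, a0, ha⟩ := inc hR cv w0 gv
    have := ha (a⁻¹ * c) (hall _)
    rwa [mul_inv_cancel_left₀ a0] at this⟩
  have U2 : 2 ≤ finrank F U := by
    rw [← line (F := F) w0 (h := b) fun e => by
      obtain ⟨a, ha⟩ := mem_span_singleton.1 e
      exact fb (by simp [← ha, hf.1])]
    exact Submodule.finrank_mono (sup_le ((span_singleton_le_iff_mem _ _).2 (hU w cw hg'.1))
      ((span_singleton_le_iff_mem _ _).2 (hU b cb gb)))
  refine tv_all hI (f := g') (fun e => gx'' (by rw [e]; rfl)) fun v gv => ?_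
  have hv : v ∈ U := by
    by_contra hv
    obtain ⟨u, hu, cu⟩ := many (by omega) hI h2 ⟨w, cw⟩ U2 hv
    exact hv ((U.add_mem_iff_right hu).1 (hU _ cu (by rw [map_add, hu.1, gv, add_zero])))
  simpa using hv.2 1

end CL.PL
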