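/-
Rank three actions of the linear groups: few axes.
-/
import Cfsg.Agent.CLAS.PL.Def
import Cfsg.Agent.CLAS.PL.Arc
import Cfsg.Agent.CLAS.PL.Hy

set_option autoImplicit false
set_option linter.unusedSectionVars false

namespace CL.PL

open Module Submodule
open scoped Pointwise

variable {F : Type*} [Field F] [Finite F] {V : Type*} [AddCommGroup V] [Module F V]
  [FiniteDimensional F V] {K : Subgroup (V ≃ₗ[F] V)}

/-- PROOF. If `v ∉ Rd K w` pick `g` with `TV K g w`, `g v ≠ 0`; `TV.com` shows `Rd K w ≤ Rd K v`, equal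
dimensions give equality. -/
theorem Rd_symm {v w : V} (hd : finrank F (Rd K v) = finrank F (Rd K w)) (h : w ∈ Rd K v) :
    v ∈ Rd K w := by
  by_contra hv
  rw [mem_Rd] at hv
  push Not at hv
  obtain ⟨g, hg, gv⟩ := hv
  have : Rd K w ≤ Rd K v := fun x hx f hf => by
    simpa [gv] using hx _ (hf.com hg (h f hf))
  exact gv ((Submodule.eq_of_le_of_finrank_eq this hd.symm).ge (self_mem_Rd v) g hg)

theorem Ib.dims {v : V} (hv : v ≠ 0) (h1 : Rd K v ≠ ⊤) (h3 : Rd K v ≠ F ∙ v) :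
    2 ≤ finrank F (Rd K v) ∧ finrank F (Rd K v) < finrank F V := by
  refine ⟨?_, Submodule.finrank_lt h1⟩
  have := Submodule.finrank_lt_finrank_of_lt
    (((span_singleton_le_iff_mem _ _).2 (self_mem_Rd (K := K) v)).lt_of_ne h3.symm)
  rwa [finrank_span_singleton hv] at this

/-- PROOF. `P` = the vectors `c • k v`, `R = Rd K`. Type A line: `L ≤ R p` for some `p ∈ P ∩ L`; type B:
`L ≰ R p` for some `p ∈ P ∩ L`. The types are `K`-invariant, disjoint (`Rd_symm`) and both occur, so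
by `Two` every line has one of them and contains `a` resp. `b` points of `P`. Suppose `y₀ ≠ 0` is not in
`P`. `b ≥ 2` (`P` spans `V`), `b ≤ q` (else the vectors outside `P` lie in `R v` and span a proper
invariant subspace). For a plane `π`, points `p ∈ P`, `y ∉ P` of `π` on `j` resp. `α` type A lines of
`π`: `1 + j(a-1) + (q+1-j)(b-1) = α a + (q+1-α) b`, i.e. `(α - j)(b - a) = q`; `j ∈ {0, 1, q+1}`
(`π ⊓ R p`). `b < a`: a plane with a type B line through `p` has `j = 1, α = 0, a = q + b > q + 1`.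
`b > a`: every line has a point outside `P`; if `dim R p ≥ 3` a plane in `R p` has `j = q+1 ≥ α`;
so `dim R p = 2`; a plane through `p` with `j = 0` has `α ≥ 1`, so it contains a type A line
`R p''`, for which `j'' = 1`, with the same `y, α`: contradiction. -/
theorem trans_of_Rd (hn : 4 ≤ finrank F V) (hI : Irr K) (h2 : Two K) {v : V} (hv : v ≠ 0)
    (h1 : Rd K v ≠ ⊤) (h3 : Rd K v ≠ F ∙ v) {y : V} (hy : y ≠ 0) :
    ∃ k ∈ K, ∃ c : F, y = c • k v := by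
  classical
  by_contra hy'
  have := Cnt.finV F V
  obtain ⟨d1, d2⟩ := Ib.dims hv h1 h3
  let P : V → Prop := fun x => ∃ k ∈ K, ∃ c : F, c ≠ 0 ∧ x = c • k v
  have ne0 : ∀ p, P p → p ≠ 0 := by
    rintro _ ⟨k, -, c, c0, rfl⟩
    simp [c0, hv]
  have h0 : ¬ P 0 := fun a => ne0 0 a rfl
  have hs1 : ∀ (c : F) x, c ≠ 0 → P x → P (c • x) := by
    rintro c _ hc ⟨k, hk, d, d0, rfl⟩
    exact ⟨k, hk, c * d, mul_ne_zero hc d0, smul_smul _ _ _⟩
  have hs : ∀ (c : F) x, c ≠ 0 → (P (c • x) ↔ P x) := fun c x hc =>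
    ⟨fun a => inv_smul_smul₀ hc x ▸ hs1 c⁻¹ _ (inv_ne_zero hc) a, hs1 c x hc⟩
  have hK1 : ∀ k ∈ K, ∀ x, P x → P (k x) := by
    rintro k hk _ ⟨l, hl, c, c0, rfl⟩
    exact ⟨k * l, K.mul_mem hk hl, c, c0, map_smul _ _ _⟩
  have hK : ∀ k ∈ K, ∀ x, P (k x) ↔ P x := fun k hk x =>
    ⟨fun a => by simpa using hK1 _ (K.inv_mem hk) _ a, hK1 k hk x⟩
  have Pv : P v := ⟨1, K.one_mem, 1, one_ne_zero, by simp⟩
  have hρ : ∀ p, P p → finrank F (Rd K p) = finrank F (Rd K v) := by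
    rintro _ ⟨k, hk, c, c0, rfl⟩
    rw [Rd_smul c0, Rd_apply hk, finrank_smul]
  have M := fun L hL => (meet hn hI h2 (S := {x | P x}) h0 hs hK ⟨v, Pv⟩
    ⟨y, hy, fun ⟨k, hk, c, _, e⟩ => hy' ⟨k, hk, c, e⟩⟩ (L := L) hL).2
  let tA : Submodule F V → Prop := fun L => ∃ p ∈ L, P p ∧ L ≤ Rd K p
  have tK : ∀ k ∈ K, ∀ L, tA L → tA (k • L) := fun k hk L ⟨p, a, b, c⟩ =>
    ⟨k p, apply_mem_smul.2 a, hK1 k hk p b, Rd_apply hk p ▸ smul_le_smul.2 c⟩
  have disj : ∀ L : Submodule F V, finrank F L = 2 → tA L → ∀ p ∈ L, P p → L ≤ Rd K p := by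
    rintro L hL ⟨p', a, b, c⟩ p hp hp'
    by_cases h : p' ∈ F ∙ p
    · obtain ⟨d, rfl⟩ := mem_span_singleton.1 h
      rwa [Rd_smul (left_ne_zero_of_smul (ne0 _ b))] at c
    · rw [← Cnt.hyp_eq (W := F ∙ p) ⟨(span_singleton_le_iff_mem _ _).2 hp, by
        rw [finrank_span_singleton (ne0 p hp'), hL]⟩ a h]
      exact Cnt.sup_le' ((span_singleton_le_iff_mem _ _).2 (self_mem_Rd p))
        (Rd_symm ((hρ _ b).trans (hρ _ hp').symm) (c hp))
  obtain ⟨x, hx, hx'⟩ := Cnt.ex_notin (A := F ∙ v) (B := Rd K v)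
    (by rw [finrank_span_singleton hv]; omega)
  obtain ⟨z, -, hz⟩ := Cnt.ex_notin (A := Rd K v) (B := ⊤) (by rwa [finrank_top])
  have vR := (span_singleton_le_iff_mem _ _).2 (self_mem_Rd (K := K) v)
  have hz' : z ∉ F ∙ v := fun e => hz (vR e)
  have vm : ∀ w, v ∈ (F ∙ v) ⊔ F ∙ w := fun w => mem_sup_left (mem_span_singleton_self v)
  obtain ⟨a, b, typ⟩ : ∃ a b, ∀ L : Submodule F V, finrank F L = 2 →
      (tA L ∧ {u | u ∈ L ∧ P u}.ncard = a) ∨ (¬ tA L ∧ {u | u ∈ L ∧ P u}.ncard = b) := by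
    have hA : tA ((F ∙ v) ⊔ F ∙ x) := ⟨v, vm x, Pv, Cnt.sup_le' vR hx⟩
    have hB : ¬ tA ((F ∙ v) ⊔ F ∙ z) := fun e =>
      hz (disj _ (Cnt.line hv hz') e v (vm z) Pv (Cnt.mem_sup_self _ z))
    refine ⟨{u | u ∈ (F ∙ v) ⊔ (F ∙ x) ∧ P u}.ncard, {u | u ∈ (F ∙ v) ⊔ (F ∙ z) ∧ P u}.ncard,
      fun L hL => ?_⟩
    rcases h2 _ _ L (Cnt.line hv hx') (Cnt.line hv hz') hL with
      ⟨k, hk, e⟩ | ⟨k, hk, rfl⟩ | ⟨k, hk, rfl⟩
    · exact absurd (e ▸ tK k hk _ hA) hB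
    · exact Or.inl ⟨tK k hk _ hA, Cnt.ncard_smul (hK k hk) _⟩
    · exact Or.inr ⟨fun e => hB (by simpa using tK _ (K.inv_mem hk) _ e), Cnt.ncard_smul (hK k hk) _⟩
  have q1 := Cnt.one_lt (F := F)
  obtain ⟨t, ht⟩ : ∃ t, Nat.card F = t + 2 := ⟨Nat.card F - 2, by omega⟩
  have dim : ∀ {p : V} {π A : Submodule F V}, p ≠ 0 → A ∈ Cnt.ov (F ∙ p) π → finrank F A = 2 :=
    fun p0 hA => by rw [← (Cnt.mem_ov.1 hA).1.2, finrank_span_singleton p0]
  have crd : ∀ {p : V} {π : Submodule F V}, p ≠ 0 → p ∈ π → finrank F π = 3 →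
      (Cnt.ov (F ∙ p) π).card = t + 3 := fun p0 hp hπ => by
    rw [Cnt.card_ov_two ((span_singleton_le_iff_mem _ _).2 hp)
      (by rw [finrank_span_singleton p0, hπ]), ht]
  have tyA : ∀ {p : V} {π A : Submodule F V}, P p → A ∈ Cnt.ov (F ∙ p) π → A ≤ Rd K p →
      {u | u ∈ A ∧ P u}.ncard = a := fun hp hA h => ((typ _ (dim (ne0 _ hp) hA)).resolve_right
    fun e => e.1 ⟨_, (Cnt.mem_ov.1 hA).1.1 (mem_span_singleton_self _), hp, h⟩).2
  have tyB : ∀ {p : V} {π A : Submodule F V}, P p → A ∈ Cnt.ov (F ∙ p) π → ¬ A ≤ Rd K p →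
      {u | u ∈ A ∧ P u}.ncard = b := fun hp hA h => ((typ _ (dim (ne0 _ hp) hA)).resolve_left
    fun e => h (disj _ (dim (ne0 _ hp) hA) e.1 _
      ((Cnt.mem_ov.1 hA).1.1 (mem_span_singleton_self _)) hp)).2
  have sp : ∀ {p : V} {π : Submodule F V}, P p → p ∈ π → finrank F π = 3 →
      {u | u ∈ π ∧ P u}.ncard + (t + 2) * (t + 1) =
        ∑ A ∈ Cnt.ov (F ∙ p) π, {u | u ∈ A ∧ P u}.ncard := fun hp h hπ => by
    have := Cnt.sum_pt h0 hs hp h
    rw [crd (ne0 _ hp) h hπ, ht, show t + 2 - 1 = t + 1 from rfl] at this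
    linarith
  have low : ∀ {π : Submodule F V} (m : ℕ), finrank F π = 3 →
      (∀ A ≤ π, finrank F A = 2 → m ≤ {u | u ∈ A ∧ P u}.ncard) →
      (t + 3) * m ≤ {u | u ∈ π ∧ P u}.ncard := fun {π} m hπ h => by
    obtain ⟨L, -, hL, hL2⟩ := Hy.between (W := ⊥) (A := π) (j := 2) bot_le (by simp) (by omega)
    obtain ⟨w, hw, w0, hw'⟩ := M L hL2
    rw [Cnt.sum_miss ((span_singleton_le_iff_mem _ _).2 (hL hw))
      (fun u hu => Cnt.pt_not h0 hs hw' hu), ← crd w0 (hL hw) hπ, ← smul_eq_mul]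
    exact Finset.card_nsmul_le_sum _ _ _ fun A hA => h A (Cnt.mem_ov.1 hA).2 (dim w0 hA)
  have X : ∀ {p : V} {π L : Submodule F V}, P p → finrank F π = 3 → finrank F L = 2 → p ∈ L →
      L ≤ π → L ≤ Rd K p → ¬ π ≤ Rd K p →
      {u | u ∈ π ∧ P u}.ncard + (t + 2) * (t + 1) = a + (t + 2) * b := by
    intro p π L hp hπ hL h3 h4 h5 h6
    have hm : L ∈ Cnt.ov (F ∙ p) π := Cnt.mem_ov.2 ⟨⟨(span_singleton_le_iff_mem _ _).2 h3, by
      rw [finrank_span_singleton (ne0 p hp), hL]⟩, h4⟩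
    rw [sp hp (h4 h3) hπ, ← Finset.add_sum_erase _ _ hm, tyA hp hm h5,
      Finset.sum_congr rfl (g := fun _ => b) fun A hA => ?_, Finset.sum_const,
      Finset.card_erase_of_mem hm, crd (ne0 p hp) (h4 h3) hπ]
    · rfl
    obtain ⟨n1, n2⟩ := Finset.mem_erase.1 hA
    refine tyB hp n2 fun e => h6 ?_
    obtain ⟨w, hw, hw'⟩ := SetLike.not_le_iff_exists.1 fun e' : A ≤ L =>
      n1 (Submodule.eq_of_le_of_finrank_eq e' (by rw [dim (ne0 p hp) n2, hL]))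
    rw [← Cnt.hyp_eq ⟨h4, by rw [hL, hπ]⟩ ((Cnt.mem_ov.1 n2).2 hw) hw']
    exact Cnt.sup_le' h5 (e hw)
  have one : ∀ {S : V → Prop}, ¬ S 0 → (∀ (c : F) x, c ≠ 0 → (S (c • x) ↔ S x)) →
      ∀ {p : V} {U : Submodule F V}, S p → p ∈ U → t + 1 ≤ {u | u ∈ U ∧ S u}.ncard :=
    fun h0 hs p U hp h => by
      rw [show t + 1 = Nat.card F - 1 by omega, ← Cnt.pt_of h0 hs hp]
      exact Set.ncard_le_ncard fun u hu => ⟨(span_singleton_le_iff_mem _ _).2 h hu.1, hu.2⟩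
  have LA := Cnt.line hv hx'
  have LR := Cnt.sup_le' vR hx
  have eA := ((typ _ LA).resolve_right fun e => e.1 ⟨v, vm x, Pv, LR⟩).2
  have eB := ((typ _ (Cnt.line hv hz')).resolve_left fun e =>
    hz (disj _ (Cnt.line hv hz') e.1 v (vm z) Pv (Cnt.mem_sup_self _ z))).2
  have hab : a < b := by
    by_contra! hab
    have hz2 : z ∉ (F ∙ v) ⊔ F ∙ x := fun e => hz (LR e)
    have dπ : finrank F (((F ∙ v) ⊔ F ∙ x) ⊔ F ∙ z : Submodule F V) = 3 := by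
      rw [← (Cnt.hyp_sup hz2).2, LA]
    have e1 := X Pv dπ LA (vm x) le_sup_left LR fun e => hz (e (Cnt.mem_sup_self _ z))
    have e2 := low b dπ fun A _ hA => by rcases typ A hA with h | h <;> omega
    have e3 := one h0 hs Pv (vm z)
    obtain ⟨w, hw, hw'⟩ := M _ LA
    have e4 := one (S := fun u => u ≠ 0 ∧ ¬ P u) (fun e => e.1 rfl)
      (fun c u hc => by rw [hs c u hc, smul_ne_zero_iff, and_iff_right hc]) hw' hw
    have e5 := Cnt.compl ((F ∙ v) ⊔ F ∙ x) h0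
    rw [eA, LA, ht] at e5
    nlinarith
  have ρ2 : finrank F (Rd K v) = 2 := by
    by_contra hne
    obtain ⟨π, h4, h5, hπ⟩ := Hy.between vR (j := 3) (by rw [finrank_span_singleton hv]; omega)
      (by omega)
    have vπ := h4 (mem_span_singleton_self v)
    have e1 := sp Pv vπ hπ
    rw [Finset.sum_congr rfl (g := fun _ => a) fun A hA => tyA Pv hA ((Cnt.mem_ov.1 hA).2.trans h5),
      Finset.sum_const, crd hv vπ hπ, smul_eq_mul] at e1
    have e2 := low a hπ fun A _ hA => by rcases typ A hA with h | h <;> omega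
    nlinarith
  obtain ⟨w, -, hw⟩ := Cnt.ex_notin (A := Rd K v ⊔ F ∙ z) (B := ⊤)
    (by rw [finrank_top, ← (Cnt.hyp_sup hz).2]; omega)
  have hw' : w ∉ (F ∙ v) ⊔ F ∙ z := fun e => hw (sup_le_sup_right vR _ e)
  have dπ : finrank F (((F ∙ v) ⊔ F ∙ z) ⊔ F ∙ w : Submodule F V) = 3 := by
    rw [← (Cnt.hyp_sup hw').2, Cnt.line hv hz']
  have vπ : v ∈ ((F ∙ v) ⊔ F ∙ z) ⊔ F ∙ w := mem_sup_left (vm z)
  have e1 := sp Pv vπ dπ
  rw [Finset.sum_congr rfl (g := fun _ => b) fun A hA => tyB Pv hA fun e => ?_,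
    Finset.sum_const, crd hv vπ dπ, smul_eq_mul] at e1
  · by_cases hA : ∃ A ≤ ((F ∙ v) ⊔ F ∙ z) ⊔ F ∙ w, finrank F A = 2 ∧ tA A
    · obtain ⟨A, h4, h5, p, h6, h7, h8⟩ := hA
      have := X h7 dπ h5 h6 h4 h8 fun e => by
        have := Submodule.finrank_mono e
        rw [hρ p h7] at this
        omega
      nlinarith
    · have := low b dπ fun A h4 h5 => ((typ A h5).resolve_left fun e => hA ⟨A, h4, h5, e.1⟩).2.ge
      nlinarith
  · have e2 := Submodule.eq_of_le_of_finrank_eq e ((dim hv hA).trans ρ2.symm)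
    have e3 : (Rd K v ⊔ F ∙ z) ⊔ (F ∙ w) ≤ ((F ∙ v) ⊔ F ∙ z) ⊔ F ∙ w :=
      sup_le (sup_le (e2 ▸ (Cnt.mem_ov.1 hA).2) (le_sup_right.trans le_sup_left)) le_sup_right
    have := Submodule.finrank_mono e3
    rw [← (Cnt.hyp_sup hw).2, ← (Cnt.hyp_sup hz).2] at this
    omega

/-- PROOF. All `R y` have the same dimension `ρ ≥ 2` (`trans_of_Rd`); suppose `ρ ≤ n - 2`. Take `f ≠ 0`
with `TV K f v`, `H = ker f`, `Cen = {y | ∃ c ≠ 0, TV K (c • f) y}`. If `y₀ ∈ Cen`, `y₀ ≠ 0`,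
`y ∈ H \ R y₀` then `y ∈ Cen` (`Rd_symm`, `TV.com`). If `0 ≠ z ∈ H \ Cen` then
`H \ R v ⊆ Cen ⊆ R z`, so `H ≤ R z`, impossible. So every axis of any point is an axis of all its
points; hence `0 ≠ z ∈ R y` gives `R z ≤ R y`, `R z = R y`. Take `y ∉ H`, `0 ≠ z ∈ R y ⊓ H`:
`y ∈ R z ≤ H`. -/
theorem hyp_of_Rd (hn : 4 ≤ finrank F V) (hI : Irr K) (h2 : Two K) {v : V} (hv : v ≠ 0)
    (h1 : Rd K v ≠ ⊤) (h3 : Rd K v ≠ F ∙ v) {y : V} (hy : y ≠ 0) :
    finrank F (Rd K y) + 1 = finrank F V := by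
  obtain ⟨d1, d2⟩ := Ib.dims hv h1 h3
  have hρ : ∀ x, x ≠ 0 → finrank F (Rd K x) = finrank F (Rd K v) := fun x hx => by
    obtain ⟨k, hk, c, rfl⟩ := trans_of_Rd hn hI h2 hv h1 h3 hx
    rw [Rd_smul (left_ne_zero_of_smul hx), Rd_apply hk, finrank_smul]
  have sy : ∀ {x w : V}, x ≠ 0 → w ≠ 0 → w ∈ Rd K x → x ∈ Rd K w := fun hx hw =>
    Rd_symm ((hρ _ hx).trans (hρ _ hw).symm)
  rw [hρ y hy]
  by_contra hne
  obtain ⟨w, -, hw⟩ := Cnt.ex_notin (A := Rd K v) (B := ⊤) (by rwa [finrank_top])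
  rw [mem_Rd] at hw
  push Not at hw
  obtain ⟨f, hf, fw⟩ := hw
  have dk := Module.Dual.finrank_ker_add_one_of_ne_zero (f := f) fun e => fw (by rw [e]; rfl)
  have st : ∀ (x u : V) (c : F), x ≠ 0 → c ≠ 0 → TV K (c • f) x → f u = 0 → u ∉ Rd K x →
      ∃ d : F, d ≠ 0 ∧ TV K (d • f) u := fun x u c x0 c0 h fu hu => by
    have := mt (sy (x := u) (fun e => hu (e ▸ zero_mem _)) x0) hu
    rw [mem_Rd] at this
    push Not at this
    obtain ⟨g, hg, gx⟩ := this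
    exact ⟨_, mul_ne_zero gx c0, smul_smul (g x) c f ▸ h.com hg (by simp [fu])⟩
  have w0 : w ≠ 0 := fun e => fw (by rw [e, map_zero])
  obtain ⟨z, ⟨hz, fz⟩, z0⟩ := Cnt.ex_notin (A := ⊥) (B := Rd K w ⊓ LinearMap.ker f) (by
    have := Hy.finrank_inf_ge (Rd K w) (LinearMap.ker f)
    rw [hρ w w0] at this
    rw [finrank_bot]
    omega)
  replace z0 : z ≠ 0 := by simpa using z0
  obtain ⟨c, c0, hc⟩ : ∃ c : F, c ≠ 0 ∧ TV K (c • f) z := by
    by_contra hz'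
    have key : ∀ u, f u = 0 → u ∉ Rd K v → u ∈ Rd K z := fun u fu hu => by
      have u0 : u ≠ 0 := fun e => hu (e ▸ zero_mem _)
      obtain ⟨d, d0, hd⟩ := st v u 1 hv one_ne_zero (by rwa [one_smul]) fu hu
      exact sy u0 z0 (by_contra fun e => hz' (st u z d u0 d0 hd fz e))
    obtain ⟨u, fu, hu⟩ := Cnt.ex_notin (A := Rd K v) (B := LinearMap.ker f) (by omega)
    obtain ⟨u', fu', hu'⟩ := Cnt.ex_notin (A := Rd K z) (B := LinearMap.ker f)
      (by rw [hρ z z0]; omega)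
    have h4 : u' ∈ Rd K v := by_contra fun e => hu' (key u' fu' e)
    exact hu' (((Rd K z).add_mem_iff_right (key u fu hu)).1
      (key _ (add_mem fu fu' : u + u' ∈ LinearMap.ker f) fun e =>
        hu (((Rd K v).add_mem_iff_left h4).1 e)))
  exact fw (by simpa [c0] using sy w0 z0 hz _ hc)

end CL.PL
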