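/-
Rank three actions of the linear groups: null polarities.
-/
import Cfsg.Agent.CLAS.PL.Def

set_option autoImplicit false
set_option linter.unusedSectionVars false
set_option linter.unusedSimpArgs false

namespace CL.PL

open Module Submodule
open scoped Pointwise

variable {F : Type*} [Field F] [Finite F] {V : Type*} [AddCommGroup V] [Module F V]
  [FiniteDimensional F V] {K : Subgroup (V ≃ₗ[F] V)}

omit [Finite F] in
/-- PROOF. Fix `u₀ ≠ 0`, `ker f₀ = H u₀`. For `f₀ v ≠ 0` (then `u₀ ∉ H v`) let `β v` be the functional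
with kernel `H v` and `β v u₀ = - f₀ v`. Antisymmetry `β v v' = - β v' v`: in the span of `u₀, v, v'`
write `v' = a u₀ + b v + c z` with `z ∈ H u₀ ⊓ H v` (then `u₀, v, z ∈ H z`, so `z ∈ H v'`);
`β v v' = -a f₀ v`, `β v' v = (a/b) f₀ v' = a f₀ v`. Choose a basis `wᵢ` with `f₀ wᵢ ≠ 0`,
`B x wᵢ = - β wᵢ x`; then `B v = β v` for `f₀ v ≠ 0`, `B` is antisymmetric on a spanning set, and for
`0 ≠ v ∈ H u₀`, `ker (B v)` and `H v` agree outside `H u₀`, hence are equal. -/
theorem exists_form (hn : 3 ≤ finrank F V) (H : V → Submodule F V)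
    (hd : ∀ x, x ≠ 0 → finrank F (H x) + 1 = finrank F V) (hs : ∀ x, x ∈ H x)
    (hy : ∀ x y, x ≠ 0 → y ≠ 0 → y ∈ H x → x ∈ H y) :
    ∃ B : V →ₗ[F] V →ₗ[F] F, ∀ x, x ≠ 0 → LinearMap.ker (B x) = H x := by
  classical
  have hφ : ∀ x : V, ∃ φ : Dual F V, x ≠ 0 → LinearMap.ker φ = H x := by
    intro x
    by_cases hx : x = 0
    · exact ⟨0, fun h => absurd hx h⟩
    have h1 := hd x hx
    obtain ⟨φ, h2, h3⟩ := Submodule.exists_dual_map_eq_bot_of_lt_top (p := H x)
      (lt_top_iff_ne_top.2 fun h => by rw [h, finrank_top] at h1; omega) inferInstance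
    have h4 := Module.Dual.finrank_ker_add_one_of_ne_zero h2
    exact ⟨φ, fun _ => (Submodule.eq_of_le_of_finrank_eq (LinearMap.le_ker_iff_map.2 h3)
      (by omega)).symm⟩
  choose φ hφ using hφ
  have hm : ∀ x y, x ≠ 0 → (φ x y = 0 ↔ y ∈ H x) := fun x y hx => by rw [← hφ x hx]; rfl
  have hy' : ∀ x y, x ≠ 0 → y ≠ 0 → (y ∈ H x ↔ x ∈ H y) := fun x y h1 h2 =>
    ⟨hy x y h1 h2, hy y x h2 h1⟩
  have : Nontrivial V := Module.nontrivial_of_finrank_pos (R := F) (by omega)
  obtain ⟨u, hu⟩ := exists_ne (0 : V)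
  obtain ⟨f, hf⟩ : ∃ f : Dual F V, ∀ y, f y = 0 ↔ y ∈ H u := ⟨φ u, fun y => hm u y hu⟩
  have hne : ∀ v, f v ≠ 0 → v ≠ 0 := fun v h e => h (e ▸ f.map_zero)
  have hfu : f u = 0 := (hf u).2 (hs u)
  obtain ⟨β, hβ, hβu⟩ : ∃ β : V → Dual F V, (∀ v, f v ≠ 0 → ∀ y, β v y = 0 ↔ y ∈ H v) ∧
      ∀ v, f v ≠ 0 → β v u = -f v := by
    have h1 : ∀ v, f v ≠ 0 → φ v u ≠ 0 := fun v hv e =>
      hv ((hf v).2 (hy v u (hne v hv) hu ((hm v u (hne v hv)).1 e)))
    refine ⟨fun v => (-f v / φ v u) • φ v, fun v hv y => ?_, fun v hv => ?_⟩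
    · rw [← hm v y (hne v hv)]
      simp [hv, h1 v hv]
    · simp [h1 v hv]
  have anti : ∀ v v', f v ≠ 0 → f v' ≠ 0 → β v v' = -β v' v := by
    intro v v' hv hv'
    have h0 := (hβ v hv v).2 (hs v)
    have h0' := (hβ v' hv' v').2 (hs v')
    obtain ⟨z, hz⟩ : ∃ z, v' = (-β v v' / f v) • u + (f v' / f v) • v + z :=
      ⟨v' - ((-β v v' / f v) • u + (f v' / f v) • v), by abel⟩
    have h1 := congrArg f hz
    have h2 := congrArg (β v) hz
    have h3 := congrArg (β v') hz
    simp only [map_add, map_smul, smul_eq_mul, hfu, h0, hβu v hv, hβu v' hv'] at h1 h2 h3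
    have h4 : f z = 0 := by
      field_simp at h1
      exact (mul_eq_zero.1 (show f v * f z = 0 by linear_combination -h1)).resolve_left hv
    have h5 : β v z = 0 := by
      field_simp at h2
      exact (mul_eq_zero.1 (show f v * β v z = 0 by linear_combination -h2)).resolve_left hv
    have h6 : β v' z = 0 := by
      by_cases hz0 : z = 0
      · rw [hz0, map_zero]
      refine (hβ v' hv' z).2 (hy z v' hz0 (hne v' hv') ?_)
      rw [hz]
      exact add_mem (add_mem (smul_mem _ _ (hy u z hu hz0 ((hf z).1 h4)))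
        (smul_mem _ _ (hy v z (hne v hv) hz0 ((hβ v hv z).1 h5)))) (hs z)
    rw [h6, h0'] at h3
    field_simp at h3
    exact mul_left_cancel₀ hv' (by linear_combination -h3)
  obtain ⟨w, hw⟩ : ∃ w, f w ≠ 0 := by
    by_contra hn'
    push Not at hn'
    have h1 := hd u hu
    rw [Submodule.eq_top_iff'.2 fun y => (hf y).1 (hn' y), finrank_top] at h1
    omega
  have ext' : ∀ a b : Dual F V, (∀ v, f v ≠ 0 → a v = b v) → a = b := by
    intro a b h
    ext x
    by_cases hx : f x = 0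
    · have := h (x + w) (by simpa [hx] using hw)
      rwa [map_add, map_add, h w hw, add_left_inj] at this
    · exact h x hx
  obtain ⟨γ, hγ⟩ : ∃ γ : V → Dual F V, ∀ y v, f v ≠ 0 → γ y v = -β v y := by
    refine ⟨fun y => if f y = 0 then β (y + w) - β w else β y, fun y v hv => ?_⟩
    by_cases h : f y = 0
    · simp only [h, if_true, LinearMap.sub_apply]
      rw [anti (y + w) v (by simpa [h] using hw) hv, anti w v hw hv, map_add]
      ring
    · simp only [h, if_false]
      exact anti y v h hv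
  refine ⟨⟨⟨γ, fun a b => ext' _ _ fun v hv => ?_⟩, fun c a => ext' _ _ fun v hv => ?_⟩,
    fun y hy0 => ?_⟩
  · simp only [hγ _ v hv, LinearMap.add_apply, map_add]
    ring
  · simp [hγ _ v hv]
  change LinearMap.ker (γ y) = H y
  have h1 : ∀ v, f v ≠ 0 → (γ y v = 0 ↔ v ∈ H y) := fun v hv => by
    rw [hγ y v hv, neg_eq_zero, hβ v hv, hy' v y (hne v hv) hy0]
  have h2 := hd y hy0
  obtain ⟨x, hx⟩ : ∃ x, x ∉ H y := by
    by_contra hn'
    push Not at hn'
    rw [Submodule.eq_top_iff'.2 hn', finrank_top] at h2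
    omega
  by_cases h3 : ∃ v ∈ H y, f v ≠ 0
  · obtain ⟨v, hv, hv'⟩ := h3
    have h4 : γ y ≠ 0 := fun e => by
      by_cases h : f x = 0
      · exact hx ((add_mem_cancel_right hv).1 ((h1 (x + v) (by simpa [h] using hv')).1
          (by rw [e]; rfl)))
      · exact hx ((h1 x h).1 (by rw [e]; rfl))
    have h5 := Module.Dual.finrank_ker_add_one_of_ne_zero h4
    refine (Submodule.eq_of_le_of_finrank_eq (fun a ha => ?_) (by omega)).symm
    by_cases h : f a = 0
    · have := (h1 (a + v) (by simpa [h] using hv')).2 (add_mem ha hv)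
      rwa [map_add, (h1 v hv').2 hv, add_zero] at this
    · exact (h1 a h).2 ha
  · push Not at h3
    have h4 : H y = H u := Submodule.eq_of_le_of_finrank_eq (fun a ha => (hf a).1 (h3 a ha))
      (by have := hd u hu; omega)
    have h5 : γ y ≠ 0 := fun e => hw (h3 w ((h1 w hw).1 (by rw [e]; rfl)))
    have h6 := Module.Dual.finrank_ker_add_one_of_ne_zero h5
    refine Submodule.eq_of_le_of_finrank_eq (fun a ha => ?_) (by omega)
    by_cases h : f a = 0
    · exact h4 ▸ (hf a).1 h
    · exact (h1 a h).1 ha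

namespace NP

theorem ex4 (hn : 5 ≤ finrank F V) (a b c d : Dual F V) :
    ∃ x, x ≠ 0 ∧ a x = 0 ∧ b x = 0 ∧ c x = 0 ∧ d x = 0 := by
  have h := LinearMap.finrank_range_add_finrank_ker ((a.prod b).prod (c.prod d))
  have h1 := Submodule.finrank_le (LinearMap.range ((a.prod b).prod (c.prod d)))
  simp only [Module.finrank_prod, finrank_self] at h1
  obtain ⟨x, hx, h0⟩ := Submodule.exists_mem_ne_zero_of_ne_bot
    (p := LinearMap.ker ((a.prod b).prod (c.prod d))) fun e => by
      rw [e, finrank_bot] at h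
      omega
  exact ⟨x, h0, congrArg (·.1.1) hx, congrArg (·.1.2) hx, congrArg (·.2.1) hx, congrArg (·.2.2) hx⟩

/-- The invariants of the double cosets. -/
def PP (B : V →ₗ[F] V →ₗ[F] F) (i : ℕ) (g : V ≃ₗ[F] V) : Prop :=
  ∃ (S : Module.End F V) (c : F), (∀ x y, B (S x) y + c * B x y = B (g x) (g y)) ∧ S ^ i = 0

variable {B : V →ₗ[F] V →ₗ[F] F}

theorem PP.mul {i : ℕ} {g k k' : V ≃ₗ[F] V} (h : PP B i g) {a a' : F}
    (hk : ∀ x y, B (k x) (k y) = a * B x y) (hk' : ∀ x y, B (k'⁻¹ x) y = a' * B x (k' y))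
    (hk'' : ∀ x y, B x y = a' * B (k' x) (k' y)) (ha : a' ≠ 0) : PP B i (k * g * k') := by
  obtain ⟨S, c, h1, h2⟩ := h
  refine ⟨(a / a') • ((k'⁻¹ : V ≃ₗ[F] V).toLinearMap ∘ₗ S ∘ₗ k'.toLinearMap), a / a' * c,
    fun x y => ?_, ?_⟩
  · simp only [LinearEquiv.mul_apply, hk, ← h1, LinearMap.smul_apply, LinearMap.comp_apply,
      LinearEquiv.coe_coe, map_smul, smul_eq_mul, hk']
    rw [hk'' x y]
    field_simp
  · have : ∀ (n : ℕ) x, (((k'⁻¹ : V ≃ₗ[F] V).toLinearMap ∘ₗ S ∘ₗ k'.toLinearMap) ^ n) x =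
        k'⁻¹ ((S ^ n) (k' x)) := by
      intro n
      induction n with
      | zero => simp
      | succ n ih => intro x; simp [pow_succ, ih]
    rw [smul_pow]
    ext x
    simp [this, h2]

end NP

open NP

/-- PROOF. `B` from `exists_form` is alternating and non-degenerate; `k ∈ K` gives
`B (k x) (k y) = λ B x y` (`B (k x) (k ·)` and `B x` have the same kernel, a linear map all of whose
vectors are eigenvectors is scalar). Define `T g` by `B (g x) (g y) = B (T g x) y`; then
`T (k g k') = μ k'⁻¹ (T g) k'`, so `Pᵢ g = ∃ λ, (T g - λ)^i = 0` (`i = 1,2,3`) are invariants of double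
cosets. Choose hyperbolic pairs `eₐ, fₐ` (`a = 1,2,3`, mutually perpendicular; `n ≥ 5`),
`N_ab x = B x f_b • eₐ`; for `g = 1 + N` (`N` a combination of the `N_ab`), `T g = 1 + N + N†` with
`N† y = ∑ n_ab B eₐ y • f_b`, so `T g = g` on `⟨e₁,e₂,e₃⟩`. `g₁ = 1 + N₁₂` (`P₂`, not `P₁`),
`g₂ = (1 + N₁₂)(1 + N₂₃)` (`P₃`, not `P₂`), `g₃ = (1 - N₁₂)(1 + N₂₁)` (not `P₃`: `e₃` forces `λ = 1`, and
`N³ e₁ = e₁`); `R3.false_of_inv`. -/
theorem R3.null_false (h : R3 K) (H : V → Submodule F V)
    (hd : ∀ x, x ≠ 0 → finrank F (H x) + 1 = finrank F V) (hs : ∀ x, x ∈ H x)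
    (hy : ∀ x y, x ≠ 0 → y ≠ 0 → y ∈ H x → x ∈ H y)
    (hK : ∀ k ∈ K, ∀ x, H (k x) = k • H x) : False := by
  have hn := h.dim
  obtain ⟨B, hB⟩ := exists_form (by omega) H hd hs hy
  have alt : ∀ x, B x x = 0 := fun x => by
    by_cases hx : x = 0
    · simp [hx]
    · exact LinearMap.mem_ker.1 (hB x hx ▸ hs x)
  have sk : ∀ x y, B x y = -B y x := fun x y => by
    have := alt (x + y)
    simp only [map_add, LinearMap.add_apply, alt] at this
    linear_combination this
  have nd : ∀ x, x ≠ 0 → ∃ y, B x y = 1 := fun x hx => by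
    obtain ⟨y, hy⟩ : ∃ y, B x y ≠ 0 := by
      by_contra hn'
      push Not at hn'
      have h1 := hd x hx
      rw [← hB x hx, Submodule.eq_top_iff'.2 (show ∀ y, y ∈ LinearMap.ker (B x) from hn'),
        finrank_top] at h1
      omega
    exact ⟨(B x y)⁻¹ • y, by simp [hy]⟩
  have inj : ∀ x z, (∀ y, B x y = B z y) → x = z := fun x z e => by
    by_contra hne
    obtain ⟨y, hy⟩ := nd _ (sub_ne_zero.2 hne)
    simp [e] at hy
  have sim : ∀ k ∈ K, ∃ a : F, ∀ x y, B (k x) (k y) = a * B x y := by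
    intro k hk
    have hi : Function.Injective B := fun x z e => inj x z fun y => by rw [e]
    let D : V ≃ₗ[F] Dual F V := LinearEquiv.ofBijective B ⟨hi,
      (LinearMap.injective_iff_surjective_of_finrank_eq_finrank
        Subspace.dual_finrank_eq.symm).1 hi⟩
    let T : V →ₗ[F] V := D.symm.toLinearMap ∘ₗ k.toLinearMap.dualMap ∘ₗ B ∘ₗ k.toLinearMap
    have hT : ∀ x y, B (T x) y = B (k x) (k y) := fun x y =>
      LinearMap.congr_fun (D.apply_symm_apply (k.toLinearMap.dualMap (B (k x)))) y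
    obtain ⟨a, ha⟩ := T.exists_eq_smul_id_of_forall_notLinearIndependent fun x => by
      by_cases hx : x = 0
      · simp [hx, linearIndependent_fin2]
      rw [LinearIndependent.pair_iff' hx]
      push Not
      obtain ⟨w, hw⟩ := nd x hx
      refine ⟨B (k x) (k w), inj _ _ fun y => ?_⟩
      have h1 : y - B x y • w ∈ H x := by
        rw [← hB x hx]
        simp [hw]
      have h2 : k (y - B x y • w) ∈ LinearMap.ker (B (k x)) := by
        rw [hB _ (by simpa using hx), hK k hk]
        exact apply_mem_smul.2 h1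
      rw [hT]
      simp only [LinearMap.mem_ker, map_sub, map_smul, smul_eq_mul, LinearMap.smul_apply] at h2 ⊢
      linear_combination -h2
    exact ⟨a, fun x y => by rw [← hT, ha]; simp⟩
  have : Nontrivial V := Module.nontrivial_of_finrank_pos (R := F) (by omega)
  obtain ⟨e₁, n1⟩ := exists_ne (0 : V)
  obtain ⟨f₁, a11⟩ := nd e₁ n1
  have inv : ∀ i g, ∀ k ∈ K, ∀ k' ∈ K, PP B i g → PP B i (k * g * k') := by
    intro i g k hk k' hk' hP
    obtain ⟨a, ha⟩ := sim k hk
    obtain ⟨a', ha'⟩ := sim k'⁻¹ (K.inv_mem hk')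
    refine hP.mul (a' := a') ha (fun x y => by rw [← ha']; simp) (fun x y => by rw [← ha']; simp)
      fun e => ?_
    have := ha' (k' e₁) (k' f₁)
    simp [e, a11] at this
  obtain ⟨e₂, n2, b12, c12, -⟩ := ex4 hn (B e₁) (B f₁) 0 0
  have b21 : B e₂ e₁ = 0 := by rw [sk, b12, neg_zero]
  have a21 : B e₂ f₁ = 0 := by rw [sk, c12, neg_zero]
  have c11 : B f₁ e₁ = -1 := by rw [sk, a11]
  obtain ⟨f₂, a22, a12, d12⟩ : ∃ f₂, B e₂ f₂ = 1 ∧ B e₁ f₂ = 0 ∧ B f₁ f₂ = 0 := by
    obtain ⟨y, hy⟩ := nd e₂ n2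
    exact ⟨y - B e₁ y • f₁ + B f₁ y • e₁, by simp [hy, b21, a21], by simp [alt, a11],
      by simp [alt, c11]⟩
  have c22 : B f₂ e₂ = -1 := by rw [sk, a22]
  have c21 : B f₂ e₁ = 0 := by rw [sk, a12, neg_zero]
  have d21 : B f₂ f₁ = 0 := by rw [sk, d12, neg_zero]
  obtain ⟨e₃, n3, b13, c13, b23, c23⟩ := ex4 hn (B e₁) (B f₁) (B e₂) (B f₂)
  have b31 : B e₃ e₁ = 0 := by rw [sk, b13, neg_zero]
  have b32 : B e₃ e₂ = 0 := by rw [sk, b23, neg_zero]
  have a31 : B e₃ f₁ = 0 := by rw [sk, c13, neg_zero]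
  have a32 : B e₃ f₂ = 0 := by rw [sk, c23, neg_zero]
  obtain ⟨f₃, a33, a13, a23, d23⟩ :
      ∃ f₃, B e₃ f₃ = 1 ∧ B e₁ f₃ = 0 ∧ B e₂ f₃ = 0 ∧ B f₂ f₃ = 0 := by
    obtain ⟨y, hy⟩ := nd e₃ n3
    exact ⟨y - B e₁ y • f₁ + B f₁ y • e₁ - B e₂ y • f₂ + B f₂ y • e₂,
      by simp [hy, b31, b32, a31, a32], by simp [alt, a11, a12, b12],
      by simp [alt, a22, a21, b21], by simp [alt, c22, c21, d21]⟩
  have d32 : B f₃ f₂ = 0 := by rw [sk, d23, neg_zero]
  have t12 : B.flip f₂ e₁ = 0 := a12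
  have t12' : (-B.flip f₂) e₁ = 0 := by simp [a12]
  have t23 : B.flip f₃ e₂ = 0 := a23
  have t21 : B.flip f₁ e₂ = 0 := a21
  have one : ∀ i, 0 < i → PP B i 1 := fun i hi => ⟨0, 1, by simp, zero_pow hi.ne'⟩
  have sq : ∀ {c : F} {i : ℕ} {S : Module.End F V} {x : V}, x ≠ 0 → S x = (1 - c) • x → S ^ i = 0 →
      c = 1 := by
    intro c i S x hx h1 h2
    have h3 : ∀ n : ℕ, (S ^ n) x = (1 - c) ^ n • x := fun n => by
      induction n with
      | zero => simp
      | succ n ih => rw [pow_succ', Module.End.mul_apply, ih, map_smul, h1, smul_smul, pow_succ]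
    have h4 := h3 i
    rw [h2] at h4
    exact (sub_eq_zero.1 (eq_zero_of_pow_eq_zero ((smul_eq_zero.1 h4.symm).resolve_right hx))).symm
  have p1 : ¬ PP B 1 (LinearEquiv.transvection t12) := by
    rintro ⟨S, c, h1, h2⟩
    rw [pow_one] at h2
    have h4 := h1 e₂ f₁
    simp only [h2, LinearEquiv.transvection.apply, LinearMap.flip_apply, map_add, map_smul,
      LinearMap.add_apply, LinearMap.smul_apply, LinearMap.zero_apply, map_zero, smul_eq_mul, a11,
      a21, a22, d12] at h4
    simp at h4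
  have p2 : PP B 2 (LinearEquiv.transvection t12) := by
    refine ⟨(B.flip f₂).smulRight e₁ + (B e₁).smulRight f₂, 1, fun x y => ?_, ?_⟩
    · simp only [LinearEquiv.transvection.apply, LinearMap.add_apply, LinearMap.smulRight_apply,
        LinearMap.flip_apply, map_add, map_smul, LinearMap.smul_apply, smul_eq_mul, alt]
      rw [sk x e₁, sk f₂ y]
      ring
    · ext x
      simp [pow_two, alt, a12]
  have p3 : PP B 3 (LinearEquiv.transvection t12) :=
    let ⟨S, c, h1, h2⟩ := p2
    ⟨S, c, h1, by rw [pow_succ, h2, zero_mul]⟩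
  have q2 : ¬ PP B 2 (LinearEquiv.transvection t12 * LinearEquiv.transvection t23) := by
    rintro ⟨S, c, h1, h2⟩
    have s1 : S e₁ = (1 - c) • e₁ := inj _ _ fun y => by
      have := h1 e₁ y
      simp only [LinearEquiv.mul_apply, LinearEquiv.transvection.apply, LinearMap.flip_apply,
        LinearMap.neg_apply, map_add, map_smul, map_sub, map_neg, LinearMap.add_apply,
        LinearMap.sub_apply, LinearMap.smul_apply, smul_eq_mul, alt, a12, a13, b12] at this ⊢
      linear_combination this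
    obtain rfl := sq n1 s1 h2
    have s2 : S e₂ = e₁ := inj _ _ fun y => by
      have := h1 e₂ y
      simp only [LinearEquiv.mul_apply, LinearEquiv.transvection.apply, LinearMap.flip_apply,
        LinearMap.neg_apply, map_add, map_smul, map_sub, map_neg, LinearMap.add_apply,
        LinearMap.sub_apply, LinearMap.smul_apply, smul_eq_mul, alt, a22, a23, b12, b21] at this ⊢
      linear_combination this
    have s3 : S e₃ = e₂ + e₁ := inj _ _ fun y => by
      have := h1 e₃ y
      simp only [LinearEquiv.mul_apply, LinearEquiv.transvection.apply, LinearMap.flip_apply,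
        LinearMap.neg_apply, map_add, map_smul, map_sub, map_neg, LinearMap.add_apply,
        LinearMap.sub_apply, LinearMap.smul_apply, smul_eq_mul, alt, a22, a32, a33, b12, b21, b31, b32] at this ⊢
      linear_combination this
    have h3 := LinearMap.congr_fun h2 e₃
    simp [pow_two, s1, s2, s3, n1] at h3
  have q3 : PP B 3 (LinearEquiv.transvection t12 * LinearEquiv.transvection t23) := by
    refine ⟨(B.flip f₂).smulRight e₁ + (B.flip f₃).smulRight (e₂ + e₁) +
      (B e₁).smulRight (f₂ + f₃) + (B e₂).smulRight f₃, 1, fun x y => ?_, ?_⟩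
    · simp only [LinearEquiv.transvection.apply, LinearMap.add_apply, LinearMap.smulRight_apply,
        LinearMap.flip_apply, map_add, map_smul, LinearMap.smul_apply, smul_eq_mul, alt,
        LinearEquiv.mul_apply, a22, b12, b21]
      rw [sk x e₁, sk x e₂, sk f₂ y, sk f₃ y]
      ring
    · ext x
      simp [pow_succ, alt, a12, a13, a22, a23, b12, b21, d23, d32]
  have r3 : ¬ PP B 3 (LinearEquiv.transvection t12' * LinearEquiv.transvection t21) := by
    rintro ⟨S, c, h1, h2⟩
    have s3 : S e₃ = (1 - c) • e₃ := inj _ _ fun y => by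
      have := h1 e₃ y
      simp only [LinearEquiv.mul_apply, LinearEquiv.transvection.apply, LinearMap.flip_apply,
        LinearMap.neg_apply, map_add, map_smul, map_sub, map_neg, LinearMap.add_apply,
        LinearMap.sub_apply, LinearMap.smul_apply, smul_eq_mul, alt, a31, a32, b31, b32] at this ⊢
      linear_combination this
    obtain rfl := sq n3 s3 h2
    have s1 : S e₁ = e₂ - e₁ := inj _ _ fun y => by
      have := h1 e₁ y
      simp only [LinearEquiv.mul_apply, LinearEquiv.transvection.apply, LinearMap.flip_apply,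
        LinearMap.neg_apply, map_add, map_smul, map_sub, map_neg, LinearMap.add_apply,
        LinearMap.sub_apply, LinearMap.smul_apply, smul_eq_mul, alt, a11, a12, a22, b12, b21] at this ⊢
      linear_combination this
    have s2 : S e₂ = -e₁ := inj _ _ fun y => by
      have := h1 e₂ y
      simp only [LinearEquiv.mul_apply, LinearEquiv.transvection.apply, LinearMap.flip_apply,
        LinearMap.neg_apply, map_add, map_smul, map_sub, map_neg, LinearMap.add_apply,
        LinearMap.sub_apply, LinearMap.smul_apply, smul_eq_mul, alt, a21, a22, b12, b21] at this ⊢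
      linear_combination this
    have h3 := LinearMap.congr_fun h2 e₁
    simp only [pow_succ, pow_zero, one_mul, Module.End.mul_apply, s1, s2, map_sub, map_neg,
      LinearMap.zero_apply] at h3
    exact n1 (by rw [← h3]; abel)
  refine h.false_of_inv (fun g => (PP B 1 g, PP B 2 g, PP B 3 g)) (fun g k hk k' hk' => ?_)
    (transvection_mem_G0 t12) (mul_mem (transvection_mem_G0 t12) (transvection_mem_G0 t23))
    (mul_mem (transvection_mem_G0 t12') (transvection_mem_G0 t21))
    (by simp [p1, one]) (by simp [q2, one]) (by simp [r3, one]) (by simp [p2, q2])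
    (by simp [p3, r3]) (by simp [q3, r3])
  have key : ∀ i, PP B i (k * g * k') = PP B i g := fun i => propext ⟨fun hP => by
    simpa [mul_assoc] using inv i _ _ (K.inv_mem hk) _ (K.inv_mem hk') hP, inv i g k hk k' hk'⟩
  simp only [key]

end CL.PL
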