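/-
Rank three actions of the linear groups: the theorem.
-/
import Cfsg.Agent.CLAS.PL.AS
import Cfsg.Agent.CLAS.PL.AP
import Cfsg.Agent.CLAS.PL.B2
import Cfsg.Agent.CLAS.PL.B3
import Cfsg.Agent.CLAS.PL.C2
import Cfsg.Agent.CLAS.PL.C3
import Cfsg.Agent.CLAS.PL.Ia
import Cfsg.Agent.CLAS.PL.Ib
import Cfsg.Agent.CLAS.PL.NP

set_option autoImplicit false

namespace CL.PL

open Module Submodule
open scoped Pointwise

variable {F : Type*} [Field F] [Finite F] {V : Type*} [AddCommGroup V] [Module F V]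
  [FiniteDimensional F V] {K : Subgroup (V ≃ₗ[F] V)}

theorem R3.subTr (h : R3 K) (hT : TF K) {j : ℕ} (hj : 2 ≤ j) (hn : j + 3 ≤ finrank F V)
    (hTr : Tr K (j - 1)) : SubTr K j := by
  by_contra hs
  obtain ⟨red, tc, st⟩ := exists_tc h hT (by omega) hn hTr hs
  have key : ∀ A : Submodule F V, finrank F A = j → Full K A →
      (∀ y ∉ A, ∀ y' ∉ A, ∃ k ∈ fixS K A, k y - y' ∈ A) → 3 ≤ j ∨ finrank F V = 5 → False :=
    fun A hA hF ht H => per_star (d := finrank F V - j) (by omega) (by omega) (by omega) hF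
      (by
        rcases H with H | H
        · exact Or.inl (by omega)
        · exact Or.inr (Or.inr (by rw [show finrank F V - j = 3 by omega]; decide))) ht hT
  rcases st with st | pt
  · obtain ⟨A, hA, hF, ht⟩ := tc.of_ST st hj (by omega)
    by_cases H : 3 ≤ j ∨ finrank F V = 5
    · exact key A hA hF ht H
    · obtain rfl : j = 2 := by omega
      exact tc.spread h hT st (by have := h.dim; omega)
  · obtain ⟨A, hA, hF, ht⟩ := tc.of_PT pt hj (by omega)
    by_cases H : 3 ≤ j
    · exact key A hA hF ht (Or.inl H)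
    · obtain rfl : j = 2 := by omega
      exact tc.not_tf h pt hT

theorem R3.not_tf (h : R3 K) (hI : Irr K) : ¬ TF K := by
  intro hT
  have hn := h.dim
  have s1 : SubTr K 1 := by
    by_contra hs
    obtain ⟨red, tc, st⟩ := exists_tc h hT le_rfl (by omega) tr_zero hs
    exact tc.not_irr st hI
  have t1 : Tr K 1 := by
    obtain ⟨S, -, hS⟩ := exists_le_finrank (⊥ : Submodule F V) (j := 1) (by simp) (by omega)
    refine tr_of_full s1 hS fun g hg => ?_
    obtain ⟨v, hv, hv'⟩ := finrank_eq_one_iff'.1 hS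
    obtain ⟨c, hc⟩ := hv' ⟨g v, hg.le (apply_mem_smul.2 v.2)⟩
    have hc' : c • (v : V) = g v := congrArg Subtype.val hc
    obtain ⟨k, hk, e⟩ := h.sc c (by
      rintro rfl
      exact hv (Subtype.ext (by simpa using hc'.symm)))
    refine ⟨k, hk, fun s hs => ?_⟩
    obtain ⟨d, hd⟩ := hv' ⟨s, hs⟩
    have hd' : d • (v : V) = s := congrArg Subtype.val hd
    rw [← hd', e, map_smul, ← hc', smul_comm]
  have t2 : Tr K 2 := by
    refine tr_two h hT t1 ?_
    by_contra hf
    obtain ⟨i, z, hi, oc⟩ := exists_oc h hT le_rfl (by omega) t1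
      (h.subTr hT le_rfl (by omega) t1) hf
    obtain rfl : i = 1 := by omega
    exact oc.false_two h hT
  have f3 : FlagTr K 3 := by
    by_contra hf
    have s3 : SubTr K 3 := by
      by_cases h5 : finrank F V = 5
      · by_contra hs
        obtain ⟨S, -, hS⟩ := exists_le_finrank (⊥ : Submodule F V) (j := 3) (by simp) (by omega)
        exact not_tf_of_full_five h5 t2 hS (ag_of_not_subTr h hT (by omega) t2 hs hS) hT
      · exact h.subTr hT (by omega) (by omega) t2
    obtain ⟨i, z, hi, oc⟩ := exists_oc h hT (by omega) (by omega) t2 s3 hf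
    exact oc.false_three h hT hi
  by_cases hq : 2 < Nat.card F ∨ Odd (finrank F V)
  · exact not_tf_of_flag_three hn t2 f3 hq hT
  rw [not_or, Nat.not_odd_iff_even] at hq
  have hq2 : Nat.card F = 2 := by
    have := Finite.one_lt_card (α := F)
    omega
  have t3 := tr_three hq2 hn t2 f3
  by_cases h6 : finrank F V = 6
  · exact not_tf_six hq2 h6 t3 hT
  have h8 : 8 ≤ finrank F V := by
    obtain ⟨m, hm⟩ := hq.2
    omega
  refine not_tf_of_flag_four hq.2 h8 t3 ?_ hT
  by_contra hf
  obtain ⟨i, z, hi, oc⟩ := exists_oc h hT (by omega) (by omega) t3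
    (h.subTr hT (by omega) (by omega) t3) hf
  exact oc.false_four hq2 hq.2 (by omega) hi

theorem R3.not_two (h : R3 K) : ¬ Two K := by
  intro h2
  have hI := h.irr h2
  have hn := h.dim
  by_cases hR : ∀ v, v ≠ 0 → Rd K v = ⊤ ∨ Rd K v = F ∙ v
  · exact h.ne (G0_le h.sc (tv_of_Rd hn hI h2 (h.not_tf hI) hR))
  push Not at hR
  obtain ⟨v, hv, h1, h3⟩ := hR
  have hd := fun y hy => hyp_of_Rd (by omega) hI h2 hv h1 h3 (y := y) hy
  exact h.null_false (Rd K) hd self_mem_Rd
    (fun x y hx hy => Rd_symm (by have := hd x hx; have := hd y hy; omega))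
    fun k hk x => Rd_apply hk x

end CL.PL
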