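/-
Rank three actions of the linear groups: the degree.
-/
import Cfsg.Agent.CLAS.PL.Z
import Cfsg.Agent.CLAS.RkG

set_option autoImplicit false

namespace CL.PL

open Module Submodule MulAction
open scoped Pointwise

variable {F : Type*} [Field F] [Finite F] {V : Type*} [AddCommGroup V] [Module F V]
  [FiniteDimensional F V]

theorem card_lines (hn : 2 ≤ finrank F V) :
    Nat.card {W : Submodule F V // finrank F W = 2} * ((Nat.card F ^ 2 - 1) * (Nat.card F - 1)) =
      (Nat.card F ^ finrank F V - 1) * (Nat.card F ^ (finrank F V - 1) - 1) := by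
  have := Fintype.ofFinite F
  have : Finite V := Module.finite_of_finite F
  let e : {s : Fin 2 → V // LinearIndependent F s} ≃
      Σ W : {W : Submodule F V // finrank F W = 2}, {s : Fin 2 → W.1 // LinearIndependent F s} :=
    (Equiv.ofBijective (fun p => ⟨fun i => p.2.1 i, p.2.2.map' p.1.1.subtype (ker_subtype _)⟩) ⟨by
      rintro ⟨⟨W, hW⟩, s, hs⟩ ⟨⟨W', hW'⟩, s', hs'⟩ h
      have h' : ∀ i, (s i : V) = s' i := congrFun (congrArg Subtype.val h)
      have k : ∀ (W : Submodule F V) (s : Fin 2 → W), finrank F W = 2 → LinearIndependent F s →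
          W = Submodule.span F (Set.range fun i => (s i : V)) := fun W s hW hs =>
        (eq_of_le_of_finrank_eq (span_le.2 (by rintro _ ⟨i, rfl⟩; exact (s i).2)) 
          ((finrank_span_eq_card (hs.map' W.subtype (ker_subtype _))).trans (by simp [hW]))).symm
      obtain rfl : W = W' := by rw [k W s hW hs, k W' s' hW' hs', funext h']
      obtain rfl : s = s' := funext fun i => Subtype.ext (h' i)
      rfl, fun ⟨s, hs⟩ => ⟨⟨⟨Submodule.span F (Set.range s), by simpa using finrank_span_eq_card hs⟩,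
        fun i => ⟨s i, subset_span ⟨i, rfl⟩⟩, .of_comp (Submodule.subtype _) hs⟩, rfl⟩⟩).symm
  have h1 := Nat.card_congr e
  have := Fintype.ofFinite {W : Submodule F V // finrank F W = 2}
  rw [Nat.card_sigma, card_linearIndependent hn, Finset.sum_congr rfl fun W _ =>
    (card_linearIndependent (K := F) (V := W.1) W.2.ge).trans (by rw [W.2])] at h1
  simp only [Fin.prod_univ_two, Fin.val_zero, Fin.val_one, pow_zero, pow_one, Finset.sum_const,
    Finset.card_univ, smul_eq_mul] at h1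
  obtain ⟨m, hm⟩ : ∃ m, finrank F V = m + 1 := ⟨finrank F V - 1, by omega⟩
  rw [hm] at h1 ⊢
  rw [Nat.card_eq_fintype_card, Nat.card_eq_fintype_card, Nat.add_sub_cancel]
  refine Nat.eq_of_mul_eq_mul_left (Fintype.card_pos (α := F)) ?_
  have k : ∀ j, Fintype.card F ^ (j + 1) - Fintype.card F =
      Fintype.card F * (Fintype.card F ^ j - 1) := fun j => by rw [Nat.mul_sub_one, pow_succ']
  rw [k, k 1, pow_one] at h1
  linarith

/-- A primitive rank three action has the degree of the action on lines. -/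
theorem card_eq (hn : 5 ≤ finrank F V) {H X : Type*} [Group H] [Finite H] (ρ : H →* V ≃ₗ[F] V)
    (hρ : ρ.range = G0 F V) [MulAction H X] [Finite X] [IsPreprimitive H X] (x : X)
    (hz : ∀ h c, (∀ v, ρ h v = (c : F) • v) → h • x = x)
    (h3 : Nat.card (orbitRel.Quotient (stabilizer H x) X) = 3) :
    Nat.card X * ((Nat.card F ^ 2 - 1) * (Nat.card F - 1)) =
      (Nat.card F ^ finrank F V - 1) * (Nat.card F ^ (finrank F V - 1) - 1) := by
  have : Finite V := Module.finite_of_finite F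
  have : Nontrivial X := by
    by_contra hn
    have := not_nontrivial_iff_subsingleton.1 hn
    have h1 : Subsingleton (orbitRel.Quotient (stabilizer H x) X) :=
      ⟨fun a b => Quotient.inductionOn₂' a b fun a b => by rw [Subsingleton.elim a b]⟩
    have := Finite.card_le_one_iff_subsingleton.2 h1
    omega
  have hco := IsPreprimitive.isCoatom_stabilizer_of_isPreprimitive H x
  set K := (stabilizer H x).map ρ
  have hK : ∀ g : H, ρ g ∈ K ↔ g • x = x := fun g => ⟨fun ⟨k, hk, e⟩ => by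
    have := hz (k⁻¹ * g) 1 fun v => by simp [← e]
    rwa [mul_smul, inv_smul_eq_iff, show k • x = x from hk] at this, fun h => ⟨g, h, rfl⟩⟩
  have hG : ∀ g : H, ρ g ∈ G0 F V := fun g => hρ ▸ ⟨g, rfl⟩
  have hG' : ∀ a ∈ G0 F V, ∃ g, ρ g = a := fun a ha => by rwa [← hρ] at ha
  have key : ∀ a b : H, DC K (ρ a) (ρ b) ↔ ∃ k ∈ stabilizer H x, k • a • x = b • x := fun a b =>
    ⟨by
      rintro ⟨_, ⟨k, hk, rfl⟩, k', hk', e⟩
      have : ((k * a)⁻¹ * b) • x = x := (hK _).1 (by simpa [e, mul_assoc] using hk')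
      exact ⟨k, hk, by rw [← mul_smul, ← inv_smul_eq_iff.1 ((mul_smul _ _ _).symm.trans this)]⟩,
    fun ⟨k, hk, e⟩ => ⟨ρ k, (hK k).2 hk, ρ ((k * a)⁻¹ * b), (hK _).2 (by
      rw [mul_smul, ← e, ← mul_smul k, inv_smul_smul]), by simp [mul_assoc]⟩⟩
  have hR : R3 K := {
    dim := hn
    le := by rintro _ ⟨g, -, rfl⟩; exact hG g
    sc := fun c hc => by
      obtain ⟨g, hg⟩ := hG' (LinearEquiv.smulOfUnit (Units.mk0 c hc)) ⟨Units.mk0 c hc, by
        ext
        rw [LinearEquiv.coe_det, show (LinearEquiv.smulOfUnit (Units.mk0 c hc) : V ≃ₗ[F] V).toLinearMap =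
          c • LinearMap.id from rfl]
        simp⟩
      exact ⟨ρ g, (hK g).2 (hz g c fun v => by rw [hg]; rfl), fun v => by rw [hg]; rfl⟩
    ne := fun h => hco.1 (eq_top_iff.2 fun g _ => (hK g).1 (h (hG g)))
    max := fun L h1 h2 => by
      rcases (hco.le_iff (x := L.comap ρ)).1 (fun g hg => h1 ((hK g).2 hg)) with e | e
      · refine Or.inr fun a ha => ?_
        obtain ⟨g, rfl⟩ := hG' a ha
        exact (e.ge (Subgroup.mem_top g) :)
      · refine Or.inl fun a ha => ?_
        obtain ⟨g, rfl⟩ := hG' a (h2 ha)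
        exact (hK g).2 (e.le ha)
    four := fun a ha b hb c hc h4 h5 h6 => by
      obtain ⟨a, rfl⟩ := hG' a ha
      obtain ⟨b, rfl⟩ := hG' b hb
      obtain ⟨c, rfl⟩ := hG' c hc
      simp only [key]
      exact Rk.four_of_rank h3 (mt (hK _).2 h4) (mt (hK _).2 h5) (mt (hK _).2 h6)
    three := by
      by_contra hc
      push Not at hc
      obtain ⟨y, hy⟩ := exists_ne x
      have h4 := Nat.card_le_card_of_surjective (![Quotient.mk'' x, Quotient.mk'' y] :
        Fin 2 → orbitRel.Quotient (stabilizer H x) X) (by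
          rintro ⟨z⟩
          by_cases hz : z = x
          · exact ⟨0, by rw [hz]; rfl⟩
          obtain ⟨a, rfl⟩ := MulAction.exists_smul_eq H x y
          obtain ⟨b, rfl⟩ := MulAction.exists_smul_eq H x z
          obtain ⟨k, hk, e⟩ := (key _ _).1 (hc _ (hG b) _ (hG a) (mt (hK _).1 hz) (mt (hK _).1 hy))
          exact ⟨1, Quotient.sound' ⟨⟨k, hk⟩, e⟩⟩)
      simp [h3] at h4 }
  let _ : MulAction H {W : Submodule F V // finrank F W = 2} :=
    { smul h W := ⟨ρ h • W.1, finrank_smul.trans W.2⟩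
      one_smul W := Subtype.ext ((congrArg (· • W.1) ρ.map_one).trans (one_smul _ _))
      mul_smul a b W := Subtype.ext ((congrArg (· • W.1) (ρ.map_mul a b)).trans (mul_smul _ _ _)) }
  have h2 := hR.not_two
  simp only [Two, not_forall, not_or] at h2
  obtain ⟨A, B, C, hA, hB, hC, h4, h5, h6⟩ := h2
  have k3 : ∀ {A B : Submodule F V} (hA : finrank F A = 2) (hB : finrank F B = 2), ¬ Eqv K A B →
      ∀ g : H, g • (x, (⟨A, hA⟩ : {W : Submodule F V // finrank F W = 2})) ≠ (x, ⟨B, hB⟩) :=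
    fun _ _ h g e => h ⟨ρ g, (hK g).2 (congrArg Prod.fst e), congrArg (·.2.1) e⟩
  have tr : ∀ p p' : {W : Submodule F V // finrank F W = 2} × {W : Submodule F V // finrank F W = 2},
      finrank F (p.1.1 ⊓ p.2.1 : Submodule F V) = finrank F (p'.1.1 ⊓ p'.2.1 : Submodule F V) →
      ∃ g : H, g • p = p' := by
    rintro ⟨⟨A, hA⟩, B, hB⟩ ⟨⟨A', hA'⟩, B', hB'⟩ h
    obtain ⟨g, rfl, rfl⟩ := exists_smul_two (hA.trans hA'.symm) (hB.trans hB'.symm) h
    obtain ⟨y, hy, e⟩ := ag_G0 (S := A ⊔ B) (by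
      have := finrank_sup_add_finrank_inf_eq A B
      omega) g
    obtain ⟨y, rfl⟩ := hG' y ⟨1, by simpa using hy⟩
    exact ⟨y, Prod.ext (Subtype.ext (smul_congr e le_sup_left))
      (Subtype.ext (smul_congr e le_sup_right))⟩
  rw [Rk.card_eq_of_orbits (H := H) ((Rk.orbits_prod_le x).trans h3.le) ?_
    (Rk.three_le_orbits (k3 hA hB h4) (k3 hA hC h5) (k3 hB hC h6)), card_lines (by omega)]
  refine (Nat.card_le_card_of_injective (β := Fin 3) (Quotient.lift (fun p =>
    ⟨finrank F (p.1.1 ⊓ p.2.1 : Submodule F V),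
      Nat.lt_succ_of_le ((finrank_mono inf_le_left).trans p.1.2.le)⟩) ?_) ?_).trans (by simp)
  · rintro _ p ⟨g, rfl⟩
    exact Fin.ext ((congrArg (fun W : Submodule F V => finrank F W) smul_inf.symm).trans finrank_smul)
  · rintro ⟨p⟩ ⟨p'⟩ e
    exact Quotient.sound' (tr p' p (congrArg Fin.val e).symm)

end CL.PL
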